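import Mathlib
import Cfsg.Prelude.Def_Transfer
import Cfsg.Prelude.Def_Solvable
import Cfsg.Prelude.Def_CaseTheorems

/-!
# Project GA (S4840, helper84): solvable groups with a character nonzero on two classes

Interface: the exact statements of the pieces (`def …Stmt : Prop`).

Setting of the abstract part: a finite solvable group `Γ` acting faithfully and linearly on a
finite vector space `V` over `ZMod p`, transitively on the nonzero vectors, such that every
element fixing a nonzero vector has `p`-power order (`TL ρ`).  Conclusion (`Concl p Γ`): `Γ` has a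
normal `p`-complement and commutative Sylow `p`-subgroups.
-/

set_option autoImplicit false

namespace Cfsg.Agent.Lib.Helper84.GA

universe u

/-- a faithful linear group, transitive on the nonzero vectors, whose point stabilisers consist
of elements of `p`-power order -/
structure TL {p : ℕ} [Fact p.Prime] {Γ : Type u} [Group Γ] {V : Type u} [AddCommGroup V]
    [Module (ZMod p) V] (ρ : Γ →* (V ≃ₗ[ZMod p] V)) : Prop where
  inj : Function.Injective ρ
  trans : ∀ v w : V, v ≠ 0 → w ≠ 0 → ∃ g : Γ, ρ g v = w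
  stab : ∀ v : V, v ≠ 0 → ∀ g : Γ, ρ g v = v → ∃ k : ℕ, orderOf g = p ^ k

/-- the conclusion: a normal `p`-complement and commutative Sylow `p`-subgroups -/
def Concl (p : ℕ) (Γ : Type u) [Group Γ] : Prop :=
  Cfsg.HasNormalPComplement p Γ ∧ ∀ Q : Sylow p Γ, IsMulCommutative (Q : Subgroup Γ)

/-! ## pure group theory -/

/-- PC: a normal subgroup `C` without elements of order `p` and with abelian quotient. -/
def PCStmt : Prop :=
  ∀ (Γ : Type u) [Group Γ] [Finite Γ] (p : ℕ) [Fact p.Prime] (C : Subgroup Γ), C.Normal →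
    (∀ g ∈ C, g ^ p = 1 → g = 1) → (∀ a b : Γ, a * b * a⁻¹ * b⁻¹ ∈ C) → Concl p Γ

/-- NPC: a normal subgroup of order prime to `p` and of `p`-power index is a normal
`p`-complement. -/
def NpcOrdStmt : Prop :=
  ∀ (Γ : Type u) [Group Γ] [Finite Γ] (p : ℕ) [Fact p.Prime] (N : Subgroup Γ), N.Normal →
    ¬ p ∣ Nat.card N → (∃ a : ℕ, N.index = p ^ a) → Cfsg.HasNormalPComplement p Γ

/-- SYLAB: Sylow `p`-subgroups of order at most `p ^ 2` are commutative. -/
def SylAbStmt : Prop :=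
  ∀ (Γ : Type u) [Group Γ] [Finite Γ] (p : ℕ) [Fact p.Prime], ¬ p ^ 3 ∣ Nat.card Γ →
    ∀ Q : Sylow p Γ, IsMulCommutative (Q : Subgroup Γ)

/-! ## the semilinear case -/

/-- SEMI: in a group of semilinear maps of a finite field the maps `x ↦ a * x` form a normal
subgroup without elements of order `p`, with abelian quotient. -/
def SemiStmt : Prop :=
  ∀ (p : ℕ) [Fact p.Prime] (Γ : Type u) [Group Γ] [Finite Γ] (V : Type u) [AddCommGroup V]
    [Module (ZMod p) V] [Finite V] [Nontrivial V] (ρ : Γ →* (V ≃ₗ[ZMod p] V)),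
    Function.Injective ρ →
    (∃ (F : Type) (_ : Field F) (_ : Fintype F) (e : V ≃+ F),
        ∀ g : Γ, ∃ (a : F) (σ : F ≃+* F), ∀ v : V, e (ρ g v) = a * σ (e v)) →
    ∃ C : Subgroup Γ, C.Normal ∧ (∀ g ∈ C, g ^ p = 1 → g = 1) ∧
      ∀ a b : Γ, a * b * a⁻¹ * b⁻¹ ∈ C

/-! ## dimension two -/

/-- DIM2: Huppert's theorem in dimension two with the order bound of the exceptional case. -/
def Dim2Stmt : Prop :=
  ∀ (q : ℕ) [Fact q.Prime] (V : Type u) [AddCommGroup V] [Module (ZMod q) V] [Finite V]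
    [Nontrivial V] (G : Type u) [Group G] [Finite G], Group.IsSolvable G →
    ∀ ρ : G →* (V ≃ₗ[ZMod q] V), Function.Injective ρ →
    (∀ v w : V, v ≠ 0 → w ≠ 0 → ∃ g : G, ρ g v = w) → Nat.card V = q ^ 2 →
    (∃ (F : Type) (_ : Field F) (_ : Fintype F) (e : V ≃+ F),
        ∀ g : G, ∃ (a : F) (σ : F ≃+* F), ∀ v : V, e (ρ g v) = a * σ (e v)) ∨
    Nat.card G ∣ (q - 1) * 24

/-! ## consequences of the stabiliser condition -/

/-- FREE: subgroups of order prime to `p` act freely on the nonzero vectors. -/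
def FreeStmt : Prop :=
  ∀ (p : ℕ) [Fact p.Prime] (Γ : Type u) [Group Γ] [Finite Γ] (V : Type u) [AddCommGroup V]
    [Module (ZMod p) V] [Finite V] (ρ : Γ →* (V ≃ₗ[ZMod p] V)), TL ρ →
    ∀ H : Subgroup Γ, (Nat.card H).Coprime p → Nat.card H ∣ Nat.card V - 1

/-- INV: for odd `p` an involution acts as `-1`; it is central and unique. -/
def InvStmt : Prop :=
  ∀ (p : ℕ) [Fact p.Prime] (Γ : Type u) [Group Γ] [Finite Γ] (V : Type u) [AddCommGroup V]
    [Module (ZMod p) V] [Finite V] (ρ : Γ →* (V ≃ₗ[ZMod p] V)), TL ρ → p ≠ 2 →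
    ∀ t : Γ, orderOf t = 2 → (∀ g : Γ, t * g = g * t) ∧ ∀ t' : Γ, orderOf t' = 2 → t' = t

/-! ## the exceptional cases -/

/-- EXC9: `|V| = 9`, `3 ∣ |Γ| ∣ 48`: a normal subgroup of order 8 and `|Γ| = 24`. -/
def Exc9NStmt : Prop :=
  ∀ (p : ℕ) [Fact p.Prime] (Γ : Type u) [Group Γ] [Finite Γ] (V : Type u) [AddCommGroup V]
    [Module (ZMod p) V] [Finite V] [Nontrivial V] (ρ : Γ →* (V ≃ₗ[ZMod p] V)), TL ρ →
    Group.IsSolvable Γ → p = 3 → Nat.card V = 9 → p ∣ Nat.card Γ → Nat.card Γ ∣ 48 →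
    ∃ N : Subgroup Γ, N.Normal ∧ Nat.card N = 8 ∧ Nat.card Γ = 24

/-- FIX81: `|V| = 81`: an element of order 5 normalises no nontrivial 3-subgroup. -/
def Fix81Stmt : Prop :=
  ∀ (p : ℕ) [Fact p.Prime] (Γ : Type u) [Group Γ] [Finite Γ] (V : Type u) [AddCommGroup V]
    [Module (ZMod p) V] [Finite V] (ρ : Γ →* (V ≃ₗ[ZMod p] V)), TL ρ → p = 3 →
    Nat.card V = 81 → ∀ M : Subgroup Γ, M ≠ ⊥ → IsPGroup p M → ∀ h : Γ, orderOf h = 5 →
    (∀ m ∈ M, h * m * h⁻¹ ∈ M) → (∀ m ∈ M, h⁻¹ * m * h ∈ M) → False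

/-- N5: `|V| = 81`: a normal subgroup of order 5. -/
def N5Stmt : Prop :=
  ∀ (p : ℕ) [Fact p.Prime] (Γ : Type u) [Group Γ] [Finite Γ] (V : Type u) [AddCommGroup V]
    [Module (ZMod p) V] [Finite V] [Nontrivial V] (ρ : Γ →* (V ≃ₗ[ZMod p] V)), TL ρ →
    Group.IsSolvable Γ → p = 3 → Nat.card V = 81 →
    ∃ N : Subgroup Γ, N.Normal ∧ Nat.card N = 5

/-- EXC81: `|V| = 81`: the group has order prime to 3. -/
def Exc81Stmt : Prop :=
  ∀ (p : ℕ) [Fact p.Prime] (Γ : Type u) [Group Γ] [Finite Γ] (V : Type u) [AddCommGroup V]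
    [Module (ZMod p) V] [Finite V] [Nontrivial V] (ρ : Γ →* (V ≃ₗ[ZMod p] V)), TL ρ →
    Group.IsSolvable Γ → p = 3 → Nat.card V = 81 → ¬ p ∣ Nat.card Γ

/-! ## the abstract theorem -/

/-- MAIN: the abstract theorem. -/
def MainStmt : Prop :=
  ∀ (p : ℕ) [Fact p.Prime] (Γ : Type u) [Group Γ] [Finite Γ] (V : Type u) [AddCommGroup V]
    [Module (ZMod p) V] [Finite V] [Nontrivial V] (ρ : Γ →* (V ≃ₗ[ZMod p] V)), TL ρ →
    Group.IsSolvable Γ → Concl p Γ

/-! ## the group `G` -/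

/-- CN: the centraliser of the minimal normal subgroup is the `p`-core. -/
def CNStmt : Prop :=
  ∀ (G : Type u) [Group G] [Finite G] (p : ℕ) [Fact p.Prime] (N : Subgroup G), N.Normal →
    N ≠ ⊥ →
    (∀ x ∈ N, x ≠ 1 → ∃ P : Sylow p G, Subgroup.centralizer ({x} : Set G) = P) →
    Subgroup.centralizer (N : Set G) = Cfsg.pCore p G

/-- REP: the quotient by the `p`-core as a linear group on the minimal normal subgroup. -/
def RepStmt : Prop :=
  ∀ (G : Type u) [Group G] [Finite G] (p : ℕ) [Fact p.Prime] (N : Subgroup G), N.Normal →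
    N ≠ ⊥ → Cfsg.IsElementaryAbelian p N →
    (∀ x ∈ N, ∀ y ∈ N, x ≠ 1 → y ≠ 1 → ∃ g : G, g * x * g⁻¹ = y) →
    (∀ x ∈ N, x ≠ 1 → ∃ P : Sylow p G, Subgroup.centralizer ({x} : Set G) = P) →
    Subgroup.centralizer (N : Set G) = Cfsg.pCore p G →
    ∃ (V : Type u) (_ : AddCommGroup V) (_ : Module (ZMod p) V) (_ : Finite V) (_ : Nontrivial V)
      (ρ : (G ⧸ Cfsg.pCore p G) →* (V ≃ₗ[ZMod p] V)), TL ρ

end Cfsg.Agent.Lib.Helper84.GA
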