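import Mathlib
import Cfsg.Agent.Lib.Helper48.QADefs
import Cfsg.Agent.Lib.Helper48.RCBase

/-!
# Project QA (helper48, S2787): piece QA-FCONJ (helper84)
-/

set_option autoImplicit false

namespace Cfsg.Agent.Lib.Helper48.QA

open scoped Pointwise

section ok0
variable {F : Type*} [Field F] [Finite F] [CharP F 3] {G : Type*} [Group G] [Finite G]
  {θ : F →+* F} {T : F → F → F → G} {H : Fˣ → G} {w : G}

/-- QA-FCONJ -/
theorem ok0_exists_conj (h : RC.Ok0 θ T H w)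
    (hA : ∀ x : G, x ≠ 1 → x ∈ h.Qs → ¬ IsPGroup 3 ↥(Subgroup.closure {x, w * x * w⁻¹}))
    (x : G) (hx1 : x ≠ 1) (hx3 : x ^ 3 = 1) :
    ∃ g : G, ¬ IsPGroup 3 ↥(Subgroup.closure {x, g * x * g⁻¹}) := by
  have : Fact (Nat.Prime 3) := ⟨Nat.prime_three⟩
  obtain ⟨P, hP⟩ := h.syl
  have hz : IsPGroup 3 (Subgroup.zpowers x) := by
    rintro ⟨y, hy⟩
    obtain ⟨n, rfl⟩ := Subgroup.mem_zpowers_iff.1 hy
    refine ⟨1, ?_⟩
    apply Subtype.ext
    simp only [pow_one, Subgroup.coe_pow, Subgroup.coe_one]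
    rw [← zpow_natCast, ← zpow_mul, mul_comm, zpow_mul, zpow_natCast, hx3, one_zpow]
  obtain ⟨Q, hQ⟩ := hz.exists_le_sylow
  obtain ⟨k, hk⟩ := MulAction.exists_smul_eq G Q P
  have hxQ : x ∈ Q := hQ (Subgroup.mem_zpowers x)
  have hx' : k * x * k⁻¹ ∈ P := by
    rw [← hk]
    have e2 : ((k • Q : Sylow 3 G) : Subgroup G) = MulAut.conj k • (Q : Subgroup G) := by
      rw [Sylow.smul_def, Sylow.pointwise_smul_def]
    show k * x * k⁻¹ ∈ ((k • Q : Sylow 3 G) : Subgroup G)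
    rw [e2]
    exact Subgroup.smul_mem_pointwise_smul x (MulAut.conj k) (Q : Subgroup G) hxQ
  have hx'Qs : k * x * k⁻¹ ∈ h.Qs := (hP _).1 hx'
  have hx'1 : k * x * k⁻¹ ≠ 1 := by
    intro e
    apply hx1
    have : x = k⁻¹ * (k * x * k⁻¹) * k := by group
    rw [this, e]; group
  have hnot := hA _ hx'1 hx'Qs
  refine ⟨k⁻¹ * w * k, fun hp => hnot ?_⟩
  have e : Subgroup.closure {k * x * k⁻¹, w * (k * x * k⁻¹) * w⁻¹}
      = (Subgroup.closure {x, (k⁻¹ * w * k) * x * (k⁻¹ * w * k)⁻¹}).map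
          (MulAut.conj k).toMonoidHom := by
    rw [MonoidHom.map_closure]
    congr 1
    rw [Set.image_pair]
    have e1 : (MulAut.conj k).toMonoidHom x = k * x * k⁻¹ := rfl
    have e2 : (MulAut.conj k).toMonoidHom ((k⁻¹ * w * k) * x * (k⁻¹ * w * k)⁻¹)
        = w * (k * x * k⁻¹) * w⁻¹ := by
      show k * ((k⁻¹ * w * k) * x * (k⁻¹ * w * k)⁻¹) * k⁻¹ = _
      group
    rw [e1, e2]
  rw [e]
  exact hp.map _

end ok0

end Cfsg.Agent.Lib.Helper48.QA
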