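import Mathlib
import Cfsg.Prelude.Def_Solvable
import Cfsg.Agent.Lib.Helper84.Gagola3
import Cfsg.Agent.Lib.Helper5.BaerSuzuki

set_option autoImplicit false

namespace Cfsg.Agent.Lib.Helper84.G39

open Cfsg
open Cfsg.Agent.Lib.Helper84

universe u

variable {G : Type u} [Group G] [Finite G]

/-- If `N = O_p(G)` then `C_G(N) ≤ N`. -/
theorem cent_le (hG : 2 < Nat.card G) (χ : IrrCharacter G)
    (hχ : Nat.card {C : ConjClasses G // ∃ g ∈ C.carrier, χ.1 g ≠ 0} = 2)
    (p : ℕ) [hp : Fact p.Prime] (N : Subgroup G) [N.Normal] (hN : ∀ g, g ∈ N ↔ χ.1 g ≠ 0)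
    (hNp : IsPGroup p N) (hcore : N = Cfsg.pCore p G) :
    Subgroup.centralizer (N : Set G) ≤ N := by
  obtain ⟨x, hx, hx1⟩ := N_ne_bot χ hχ N hN
  have hP := centralizer_isPGroup hG χ hχ N hN p hNp x hx hx1
  have hle : Subgroup.centralizer (N : Set G) ≤ Subgroup.centralizer ({x} : Set G) :=
    Subgroup.centralizer_le (by simpa using hx)
  have hCp : IsPGroup p (Subgroup.centralizer (N : Set G)) := hP.to_le hle
  have hnorm : (Subgroup.centralizer (N : Set G)).Normal := inferInstance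
  have h : Subgroup.centralizer (N : Set G) ≤ Cfsg.pCore p G :=
    le_sSup (a := Subgroup.centralizer (N : Set G)) ⟨hnorm, hCp⟩
  exact h.trans (le_of_eq hcore.symm)

/-- A normal `p`-subgroup lies in `N` when `N = O_p(G)`. -/
theorem le_of_core (p : ℕ) (N : Subgroup G) (hcore : N = Cfsg.pCore p G)
    (M : Subgroup G) (hM : M.Normal) (hMp : IsPGroup p M) : M ≤ N := by
  have h : M ≤ Cfsg.pCore p G := le_sSup (a := M) ⟨hM, hMp⟩
  exact h.trans (le_of_eq hcore.symm)

section Two

variable (hG : 2 < Nat.card G) (χ : IrrCharacter G)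
  (hχ : Nat.card {C : ConjClasses G // ∃ g ∈ C.carrier, χ.1 g ≠ 0} = 2)
  (N : Subgroup G) [N.Normal] (hN : ∀ g, g ∈ N ↔ χ.1 g ≠ 0)
  (hNp : IsPGroup 2 N)

include χ hχ hN hNp in
/-- For `p = 2` the subgroup `N` has exponent two. -/
theorem two_sq (n : G) (hn : n ∈ N) : n * n = 1 := by
  by_cases hn1 : n = 1
  · rw [hn1, mul_one]
  obtain ⟨x, hx, hx1⟩ := N_ne_bot χ hχ N hN
  have hnt : Nontrivial ↥N := ⟨⟨⟨x, hx⟩, 1, fun h => hx1 (congrArg Subtype.val h)⟩⟩
  obtain ⟨k, hk⟩ := IsPGroup.iff_card.mp hNp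
  have hk0 : k ≠ 0 := by
    rintro rfl
    have : Nat.card ↥N = 1 := by simpa using hk
    have h1 := Nat.card_eq_one_iff_unique.mp this
    exact (not_subsingleton ↥N) h1.1
  have h2 : 2 ∣ Nat.card ↥N := by
    rw [hk]; exact dvd_pow_self 2 hk0
  obtain ⟨a, ha⟩ := exists_prime_orderOf_dvd_card' (G := ↥N) 2 h2
  have ha1 : (a : G) ≠ 1 := by
    intro h
    have : a = 1 := Subtype.ext h
    rw [this, orderOf_one] at ha
    omega
  have haa : (a : G) * (a : G) = 1 := by
    have : a ^ 2 = 1 := by rw [← ha]; exact pow_orderOf_eq_one a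
    have h3 := congrArg Subtype.val this
    simpa [pow_two] using h3
  have hc := N_conj χ hχ N hN (a : G) a.2 ha1 n hn hn1
  obtain ⟨c, hc⟩ := isConj_iff.mp hc
  rw [← hc]
  calc c * (a : G) * c⁻¹ * (c * (a : G) * c⁻¹) = c * ((a : G) * (a : G)) * c⁻¹ := by group
    _ = 1 := by rw [haa]; group

include χ hχ hN hNp in
theorem two_comm (a b : G) (ha : a ∈ N) (hb : b ∈ N) : a * b = b * a := by
  have h1 := two_sq χ hχ N hN hNp a ha
  have h2 := two_sq χ hχ N hN hNp b hb
  have h3 := two_sq χ hχ N hN hNp (a * b) (N.mul_mem ha hb)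
  have ha' : a⁻¹ = a := inv_eq_of_mul_eq_one_left h1
  have hb' : b⁻¹ = b := inv_eq_of_mul_eq_one_left h2
  have h4 : (a * b)⁻¹ = a * b := inv_eq_of_mul_eq_one_left h3
  calc a * b = (a * b)⁻¹ := h4.symm
    _ = b⁻¹ * a⁻¹ := mul_inv_rev a b
    _ = b * a := by rw [ha', hb']

include hG χ hχ hN hNp in
/-- No element of the coset `N x` is an involution (`x ∉ N`, `C_G(N) ≤ N`). -/
theorem two_no_inv (hcent : Subgroup.centralizer (N : Set G) ≤ N) (x : G) (hx : x ∉ N)
    (n₀ : G) (hn₀ : n₀ ∈ N) : n₀ * x * (n₀ * x) ≠ 1 := by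
  intro h0
  have hxx : x * x = 1 := by
    obtain ⟨g, hg⟩ := camina_conj hG χ hχ N hN x hx n₀ hn₀
    rw [← hg] at h0
    have : g * (x * x) * g⁻¹ = 1 := by rw [← h0]; group
    have h2 : x * x = g⁻¹ * (g * (x * x) * g⁻¹) * g := by group
    rw [h2, this]; group
  have hall : ∀ n ∈ N, n * x * (n * x) = 1 := by
    intro n hn
    obtain ⟨g, hg⟩ := camina_conj hG χ hχ N hN x hx n hn
    rw [← hg]
    calc g * x * g⁻¹ * (g * x * g⁻¹) = g * (x * x) * g⁻¹ := by group
      _ = 1 := by rw [hxx]; group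
  apply hx
  apply hcent
  rw [Subgroup.mem_centralizer_iff]
  intro n hn
  have h1 := hall n hn
  have h2 := two_sq χ hχ N hN hNp n hn
  -- n x n x = 1, x x = 1, n n = 1 ⟹ n x = x n
  have h3 : n * x = (n * x)⁻¹ := (inv_eq_of_mul_eq_one_left h1).symm
  have hx' : x⁻¹ = x := inv_eq_of_mul_eq_one_left hxx
  have hn' : n⁻¹ = n := inv_eq_of_mul_eq_one_left h2
  calc n * x = (n * x)⁻¹ := h3
    _ = x⁻¹ * n⁻¹ := mul_inv_rev n x
    _ = x * n := by rw [hx', hn']

include hG χ hχ hN hNp in
/-- `|N| < |C_N(x)|²` whenever `x² ∈ N`. -/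
theorem two_cent_sq (hcent : Subgroup.centralizer (N : Set G) ≤ N) (x : G) (hxx : x * x ∈ N) :
    Nat.card ↥N < Nat.card ↥((Subgroup.centralizer ({x} : Set G)).subgroupOf N) ^ 2 := by
  by_cases hx : x ∈ N
  · have htop : (Subgroup.centralizer ({x} : Set G)).subgroupOf N = ⊤ := by
      rw [Subgroup.eq_top_iff']
      intro n
      rw [Subgroup.mem_subgroupOf, Subgroup.mem_centralizer_iff]
      intro y hy
      rw [Set.mem_singleton_iff] at hy
      subst hy
      exact two_comm χ hχ N hN hNp y n hx n.2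
    rw [htop, Subgroup.card_top]
    have h2 := N_two_le χ hχ N hN
    nlinarith
  · have hcm : ∀ n : ↥N, x * (n : G) * x⁻¹ ∈ N := fun n => ‹N.Normal›.conj_mem n n.2 x
    let φ : ↥N →* ↥N :=
      { toFun := fun n => n * ⟨x * n * x⁻¹, hcm n⟩
        map_one' := by
          apply Subtype.ext
          simp
        map_mul' := by
          intro a b
          apply Subtype.ext
          simp only [Subgroup.coe_mul]
          have hc := two_comm χ hχ N hN hNp (b : G) (x * a * x⁻¹) b.2 (hcm a)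
          calc (a : G) * b * (x * ((a : G) * b) * x⁻¹)
              = a * ((b : G) * (x * a * x⁻¹)) * (x * b * x⁻¹) := by group
            _ = a * ((x * a * x⁻¹) * (b : G)) * (x * b * x⁻¹) := by rw [hc]
            _ = a * (x * a * x⁻¹) * ((b : G) * (x * b * x⁻¹)) := by group }
    have hφ : ∀ n : ↥N, ((φ n : ↥N) : G) = (n : G) * (x * n * x⁻¹) := fun n => rfl
    set C := (Subgroup.centralizer ({x} : Set G)).subgroupOf N with hC
    have hmemC : ∀ n : ↥N, n ∈ C ↔ x * (n : G) = n * x := by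
      intro n
      rw [hC, Subgroup.mem_subgroupOf, Subgroup.mem_centralizer_iff]
      constructor
      · intro h; exact h x rfl
      · intro h y hy
        rw [Set.mem_singleton_iff] at hy
        subst hy
        exact h
    have hker : φ.ker = C := by
      ext n
      rw [MonoidHom.mem_ker, hmemC]
      have hnn := two_sq χ hχ N hN hNp (n : G) n.2
      have hn' : (n : G)⁻¹ = n := inv_eq_of_mul_eq_one_left hnn
      constructor
      · intro h
        have h1 : (n : G) * (x * n * x⁻¹) = 1 := by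
          have := congrArg Subtype.val h
          rw [hφ] at this
          simpa using this
        have h2 : x * (n : G) * x⁻¹ = n := by
          have : x * (n : G) * x⁻¹ = (n : G)⁻¹ := (inv_eq_of_mul_eq_one_right h1).symm
          rw [this, hn']
        calc x * (n : G) = x * n * x⁻¹ * x := by group
          _ = n * x := by rw [h2]
      · intro h
        apply Subtype.ext
        rw [hφ]
        have h2 : x * (n : G) * x⁻¹ = n := by rw [h]; group
        rw [h2, hnn]
        rfl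
    have hrange : φ.range ≤ C := by
      rintro m ⟨n, rfl⟩
      rw [hmemC, hφ]
      have hs := two_comm χ hχ N hN hNp (x * x) (n : G) hxx n.2
      have h1 : x * (x * (n : G) * x⁻¹) * x⁻¹ = n := by
        calc x * (x * (n : G) * x⁻¹) * x⁻¹ = (x * x) * n * (x * x)⁻¹ := by group
          _ = n * (x * x) * (x * x)⁻¹ := by rw [hs]
          _ = n := by group
      have h2 := two_comm χ hχ N hN hNp (x * n * x⁻¹) (n : G) (hcm n) n.2
      calc x * ((n : G) * (x * n * x⁻¹))
          = (x * n * x⁻¹) * (x * (x * (n : G) * x⁻¹) * x⁻¹) * x := by group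
        _ = (x * n * x⁻¹) * n * x := by rw [h1]
        _ = (n : G) * (x * n * x⁻¹) * x := by rw [h2]
    have hsC : (⟨x * x, hxx⟩ : ↥N) ∈ C := by
      rw [hmemC]
      show x * (x * x) = x * x * x
      group
    have hsr : (⟨x * x, hxx⟩ : ↥N) ∉ φ.range := by
      rintro ⟨n, hn⟩
      have h1 : (n : G) * (x * n * x⁻¹) = x * x := by
        have := congrArg Subtype.val hn
        rw [hφ] at this
        exact this
      have h2 : (n : G) * x * (n * x) = 1 := by
        calc (n : G) * x * (n * x) = (n * (x * n * x⁻¹)) * (x * x) := by group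
          _ = (x * x) * (x * x) := by rw [h1]
          _ = 1 := two_sq χ hχ N hN hNp (x * x) hxx
      exact two_no_inv hG χ hχ N hN hNp hcent x hx n n.2 h2
    have hlt : Nat.card ↥φ.range < Nat.card ↥C := by
      by_contra hcon
      push Not at hcon
      have := Subgroup.eq_of_le_of_card_ge hrange hcon
      rw [this] at hsr
      exact hsr hsC
    have h1 : Nat.card ↥φ.ker * φ.ker.index = Nat.card ↥N := Subgroup.card_mul_index _
    have h2 : φ.ker.index = Nat.card ↥φ.range := Subgroup.index_ker φ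
    rw [hker] at h1
    rw [hker] at h2
    have hCpos : 0 < Nat.card ↥C := Nat.card_pos
    rw [← h1, h2, pow_two]
    exact Nat.mul_lt_mul_of_pos_left hlt hCpos

end Two

/-- The case `p = 2`: if `C_G(N) ≤ N` and `N` contains every normal `2`-subgroup, then `|G : N|`
is odd (Baer–Suzuki). -/
theorem index_two (hG : 2 < Nat.card G) (χ : IrrCharacter G)
    (hχ : Nat.card {C : ConjClasses G // ∃ g ∈ C.carrier, χ.1 g ≠ 0} = 2)
    (p : ℕ) [hp : Fact p.Prime] (hp2 : p = 2) (N : Subgroup G) [hNn : N.Normal]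
    (hN : ∀ g, g ∈ N ↔ χ.1 g ≠ 0) (hNp : IsPGroup p N)
    (hcent : Subgroup.centralizer (N : Set G) ≤ N)
    (hcore : ∀ M : Subgroup G, M.Normal → IsPGroup p M → M ≤ N) : ¬ p ∣ N.index := by
  subst hp2
  let K : Set G := {x | x * x ∈ N}
  have hKc : ∀ x ∈ K, ∀ g : G, g * x * g⁻¹ ∈ K := by
    intro x hx g
    show g * x * g⁻¹ * (g * x * g⁻¹) ∈ N
    have : g * x * g⁻¹ * (g * x * g⁻¹) = g * (x * x) * g⁻¹ := by group
    rw [this]
    exact hNn.conj_mem _ hx g
  have hKp : ∀ x ∈ K, ∀ y ∈ K, IsPGroup 2 (Subgroup.closure ({x, y} : Set G)) := by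
    intro x hx y hy
    have h1 := two_cent_sq hG χ hχ N hN hNp hcent x hx
    have h2 := two_cent_sq hG χ hχ N hN hNp hcent y hy
    set Cx := (Subgroup.centralizer ({x} : Set G)).subgroupOf N with hCx
    set Cy := (Subgroup.centralizer ({y} : Set G)).subgroupOf N with hCy
    have hne : Cx ⊓ Cy ≠ ⊥ := by
      intro hbot
      have h3 := Subgroup.index_inf_le (H := Cx) (K := Cy)
      rw [hbot, Subgroup.index_bot] at h3
      have h4 : Nat.card ↥Cx * Cx.index = Nat.card ↥N := Subgroup.card_mul_index _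
      have h5 : Nat.card ↥Cy * Cy.index = Nat.card ↥N := Subgroup.card_mul_index _
      have hpos : 0 < Nat.card ↥N := Nat.card_pos
      have h6 : Nat.card ↥Cx * Nat.card ↥Cy ≤ Nat.card ↥N := by
        have : Nat.card ↥N * (Nat.card ↥Cx * Nat.card ↥Cy) ≤ Nat.card ↥N * Nat.card ↥N := by
          calc Nat.card ↥N * (Nat.card ↥Cx * Nat.card ↥Cy)
              ≤ (Cx.index * Cy.index) * (Nat.card ↥Cx * Nat.card ↥Cy) :=
                Nat.mul_le_mul_right _ h3
            _ = (Nat.card ↥Cx * Cx.index) * (Nat.card ↥Cy * Cy.index) := by ring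
            _ = Nat.card ↥N * Nat.card ↥N := by rw [h4, h5]
        exact Nat.le_of_mul_le_mul_left this hpos
      have h7 : Nat.card ↥N * Nat.card ↥N < Nat.card ↥Cx ^ 2 * Nat.card ↥Cy ^ 2 :=
        Nat.mul_lt_mul'' h1 h2
      have h8 : (Nat.card ↥Cx * Nat.card ↥Cy) * (Nat.card ↥Cx * Nat.card ↥Cy) ≤
          Nat.card ↥N * Nat.card ↥N := Nat.mul_le_mul h6 h6
      have h9 : Nat.card ↥Cx ^ 2 * Nat.card ↥Cy ^ 2 =
          (Nat.card ↥Cx * Nat.card ↥Cy) * (Nat.card ↥Cx * Nat.card ↥Cy) := by ring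
      omega
    obtain ⟨a, ha⟩ := Subgroup.ne_bot_iff_exists_ne_one.mp hne
    have hv1 : ((a : ↥N) : G) ≠ 1 := by
      intro h
      apply ha
      apply Subtype.ext
      apply Subtype.ext
      simpa using h
    have hvN : ((a : ↥N) : G) ∈ N := (a : ↥N).2
    have hax : x * ((a : ↥N) : G) = ((a : ↥N) : G) * x := by
      have hm : (a : ↥N) ∈ (Subgroup.centralizer ({x} : Set G)).subgroupOf N := a.2.1
      rw [Subgroup.mem_subgroupOf, Subgroup.mem_centralizer_iff] at hm
      exact hm x rfl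
    have hay : y * ((a : ↥N) : G) = ((a : ↥N) : G) * y := by
      have hm : (a : ↥N) ∈ (Subgroup.centralizer ({y} : Set G)).subgroupOf N := a.2.2
      rw [Subgroup.mem_subgroupOf, Subgroup.mem_centralizer_iff] at hm
      exact hm y rfl
    have hle : Subgroup.closure ({x, y} : Set G) ≤
        Subgroup.centralizer ({((a : ↥N) : G)} : Set G) := by
      apply (Subgroup.closure_le _).mpr
      rintro w (rfl | rfl)
      · rw [SetLike.mem_coe, Subgroup.mem_centralizer_iff]
        intro h hh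
        rw [Set.mem_singleton_iff] at hh
        rw [hh]
        exact hax.symm
      · rw [SetLike.mem_coe, Subgroup.mem_centralizer_iff]
        intro h hh
        rw [Set.mem_singleton_iff] at hh
        rw [hh]
        exact hay.symm
    exact (centralizer_isPGroup hG χ hχ N hN 2 hNp _ hvN hv1).to_le hle
  obtain ⟨M, hMn, hMp, hKM⟩ := Cfsg.Agent.Lib.Helper5.baer_suzuki_set (p := 2) K hKc hKp
  have hKN : ∀ x : G, x * x ∈ N → x ∈ N := fun x hx => hcore M hMn hMp (hKM hx)
  intro hdvd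
  rw [Subgroup.index_eq_card] at hdvd
  obtain ⟨q, hq⟩ := exists_prime_orderOf_dvd_card' (G := G ⧸ N) 2 hdvd
  obtain ⟨x, rfl⟩ := QuotientGroup.mk_surjective q
  have h1 : ((x * x : G) : G ⧸ N) = 1 := by
    rw [QuotientGroup.mk_mul, ← pow_two, ← hq, pow_orderOf_eq_one]
  have h2 : x * x ∈ N := (QuotientGroup.eq_one_iff _).mp h1
  have h3 : x ∈ N := hKN x h2
  have h4 : ((x : G) : G ⧸ N) = 1 := (QuotientGroup.eq_one_iff _).mpr h3
  rw [h4, orderOf_one] at hq
  omega

end Cfsg.Agent.Lib.Helper84.G39
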