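import Mathlib
import Cfsg.Prelude.Def_Solvable
import Cfsg.Agent.Lib.Helper84.Core
import Cfsg.Agent.Lib.Helper80.Galois
import Cfsg.Agent.Lib.Helper80.Twisted
import Cfsg.Agent.Lib.Helper82.CharCore
import Cfsg.Agent.Lib.Helper79.FSReal

set_option autoImplicit false

namespace Cfsg.Agent.Lib.Helper84

open Cfsg
open scoped ComplexConjugate TensorProduct commutatorElement

universe u

section GalProd

variable {G : Type u} [Group G] [Fintype G]

/-- An exponent inverting the `k`-th power map. -/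
theorem exists_pow_pow_inv (k : ℕ) (hk : Nat.Coprime k (Nat.card G)) :
    ∃ j : ℕ, ∀ x : G, (x ^ j) ^ k = x⁻¹ := by
  by_cases hM : Nat.card G = 1
  · refine ⟨0, fun x => ?_⟩
    have hs : Subsingleton G := (Nat.card_eq_one_iff_unique.mp hM).1
    exact Subsingleton.elim _ _
  · have hpos : 0 < Nat.card G := Nat.card_pos
    have h1 : 1 < Nat.card G := by omega
    obtain ⟨m, -, hm⟩ := Nat.exists_mul_mod_eq_one_of_coprime hk h1
    refine ⟨m * (Nat.card G - 1), fun x => ?_⟩
    have h2 : x ^ (k * m) = x := by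
      rw [← pow_mod_natCard, hm, pow_one]
    have h3 : x ^ (Nat.card G - 1) = x⁻¹ := by
      apply eq_inv_of_mul_eq_one_left
      rw [← pow_succ, Nat.sub_add_cancel hpos, pow_card_eq_one']
    calc (x ^ (m * (Nat.card G - 1))) ^ k = (x ^ (k * m)) ^ (Nat.card G - 1) := by
          rw [← pow_mul, ← pow_mul]
          congr 1
          ring
      _ = x⁻¹ := by rw [h2, h3]

/-- An element at which an irreducible character has maximal absolute value acts as a scalar:
its commutators lie in the kernel. -/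
theorem irr_commutator_of_norm (χ : IrrCharacter G) (a : G)
    (ha : χ.1 a * conj (χ.1 a) = χ.1 1 * χ.1 1) (g : G) :
    χ.1 (a * g * a⁻¹ * g⁻¹) = χ.1 1 := by
  classical
  obtain ⟨n, ρ, hρ, hχ⟩ := χ.2
  obtain ⟨U, hU, htr, hmul, hone, -⟩ := Helper83.exists_unitary_model ρ
  have h1 : χ.1 1 ≠ 0 := Helper83.irr_one_ne_zero χ.2
  have hd : χ.1 1 = (Module.finrank ℂ (Fin n → ℂ) : ℂ) := by
    rw [← hχ, Representation.char_one]
  have hconj1 : conj (χ.1 1) = χ.1 1 := by rw [hd]; simp
  set ω : ℂ := χ.1 a / χ.1 1 with hω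
  have hωω : conj ω * ω = 1 := by
    rw [hω, map_div₀, hconj1]
    field_simp
    rw [mul_comm, ha]
    ring
  have hW : conj ω • U a ∈ Matrix.unitaryGroup (Fin (Module.finrank ℂ (Fin n → ℂ))) ℂ := by
    rw [Matrix.mem_unitaryGroup_iff']
    have h2 : star (U a) * U a = 1 := Matrix.mem_unitaryGroup_iff'.mp (hU a)
    rw [star_smul, Matrix.smul_mul, Matrix.mul_smul, h2, smul_smul]
    have : star (conj ω) * conj ω = 1 := by
      rw [mul_comm]
      simpa using hωω
    rw [this, one_smul]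
  have htrW : (conj ω • U a).trace = (Module.finrank ℂ (Fin n → ℂ) : ℂ) := by
    rw [Matrix.trace_smul, htr, hχ, smul_eq_mul, ← hd]
    have : χ.1 a = ω * χ.1 1 := by rw [hω]; field_simp
    rw [this, ← mul_assoc, hωω, one_mul]
  have hWone := Helper83.eq_one_of_trace_unitary hW htrW
  have hUa : U a = ω • (1 : Matrix _ _ ℂ) := by
    have h3 : ω • (conj ω • U a) = ω • (1 : Matrix _ _ ℂ) := by rw [hWone]
    rw [smul_smul, mul_comm, hωω, one_smul] at h3
    exact h3
  have hUainv : U a⁻¹ = ω⁻¹ • (1 : Matrix _ _ ℂ) := by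
    have hω0 : ω ≠ 0 := by
      intro h0
      rw [h0, mul_zero] at hωω
      exact zero_ne_one hωω
    have h4 : U a * U a⁻¹ = 1 := by rw [← hmul, mul_inv_cancel, hone]
    rw [hUa, Matrix.smul_mul, Matrix.one_mul] at h4
    have h5 : ω⁻¹ • (ω • U a⁻¹) = ω⁻¹ • (1 : Matrix _ _ ℂ) := by rw [h4]
    rw [smul_smul, inv_mul_cancel₀ hω0, one_smul] at h5
    exact h5
  have hcomm : U (a * g * a⁻¹ * g⁻¹) = 1 := by
    have hω0 : ω ≠ 0 := by
      intro h0
      rw [h0, mul_zero] at hωω
      exact zero_ne_one hωω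
    rw [hmul, hmul, hmul, hUa, hUainv]
    rw [Matrix.smul_mul, Matrix.one_mul, Matrix.mul_smul, Matrix.mul_one, smul_smul,
      inv_mul_cancel₀ hω0, one_smul, ← hmul, mul_inv_cancel, hone]
  rw [← hχ, ← htr, hcomm, ← hone, htr]

/-- Key lemma: if `χ` is faithful and `χ · χ^σ` is irreducible, then a normal subgroup on which
the `j`-th power map is compatible with products (wherever `χ` does not vanish) is central. -/
theorem central_of_pow_compat (χ : IrrCharacter G)
    (hfaith : ∀ g : G, χ.1 g = χ.1 1 → g = 1) (k : ℕ) (hk : Nat.Coprime k (Nat.card G))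
    (hirr : IsIrrCharacter G (fun g => χ.1 g * χ.1 (g ^ k)))
    (j : ℕ) (hj : ∀ x : G, (x ^ j) ^ k = x⁻¹)
    (A : Subgroup G) [hAn : A.Normal]
    (hA : ∀ a b : G, a ∈ A → b ∈ A → χ.1 (a * b) ≠ 0 → a ^ j * b ^ j = (a * b) ^ j) :
    A ≤ Subgroup.center G := by
  classical
  letI : Fintype A := Fintype.ofFinite A
  obtain ⟨n, ρ, hρ, hχ⟩ := χ.2
  obtain ⟨m, ρ', hρ', hχ'⟩ := Helper80.isIrrCharacter_pow_coprime k hk χ
  have hchar : ∀ g : G, LinearMap.trace ℂ (Fin n → ℂ) (ρ g) = χ.1 g := fun g => congrFun hχ g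
  have hchar' : ∀ g : G, LinearMap.trace ℂ (Fin m → ℂ) (ρ' g) = χ.1 (g ^ k) :=
    fun g => congrFun hχ' g
  set R : Representation ℂ G ((Fin n → ℂ) ⊗[ℂ] (Fin m → ℂ)) := ρ.tprod ρ' with hR
  have hRchar : R.character = fun g => χ.1 g * χ.1 (g ^ k) := by
    rw [hR, Representation.char_tensor, hχ, hχ']
    rfl
  haveI hRirr : R.IsIrreducible :=
    Helper79.irreducible_of_irr_char R (by rw [hRchar]; exact hirr)
  have hRg : ∀ g : G, R g = TensorProduct.map (ρ g) (ρ' g) := fun g => rfl
  set C : Module.End ℂ ((Fin n → ℂ) ⊗[ℂ] (Fin m → ℂ)) :=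
    ∑ a : A, TensorProduct.map (ρ (a : G)) (ρ' ((a : G) ^ j)) with hC
  have hcomm : ∀ g : G, C * R g = R g * C := by
    intro g
    rw [hC, Finset.sum_mul, Finset.mul_sum, hRg]
    have h1 : ∀ a : A, TensorProduct.map (ρ (a : G)) (ρ' ((a : G) ^ j)) *
        TensorProduct.map (ρ g) (ρ' g) =
        TensorProduct.map (ρ ((a : G) * g)) (ρ' ((a : G) ^ j * g)) := by
      intro a
      rw [← TensorProduct.map_mul, ← map_mul, ← map_mul]
    have h2 : ∀ a : A, TensorProduct.map (ρ g) (ρ' g) *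
        TensorProduct.map (ρ (a : G)) (ρ' ((a : G) ^ j)) =
        TensorProduct.map (ρ (g * (a : G))) (ρ' (g * (a : G) ^ j)) := by
      intro a
      rw [← TensorProduct.map_mul, ← map_mul, ← map_mul]
    simp_rw [h1, h2]
    rw [← Equiv.sum_comp (MulAut.conjNormal g : A ≃* A).toEquiv
      (fun a : A => TensorProduct.map (ρ ((a : G) * g)) (ρ' ((a : G) ^ j * g)))]
    apply Finset.sum_congr rfl
    intro a _
    have e1 : ((MulAut.conjNormal g : A ≃* A).toEquiv a : G) = g * a * g⁻¹ :=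
      MulAut.conjNormal_apply g a
    rw [e1]
    have e2 : g * (a : G) * g⁻¹ * g = g * a := by group
    have e3 : (g * (a : G) * g⁻¹) ^ j * g = g * (a : G) ^ j := by
      rw [conj_pow]; group
    rw [e2, e3]
  obtain ⟨γ, hγ⟩ := Helper82.schur_scalar R C hcomm
  -- traces
  have hS : LinearMap.trace ℂ _ C = ∑ a : A, χ.1 a * χ.1 (a : G)⁻¹ := by
    rw [hC, map_sum]
    apply Finset.sum_congr rfl
    intro a _
    rw [LinearMap.trace_tensorProduct', hchar, hchar', hj]
  have hS2 : LinearMap.trace ℂ _ (C * C) =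
      (Nat.card A : ℂ) * ∑ a : A, χ.1 a * χ.1 (a : G)⁻¹ := by
    have h1 : C * C = ∑ a : A, ∑ b : A,
        TensorProduct.map (ρ ((a : G) * b)) (ρ' ((a : G) ^ j * (b : G) ^ j)) := by
      rw [hC, Finset.sum_mul]
      apply Finset.sum_congr rfl
      intro a _
      rw [Finset.mul_sum]
      apply Finset.sum_congr rfl
      intro b _
      rw [← TensorProduct.map_mul, ← map_mul, ← map_mul]
    rw [h1, map_sum]
    have h2 : ∀ a : A, LinearMap.trace ℂ _ (∑ b : A,
        TensorProduct.map (ρ ((a : G) * b)) (ρ' ((a : G) ^ j * (b : G) ^ j))) =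
        ∑ b : A, χ.1 b * χ.1 (b : G)⁻¹ := by
      intro a
      rw [map_sum]
      rw [← Equiv.sum_comp (Equiv.mulLeft a) (fun b : A => χ.1 b * χ.1 (b : G)⁻¹)]
      apply Finset.sum_congr rfl
      intro b _
      rw [LinearMap.trace_tensorProduct', hchar, hchar']
      show χ.1 ((a : G) * b) * χ.1 (((a : G) ^ j * (b : G) ^ j) ^ k) =
        χ.1 ((a : G) * b) * χ.1 ((a : G) * b)⁻¹
      by_cases h0 : χ.1 ((a : G) * b) = 0
      · rw [h0, zero_mul, zero_mul]
      · rw [hA a b a.2 b.2 h0, hj]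
    simp_rw [h2]
    rw [Finset.sum_const, Finset.card_univ, nsmul_eq_mul, ← Nat.card_eq_fintype_card]
  have hone : LinearMap.trace ℂ ((Fin n → ℂ) ⊗[ℂ] (Fin m → ℂ)) LinearMap.id =
      χ.1 1 * χ.1 1 := by
    have h1 : (LinearMap.id : Module.End ℂ ((Fin n → ℂ) ⊗[ℂ] (Fin m → ℂ))) =
        TensorProduct.map (ρ 1) (ρ' 1) := by
      rw [map_one, map_one]
      exact (TensorProduct.map_one).symm
    rw [h1, LinearMap.trace_tensorProduct', hchar, hchar', one_pow]
  set S : ℂ := ∑ a : A, χ.1 a * χ.1 (a : G)⁻¹ with hSdef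
  have e1 : S = γ * (χ.1 1 * χ.1 1) := by
    rw [← hS, hγ, map_smul, hone, smul_eq_mul]
  have e2 : (Nat.card A : ℂ) * S = γ * γ * (χ.1 1 * χ.1 1) := by
    rw [← hS2, hγ]
    have : (γ • (LinearMap.id : Module.End ℂ ((Fin n → ℂ) ⊗[ℂ] (Fin m → ℂ)))) *
        (γ • LinearMap.id) = (γ * γ) • LinearMap.id := by
      rw [smul_mul_smul_comm]
      rfl
    rw [this, map_smul, hone, smul_eq_mul]
  -- norms
  have hterm : ∀ a : A, χ.1 a * χ.1 (a : G)⁻¹ = ((‖χ.1 a‖ ^ 2 : ℝ) : ℂ) := by
    intro a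
    rw [irr_inv, Complex.mul_conj, Complex.normSq_eq_norm_sq]
  have hdeg := irr_one χ
  have hSreal : S = ((∑ a : A, ‖χ.1 a‖ ^ 2 : ℝ) : ℂ) := by
    rw [hSdef, Complex.ofReal_sum]
    exact Finset.sum_congr rfl (fun a _ => hterm a)
  have hSpos : 0 < ∑ a : A, ‖χ.1 (a : G)‖ ^ 2 := by
    have h1 : 0 < ‖χ.1 ((1 : A) : G)‖ ^ 2 := by
      have : χ.1 ((1 : A) : G) ≠ 0 := Helper83.irr_one_ne_zero χ.2
      positivity
    exact lt_of_lt_of_le h1
      (Finset.single_le_sum (f := fun a : A => ‖χ.1 (a : G)‖ ^ 2)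
        (fun _ _ => by positivity) (Finset.mem_univ (1 : A)))
  have hS0 : S ≠ 0 := by
    rw [hSreal]
    exact_mod_cast hSpos.ne'
  have hd0 : χ.1 1 * χ.1 1 ≠ 0 :=
    mul_ne_zero (Helper83.irr_one_ne_zero χ.2) (Helper83.irr_one_ne_zero χ.2)
  have e3 : S = (Nat.card A : ℂ) * (χ.1 1 * χ.1 1) := by
    have h1 : S * S = (Nat.card A : ℂ) * S * (χ.1 1 * χ.1 1) := by
      rw [e2]
      rw [e1]
      ring
    have h2 : S * (S - (Nat.card A : ℂ) * (χ.1 1 * χ.1 1)) = 0 := by
      rw [mul_sub, h1]; ring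
    rcases mul_eq_zero.mp h2 with h | h
    · exact absurd h hS0
    · exact sub_eq_zero.mp h
  have hsum : ∑ a : A, ‖χ.1 (a : G)‖ ^ 2 = ∑ _a : A, ((charDegree χ.1 : ℝ)) ^ 2 := by
    have h1 : ((∑ a : A, ‖χ.1 (a : G)‖ ^ 2 : ℝ) : ℂ) =
        ((∑ _a : A, ((charDegree χ.1 : ℝ)) ^ 2 : ℝ) : ℂ) := by
      rw [← hSreal, e3, hdeg, Finset.sum_const, Finset.card_univ, nsmul_eq_mul,
        ← Nat.card_eq_fintype_card]
      push_cast
      ring
    exact_mod_cast h1
  have hle : ∀ a ∈ (Finset.univ : Finset A), ‖χ.1 (a : G)‖ ^ 2 ≤ ((charDegree χ.1 : ℝ)) ^ 2 := by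
    intro a _
    have h1 := Helper83.irr_norm_le χ.2 (a : G)
    have h2 : (0 : ℝ) ≤ ‖χ.1 (a : G)‖ := norm_nonneg _
    nlinarith
  have heq := (Finset.sum_eq_sum_iff_of_le hle).mp hsum
  intro a ha
  rw [Subgroup.mem_center_iff]
  intro g
  have h1 := heq ⟨a, ha⟩ (Finset.mem_univ _)
  have h2 : χ.1 a * conj (χ.1 a) = χ.1 1 * χ.1 1 := by
    rw [Complex.mul_conj, Complex.normSq_eq_norm_sq, hdeg]
    have h3 : ((‖χ.1 a‖ ^ 2 : ℝ) : ℂ) = (((charDegree χ.1 : ℝ) ^ 2 : ℝ) : ℂ) := by
      exact_mod_cast congrArg (fun r : ℝ => (r : ℂ)) h1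
    rw [h3]
    push_cast
    ring
  have h4 := hfaith _ (irr_commutator_of_norm χ a h2 g)
  calc g * a = (a * g * a⁻¹ * g⁻¹)⁻¹ * (a * g) := by group
    _ = a * g := by rw [h4, inv_one, one_mul]

/-- If `χ` is faithful and `χ · χ^σ` is irreducible, every nilpotent normal subgroup is
central. -/
theorem nilpotent_normal_le_center (χ : IrrCharacter G)
    (hfaith : ∀ g : G, χ.1 g = χ.1 1 → g = 1) (k : ℕ) (hk : Nat.Coprime k (Nat.card G))
    (hirr : IsIrrCharacter G (fun g => χ.1 g * χ.1 (g ^ k)))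
    (N : Subgroup G) [hN : N.Normal] (hnil : Group.IsNilpotent N) :
    N ≤ Subgroup.center G := by
  obtain ⟨j, hj⟩ := exists_pow_pow_inv (G := G) k hk
  obtain ⟨c, hc⟩ := hnil.nilpotent'
  have key : ∀ i : ℕ, ∀ x : N, x ∈ Subgroup.upperCentralSeries N i →
      (x : G) ∈ Subgroup.center G := by
    intro i
    induction i with
    | zero =>
      intro x hx
      rw [Subgroup.upperCentralSeries_zero, Subgroup.mem_bot] at hx
      rw [hx]
      exact Subgroup.one_mem _
    | succ i ih =>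
      have hnorm : ((Subgroup.upperCentralSeries N (i + 1)).map N.subtype).Normal :=
        inferInstance
      have hle : (Subgroup.upperCentralSeries N (i + 1)).map N.subtype ≤ Subgroup.center G := by
        apply central_of_pow_compat χ hfaith k hk hirr j hj
        rintro a b ⟨a', ha', rfl⟩ ⟨b', hb', rfl⟩ hne
        have hw : a' * b' ∈ Subgroup.upperCentralSeries N (i + 1) := Subgroup.mul_mem _ ha' hb'
        -- `a' * b'` commutes with `a'`
        have hcomm : ∀ y : N, (a' * b') * y = y * (a' * b') := by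
          intro y
          have h1 := Subgroup.mem_upperCentralSeries_succ_iff.mp hw y
          have hz := ih _ h1
          set z : G := ((⁅a' * b', y⁆ : N) : G) with hzdef
          have hzinv : z⁻¹ ∈ Subgroup.center G := Subgroup.inv_mem _ hz
          have h2 : (y : G) * ((a' * b' : N) : G) * (y : G)⁻¹ = ((a' * b' : N) : G) * z⁻¹ := by
            rw [Subgroup.mem_center_iff.mp hzinv ((a' * b' : N) : G)]
            rw [hzdef, commutatorElement_def]
            push_cast
            group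
          have h3 : χ.1 ((y : G) * ((a' * b' : N) : G) * (y : G)⁻¹) =
              χ.1 ((a' * b' : N) : G) := irr_conj_inv χ _ _
          rw [h2, Helper80.irr_mul_central χ hzinv] at h3
          have h4 : Helper80.cc χ z⁻¹ = 1 := by
            have h5 : (Helper80.cc χ z⁻¹ - 1) * χ.1 ((a' * b' : N) : G) = 0 := by
              rw [sub_mul, h3, one_mul, sub_self]
            rcases mul_eq_zero.mp h5 with h | h
            · exact sub_eq_zero.mp h
            · exact absurd h hne
          have h6 : χ.1 z⁻¹ = χ.1 1 := by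
            have := Helper80.irr_central χ hzinv
            rw [h4, one_mul] at this
            exact this
          have h7 : z⁻¹ = 1 := hfaith _ h6
          have h8 : z = 1 := inv_eq_one.mp h7
          have h9 : (⁅a' * b', y⁆ : N) = 1 := Subtype.ext h8
          rw [commutatorElement_def] at h9
          calc (a' * b') * y = ((a' * b') * y * (a' * b')⁻¹ * y⁻¹) * (y * (a' * b')) := by group
            _ = y * (a' * b') := by rw [h9, one_mul]
        have hc1 : Commute a'⁻¹ (a' * b') := by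
          have := hcomm a'⁻¹
          exact this.symm
        have hb : b' = a'⁻¹ * (a' * b') := by group
        have hpow : a' ^ j * b' ^ j = (a' * b') ^ j := by
          conv_lhs => rw [hb, hc1.mul_pow]
          rw [inv_pow, mul_inv_cancel_left]
        have := congrArg (fun x : N => (x : G)) hpow
        simpa using this
      intro x hx
      exact hle ⟨x, hx, rfl⟩
  intro x hx
  have h1 : (⟨x, hx⟩ : N) ∈ Subgroup.upperCentralSeries N c := by
    rw [hc]; exact Subgroup.mem_top _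
  exact key c ⟨x, hx⟩ h1

end GalProd

/-- If `χ` is faithful and `χ · χ^σ` is irreducible for a Galois conjugate `χ^σ`, then
`F(G) = Z(G)`. -/
theorem fitting_eq_center {G : Type u} [Group G] [Finite G] (χ : IrrCharacter G)
    (hfaith : ∀ g : G, (χ : G → ℂ) g = (χ : G → ℂ) 1 → g = 1) (k : ℕ)
    (hk : Nat.Coprime k (Nat.card G))
    (hirr : IsIrrCharacter G (fun g => (χ : G → ℂ) g * (χ : G → ℂ) (g ^ k))) :
    fittingSubgroup G = Subgroup.center G := by
  classical
  letI := Fintype.ofFinite G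
  apply le_antisymm
  · apply sSup_le
    rintro N ⟨hN, hnil⟩
    haveI := hN
    exact nilpotent_normal_le_center χ hfaith k hk hirr N hnil
  · apply le_sSup
    have hnilZ : Group.IsNilpotent (Subgroup.center G) := by
      letI : CommGroup (Subgroup.center G) :=
        { (inferInstance : Group (Subgroup.center G)) with
          mul_comm := fun a b => Subtype.ext (Subgroup.mem_center_iff.mp b.2 (a : G)) }
      exact CommGroup.isNilpotent
    exact ⟨inferInstance, hnilZ⟩

end Cfsg.Agent.Lib.Helper84
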