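import Mathlib

/-!
# Groups whose real irreducible characters have p'-degree (helper84): group-theoretic preliminaries

The subgroups generated by the elements of `q`-power order, their behaviour in quotients and
subgroups.
-/

set_option autoImplicit false
set_option linter.unusedSectionVars false
set_option linter.unusedVariables false
set_option linter.style.haveILetI false

namespace Cfsg.Agent.Lib.Helper84.IN

universe u

variable {G : Type u} [Group G]

theorem orderOf_conj_eq (t x : G) : orderOf (t * x * t⁻¹) = orderOf x :=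
  MulEquiv.orderOf_eq (MulAut.conj t) x

/-- The closure of a conjugation-invariant set is normal. -/
theorem closure_normal_of_conj {S : Set G} (h : ∀ g : G, ∀ x ∈ S, g * x * g⁻¹ ∈ S) :
    (Subgroup.closure S).Normal := by
  constructor
  intro n hn g
  induction hn using Subgroup.closure_induction with
  | mem x hx => exact Subgroup.subset_closure (h g x hx)
  | one => simp
  | mul x y _ _ ihx ihy =>
    have : g * (x * y) * g⁻¹ = (g * x * g⁻¹) * (g * y * g⁻¹) := by group
    rw [this]; exact Subgroup.mul_mem _ ihx ihy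
  | inv x _ ih =>
    have : g * x⁻¹ * g⁻¹ = (g * x * g⁻¹)⁻¹ := by group
    rw [this]; exact Subgroup.inv_mem _ ih

theorem Oq_normal (q : ℕ) : (Subgroup.closure {g : G | ∃ k : ℕ, orderOf g = q ^ k}).Normal :=
  closure_normal_of_conj (fun g x ⟨k, hk⟩ => ⟨k, by rw [orderOf_conj_eq, hk]⟩)

/-- A quotient of a group generated by `q`-elements is generated by `q`-elements. -/
theorem gen_quotient (q : ℕ) (hq : q.Prime) (N : Subgroup G) [N.Normal]
    (h : Subgroup.closure {g : G | ∃ k : ℕ, orderOf g = q ^ k} = ⊤) :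
    Subgroup.closure {g : G ⧸ N | ∃ k : ℕ, orderOf g = q ^ k} = ⊤ := by
  rw [eq_top_iff, ← Subgroup.map_top_of_surjective (QuotientGroup.mk' N)
    (QuotientGroup.mk'_surjective N), ← h, MonoidHom.map_closure]
  apply Subgroup.closure_mono
  rintro _ ⟨x, ⟨k, hk⟩, rfl⟩
  have hd := orderOf_map_dvd (QuotientGroup.mk' N) x
  rw [hk] at hd
  obtain ⟨j, -, hj⟩ := (Nat.dvd_prime_pow hq).mp hd
  exact ⟨j, hj⟩

/-- Elements of `p`-power order of a quotient lift to elements of `p`-power order. -/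
theorem exists_lift_pElt [Finite G] (p : ℕ) (hp : p.Prime) (N : Subgroup G) [N.Normal]
    (y : G ⧸ N) (hy : ∃ k : ℕ, orderOf y = p ^ k) :
    ∃ x : G, (∃ k : ℕ, orderOf x = p ^ k) ∧ (x : G ⧸ N) = y := by
  obtain ⟨j, hj⟩ := hy
  obtain ⟨x, rfl⟩ := QuotientGroup.mk_surjective y
  obtain ⟨a, m, hm, hn⟩ := Nat.exists_eq_pow_mul_and_not_dvd (orderOf_pos x).ne' p hp.ne_one
  have hcop : Nat.Coprime m (p ^ j) :=
    Nat.Coprime.pow_right j ((Nat.Prime.coprime_iff_not_dvd hp).mpr hm).symm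
  have hbez := Nat.gcd_eq_gcd_ab m (p ^ j)
  rw [hcop.gcd_eq_one] at hbez
  set A := Nat.gcdA m (p ^ j)
  set B := Nat.gcdB m (p ^ j)
  refine ⟨x ^ ((m : ℤ) * A), ?_, ?_⟩
  · have h1 : (x ^ ((m : ℤ) * A)) ^ (p ^ a) = 1 := by
      rw [← zpow_natCast, ← zpow_mul]
      have : (m : ℤ) * A * ((p ^ a : ℕ) : ℤ) = ((p ^ a * m : ℕ) : ℤ) * A := by push_cast; ring
      rw [this, zpow_mul, zpow_natCast, ← hn, pow_orderOf_eq_one, one_zpow]
    obtain ⟨i, -, hi⟩ := (Nat.dvd_prime_pow hp).mp (orderOf_dvd_of_pow_eq_one h1)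
    exact ⟨i, hi⟩
  · have h2 : ((x ^ ((m : ℤ) * A) : G) : G ⧸ N) = (x : G ⧸ N) ^ ((m : ℤ) * A) :=
      map_zpow (QuotientGroup.mk' N) x _
    rw [h2]
    have h3 : (m : ℤ) * A = 1 - ((p ^ j : ℕ) : ℤ) * B := by
      have : ((1 : ℕ) : ℤ) = 1 := by norm_num
      linarith [hbez]
    rw [h3, zpow_sub, zpow_one, zpow_mul, zpow_natCast, ← hj, pow_orderOf_eq_one, one_zpow,
      inv_one, mul_one]

theorem solvable_quotient [Finite G] (p : ℕ) (hp : p.Prime) (N : Subgroup G) [N.Normal]
    (h : Group.IsSolvable ↥(Subgroup.closure {g : G | ∃ k : ℕ, orderOf g = p ^ k})) :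
    Group.IsSolvable ↥(Subgroup.closure {g : G ⧸ N | ∃ k : ℕ, orderOf g = p ^ k}) := by
  have h1 : Group.IsSolvable
      ↥((Subgroup.closure {g : G | ∃ k : ℕ, orderOf g = p ^ k}).map (QuotientGroup.mk' N)) :=
    Group.isSolvable_of_surjective (MonoidHom.subgroupMap_surjective (QuotientGroup.mk' N) _)
  have h2 : Subgroup.closure {g : G ⧸ N | ∃ k : ℕ, orderOf g = p ^ k} ≤
      (Subgroup.closure {g : G | ∃ k : ℕ, orderOf g = p ^ k}).map (QuotientGroup.mk' N) := by
    rw [Subgroup.closure_le]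
    intro y hy
    obtain ⟨x, hx, rfl⟩ := exists_lift_pElt p hp N y hy
    exact Subgroup.mem_map_of_mem _ (Subgroup.subset_closure hx)
  exact Group.isSolvable_of_isSolvable_injective (Subgroup.inclusion_injective h2)

theorem solvable_subgroup (p : ℕ) (K : Subgroup G)
    (h : Group.IsSolvable ↥(Subgroup.closure {g : G | ∃ k : ℕ, orderOf g = p ^ k})) :
    Group.IsSolvable ↥(Subgroup.closure {g : K | ∃ k : ℕ, orderOf g = p ^ k}) := by
  have hle : ∀ x : ↥(Subgroup.closure {g : K | ∃ k : ℕ, orderOf g = p ^ k}),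
      ((x : K) : G) ∈ Subgroup.closure {g : G | ∃ k : ℕ, orderOf g = p ^ k} := by
    intro x
    have h1 : (Subgroup.closure {g : K | ∃ k : ℕ, orderOf g = p ^ k}).map K.subtype ≤
        Subgroup.closure {g : G | ∃ k : ℕ, orderOf g = p ^ k} := by
      rw [MonoidHom.map_closure]
      apply Subgroup.closure_mono
      rintro _ ⟨y, ⟨k, hk⟩, rfl⟩
      exact ⟨k, by rw [← hk]; exact Subgroup.orderOf_coe y⟩
    exact h1 (Subgroup.mem_map_of_mem K.subtype x.2)
  let f : ↥(Subgroup.closure {g : K | ∃ k : ℕ, orderOf g = p ^ k}) →*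
      ↥(Subgroup.closure {g : G | ∃ k : ℕ, orderOf g = p ^ k}) :=
    (K.subtype.comp (Subgroup.subtype _)).codRestrict _ hle
  have hf : Function.Injective f := by
    intro x y hxy
    have h1 := congrArg (fun z : ↥(Subgroup.closure {g : G | ∃ k : ℕ, orderOf g = p ^ k}) =>
      (z : G)) hxy
    exact Subtype.ext (Subtype.ext h1)
  exact Group.isSolvable_of_isSolvable_injective hf

/-- The subgroup generated by the `q`-elements is generated by its `q`-elements. -/
theorem gen_self (q : ℕ) :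
    Subgroup.closure {g : ↥(Subgroup.closure {g : G | ∃ k : ℕ, orderOf g = q ^ k}) |
      ∃ k : ℕ, orderOf g = q ^ k} = ⊤ := by
  have h := Subgroup.closure_closure_coe_preimage (k := {g : G | ∃ k : ℕ, orderOf g = q ^ k})
  convert h using 2
  ext x
  simp only [Set.mem_ofPred_eq, Set.mem_preimage, Subgroup.orderOf_coe]

/-- A Sylow `p`-subgroup lies in the subgroup generated by the `p`-elements. -/
theorem sylow_le_gen (p : ℕ) [Fact p.Prime] (P : Sylow p G) :
    (P : Subgroup G) ≤ Subgroup.closure {g : G | ∃ k : ℕ, orderOf g = p ^ k} := by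
  intro x hx
  apply Subgroup.subset_closure
  obtain ⟨k, hk⟩ := (IsPGroup.iff_orderOf.mp P.isPGroup') ⟨x, hx⟩
  exact ⟨k, by rw [← hk]; exact Subgroup.orderOf_coe (⟨x, hx⟩ : (P : Subgroup G))⟩

theorem odd_index [Finite G] :
    Odd (Subgroup.closure {g : G | ∃ k : ℕ, orderOf g = 2 ^ k}).index := by
  obtain ⟨S⟩ : Nonempty (Sylow 2 G) := inferInstance
  have hS := sylow_le_gen 2 S
  have h1 : ¬ 2 ∣ (Subgroup.closure {g : G | ∃ k : ℕ, orderOf g = 2 ^ k}).index :=
    fun h => S.not_dvd_index (dvd_trans h (Subgroup.index_dvd_of_le hS))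
  exact Nat.odd_iff.mpr (Nat.two_dvd_ne_zero.mp h1)

end Cfsg.Agent.Lib.Helper84.IN
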