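import Mathlib
import Cfsg.Agent.Lib.Helper84.RealOver
import Cfsg.Agent.Lib.Helper84.ItoMichler
import Cfsg.Agent.Lib.Helper83.Linear
import Cfsg.Agent.Lib.Helper81.PSolv

/-!
# Groups whose real irreducible characters have p'-degree (helper84): characters

* `exists_real_over`: odd index, a real irreducible character of the normal subgroup lies under
  a real irreducible character of the group;
* `real_subgroup`, `real_quotient`: the hypothesis passes to normal subgroups of odd index and to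
  quotients;
* `key_real`: in a split extension `G = N ⋊ H` with `N` abelian and an element acting on `N` as an
  involution, some nontrivial linear character `lam` of `N` induces (from its canonical extension
  to the inertia group) a real irreducible character of degree the index of the inertia group;
* `dvd_index_inertia`: that index is divisible by `p` when a Sylow `p`-subgroup fixes no
  nontrivial linear character of `N`.
-/

set_option autoImplicit false
set_option linter.unusedSectionVars false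
set_option linter.unusedVariables false
set_option linter.style.haveILetI false

namespace Cfsg.Agent.Lib.Helper84.IN

open Cfsg
open scoped ComplexConjugate

universe u

section Real

variable {G : Type u} [Group G] [Fintype G] (N : Subgroup G) [hN : N.Normal] [Fintype N]

/-- Odd index: a real irreducible character of `N` lies under a real irreducible character. -/
theorem exists_real_over (hodd : Odd N.index) (θ : IrrCharacter N)
    (hθ : ∀ k : N, ((θ : N → ℂ) k).im = 0) :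
    ∃ χ : IrrCharacter G, (∀ g : G, ((χ : G → ℂ) g).im = 0) ∧
      classInner (fun n : N => χ.1 n) θ.1 ≠ 0 := by
  classical
  have hfinG : Finite (IrrCharacter G) := irr_finite
  letI := Fintype.ofFinite (IrrCharacter G)
  obtain ⟨m, hm, hsum⟩ := exists_mult_fsSign N hodd θ
  have hne : Helper79.fsSign θ ≠ 0 := (Helper79.fsSign_ne_zero_iff θ).mpr hθ
  have hex2 : ∃ χ : IrrCharacter G, m χ ≠ 0 ∧ Helper79.fsSign χ ≠ 0 := by
    by_contra hcon
    push Not at hcon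
    apply hne
    rw [← hsum]
    apply Finset.sum_eq_zero
    intro χ _
    by_cases hmχ : m χ = 0
    · rw [hmχ]; simp
    · rw [hcon χ hmχ]; simp
  obtain ⟨χ, hmχ, hsχ⟩ := hex2
  refine ⟨χ, (Helper79.fsSign_ne_zero_iff χ).mp hsχ, ?_⟩
  have h1 := hm χ
  rw [Helper35.frobenius_reciprocity N θ.1 χ.1 (Helper4.isClassFunction_irr χ)] at h1
  rw [Helper4.classInner_conj_symm]
  show (starRingEnd ℂ) (classInner θ.1 (Helper35.res N χ.1)) ≠ 0
  rw [h1]
  simp only [map_natCast]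
  exact_mod_cast hmχ

end Real

theorem real_subgroup {G : Type u} [Group G] [Finite G] (p : ℕ) (K : Subgroup G) [K.Normal]
    (hodd : Odd K.index)
    (hreal : ∀ χ : IrrCharacter G, (∀ g : G, ((χ : G → ℂ) g).im = 0) →
      ¬ p ∣ charDegree (χ : G → ℂ)) :
    ∀ θ : IrrCharacter K, (∀ k : K, ((θ : K → ℂ) k).im = 0) →
      ¬ p ∣ charDegree (θ : K → ℂ) := by
  classical
  letI := Fintype.ofFinite G
  letI : Fintype K := Fintype.ofFinite K
  intro θ hθ hdvd
  obtain ⟨χ, hχ, hcon⟩ := exists_real_over K hodd θ hθ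
  obtain ⟨k, hk⟩ := over_degree K θ χ hcon
  exact hreal χ hχ (by rw [hk]; exact Dvd.dvd.mul_left hdvd _)

theorem real_quotient {G : Type u} [Group G] [Finite G] (p : ℕ) (N : Subgroup G) [N.Normal]
    (hreal : ∀ χ : IrrCharacter G, (∀ g : G, ((χ : G → ℂ) g).im = 0) →
      ¬ p ∣ charDegree (χ : G → ℂ)) :
    ∀ ψ : IrrCharacter (G ⧸ N), (∀ g : G ⧸ N, ((ψ : G ⧸ N → ℂ) g).im = 0) →
      ¬ p ∣ charDegree (ψ : G ⧸ N → ℂ) := by
  intro ψ hψ
  exact hreal ⟨fun g => ψ.1 (g : G ⧸ N), irr_inflate N ψ⟩ (fun g => hψ _)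

/-- The complex conjugate of a root of unity is its inverse. -/
theorem conj_unit (u : ℂˣ) (k : ℕ) (hk : k ≠ 0) (h : u ^ k = 1) :
    (starRingEnd ℂ) (u : ℂ) = ((u⁻¹ : ℂˣ) : ℂ) := by
  have h1 : ((u : ℂ)) ^ k = 1 := by rw [← Units.val_pow_eq_pow_val, h, Units.val_one]
  have h2 : ‖(u : ℂ)‖ = 1 := Complex.norm_eq_one_of_pow_eq_one h1 hk
  rw [← Complex.inv_eq_conj h2, Units.val_inv_eq_inv_val]

section Key

variable {G : Type u} [Group G] [Fintype G] (N : Subgroup G) [hN : N.Normal]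

theorem key_real (hNab : ∀ a ∈ N, ∀ b ∈ N, a * b = b * a)
    (H : Subgroup G) (hNH : N ⊓ H = ⊥) (hsup : N ⊔ H = ⊤)
    (s : G) (hs2 : ∀ n ∈ N, s * (s * n * s⁻¹) * s⁻¹ = n)
    (n₀ : G) (hn₀ : n₀ ∈ N) (hne : s * n₀ * s⁻¹ ≠ n₀) :
    ∃ (lam : N →* ℂˣ) (χ : IrrCharacter G), (∃ n : N, lam n ≠ 1) ∧
      (∀ g : G, ((χ : G → ℂ) g).im = 0) ∧
      charDegree (χ : G → ℂ) =
        (Helper20.inertia N (fun n : N => ((lam n : ℂˣ) : ℂ))).index := by
  classical
  letI : Fintype N := Fintype.ofFinite N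
  letI : CommGroup N := { (inferInstance : Group N) with
    mul_comm := fun a b => Subtype.ext (hNab a a.2 b b.2) }
  let σ : N →* N := (MulAut.conjNormal s : N ≃* N).toMonoidHom
  have hσ : ∀ n : N, ((σ n : N) : G) = s * n * s⁻¹ := fun n => MulAut.conjNormal_apply s n
  have ha : (σ ⟨n₀, hn₀⟩ * (⟨n₀, hn₀⟩ : N)⁻¹ : N) ≠ 1 := by
    intro h
    apply hne
    have h1 := mul_inv_eq_one.mp h
    have h2 := congrArg (fun x : N => (x : G)) h1
    simp only [hσ] at h2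
    exact h2
  obtain ⟨φ, hφ⟩ := CommGroup.exists_apply_ne_one_of_hasEnoughRootsOfUnity N ℂ ha
  let lam : N →* ℂˣ := φ * (φ.comp σ)⁻¹
  have hlam : ∀ n : N, lam n = φ n * (φ (σ n))⁻¹ := fun n => rfl
  have hnt : ∃ n : N, lam n ≠ 1 := by
    refine ⟨⟨n₀, hn₀⟩, ?_⟩
    rw [hlam]
    intro h
    apply hφ
    rw [map_mul, map_inv]
    have h1 := mul_inv_eq_one.mp h
    rw [h1, mul_inv_cancel]
  have hσσ : ∀ n : N, σ (σ n) = n := fun n => Subtype.ext (by rw [hσ, hσ]; exact hs2 n n.2)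
  have hinv : ∀ n : N, lam (σ n) = (lam n)⁻¹ := by
    intro n
    rw [hlam, hlam, hσσ, mul_inv_rev, inv_inv]
  -- the decomposition `G = N H`
  have hdec : ∀ g : G, ∃ n : N, ∃ h : G, h ∈ H ∧ g = n * h := by
    intro g
    have hg : g ∈ ((N ⊔ H : Subgroup G) : Set G) := by rw [hsup]; exact Subgroup.mem_top g
    rw [Subgroup.normal_mul] at hg
    obtain ⟨a, ha, b, hb, rfl⟩ := Set.mem_mul.mp hg
    exact ⟨⟨a, ha⟩, b, hb, rfl⟩
  have huniq : ∀ (n n' : N) (h h' : G), h ∈ H → h' ∈ H → (n : G) * h = n' * h' → n = n' := by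
    intro n n' h h' hh hh' e
    have h1 : (n' : G)⁻¹ * n = h' * h⁻¹ := by
      have : (n : G) = n' * h' * h⁻¹ := by rw [← e, mul_inv_cancel_right]
      rw [this]; group
    have h2 : (n' : G)⁻¹ * n ∈ N ⊓ H :=
      ⟨N.mul_mem (N.inv_mem n'.2) n.2, by rw [h1]; exact H.mul_mem hh' (H.inv_mem hh)⟩
    rw [hNH, Subgroup.mem_bot] at h2
    exact Subtype.ext (inv_mul_eq_one.mp h2).symm
  choose π hπ using hdec
  have hπ' : ∀ (n : N) (h : G), h ∈ H → π ((n : G) * h) = n := by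
    intro n h hh
    obtain ⟨h', hh', e⟩ := hπ ((n : G) * h)
    exact (huniq n (π (n * h)) h h' hh hh' e).symm
  have hπN : ∀ n : N, π (n : G) = n := by
    intro n
    have := hπ' n 1 H.one_mem
    rwa [mul_one] at this
  -- the inertia group
  set T := Helper20.inertia N (fun n : N => ((lam n : ℂˣ) : ℂ)) with hT
  have hmemT : ∀ g : G, g ∈ T ↔
      ∀ n : N, lam ⟨g * n * g⁻¹, hN.conj_mem n n.2 g⟩ = lam n := by
    intro g
    rw [hT, Helper20.mem_inertia]
    constructor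
    · intro h n
      have := congrFun h n
      rw [Helper20.conjFun_apply] at this
      exact Units.ext this
    · intro h
      funext n
      rw [Helper20.conjFun_apply]
      show ((lam _ : ℂˣ) : ℂ) = _
      rw [h n]
  have hNT : N ≤ T := by
    intro m hm
    rw [hmemT]
    intro n
    congr 1
    apply Subtype.ext
    show m * n * m⁻¹ = n
    rw [hNab m hm n n.2, mul_inv_cancel_right]
  have hHT : ∀ t : G, t ∈ T → ∀ h : G, t = (π t : G) * h → h ∈ T := by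
    intro t ht h e
    have : h = ((π t : N) : G)⁻¹ * t := eq_inv_mul_of_mul_eq e.symm
    rw [this]
    exact T.mul_mem (T.inv_mem (hNT (π t).2)) ht
  -- the canonical extension
  let lamT : T →* ℂˣ :=
    { toFun := fun t => lam (π t.1)
      map_one' := by
        show lam (π ((1 : T) : G)) = 1
        have : π (1 : G) = 1 := hπN 1
        rw [Subgroup.coe_one, this, map_one]
      map_mul' := by
        intro t₁ t₂
        show lam (π ((t₁ * t₂ : T) : G)) = lam (π t₁.1) * lam (π t₂.1)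
        obtain ⟨h₁, hh₁, e₁⟩ := hπ t₁.1
        obtain ⟨h₂, hh₂, e₂⟩ := hπ t₂.1
        have hh₁T : h₁ ∈ T := hHT t₁.1 t₁.2 h₁ e₁
        have e : ((t₁ * t₂ : T) : G) =
            ((π t₁.1 * ⟨h₁ * (π t₂.1 : G) * h₁⁻¹, hN.conj_mem _ (π t₂.1).2 h₁⟩ : N) : G) *
              (h₁ * h₂) := by
          rw [Subgroup.coe_mul]
          conv_lhs => rw [e₁, e₂]
          simp only [Subgroup.coe_mul]
          group
        rw [e, hπ' _ _ (H.mul_mem hh₁ hh₂), map_mul]
        congr 1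
        exact (hmemT h₁).mp hh₁T (π t₂.1) }
  have hlamT : ∀ t : T, lamT t = lam (π t.1) := fun t => rfl
  set ψ : T → ℂ := fun t => ((lamT t : ℂˣ) : ℂ) with hψdef
  have hψ : IsIrrCharacter T ψ := Helper83.isIrr_of_hom lamT
  have hlamirr : IsIrrCharacter N (fun n : N => ((lam n : ℂˣ) : ℂ)) := Helper83.isIrr_of_hom lam
  have hext : ∀ n : N, ψ (Subgroup.inclusion hNT n) = ((lam n : ℂˣ) : ℂ) := by
    intro n
    show ((lamT (Subgroup.inclusion hNT n) : ℂˣ) : ℂ) = _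
    rw [hlamT]
    show ((lam (π (n : G)) : ℂˣ) : ℂ) = _
    rw [hπN]
  have hχirr : IsIrrCharacter G (indFun T ψ) :=
    ind_ext_irr N T hNT (fun n : N => ((lam n : ℂˣ) : ℂ)) hlamirr (fun g => Iff.rfl) ψ hψ hext
  refine ⟨lam, ⟨indFun T ψ, hχirr⟩, hnt, ?_, ?_⟩
  · -- real
    obtain ⟨h₀, hh₀, es⟩ := hπ s
    have hact : ∀ n : N, h₀ * n * h₀⁻¹ = s * n * s⁻¹ := by
      intro n
      have h1 : h₀ = ((π s : N) : G)⁻¹ * s := eq_inv_mul_of_mul_eq es.symm
      have h2 := hNab (π s) (π s).2 (s * n * s⁻¹) (hN.conj_mem n n.2 s)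
      have h3 : h₀ * n * h₀⁻¹ = ((π s : N) : G)⁻¹ * ((s * n * s⁻¹) * (π s : N)) := by
        rw [h1]; group
      rw [h3, ← h2, inv_mul_cancel_left]
    have hI1 : ∀ n : N, lam ⟨h₀ * n * h₀⁻¹, hN.conj_mem n n.2 h₀⟩ = (lam n)⁻¹ := by
      intro n
      rw [← hinv n]
      congr 1
      exact Subtype.ext (by rw [hσ]; exact hact n)
    have hI2 : ∀ n : N, lam ⟨h₀⁻¹ * n * h₀⁻¹⁻¹, hN.conj_mem n n.2 h₀⁻¹⟩ = (lam n)⁻¹ := by
      intro n
      have h1 := hI1 ⟨h₀⁻¹ * n * h₀⁻¹⁻¹, hN.conj_mem n n.2 h₀⁻¹⟩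
      have h2 : (⟨h₀ * ((⟨h₀⁻¹ * n * h₀⁻¹⁻¹, hN.conj_mem n n.2 h₀⁻¹⟩ : N) : G) * h₀⁻¹,
          hN.conj_mem _ (Subtype.property _) h₀⟩ : N) = n := Subtype.ext (by
        show h₀ * (h₀⁻¹ * n * h₀⁻¹⁻¹) * h₀⁻¹ = n
        group)
      rw [h2] at h1
      exact inv_eq_iff_eq_inv.mp h1.symm
    have hnorm : ∀ a : G, (∀ n : N, lam ⟨a * n * a⁻¹, hN.conj_mem n n.2 a⟩ = (lam n)⁻¹) →
        (∀ n : N, lam ⟨a⁻¹ * n * a⁻¹⁻¹, hN.conj_mem n n.2 a⁻¹⟩ = (lam n)⁻¹) →
        ∀ t ∈ T, a * t * a⁻¹ ∈ T := by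
      intro a hA hA' t ht
      rw [hmemT]
      intro n
      have e1 : (⟨a * t * a⁻¹ * n * (a * t * a⁻¹)⁻¹, hN.conj_mem n n.2 (a * t * a⁻¹)⟩ : N) =
          ⟨a * ((⟨t * ((⟨a⁻¹ * n * a⁻¹⁻¹, hN.conj_mem n n.2 a⁻¹⟩ : N) : G) * t⁻¹,
            hN.conj_mem _ (Subtype.property _) t⟩ : N) : G) * a⁻¹,
            hN.conj_mem _ (Subtype.property _) a⟩ := Subtype.ext (by
        show a * t * a⁻¹ * n * (a * t * a⁻¹)⁻¹ = a * (t * (a⁻¹ * n * a⁻¹⁻¹) * t⁻¹) * a⁻¹
        group)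
      rw [e1, hA, (hmemT t).mp ht, hA', inv_inv]
    have hT1 : ∀ t ∈ T, h₀ * t * h₀⁻¹ ∈ T := hnorm h₀ hI1 hI2
    have hT2 : ∀ t : G, h₀ * t * h₀⁻¹ ∈ T → t ∈ T := by
      intro t ht
      have h1 := hnorm h₀⁻¹ hI2 (by
        intro n
        have := hI1 n
        simpa using this) _ ht
      have h2 : h₀⁻¹ * (h₀ * t * h₀⁻¹) * h₀⁻¹⁻¹ = t := by group
      rwa [h2] at h1
    have hcard : ∀ n : N, lam n ^ Nat.card N = 1 := by
      intro n
      rw [← map_pow, pow_card_eq_one', map_one]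
    have hcardne : Nat.card N ≠ 0 := Nat.card_pos.ne'
    have hext0 : ∀ y : G, conj (extendByZero T ψ y) = extendByZero T ψ (h₀ * y * h₀⁻¹) := by
      intro y
      by_cases hy : y ∈ T
      · rw [Helper4.extendByZero_apply_mem' T ψ hy,
          Helper4.extendByZero_apply_mem' T ψ (hT1 y hy)]
        show conj (((lamT ⟨y, hy⟩ : ℂˣ) : ℂ)) = ((lamT ⟨h₀ * y * h₀⁻¹, hT1 y hy⟩ : ℂˣ) : ℂ)
        rw [hlamT, hlamT]
        obtain ⟨h, hh, e⟩ := hπ y
        have e2 : h₀ * y * h₀⁻¹ =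
            ((⟨h₀ * (π y : G) * h₀⁻¹, hN.conj_mem _ (π y).2 h₀⟩ : N) : G) * (h₀ * h * h₀⁻¹) := by
          conv_lhs => rw [e]
          group
        have e3 : π (h₀ * y * h₀⁻¹) = ⟨h₀ * (π y : G) * h₀⁻¹, hN.conj_mem _ (π y).2 h₀⟩ := by
          rw [e2]
          exact hπ' _ _ (H.mul_mem (H.mul_mem hh₀ hh) (H.inv_mem hh₀))
        show conj (((lam (π y) : ℂˣ) : ℂ)) = ((lam (π (h₀ * y * h₀⁻¹)) : ℂˣ) : ℂ)
        rw [e3, hI1, conj_unit _ _ hcardne (hcard _)]
      · rw [Helper4.extendByZero_apply_not_mem T ψ hy,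
          Helper4.extendByZero_apply_not_mem T ψ (fun h => hy (hT2 y h)), map_zero]
    intro g
    apply Complex.conj_eq_iff_im.mp
    show conj (indFun T ψ g) = indFun T ψ g
    rw [Helper4.indFun_apply, map_mul, map_inv₀, map_natCast, map_sum]
    congr 1
    rw [← Equiv.sum_comp (Equiv.mulRight h₀⁻¹) (fun x => extendByZero T ψ (x⁻¹ * g * x))]
    refine Finset.sum_congr rfl fun x _ => ?_
    rw [hext0, Equiv.coe_mulRight]
    congr 1
    group
  · -- degree
    have h1 : indFun T ψ 1 = (T.index : ℂ) := by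
      rw [Helper83.indFun_one]
      have : ψ 1 = 1 := by
        show ((lamT 1 : ℂˣ) : ℂ) = 1
        rw [map_one]; rfl
      rw [this, mul_one]
    show charDegree (indFun T ψ) = T.index
    unfold charDegree
    rw [h1]
    simp

end Key

section Dvd

variable {G : Type u} [Group G] [Finite G] (N : Subgroup G) [hN : N.Normal]

theorem dvd_index_inertia (p : ℕ) [Fact p.Prime] (P : Sylow p G)
    (hD : ∀ μ : N →* ℂˣ, (∀ x ∈ (P : Subgroup G), ∀ n : N,
      μ ⟨x * n * x⁻¹, hN.conj_mem n n.2 x⟩ = μ n) → ∀ n : N, μ n = 1)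
    (lam : N →* ℂˣ) (hnt : ∃ n : N, lam n ≠ 1) :
    p ∣ (Helper20.inertia N (fun n : N => ((lam n : ℂˣ) : ℂ))).index := by
  by_contra hnd
  obtain ⟨Q, hQ⟩ := Helper81.exists_sylow_le_of_not_dvd_index p _ hnd
  obtain ⟨g, hg⟩ := MulAction.exists_smul_eq G P Q
  have hmemT : ∀ y : G, y ∈ Helper20.inertia N (fun n : N => ((lam n : ℂˣ) : ℂ)) →
      ∀ n : N, lam ⟨y * n * y⁻¹, hN.conj_mem n n.2 y⟩ = lam n := by
    intro y hy n
    rw [Helper20.mem_inertia] at hy
    have := congrFun hy n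
    rw [Helper20.conjFun_apply] at this
    exact Units.ext this
  have hconj : ∀ x ∈ (P : Subgroup G),
      g * x * g⁻¹ ∈ Helper20.inertia N (fun n : N => ((lam n : ℂˣ) : ℂ)) := by
    intro x hx
    apply hQ
    rw [← hg, Sylow.coe_subgroup_smul, Subgroup.mem_pointwise_smul_iff_inv_smul_mem]
    have : (MulAut.conj g)⁻¹ • (g * x * g⁻¹) = x := by
      simp [MulAut.smul_def, mul_assoc]
    rw [this]
    exact hx
  let μ : N →* ℂˣ := lam.comp (MulAut.conjNormal g : N ≃* N).toMonoidHom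
  have hμ : ∀ n : N, μ n = lam ⟨g * n * g⁻¹, hN.conj_mem n n.2 g⟩ := by
    intro n
    show lam ((MulAut.conjNormal g : N ≃* N) n) = _
    congr 1
  have h1 := hD μ (by
    intro x hx n
    rw [hμ, hμ]
    have h2 := hmemT _ (hconj x hx) ⟨g * n * g⁻¹, hN.conj_mem n n.2 g⟩
    rw [← h2]
    congr 1
    apply Subtype.ext
    show g * (x * n * x⁻¹) * g⁻¹ = g * x * g⁻¹ * (g * n * g⁻¹) * (g * x * g⁻¹)⁻¹
    group)
  obtain ⟨n, hn⟩ := hnt
  apply hn
  have h3 := h1 ⟨g⁻¹ * n * g⁻¹⁻¹, hN.conj_mem n n.2 g⁻¹⟩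
  rw [hμ] at h3
  rw [← h3]
  congr 1
  apply Subtype.ext
  show (n : G) = g * (g⁻¹ * n * g⁻¹⁻¹) * g⁻¹
  group

end Dvd

end Cfsg.Agent.Lib.Helper84.IN
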