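import Cfsg.Agent.Lib.Helper84.IN1
import Cfsg.Agent.Lib.Helper84.IN2

/-!
# Groups whose real irreducible characters have p'-degree (helper84): the real induced character

`key_real'`: in a split extension `G = N ⋊ H` with `N` abelian, a linear character `lam` of `N`
which some element of `G` maps to its inverse induces (from its canonical extension to the inertia
group) a real irreducible character of `G` of degree the index of the inertia group.
-/

set_option autoImplicit false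
set_option linter.unusedSectionVars false
set_option linter.unusedVariables false
set_option linter.style.haveILetI false

namespace Cfsg.Agent.Lib.Helper84.IN

open Cfsg
open scoped ComplexConjugate

universe u

/-- The image of the subgroup generated by the `q`-elements lies in the subgroup generated by the
`q`-elements of the quotient. -/
theorem map_gen_le {G : Type u} [Group G] (q : ℕ) (hq : q.Prime) (N : Subgroup G) [N.Normal] :
    (Subgroup.closure {g : G | ∃ k : ℕ, orderOf g = q ^ k}).map (QuotientGroup.mk' N) ≤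
      Subgroup.closure {g : G ⧸ N | ∃ k : ℕ, orderOf g = q ^ k} := by
  rw [MonoidHom.map_closure]
  apply Subgroup.closure_mono
  rintro _ ⟨x, ⟨k, hk⟩, rfl⟩
  have hd := orderOf_map_dvd (QuotientGroup.mk' N) x
  rw [hk] at hd
  obtain ⟨j, -, hj⟩ := (Nat.dvd_prime_pow hq).mp hd
  exact ⟨j, hj⟩

section Key

variable {G : Type u} [Group G] [Fintype G] (N : Subgroup G) [hN : N.Normal]

/-- A linear character inverted by an element acting on `N` as an involution. -/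
theorem exists_inverted_lam (hNab : ∀ a ∈ N, ∀ b ∈ N, a * b = b * a)
    (s : G) (hs2 : ∀ n ∈ N, s * (s * n * s⁻¹) * s⁻¹ = n)
    (n₀ : G) (hn₀ : n₀ ∈ N) (hne : s * n₀ * s⁻¹ ≠ n₀) :
    ∃ lam : N →* ℂˣ, (∃ n : N, lam n ≠ 1) ∧
      ∀ n : N, lam ⟨s * n * s⁻¹, hN.conj_mem n n.2 s⟩ = (lam n)⁻¹ := by
  classical
  letI : CommGroup N := { (inferInstance : Group N) with
    mul_comm := fun a b => Subtype.ext (hNab a a.2 b b.2) }
  let σ : N →* N := (MulAut.conjNormal s : N ≃* N).toMonoidHom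
  have hσ : ∀ n : N, ((σ n : N) : G) = s * n * s⁻¹ := fun n => MulAut.conjNormal_apply s n
  have ha : (σ ⟨n₀, hn₀⟩ * (⟨n₀, hn₀⟩ : N)⁻¹ : N) ≠ 1 := by
    intro h
    apply hne
    have h1 := mul_inv_eq_one.mp h
    have h2 := congrArg (fun x : N => (x : G)) h1
    simp only [hσ] at h2
    exact h2
  obtain ⟨φ, hφ⟩ := CommGroup.exists_apply_ne_one_of_hasEnoughRootsOfUnity N ℂ ha
  let lam : N →* ℂˣ := φ * (φ.comp σ)⁻¹
  have hlam : ∀ n : N, lam n = φ n * (φ (σ n))⁻¹ := fun n => rfl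
  have hσσ : ∀ n : N, σ (σ n) = n := fun n => Subtype.ext (by rw [hσ, hσ]; exact hs2 n n.2)
  refine ⟨lam, ⟨⟨n₀, hn₀⟩, ?_⟩, ?_⟩
  · rw [hlam]
    intro h
    apply hφ
    rw [map_mul, map_inv]
    have h1 := mul_inv_eq_one.mp h
    rw [h1, mul_inv_cancel]
  · intro n
    have h1 : (⟨s * n * s⁻¹, hN.conj_mem n n.2 s⟩ : N) = σ n := Subtype.ext (hσ n).symm
    rw [h1, hlam, hlam, hσσ, mul_inv_rev, inv_inv]

/-- A nontrivial linear character of an elementary abelian `2`-group is its own inverse. -/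
theorem exists_real_lam (hNab : ∀ a ∈ N, ∀ b ∈ N, a * b = b * a) (hN1 : N ≠ ⊥)
    (hexp : ∀ a ∈ N, a ^ 2 = 1) :
    ∃ lam : N →* ℂˣ, (∃ n : N, lam n ≠ 1) ∧
      ∀ n : N, lam ⟨1 * n * 1⁻¹, hN.conj_mem n n.2 1⟩ = (lam n)⁻¹ := by
  classical
  letI : CommGroup N := { (inferInstance : Group N) with
    mul_comm := fun a b => Subtype.ext (hNab a a.2 b b.2) }
  obtain ⟨n₀, hn₀, hn₀1⟩ : ∃ n₀ ∈ N, n₀ ≠ 1 := by
    by_contra hcon
    push Not at hcon
    exact hN1 ((Subgroup.eq_bot_iff_forall N).mpr hcon)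
  have ha : (⟨n₀, hn₀⟩ : N) ≠ 1 := fun h => hn₀1 (congrArg Subtype.val h)
  obtain ⟨φ, hφ⟩ := CommGroup.exists_apply_ne_one_of_hasEnoughRootsOfUnity N ℂ ha
  refine ⟨φ, ⟨_, hφ⟩, ?_⟩
  intro n
  have h1 : (⟨1 * n * 1⁻¹, hN.conj_mem n n.2 1⟩ : N) = n := Subtype.ext (by simp)
  rw [h1]
  have h2 : φ n * φ n = 1 := by
    rw [← map_mul]
    have : n * n = 1 := Subtype.ext (by
      have := hexp n n.2
      rw [pow_two] at this
      exact this)
    rw [this, map_one]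
  exact eq_inv_of_mul_eq_one_left h2

theorem key_real' (hNab : ∀ a ∈ N, ∀ b ∈ N, a * b = b * a)
    (H : Subgroup G) (hNH : N ⊓ H = ⊥) (hsup : N ⊔ H = ⊤)
    (lam : N →* ℂˣ) (s : G)
    (hinv : ∀ n : N, lam ⟨s * n * s⁻¹, hN.conj_mem n n.2 s⟩ = (lam n)⁻¹) :
    ∃ χ : IrrCharacter G, (∀ g : G, ((χ : G → ℂ) g).im = 0) ∧
      charDegree (χ : G → ℂ) =
        (Helper20.inertia N (fun n : N => ((lam n : ℂˣ) : ℂ))).index := by
  classical
  letI : Fintype N := Fintype.ofFinite N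
  -- the decomposition `G = N H`
  have hdec : ∀ g : G, ∃ n : N, ∃ h : G, h ∈ H ∧ g = n * h := by
    intro g
    have hg : g ∈ ((N ⊔ H : Subgroup G) : Set G) := by rw [hsup]; exact Subgroup.mem_top g
    rw [Subgroup.normal_mul] at hg
    obtain ⟨a, ha, b, hb, rfl⟩ := Set.mem_mul.mp hg
    exact ⟨⟨a, ha⟩, b, hb, rfl⟩
  have huniq : ∀ (n n' : N) (h h' : G), h ∈ H → h' ∈ H → (n : G) * h = n' * h' → n = n' := by
    intro n n' h h' hh hh' e
    have h1 : (n' : G)⁻¹ * n = h' * h⁻¹ := by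
      have : (n : G) = n' * h' * h⁻¹ := by rw [← e, mul_inv_cancel_right]
      rw [this]; group
    have h2 : (n' : G)⁻¹ * n ∈ N ⊓ H :=
      ⟨N.mul_mem (N.inv_mem n'.2) n.2, by rw [h1]; exact H.mul_mem hh' (H.inv_mem hh)⟩
    rw [hNH, Subgroup.mem_bot] at h2
    exact Subtype.ext (inv_mul_eq_one.mp h2).symm
  choose π hπ using hdec
  have hπ' : ∀ (n : N) (h : G), h ∈ H → π ((n : G) * h) = n := by
    intro n h hh
    obtain ⟨h', hh', e⟩ := hπ ((n : G) * h)
    exact (huniq n (π (n * h)) h h' hh hh' e).symm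
  have hπN : ∀ n : N, π (n : G) = n := by
    intro n
    have := hπ' n 1 H.one_mem
    rwa [mul_one] at this
  -- the inertia group
  set T := Helper20.inertia N (fun n : N => ((lam n : ℂˣ) : ℂ)) with hT
  have hmemT : ∀ g : G, g ∈ T ↔
      ∀ n : N, lam ⟨g * n * g⁻¹, hN.conj_mem n n.2 g⟩ = lam n := by
    intro g
    rw [hT, Helper20.mem_inertia]
    constructor
    · intro h n
      have := congrFun h n
      rw [Helper20.conjFun_apply] at this
      exact Units.ext this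
    · intro h
      funext n
      rw [Helper20.conjFun_apply]
      show ((lam _ : ℂˣ) : ℂ) = _
      rw [h n]
  have hNT : N ≤ T := by
    intro m hm
    rw [hmemT]
    intro n
    congr 1
    apply Subtype.ext
    show m * n * m⁻¹ = n
    rw [hNab m hm n n.2, mul_inv_cancel_right]
  have hHT : ∀ t : G, t ∈ T → ∀ h : G, t = (π t : G) * h → h ∈ T := by
    intro t ht h e
    have : h = ((π t : N) : G)⁻¹ * t := eq_inv_mul_of_mul_eq e.symm
    rw [this]
    exact T.mul_mem (T.inv_mem (hNT (π t).2)) ht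
  -- the canonical extension
  let lamT : T →* ℂˣ :=
    { toFun := fun t => lam (π t.1)
      map_one' := by
        show lam (π ((1 : T) : G)) = 1
        have : π (1 : G) = 1 := hπN 1
        rw [Subgroup.coe_one, this, map_one]
      map_mul' := by
        intro t₁ t₂
        show lam (π ((t₁ * t₂ : T) : G)) = lam (π t₁.1) * lam (π t₂.1)
        obtain ⟨h₁, hh₁, e₁⟩ := hπ t₁.1
        obtain ⟨h₂, hh₂, e₂⟩ := hπ t₂.1
        have hh₁T : h₁ ∈ T := hHT t₁.1 t₁.2 h₁ e₁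
        have e : ((t₁ * t₂ : T) : G) =
            ((π t₁.1 * ⟨h₁ * (π t₂.1 : G) * h₁⁻¹, hN.conj_mem _ (π t₂.1).2 h₁⟩ : N) : G) *
              (h₁ * h₂) := by
          rw [Subgroup.coe_mul]
          conv_lhs => rw [e₁, e₂]
          simp only [Subgroup.coe_mul]
          group
        rw [e, hπ' _ _ (H.mul_mem hh₁ hh₂), map_mul]
        congr 1
        exact (hmemT h₁).mp hh₁T (π t₂.1) }
  have hlamT : ∀ t : T, lamT t = lam (π t.1) := fun t => rfl
  set ψ : T → ℂ := fun t => ((lamT t : ℂˣ) : ℂ) with hψdef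
  have hψ : IsIrrCharacter T ψ := Helper83.isIrr_of_hom lamT
  have hlamirr : IsIrrCharacter N (fun n : N => ((lam n : ℂˣ) : ℂ)) := Helper83.isIrr_of_hom lam
  have hext : ∀ n : N, ψ (Subgroup.inclusion hNT n) = ((lam n : ℂˣ) : ℂ) := by
    intro n
    show ((lamT (Subgroup.inclusion hNT n) : ℂˣ) : ℂ) = _
    rw [hlamT]
    show ((lam (π (n : G)) : ℂˣ) : ℂ) = _
    rw [hπN]
  have hχirr : IsIrrCharacter G (indFun T ψ) :=
    ind_ext_irr N T hNT (fun n : N => ((lam n : ℂˣ) : ℂ)) hlamirr (fun g => Iff.rfl) ψ hψ hext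
  refine ⟨⟨indFun T ψ, hχirr⟩, ?_, ?_⟩
  · -- real
    obtain ⟨h₀, hh₀, es⟩ := hπ s
    have hact : ∀ n : N, h₀ * n * h₀⁻¹ = s * n * s⁻¹ := by
      intro n
      have h1 : h₀ = ((π s : N) : G)⁻¹ * s := eq_inv_mul_of_mul_eq es.symm
      have h2 := hNab (π s) (π s).2 (s * n * s⁻¹) (hN.conj_mem n n.2 s)
      have h3 : h₀ * n * h₀⁻¹ = ((π s : N) : G)⁻¹ * ((s * n * s⁻¹) * (π s : N)) := by
        rw [h1]; group
      rw [h3, ← h2, inv_mul_cancel_left]
    have hI1 : ∀ n : N, lam ⟨h₀ * n * h₀⁻¹, hN.conj_mem n n.2 h₀⟩ = (lam n)⁻¹ := by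
      intro n
      rw [← hinv n]
      congr 1
      exact Subtype.ext (hact n)
    have hI2 : ∀ n : N, lam ⟨h₀⁻¹ * n * h₀⁻¹⁻¹, hN.conj_mem n n.2 h₀⁻¹⟩ = (lam n)⁻¹ := by
      intro n
      have h1 := hI1 ⟨h₀⁻¹ * n * h₀⁻¹⁻¹, hN.conj_mem n n.2 h₀⁻¹⟩
      have h2 : (⟨h₀ * ((⟨h₀⁻¹ * n * h₀⁻¹⁻¹, hN.conj_mem n n.2 h₀⁻¹⟩ : N) : G) * h₀⁻¹,
          hN.conj_mem _ (Subtype.property _) h₀⟩ : N) = n := Subtype.ext (by
        show h₀ * (h₀⁻¹ * n * h₀⁻¹⁻¹) * h₀⁻¹ = n
        group)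
      rw [h2] at h1
      exact inv_eq_iff_eq_inv.mp h1.symm
    have hnorm : ∀ a : G, (∀ n : N, lam ⟨a * n * a⁻¹, hN.conj_mem n n.2 a⟩ = (lam n)⁻¹) →
        (∀ n : N, lam ⟨a⁻¹ * n * a⁻¹⁻¹, hN.conj_mem n n.2 a⁻¹⟩ = (lam n)⁻¹) →
        ∀ t ∈ T, a * t * a⁻¹ ∈ T := by
      intro a hA hA' t ht
      rw [hmemT]
      intro n
      have e1 : (⟨a * t * a⁻¹ * n * (a * t * a⁻¹)⁻¹, hN.conj_mem n n.2 (a * t * a⁻¹)⟩ : N) =
          ⟨a * ((⟨t * ((⟨a⁻¹ * n * a⁻¹⁻¹, hN.conj_mem n n.2 a⁻¹⟩ : N) : G) * t⁻¹,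
            hN.conj_mem _ (Subtype.property _) t⟩ : N) : G) * a⁻¹,
            hN.conj_mem _ (Subtype.property _) a⟩ := Subtype.ext (by
        show a * t * a⁻¹ * n * (a * t * a⁻¹)⁻¹ = a * (t * (a⁻¹ * n * a⁻¹⁻¹) * t⁻¹) * a⁻¹
        group)
      rw [e1, hA, (hmemT t).mp ht, hA', inv_inv]
    have hT1 : ∀ t ∈ T, h₀ * t * h₀⁻¹ ∈ T := hnorm h₀ hI1 hI2
    have hT2 : ∀ t : G, h₀ * t * h₀⁻¹ ∈ T → t ∈ T := by
      intro t ht
      have h1 := hnorm h₀⁻¹ hI2 (by
        intro n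
        have := hI1 n
        simpa using this) _ ht
      have h2 : h₀⁻¹ * (h₀ * t * h₀⁻¹) * h₀⁻¹⁻¹ = t := by group
      rwa [h2] at h1
    have hcard : ∀ n : N, lam n ^ Nat.card N = 1 := by
      intro n
      rw [← map_pow, pow_card_eq_one', map_one]
    have hcardne : Nat.card N ≠ 0 := Nat.card_pos.ne'
    have hext0 : ∀ y : G, conj (extendByZero T ψ y) = extendByZero T ψ (h₀ * y * h₀⁻¹) := by
      intro y
      by_cases hy : y ∈ T
      · rw [Helper4.extendByZero_apply_mem' T ψ hy,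
          Helper4.extendByZero_apply_mem' T ψ (hT1 y hy)]
        show conj (((lamT ⟨y, hy⟩ : ℂˣ) : ℂ)) = ((lamT ⟨h₀ * y * h₀⁻¹, hT1 y hy⟩ : ℂˣ) : ℂ)
        rw [hlamT, hlamT]
        obtain ⟨h, hh, e⟩ := hπ y
        have e2 : h₀ * y * h₀⁻¹ =
            ((⟨h₀ * (π y : G) * h₀⁻¹, hN.conj_mem _ (π y).2 h₀⟩ : N) : G) * (h₀ * h * h₀⁻¹) := by
          conv_lhs => rw [e]
          group
        have e3 : π (h₀ * y * h₀⁻¹) = ⟨h₀ * (π y : G) * h₀⁻¹, hN.conj_mem _ (π y).2 h₀⟩ := by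
          rw [e2]
          exact hπ' _ _ (H.mul_mem (H.mul_mem hh₀ hh) (H.inv_mem hh₀))
        show conj (((lam (π y) : ℂˣ) : ℂ)) = ((lam (π (h₀ * y * h₀⁻¹)) : ℂˣ) : ℂ)
        rw [e3, hI1, conj_unit _ _ hcardne (hcard _)]
      · rw [Helper4.extendByZero_apply_not_mem T ψ hy,
          Helper4.extendByZero_apply_not_mem T ψ (fun h => hy (hT2 y h)), map_zero]
    intro g
    apply Complex.conj_eq_iff_im.mp
    show conj (indFun T ψ g) = indFun T ψ g
    rw [Helper4.indFun_apply, map_mul, map_inv₀, map_natCast, map_sum]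
    congr 1
    rw [← Equiv.sum_comp (Equiv.mulRight h₀⁻¹) (fun x => extendByZero T ψ (x⁻¹ * g * x))]
    refine Finset.sum_congr rfl fun x _ => ?_
    rw [hext0, Equiv.coe_mulRight]
    congr 1
    group
  · -- degree
    have h1 : indFun T ψ 1 = (T.index : ℂ) := by
      rw [Helper83.indFun_one]
      have : ψ 1 = 1 := by
        show ((lamT 1 : ℂˣ) : ℂ) = 1
        rw [map_one]; rfl
      rw [this, mul_one]
    show charDegree (indFun T ψ) = T.index
    unfold charDegree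
    rw [h1]
    simp

end Key

end Cfsg.Agent.Lib.Helper84.IN
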