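import Cfsg.Agent.Lib.Helper84.IN3
import Cfsg.Agent.Lib.Helper84.IN4

/-!
# Groups whose real irreducible characters have p'-degree (helper84): the `p`-part above `O^{2'}`

If `U` is normal in `G` and `U` is a `p`-group modulo the subgroup generated by the `2`-elements,
then the `p`-elements of `U` lie in a normal `p`-subgroup of `G`; hence `U` has a normal Sylow
`p`-subgroup.
-/

set_option autoImplicit false
set_option linter.unusedSectionVars false
set_option linter.unusedVariables false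
set_option linter.style.haveILetI false

namespace Cfsg.Agent.Lib.Helper84.IN

open Cfsg

universe u

theorem eq_one_of_orders {G : Type u} [Group G] {p r : ℕ} (hp : p.Prime) (hr : r.Prime)
    (hrp : r ≠ p) (x : G) (k j : ℕ) (h1 : x ^ p ^ k = 1) (h2 : x ^ r ^ j = 1) : x = 1 := by
  have d1 := orderOf_dvd_of_pow_eq_one h1
  have d2 := orderOf_dvd_of_pow_eq_one h2
  have hcop : Nat.Coprime (p ^ k) (r ^ j) :=
    Nat.Coprime.pow k j ((Nat.coprime_primes hp hr).mpr (Ne.symm hrp))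
  have : orderOf x = 1 := (hcop.coprime_dvd_left d1).eq_one_of_dvd d2
  exact orderOf_eq_one_iff.mp this

/-- The Frattini configuration: `G = N_G(P₁) N` with `N` an abelian minimal normal subgroup not
normalizing `P₁`. -/
theorem frattini_split {G : Type u} [Group G] (N : Subgroup G) [hNn : N.Normal]
    (hmin : ∀ K : Subgroup G, K.Normal → K ≤ N → K = ⊥ ∨ K = N)
    (hNab : ∀ a ∈ N, ∀ b ∈ N, a * b = b * a)
    (P₁ : Subgroup G) (hF : Subgroup.normalizer (P₁ : Set G) ⊔ N = ⊤)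
    (hNH : ¬ N ≤ Subgroup.normalizer (P₁ : Set G)) :
    (∀ g : G, ∃ h ∈ Subgroup.normalizer (P₁ : Set G), ∃ m ∈ N, g = h * m) ∧
    N ⊓ Subgroup.normalizer (P₁ : Set G) = ⊥ ∧
    (∀ μ : N →* ℂˣ, (∀ x ∈ P₁, ∀ n : N,
      μ ⟨x * n * x⁻¹, hNn.conj_mem n n.2 x⟩ = μ n) → ∀ n : N, μ n = 1) := by
  set H := Subgroup.normalizer (P₁ : Set G) with hH
  have hdec : ∀ g : G, ∃ h ∈ H, ∃ m ∈ N, g = h * m := by
    intro g
    have hg : g ∈ ((H ⊔ N : Subgroup G) : Set G) := by rw [hF]; exact Subgroup.mem_top g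
    rw [Subgroup.mul_normal] at hg
    obtain ⟨a, ha, b, hb, rfl⟩ := Set.mem_mul.mp hg
    exact ⟨a, ha, b, hb, rfl⟩
  have hNH0 : N ⊓ H = ⊥ := by
    have hnorm : (N ⊓ H).Normal := by
      constructor
      intro x hx g
      obtain ⟨h, hh, m, hm, rfl⟩ := hdec g
      have hx1 : h * m * x * (h * m)⁻¹ = h * x * h⁻¹ := by
        have := hNab m hm x hx.1
        have e : h * m * x * (h * m)⁻¹ = h * (m * x * m⁻¹) * h⁻¹ := by group
        rw [e, this, mul_inv_cancel_right]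
      rw [hx1]
      exact ⟨hNn.conj_mem x hx.1 h, H.mul_mem (H.mul_mem hh hx.2) (H.inv_mem hh)⟩
    rcases hmin _ hnorm inf_le_left with h | h
    · exact h
    · exact absurd (inf_eq_left.mp h) hNH
  refine ⟨hdec, hNH0, ?_⟩
  set D := Subgroup.closure
    {d : G | ∃ x ∈ P₁, ∃ m ∈ N, d = x * m * x⁻¹ * m⁻¹} with hD
  have hDN : D ≤ N := by
    rw [hD, Subgroup.closure_le]
    rintro _ ⟨x, hx, m, hm, rfl⟩
    exact N.mul_mem (hNn.conj_mem m hm x) (N.inv_mem hm)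
  have hDn : D.Normal := by
    apply closure_normal_of_conj
    rintro g _ ⟨x, hx, m, hm, rfl⟩
    obtain ⟨h, hh, m', hm', rfl⟩ := hdec g
    have hdN : x * m * x⁻¹ * m⁻¹ ∈ N := N.mul_mem (hNn.conj_mem m hm x) (N.inv_mem hm)
    have e1 : h * m' * (x * m * x⁻¹ * m⁻¹) * (h * m')⁻¹ =
        h * (x * m * x⁻¹ * m⁻¹) * h⁻¹ := by
      have := hNab m' hm' _ hdN
      have e : h * m' * (x * m * x⁻¹ * m⁻¹) * (h * m')⁻¹ =
          h * (m' * (x * m * x⁻¹ * m⁻¹) * m'⁻¹) * h⁻¹ := by group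
      rw [e, this, mul_inv_cancel_right]
    refine ⟨h * x * h⁻¹, (Subgroup.mem_normalizer_iff.mp hh x).mp hx, h * m * h⁻¹,
      hNn.conj_mem m hm h, ?_⟩
    rw [e1]; group
  have hD1 : D ≠ ⊥ := by
    intro hD0
    apply hNH
    intro m hm
    rw [Subgroup.mem_normalizer_iff]
    have hcomm : ∀ x ∈ P₁, m * x * m⁻¹ = x := by
      intro x hx
      have h1 : x * m * x⁻¹ * m⁻¹ ∈ D :=
        Subgroup.subset_closure ⟨x, hx, m, hm, rfl⟩
      rw [hD0, Subgroup.mem_bot] at h1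
      have : m * x * m⁻¹ = (x * m * x⁻¹ * m⁻¹)⁻¹ * x := by group
      rw [this, h1, inv_one, one_mul]
    intro x
    constructor
    · intro hx; rw [hcomm x hx]; exact hx
    · intro hx
      have h2 := hcomm (m * x * m⁻¹) hx
      have h4 : m⁻¹ * (m * (m * x * m⁻¹) * m⁻¹) * m = m⁻¹ * (m * x * m⁻¹) * m := by rw [h2]
      have e5 : m⁻¹ * (m * (m * x * m⁻¹) * m⁻¹) * m = m * x * m⁻¹ := by group
      have e6 : m⁻¹ * (m * x * m⁻¹) * m = x := by group
      rw [e5, e6] at h4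
      rw [← h4]; exact hx
  have hDeq : D = N := (hmin D hDn hDN).resolve_left hD1
  intro μ hμ n
  have hle : D ≤ (μ.ker).map N.subtype := by
    rw [hD, Subgroup.closure_le]
    rintro _ ⟨x, hx, m, hm, rfl⟩
    refine ⟨⟨x * m * x⁻¹, hNn.conj_mem m hm x⟩ * (⟨m, hm⟩ : N)⁻¹, ?_, rfl⟩
    show _ ∈ μ.ker
    rw [MonoidHom.mem_ker, map_mul, map_inv, hμ x hx ⟨m, hm⟩, mul_inv_cancel]
  have h1 : (n : G) ∈ (μ.ker).map N.subtype := hle (by rw [hDeq]; exact n.2)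
  obtain ⟨n', hn', e⟩ := h1
  have : n' = n := Subtype.ext e
  rw [← this]; exact MonoidHom.mem_ker.mp hn'

/-- A `2`-element not centralizing `N` has a power acting on `N` as an involution. -/
theorem exists_invol_action {G : Type u} [Group G] (N : Subgroup G) (t : G) (k : ℕ)
    (hk : orderOf t = 2 ^ k) (htC : t ∉ Subgroup.centralizer (N : Set G)) :
    ∃ s : G, (∀ m ∈ N, s * (s * m * s⁻¹) * s⁻¹ = m) ∧ ∃ n₀ ∈ N, s * n₀ * s⁻¹ ≠ n₀ := by
  classical
  have hfind : ∃ i : ℕ, t ^ 2 ^ i ∈ Subgroup.centralizer (N : Set G) :=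
    ⟨k, by rw [← hk, pow_orderOf_eq_one]; exact Subgroup.one_mem _⟩
  have hi₀spec : t ^ 2 ^ (Nat.find hfind) ∈ Subgroup.centralizer (N : Set G) :=
    Nat.find_spec hfind
  have hi₀pos : Nat.find hfind ≠ 0 := by
    intro h0
    rw [h0, pow_zero, pow_one] at hi₀spec
    exact htC hi₀spec
  obtain ⟨j, hj⟩ := Nat.exists_eq_succ_of_ne_zero hi₀pos
  have hsC : t ^ 2 ^ j ∉ Subgroup.centralizer (N : Set G) :=
    Nat.find_min hfind (by rw [hj]; exact Nat.lt_succ_self j)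
  have hs2C : t ^ 2 ^ j * t ^ 2 ^ j ∈ Subgroup.centralizer (N : Set G) := by
    have : t ^ 2 ^ j * t ^ 2 ^ j = t ^ 2 ^ (Nat.find hfind) := by
      rw [hj, ← pow_add, pow_succ, mul_two]
    rw [this]; exact hi₀spec
  refine ⟨t ^ 2 ^ j, ?_, ?_⟩
  · intro m hm
    have hc := Subgroup.mem_centralizer_iff.mp hs2C m hm
    have e : t ^ 2 ^ j * (t ^ 2 ^ j * m * (t ^ 2 ^ j)⁻¹) * (t ^ 2 ^ j)⁻¹ =
        (t ^ 2 ^ j * t ^ 2 ^ j) * m * (t ^ 2 ^ j * t ^ 2 ^ j)⁻¹ := by group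
    rw [e, ← hc, mul_inv_cancel_right]
  · by_contra hcon
    push Not at hcon
    apply hsC
    rw [Subgroup.mem_centralizer_iff]
    intro m hm
    have := hcon m hm
    calc m * t ^ 2 ^ j = (t ^ 2 ^ j * m * (t ^ 2 ^ j)⁻¹) * t ^ 2 ^ j := by rw [this]
      _ = t ^ 2 ^ j * m := by group

theorem core2 (p : ℕ) [Fact p.Prime] : ∀ (n : ℕ) (G : Type u) [Group G] [Finite G],
    Nat.card G = n →
    Group.IsSolvable ↥(Subgroup.closure {g : G | ∃ k : ℕ, orderOf g = p ^ k}) →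
    (∀ χ : IrrCharacter G, (∀ g : G, ((χ : G → ℂ) g).im = 0) →
      ¬ p ∣ charDegree (χ : G → ℂ)) →
    ∀ U : Subgroup G, U.Normal →
      (∀ u ∈ U, ∃ k : ℕ, u ^ p ^ k ∈
        Subgroup.closure {g : G | ∃ k : ℕ, orderOf g = 2 ^ k}) →
      ∃ R : Subgroup G, R.Normal ∧ IsPGroup p R ∧
        ∀ u ∈ U, (∃ k : ℕ, orderOf u = p ^ k) → u ∈ R := by
  intro n
  induction n using Nat.strong_induction_on with
  | _ n ih =>
  intro G _ _ hcard hsolv hreal U hUn hUK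
  classical
  have hp : p.Prime := Fact.out
  by_cases hL1 : Subgroup.closure {g : G | ∃ k : ℕ, orderOf g = p ^ k} = ⊥
  · refine ⟨⊥, inferInstance, IsPGroup.of_bot, ?_⟩
    intro u hu hk
    rw [← hL1]
    exact Subgroup.subset_closure hk
  have hLn := Oq_normal (G := G) p
  obtain ⟨N, hNL, hNn, hN1, hmin⟩ := Helper13.exists_minimal_normal_le _ hLn hL1
  haveI : Group.IsSolvable ↥N :=
    Group.isSolvable_of_isSolvable_injective (Subgroup.inclusion_injective hNL)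
  obtain ⟨r, hr, hrdvd, hNab, hexp, hNr⟩ := Helper13.minimal_normal_solvable N hNn hN1 hmin
  haveI := hNn
  haveI := hUn
  haveI : Fact r.Prime := ⟨hr⟩
  have hlt : Nat.card (G ⧸ N) < n := by
    rw [← hcard, ← Subgroup.index_eq_card, ← Subgroup.card_mul_index N]
    have h1 := (Subgroup.one_lt_card_iff_ne_bot N).mpr hN1
    have h2 : 0 < N.index := Nat.pos_of_ne_zero Subgroup.index_ne_zero_of_finite
    nlinarith
  have hUbar : ∀ ū ∈ U.map (QuotientGroup.mk' N), ∃ k : ℕ, ū ^ p ^ k ∈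
      Subgroup.closure {g : G ⧸ N | ∃ k : ℕ, orderOf g = 2 ^ k} := by
    rintro _ ⟨u, hu, rfl⟩
    obtain ⟨k, hk⟩ := hUK u hu
    refine ⟨k, ?_⟩
    rw [← map_pow]
    exact map_gen_le 2 Nat.prime_two N (Subgroup.mem_map_of_mem _ hk)
  obtain ⟨Rbar, hRn, hRp, hRU⟩ := ih _ hlt (G ⧸ N) rfl (solvable_quotient p hp N hsolv)
    (real_quotient p N hreal) (U.map (QuotientGroup.mk' N))
    (hUn.map _ (QuotientGroup.mk'_surjective N)) hUbar
  set W := Rbar.comap (QuotientGroup.mk' N) with hW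
  have hWn : W.Normal := hRn.comap _
  haveI := hWn
  have hNW : N ≤ W := by
    intro x hx
    show (QuotientGroup.mk' N) x ∈ Rbar
    have : (QuotientGroup.mk' N) x = 1 := (QuotientGroup.eq_one_iff x).mpr hx
    rw [this]; exact Rbar.one_mem
  have hWp : ∀ w ∈ W, ∃ k : ℕ, w ^ p ^ k ∈ N := by
    intro w hw
    have hw' : (QuotientGroup.mk' N) w ∈ Rbar := hw
    obtain ⟨k, hk⟩ := hRp ⟨_, hw'⟩
    refine ⟨k, ?_⟩
    have h1 := congrArg Subtype.val hk
    rw [Subgroup.coe_pow, Subgroup.coe_one] at h1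
    apply (QuotientGroup.eq_one_iff (w ^ p ^ k)).mp
    rw [← h1]; rfl
  have hUW : ∀ u ∈ U, (∃ k : ℕ, orderOf u = p ^ k) → u ∈ W := by
    intro u hu ⟨k, hk⟩
    apply hRU _ (Subgroup.mem_map_of_mem _ hu)
    have hd := orderOf_map_dvd (QuotientGroup.mk' N) u
    rw [hk] at hd
    obtain ⟨j, -, hj⟩ := (Nat.dvd_prime_pow hp).mp hd
    exact ⟨j, hj⟩
  have hW₁n : (W ⊓ U).Normal := Subgroup.normal_inf_normal W U
  haveI := hW₁n
  rcases hmin (N ⊓ (W ⊓ U)) (Subgroup.normal_inf_normal N (W ⊓ U)) inf_le_left with h0 | hN'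
  · refine ⟨W ⊓ U, hW₁n, ?_, fun u hu hk => ⟨hUW u hu hk, hu⟩⟩
    rintro ⟨w, hw⟩
    obtain ⟨k, hk⟩ := hWp w hw.1
    have : w ^ p ^ k ∈ N ⊓ (W ⊓ U) := ⟨hk, (W ⊓ U).pow_mem hw _⟩
    rw [h0, Subgroup.mem_bot] at this
    exact ⟨k, Subtype.ext this⟩
  have hNW₁ : N ≤ W ⊓ U := inf_eq_left.mp hN'
  by_cases hrp : r = p
  · refine ⟨W, hWn, ?_, hUW⟩
    rintro ⟨w, hw⟩
    obtain ⟨k, hk⟩ := hWp w hw
    obtain ⟨j, hj⟩ := hNr ⟨_, hk⟩
    refine ⟨k + j, Subtype.ext ?_⟩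
    have h1 := congrArg Subtype.val hj
    rw [Subgroup.coe_pow, Subgroup.coe_one, hrp] at h1
    rw [Subgroup.coe_pow, Subgroup.coe_one, pow_add, pow_mul]
    exact h1
  obtain ⟨Q₁⟩ : Nonempty (Sylow p ↥(W ⊓ U)) := inferInstance
  set P₁ := (Q₁ : Subgroup ↥(W ⊓ U)).map (W ⊓ U).subtype with hP₁def
  have hP₁p : IsPGroup p P₁ := Q₁.isPGroup'.map _
  have hP₁W : P₁ ≤ W ⊓ U := Subgroup.map_subtype_le _
  have hF₀ : Subgroup.normalizer (P₁ : Set G) ⊔ (W ⊓ U) = ⊤ := Sylow.normalizer_sup_eq_top Q₁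
  obtain ⟨P, hP₁P⟩ := hP₁p.exists_le_sylow
  have hmaxQ : ((P : Subgroup G) ⊓ (W ⊓ U)).subgroupOf (W ⊓ U) = (Q₁ : Subgroup ↥(W ⊓ U)) := by
    apply Q₁.is_maximal' ((P.isPGroup'.to_le inf_le_left).comap_subtype)
    intro q hq
    show ((q : ↥(W ⊓ U)) : G) ∈ (P : Subgroup G) ⊓ (W ⊓ U)
    exact ⟨hP₁P (Subgroup.mem_map_of_mem _ hq), q.2⟩
  have hdecW : ∀ w ∈ W ⊓ U, ∃ x ∈ P₁, x⁻¹ * w ∈ N := by
    intro w hw
    have hWbar_le : (W ⊓ U).map (QuotientGroup.mk' N) ≤ Rbar := by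
      rintro _ ⟨y, hy, rfl⟩
      exact hy.1
    haveI : ((W ⊓ U).map (QuotientGroup.mk' N)).Normal :=
      hW₁n.map _ (QuotientGroup.mk'_surjective N)
    have hle := IsPGroup.le_sylow_of_normal (hRp.to_le hWbar_le)
      (Sylow.mapSurjective (QuotientGroup.mk'_surjective N) P)
    have hmem := hle (Subgroup.mem_map_of_mem _ hw)
    rw [Sylow.coe_mapSurjective] at hmem
    obtain ⟨x, hxP, hxw⟩ := Subgroup.mem_map.mp hmem
    have hxN : x⁻¹ * w ∈ N := by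
      apply (QuotientGroup.eq_one_iff (x⁻¹ * w)).mp
      have : ((x⁻¹ * w : G) : G ⧸ N) =
          ((QuotientGroup.mk' N) x)⁻¹ * (QuotientGroup.mk' N) w := rfl
      rw [this, hxw, inv_mul_cancel]
    have hxW : x ∈ W ⊓ U := by
      have : x = w * (x⁻¹ * w)⁻¹ := by group
      rw [this]
      exact (W ⊓ U).mul_mem hw ((W ⊓ U).inv_mem (hNW₁ hxN))
    have hxQ : (⟨x, hxW⟩ : ↥(W ⊓ U)) ∈ (Q₁ : Subgroup ↥(W ⊓ U)) := by
      rw [← hmaxQ, Subgroup.mem_subgroupOf]; exact ⟨hxP, hxW⟩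
    exact ⟨x, Subgroup.mem_map.mpr ⟨⟨x, hxW⟩, hxQ, rfl⟩, hxN⟩
  have hF : Subgroup.normalizer (P₁ : Set G) ⊔ N = ⊤ := by
    rw [eq_top_iff, ← hF₀]
    apply sup_le le_sup_left
    intro w hw
    obtain ⟨x, hx, hxN⟩ := hdecW w hw
    have : w = x * (x⁻¹ * w) := by group
    rw [this]
    exact Subgroup.mul_mem _ (Subgroup.mem_sup_left (Subgroup.le_normalizer hx))
      (Subgroup.mem_sup_right hxN)
  by_cases hNH : N ≤ Subgroup.normalizer (P₁ : Set G)
  · rw [sup_of_le_left hNH] at hF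
    have hP₁n : P₁.Normal := Subgroup.normalizer_eq_top_iff.mp hF
    refine ⟨P₁, hP₁n, hP₁p, ?_⟩
    intro u hu ⟨k, hk⟩
    have huW : u ∈ W ⊓ U := ⟨hUW u hu ⟨k, hk⟩, hu⟩
    obtain ⟨x, hx, hxN⟩ := hdecW u huW
    haveI := hP₁n
    have e1 : ((u : G) : G ⧸ P₁) = ((x⁻¹ * u : G) : G ⧸ P₁) := by
      rw [QuotientGroup.mk_mul, QuotientGroup.mk_inv, (QuotientGroup.eq_one_iff x).mpr hx,
        inv_one, one_mul]
    have h1 : ((u : G) : G ⧸ P₁) ^ p ^ k = 1 := by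
      rw [← QuotientGroup.mk_pow, ← hk, pow_orderOf_eq_one]; rfl
    obtain ⟨j, hj⟩ := hNr ⟨_, hxN⟩
    have h2 : ((u : G) : G ⧸ P₁) ^ r ^ j = 1 := by
      rw [e1, ← QuotientGroup.mk_pow]
      have := congrArg Subtype.val hj
      rw [Subgroup.coe_pow, Subgroup.coe_one] at this
      rw [this]; rfl
    have h3 := eq_one_of_orders hp hr hrp _ k j h1 h2
    exact (QuotientGroup.eq_one_iff u).mp h3
  exfalso
  obtain ⟨hdec, hNH0, hDchar⟩ := frattini_split N hmin hNab P₁ hF hNH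
  have hNK : N ≤ Subgroup.closure {g : G | ∃ k : ℕ, orderOf g = 2 ^ k} := by
    intro m hm
    obtain ⟨k, hk⟩ := hUK m (hNW₁ hm).2
    obtain ⟨j, hj⟩ := (IsPGroup.iff_orderOf.mp hNr) ⟨m, hm⟩
    have hord : orderOf m = r ^ j := by
      rw [← hj]; exact Subgroup.orderOf_coe (⟨m, hm⟩ : N)
    have hcop : (p ^ k).Coprime (orderOf m) := by
      rw [hord]
      exact Nat.Coprime.pow k j ((Nat.coprime_primes hp hr).mpr (Ne.symm hrp))
    obtain ⟨e, he⟩ := exists_pow_eq_self_of_coprime hcop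
    rw [← he]; exact Subgroup.pow_mem _ hk e
  letI := Fintype.ofFinite G
  have hfin : ∃ (lam : N →* ℂˣ) (s : G), (∃ n : N, lam n ≠ 1) ∧
      ∀ n : N, lam ⟨s * n * s⁻¹, hNn.conj_mem n n.2 s⟩ = (lam n)⁻¹ := by
    by_cases hex : ∃ t : G, (∃ k : ℕ, orderOf t = 2 ^ k) ∧
        t ∉ Subgroup.centralizer (N : Set G)
    · obtain ⟨t, ⟨k, hk⟩, htC⟩ := hex
      obtain ⟨s, hs2, n₀, hn₀, hne⟩ := exists_invol_action N t k hk htC
      obtain ⟨lam, hnt, hinv⟩ := exists_inverted_lam N hNab s hs2 n₀ hn₀ hne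
      exact ⟨lam, s, hnt, hinv⟩
    · push Not at hex
      have hr2 : r = 2 := by
        by_contra hr2
        apply hNH
        have hKH : Subgroup.closure {g : G | ∃ k : ℕ, orderOf g = 2 ^ k} ≤
            Subgroup.normalizer (P₁ : Set G) := by
          rw [Subgroup.closure_le]
          rintro t ⟨k, hk⟩
          obtain ⟨h, hh, m, hm, rfl⟩ := hdec t
          have hc := Subgroup.mem_centralizer_iff.mp (hex (h * m) ⟨k, hk⟩) m hm
          have hcomm : Commute h m := by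
            have e : m * h * m = h * m * m := by rw [mul_assoc, hc]
            exact (mul_right_cancel e).symm
          have hpow : (h * m) ^ 2 ^ k = 1 := by rw [← hk, pow_orderOf_eq_one]
          rw [hcomm.mul_pow] at hpow
          have hm2 : m ^ 2 ^ k ∈ N ⊓ Subgroup.normalizer (P₁ : Set G) :=
            ⟨N.pow_mem hm _, by
              have : m ^ 2 ^ k = (h ^ 2 ^ k)⁻¹ := eq_inv_of_mul_eq_one_right hpow
              rw [this]; exact Subgroup.inv_mem _ (Subgroup.pow_mem _ hh _)⟩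
          rw [hNH0, Subgroup.mem_bot] at hm2
          obtain ⟨j, hj⟩ := hNr ⟨m, hm⟩
          have hj' : m ^ r ^ j = 1 := by
            have := congrArg Subtype.val hj
            rw [Subgroup.coe_pow, Subgroup.coe_one] at this
            exact this
          have hm1 : m = 1 := eq_one_of_orders Nat.prime_two hr hr2 m k j hm2 hj'
          rw [hm1, mul_one]; exact hh
        exact hNK.trans hKH
      have hexp2 : ∀ a ∈ N, a ^ 2 = 1 := by rw [← hr2]; exact hexp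
      obtain ⟨lam, hnt, hinv⟩ := exists_real_lam N hNab hN1 hexp2
      exact ⟨lam, 1, hnt, hinv⟩
  obtain ⟨lam, s, hnt, hinv⟩ := hfin
  obtain ⟨χ, hχreal, hdeg⟩ := key_real' N hNab (Subgroup.normalizer (P₁ : Set G)) hNH0
    (by rw [sup_comm]; exact hF) lam s hinv
  have hdvd := dvd_index_inertia N p P
    (fun μ h => hDchar μ (fun x hx => h x (hP₁P hx))) lam hnt
  exact hreal χ hχreal (by rw [hdeg]; exact hdvd)

/-- A normal subgroup which is a `p`-group modulo the subgroup generated by the `2`-elements has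
a normal Sylow `p`-subgroup. -/
theorem real_pprime_sylow_U {G : Type u} [Group G] [Finite G] (p : ℕ) [Fact p.Prime]
    (hsolv : Group.IsSolvable ↥(Subgroup.closure {g : G | ∃ k : ℕ, orderOf g = p ^ k}))
    (hreal : ∀ χ : IrrCharacter G, (∀ g : G, ((χ : G → ℂ) g).im = 0) →
      ¬ p ∣ charDegree (χ : G → ℂ))
    (U : Subgroup G) (hU : U.Normal)
    (hUp : ∃ a : ℕ,
      (Subgroup.closure {g : G | ∃ k : ℕ, orderOf g = 2 ^ k}).relIndex U = p ^ a)
    (Q : Sylow p ↥U) : (Q : Subgroup ↥U).Normal := by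
  haveI := Oq_normal (G := G) 2
  obtain ⟨a, ha⟩ := hUp
  have hUK : ∀ u ∈ U, ∃ k : ℕ, u ^ p ^ k ∈
      Subgroup.closure {g : G | ∃ k : ℕ, orderOf g = 2 ^ k} := by
    intro u hu
    refine ⟨a, ?_⟩
    have h1 := Subgroup.pow_index_mem
      ((Subgroup.closure {g : G | ∃ k : ℕ, orderOf g = 2 ^ k}).subgroupOf U) (⟨u, hu⟩ : U)
    have h2 : ((Subgroup.closure {g : G | ∃ k : ℕ, orderOf g = 2 ^ k}).subgroupOf U).index =
        p ^ a := ha
    rw [h2, Subgroup.mem_subgroupOf, Subgroup.coe_pow] at h1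
    exact h1
  obtain ⟨R, hRn, hRp, hRU⟩ := core2 p _ G rfl hsolv hreal U hU hUK
  haveI : (R.subgroupOf U).Normal := hRn.subgroupOf U
  have hR'p : IsPGroup p ↥(R.subgroupOf U) := hRp.comap_subtype
  have h1 : R.subgroupOf U ≤ (Q : Subgroup ↥U) := IsPGroup.le_sylow_of_normal hR'p Q
  have h2 : (Q : Subgroup ↥U) ≤ R.subgroupOf U := by
    intro q hq
    rw [Subgroup.mem_subgroupOf]
    apply hRU _ q.2
    obtain ⟨k, hk⟩ := (IsPGroup.iff_orderOf.mp Q.isPGroup') ⟨q, hq⟩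
    refine ⟨k, ?_⟩
    rw [← hk, Subgroup.orderOf_coe q]
    exact (Subgroup.orderOf_coe (⟨q, hq⟩ : (Q : Subgroup ↥U)))
  rw [le_antisymm h2 h1]
  infer_instance

end Cfsg.Agent.Lib.Helper84.IN
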