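import Mathlib
import Cfsg.Agent.S4911
import Cfsg.Agent.Lib.Helper86.PKer
import Cfsg.Agent.Lib.Helper84.Core
import Cfsg.Agent.Lib.Helper84.IN5

/-!
# Real classes and real characters (Isaacs–Navarro, centralising step)
-/

set_option autoImplicit false
set_option linter.unusedVariables false
set_option linter.style.haveILetI false

namespace Cfsg.Agent.Lib.Helper84.IN

open Cfsg

universe u

/-- the number of real irreducible characters equals the number of real classes -/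
theorem card_real_irr_eq_cls {K : Type u} [Group K] [Finite K] :
    Nat.card {θ : IrrCharacter K // ∀ k : K, ((θ : K → ℂ) k).im = 0} =
    Nat.card {c : ConjClasses K // ∀ k : K, ConjClasses.mk k = c → IsConj k k⁻¹} := by
  obtain ⟨q, hq1, hq2⟩ := Nat.exists_infinite_primes (Nat.card K + 1)
  haveI : Fact q.Prime := ⟨hq2⟩
  have hK : ¬ q ∣ Nat.card K := fun h => by
    have := Nat.le_of_dvd Nat.card_pos h
    omega
  have hΓ : IsPGroup q PUnit.{1} := fun g => ⟨0, Subsingleton.elim _ _⟩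
  have h := Cfsg.Agent.S4911.real_fixed_count (K := K) (Γ := PUnit.{1})
    (1 : PUnit.{1} →* MulAut K) q hΓ hK
  have e1 : Nat.card {θ : IrrCharacter K // ∀ k : K, ((θ : K → ℂ) k).im = 0} =
      Nat.card {θ : IrrCharacter K // (∀ k : K, ((θ : K → ℂ) k).im = 0) ∧
        ∀ (g : PUnit.{1}) (k : K), (θ : K → ℂ) (((1 : PUnit.{1} →* MulAut K) g) k) =
          (θ : K → ℂ) k} :=
    Nat.card_congr (Equiv.subtypeEquivRight (fun θ => ⟨fun h => ⟨h, fun g k => rfl⟩, fun h => h.1⟩))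
  have e2 : Nat.card {c : ConjClasses K // ∀ k : K, ConjClasses.mk k = c → IsConj k k⁻¹} =
      Nat.card {c : ConjClasses K // (∀ k : K, ConjClasses.mk k = c → IsConj k k⁻¹) ∧
        ∀ (g : PUnit.{1}) (k : K), ConjClasses.mk k = c →
          ConjClasses.mk (((1 : PUnit.{1} →* MulAut K) g) k) = c} :=
    Nat.card_congr (Equiv.subtypeEquivRight
      (fun c => ⟨fun h => ⟨h, fun g k hk => hk⟩, fun h => h.1⟩))
  rw [e1, e2]
  exact h

/-- a real element is inverted by a `2`-element -/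
theorem real_two_elt {G : Type u} [Group G] [Finite G] (x : G) (hx : IsConj x x⁻¹) :
    ∃ t : G, (∃ k : ℕ, orderOf t = 2 ^ k) ∧ t * x * t⁻¹ = x⁻¹ := by
  obtain ⟨c, hc⟩ := isConj_iff.mp hx
  have ho : orderOf c ≠ 0 := (orderOf_pos c).ne'
  obtain ⟨a, m, hm, hom⟩ := Nat.exists_eq_two_pow_mul_odd ho
  obtain ⟨j, hj⟩ := hm
  have h2' : c ^ 2 * x * (c ^ 2)⁻¹ = x := by
    have e : c ^ 2 * x * (c ^ 2)⁻¹ = c * (c * x * c⁻¹) * c⁻¹ := by rw [pow_two]; group
    have e2 : c * x⁻¹ * c⁻¹ = (c * x * c⁻¹)⁻¹ := by group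
    rw [e, hc, e2, hc, inv_inv]
  have h2 : Commute (c ^ 2) x := by
    show c ^ 2 * x = x * c ^ 2
    calc c ^ 2 * x = (c ^ 2 * x * (c ^ 2)⁻¹) * c ^ 2 := by group
      _ = x * c ^ 2 := by rw [h2']
  have hm0 : m ≠ 0 := by omega
  refine ⟨c ^ m, ⟨a, ?_⟩, ?_⟩
  · rw [orderOf_pow_of_dvd hm0 ⟨2 ^ a, by rw [hom, mul_comm]⟩, hom,
      Nat.mul_div_cancel _ (Nat.pos_of_ne_zero hm0)]
  · have hcm : c ^ m = (c ^ 2) ^ j * c := by rw [hj, pow_succ, pow_mul]
    have hcomm : Commute ((c ^ 2) ^ j) x⁻¹ := (h2.pow_left j).inv_right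
    have e : (c ^ 2) ^ j * c * x * ((c ^ 2) ^ j * c)⁻¹ =
        (c ^ 2) ^ j * (c * x * c⁻¹) * ((c ^ 2) ^ j)⁻¹ := by group
    rw [hcm, e, hc, hcomm.eq, mul_inv_cancel_right]

theorem real_of_conj {G : Type u} [Group G] {a b : G} (hab : IsConj a b) (ha : IsConj a a⁻¹) :
    IsConj b b⁻¹ := by
  obtain ⟨c, hc⟩ := isConj_iff.mp hab
  obtain ⟨d, hd⟩ := isConj_iff.mp ha
  refine isConj_iff.mpr ⟨c * d * c⁻¹, ?_⟩
  rw [← hc]
  have e : c * d * c⁻¹ * (c * a * c⁻¹) * (c * d * c⁻¹)⁻¹ = c * (d * a * d⁻¹) * c⁻¹ := by group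
  rw [e, hd]
  group

/-- real elements lift through normal subgroups of odd order -/
theorem lift_real {G : Type u} [Group G] [Finite G] (M : Subgroup G) [hMn : M.Normal]
    (hM : Odd (Nat.card M)) (x : G)
    (hx : IsConj (x : G ⧸ M) (x : G ⧸ M)⁻¹) :
    ∃ y : G, (y : G ⧸ M) = (x : G ⧸ M) ∧ IsConj y y⁻¹ := by
  classical
  letI : Fintype G := Fintype.ofFinite G
  obtain ⟨tb, htb, hinv⟩ := real_two_elt (x : G ⧸ M) hx
  obtain ⟨t, ⟨a, ha⟩, rfl⟩ := exists_lift_pElt 2 Nat.prime_two M tb htb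
  have hmem : ∀ y : {y : G // (y : G ⧸ M) = (x : G ⧸ M)},
      ((t * (y : G)⁻¹ * t⁻¹ : G) : G ⧸ M) = (x : G ⧸ M) := by
    intro y
    rw [QuotientGroup.mk_mul, QuotientGroup.mk_mul, QuotientGroup.mk_inv, QuotientGroup.mk_inv,
      y.2]
    have e : (t : G ⧸ M) * (x : G ⧸ M)⁻¹ * (t : G ⧸ M)⁻¹ =
        ((t : G ⧸ M) * (x : G ⧸ M) * (t : G ⧸ M)⁻¹)⁻¹ := by group
    rw [e, hinv, inv_inv]
  have hmem' : ∀ y : {y : G // (y : G ⧸ M) = (x : G ⧸ M)},
      ((t⁻¹ * (y : G)⁻¹ * t : G) : G ⧸ M) = (x : G ⧸ M) := by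
    intro y
    rw [QuotientGroup.mk_mul, QuotientGroup.mk_mul, QuotientGroup.mk_inv, QuotientGroup.mk_inv,
      y.2]
    have e : (t : G ⧸ M)⁻¹ * (x : G ⧸ M)⁻¹ * (t : G ⧸ M) =
        (t : G ⧸ M)⁻¹ * ((t : G ⧸ M) * (x : G ⧸ M) * (t : G ⧸ M)⁻¹) * (t : G ⧸ M) := by
      rw [hinv]
    rw [e]
    group
  let σ : Equiv.Perm {y : G // (y : G ⧸ M) = (x : G ⧸ M)} :=
    { toFun := fun y => ⟨t * (y : G)⁻¹ * t⁻¹, hmem y⟩
      invFun := fun y => ⟨t⁻¹ * (y : G)⁻¹ * t, hmem' y⟩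
      left_inv := fun y => Subtype.ext (by
        show t⁻¹ * (t * (y : G)⁻¹ * t⁻¹)⁻¹ * t = y
        group)
      right_inv := fun y => Subtype.ext (by
        show t * (t⁻¹ * (y : G)⁻¹ * t)⁻¹ * t⁻¹ = y
        group) }
  have hσ2 : ∀ (j : ℕ) (y : {y : G // (y : G ⧸ M) = (x : G ⧸ M)}),
      ((((σ ^ 2) ^ j) y : {y : G // (y : G ⧸ M) = (x : G ⧸ M)}) : G) =
        t ^ (2 * j) * (y : G) * (t ^ (2 * j))⁻¹ := by
    intro j
    induction j with
    | zero => intro y; simp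
    | succ j ih =>
      intro y
      rw [pow_succ, Equiv.Perm.mul_apply, ih]
      show t ^ (2 * j) * (t * (t * (y : G)⁻¹ * t⁻¹)⁻¹ * t⁻¹) * (t ^ (2 * j))⁻¹ = _
      rw [show 2 * (j + 1) = 2 * j + 1 + 1 by ring, pow_succ, pow_succ]
      group
  have hσ : σ ^ 2 ^ (a + 1) = 1 := by
    ext y
    rw [pow_succ, mul_comm, pow_mul, hσ2]
    have h1 : t ^ (2 * 2 ^ a) = 1 := by
      rw [mul_comm, pow_mul, ← ha, pow_orderOf_eq_one, one_pow]
    rw [h1]
    simp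
  have hcard : ¬ 2 ∣ Fintype.card {y : G // (y : G ⧸ M) = (x : G ⧸ M)} := by
    have e : Fintype.card {y : G // (y : G ⧸ M) = (x : G ⧸ M)} = Nat.card M := by
      rw [← Nat.card_eq_fintype_card]
      apply Nat.card_congr
      refine
        { toFun := fun y => ⟨x⁻¹ * (y : G), QuotientGroup.eq.mp y.2.symm⟩
          invFun := fun m => ⟨x * (m : G), QuotientGroup.mk_mul_of_mem x m.2⟩
          left_inv := fun y => Subtype.ext (by simp)
          right_inv := fun m => Subtype.ext (by simp) }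
    rw [e]
    intro h2
    exact (Nat.not_even_iff_odd.mpr hM) (even_iff_two_dvd.mpr h2)
  haveI : Fact (Nat.Prime 2) := ⟨Nat.prime_two⟩
  obtain ⟨y, hy⟩ := Equiv.Perm.exists_fixed_point_of_prime (p := 2) (n := a + 1) hcard hσ
  refine ⟨y, y.2, ?_⟩
  have h1 : t * (y : G)⁻¹ * t⁻¹ = y := congrArg Subtype.val hy
  refine isConj_iff.mpr ⟨t, ?_⟩
  have e : t * (y : G) * t⁻¹ = (t * (y : G)⁻¹ * t⁻¹)⁻¹ := by group
  rw [e, h1]

/-- Isaacs–Navarro: a normal subgroup inside the derived subgroup of a Sylow `p`-subgroup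
(`p` odd) is centralised by the `2`-elements, if the real irreducible characters have
degree prime to `p`. -/
theorem real_pprime_central {G : Type u} [Group G] [Finite G] (p : ℕ) [Fact p.Prime] (hp : p ≠ 2)
    (hreal : ∀ χ : IrrCharacter G, (∀ g : G, ((χ : G → ℂ) g).im = 0) →
      ¬ p ∣ charDegree (χ : G → ℂ))
    (P : Sylow p G) (M : Subgroup G) (hM : M.Normal)
    (hMP : M ≤ ⁅(P : Subgroup G), (P : Subgroup G)⁆) :
    Subgroup.closure {g : G | ∃ k : ℕ, orderOf g = 2 ^ k} ≤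
      Subgroup.centralizer (M : Set G) := by
  classical
  haveI := hM
  letI : Fintype G := Fintype.ofFinite G
  have hPP : ⁅(P : Subgroup G), (P : Subgroup G)⁆ ≤ (P : Subgroup G) := by
    rw [Subgroup.commutator_le]
    intro a ha b hb
    exact (P : Subgroup G).mul_mem ((P : Subgroup G).mul_mem ((P : Subgroup G).mul_mem ha hb)
      ((P : Subgroup G).inv_mem ha)) ((P : Subgroup G).inv_mem hb)
  have hMp : IsPGroup p M := P.isPGroup'.to_le (hMP.trans hPP)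
  have hodd : Odd (Nat.card M) := by
    obtain ⟨n, hn⟩ := IsPGroup.iff_card.mp hMp
    rw [hn]
    exact ((Fact.out : p.Prime).odd_of_ne_two hp).pow
  -- real characters are trivial on `M`
  have hker : ∀ χ : IrrCharacter G, (∀ g : G, ((χ : G → ℂ) g).im = 0) →
      ∀ m ∈ M, (χ : G → ℂ) m = (χ : G → ℂ) 1 := by
    intro χ hχ m hm
    have h1 := Helper86.mem_ker_of_mem_core p (P : Subgroup G) P.isPGroup' ⊥ (bot_inf_eq _) χ
      (hreal χ hχ)
    apply h1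
    exact (Subgroup.normal_le_normalCore.mpr (hMP.trans le_sup_right)) hm
  -- counting characters
  haveI := irr_finite (G := G)
  haveI := irr_finite (G := G ⧸ M)
  have hcount : Nat.card {θ : IrrCharacter G // ∀ k : G, ((θ : G → ℂ) k).im = 0} ≤
      Nat.card {θ : IrrCharacter (G ⧸ M) // ∀ k : G ⧸ M, ((θ : G ⧸ M → ℂ) k).im = 0} := by
    have hex : ∀ θ : {θ : IrrCharacter G // ∀ k : G, ((θ : G → ℂ) k).im = 0},
        ∃ ψ : IrrCharacter (G ⧸ M), ∀ g : G, ψ.1 (g : G ⧸ M) = θ.1.1 g :=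
      fun θ => irr_deflate M θ.1 (hker θ.1 θ.2)
    choose f hf using hex
    apply Nat.card_le_card_of_injective (fun θ => (⟨f θ, fun q => by
      obtain ⟨g, rfl⟩ := QuotientGroup.mk_surjective q
      rw [hf θ g]
      exact θ.2 g⟩ : {θ : IrrCharacter (G ⧸ M) // ∀ k : G ⧸ M, ((θ : G ⧸ M → ℂ) k).im = 0}))
    intro θ θ' h
    have h1 : f θ = f θ' := congrArg Subtype.val h
    apply Subtype.ext
    apply Subtype.ext
    funext g
    rw [← hf θ g, ← hf θ' g, h1]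
  rw [card_real_irr_eq_cls, card_real_irr_eq_cls] at hcount
  -- the map on real classes
  have hFwd : ∀ c : {c : ConjClasses G // ∀ k : G, ConjClasses.mk k = c → IsConj k k⁻¹},
      ∀ q : G ⧸ M, ConjClasses.mk q = ConjClasses.map (QuotientGroup.mk' M) c.1 →
        IsConj q q⁻¹ := by
    rintro ⟨c, hc⟩ q hq
    obtain ⟨k, rfl⟩ := ConjClasses.mk_surjective c
    have h1 : IsConj ((QuotientGroup.mk' M) k) q :=
      ConjClasses.mk_eq_mk_iff_isConj.mp hq.symm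
    have h2 : IsConj ((QuotientGroup.mk' M) k) ((QuotientGroup.mk' M) k)⁻¹ := by
      rw [← map_inv]
      exact (QuotientGroup.mk' M).map_isConj (hc k rfl)
    exact real_of_conj h1 h2
  let F : {c : ConjClasses G // ∀ k : G, ConjClasses.mk k = c → IsConj k k⁻¹} →
      {c : ConjClasses (G ⧸ M) // ∀ k : G ⧸ M, ConjClasses.mk k = c → IsConj k k⁻¹} :=
    fun c => ⟨ConjClasses.map (QuotientGroup.mk' M) c.1, hFwd c⟩
  have hFsurj : Function.Surjective F := by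
    rintro ⟨c', hc'⟩
    obtain ⟨q, rfl⟩ := ConjClasses.mk_surjective c'
    obtain ⟨x, rfl⟩ := QuotientGroup.mk_surjective q
    obtain ⟨y, hy1, hy2⟩ := lift_real M hodd x (hc' _ rfl)
    refine ⟨⟨ConjClasses.mk y, fun k hk =>
      real_of_conj (ConjClasses.mk_eq_mk_iff_isConj.mp hk.symm) hy2⟩, ?_⟩
    apply Subtype.ext
    show ConjClasses.mk ((QuotientGroup.mk' M) y) = ConjClasses.mk (x : G ⧸ M)
    rw [QuotientGroup.mk'_apply, hy1]
  have hFinj : Function.Injective F := (hFsurj.bijective_of_nat_card_le hcount).1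
  -- the contradiction
  rw [Subgroup.closure_le]
  rintro t ⟨k, hk⟩
  by_contra htC
  obtain ⟨s, hs2, n₀, hn₀, hne⟩ := exists_invol_action M t k hk htC
  have hu : n₀⁻¹ * (s * n₀ * s⁻¹) ∈ M := M.mul_mem (M.inv_mem hn₀) (hM.conj_mem n₀ hn₀ s)
  have hu1 : n₀⁻¹ * (s * n₀ * s⁻¹) ≠ 1 := by
    intro h
    apply hne
    have := congrArg (fun z => n₀ * z) h
    simpa using this
  have hreal_u : IsConj (n₀⁻¹ * (s * n₀ * s⁻¹)) (n₀⁻¹ * (s * n₀ * s⁻¹))⁻¹ := by
    refine isConj_iff.mpr ⟨s, ?_⟩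
    have e : s * (n₀⁻¹ * (s * n₀ * s⁻¹)) * s⁻¹ = (s * n₀ * s⁻¹)⁻¹ * (s * (s * n₀ * s⁻¹) * s⁻¹) := by
      group
    rw [e, hs2 n₀ hn₀]
    group
  have hreal_1 : IsConj (1 : G) (1 : G)⁻¹ := by rw [inv_one]
  have hFeq : F ⟨ConjClasses.mk (n₀⁻¹ * (s * n₀ * s⁻¹)), fun k hk =>
      real_of_conj (ConjClasses.mk_eq_mk_iff_isConj.mp hk.symm) hreal_u⟩ =
      F ⟨ConjClasses.mk 1, fun k hk =>
        real_of_conj (ConjClasses.mk_eq_mk_iff_isConj.mp hk.symm) hreal_1⟩ := by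
    apply Subtype.ext
    show ConjClasses.mk ((QuotientGroup.mk' M) (n₀⁻¹ * (s * n₀ * s⁻¹))) =
      ConjClasses.mk ((QuotientGroup.mk' M) 1)
    rw [QuotientGroup.mk'_apply, QuotientGroup.mk'_apply, (QuotientGroup.eq_one_iff _).mpr hu,
      QuotientGroup.mk_one]
  have h3 := congrArg Subtype.val (hFinj hFeq)
  have h4 : IsConj (1 : G) (n₀⁻¹ * (s * n₀ * s⁻¹)) :=
    (ConjClasses.mk_eq_mk_iff_isConj.mp h3).symm
  exact hu1 (isConj_one_right.mp h4)

end Cfsg.Agent.Lib.Helper84.IN
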