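import Mathlib

/-!
# Transfer of Sylow-fixed points between two permutation representations

Two finite `A`-sets `X`, `Y` with the same numbers of fixed points for every element of `A` and
for every `⟨S, n⟩` (`S` a Sylow `p`-subgroup, `n` in its normalizer): if every point of `X` is
fixed by a conjugate of `S` then so is every point of `Y`.
-/

set_option autoImplicit false
set_option linter.unusedVariables false
set_option linter.style.haveILetI false

namespace Cfsg.Agent.Lib.Helper84.IN

universe u v

/-- Burnside's lemma in `Nat.card` form -/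
theorem burnside_card {A : Type u} [Group A] [Fintype A] {Z : Type v} [Finite Z]
    [MulAction A Z] :
    ∑ a : A, Nat.card {z : Z // a • z = z} =
      Nat.card (Quotient (MulAction.orbitRel A Z)) * Nat.card A := by
  classical
  letI : Fintype Z := Fintype.ofFinite Z
  letI : Fintype (Quotient (MulAction.orbitRel A Z)) := Fintype.ofFinite _
  letI : ∀ a : A, Fintype (MulAction.fixedBy Z a) := fun a => Fintype.ofFinite _
  have h := MulAction.sum_card_fixedBy_eq_card_orbits_mul_card_group A Z
  rw [Nat.card_eq_fintype_card, Nat.card_eq_fintype_card, ← h]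
  apply Finset.sum_congr rfl
  intro a _
  rw [← Nat.card_eq_fintype_card]
  exact Nat.card_congr (Equiv.subtypeEquivRight (fun z => Iff.rfl))

section Transfer

variable {A : Type u} [Group A] [Finite A] (p : ℕ) [Fact p.Prime] (S : Sylow p A)
  (Z : Type v) [MulAction A Z]

/-- the action of the normalizer of `S` on the `S`-fixed points -/
@[instance_reducible]
def fixAct : MulAction ↥(Subgroup.normalizer ((S : Subgroup A) : Set A))
    {z : Z // ∀ s ∈ (S : Subgroup A), s • z = z} where
  smul n z := ⟨(n : A) • z.1, fun s hs => by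
    have h1 : (n : A)⁻¹ * s * (n : A) ∈ (S : Subgroup A) :=
      (Subgroup.mem_normalizer_iff''.mp n.2 s).mp hs
    have h2 := z.2 _ h1
    calc s • (n : A) • z.1 = (n : A) • ((n : A)⁻¹ * s * (n : A)) • z.1 := by
          rw [smul_smul, smul_smul]; congr 1; group
      _ = (n : A) • z.1 := by rw [h2]⟩
  one_smul z := Subtype.ext (one_smul A z.1)
  mul_smul a b z := Subtype.ext (mul_smul (a : A) (b : A) z.1)

/-- two `S`-fixed points in the same `A`-orbit are conjugate under the normalizer of `S` -/
theorem fused_in_normalizer (z₁ z₂ : Z) (h1 : ∀ s ∈ (S : Subgroup A), s • z₁ = z₁)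
    (h2 : ∀ s ∈ (S : Subgroup A), s • z₂ = z₂) (a : A) (ha : a • z₂ = z₁) :
    ∃ n ∈ Subgroup.normalizer ((S : Subgroup A) : Set A), n • z₂ = z₁ := by
  have hS1 : (S : Subgroup A) ≤ MulAction.stabilizer A z₁ := fun s hs => h1 s hs
  have hS2 : ((a • S : Sylow p A) : Subgroup A) ≤ MulAction.stabilizer A z₁ := by
    rintro - ⟨s, hs, rfl⟩
    show (a * s * a⁻¹) • z₁ = z₁
    rw [← ha, smul_smul, inv_mul_cancel_right, mul_smul, h2 s hs]
  obtain ⟨h, hh⟩ := MulAction.exists_smul_eq (MulAction.stabilizer A z₁)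
    ((a • S).subtype hS2) (S.subtype hS1)
  simp_rw [Sylow.smul_subtype, Subgroup.smul_def, smul_smul] at hh
  have hn : (h : A) * a ∈ Subgroup.normalizer ((S : Subgroup A) : Set A) :=
    Sylow.smul_eq_iff_mem_normalizer.mp (Sylow.subtype_injective hh)
  refine ⟨(h : A) * a, hn, ?_⟩
  rw [mul_smul, ha]
  exact h.2

/-- the map from normalizer-orbits on the fixed points to `A`-orbits is injective -/
theorem exists_orbit_map :
    ∃ ι : Quotient (@MulAction.orbitRel ↥(Subgroup.normalizer ((S : Subgroup A) : Set A))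
        {z : Z // ∀ s ∈ (S : Subgroup A), s • z = z} _ (fixAct p S Z)) →
        Quotient (MulAction.orbitRel A Z),
      Function.Injective ι ∧
        ∀ w : {z : Z // ∀ s ∈ (S : Subgroup A), s • z = z},
          ι (Quotient.mk _ w) = Quotient.mk _ w.1 := by
  letI := fixAct p S Z
  refine ⟨Quotient.lift (fun w : {z : Z // ∀ s ∈ (S : Subgroup A), s • z = z} =>
    Quotient.mk (MulAction.orbitRel A Z) w.1) ?_, ?_, fun w => rfl⟩
  · intro w₁ w₂ h
    apply Quotient.sound
    obtain ⟨n, hn⟩ := MulAction.orbitRel_apply.mp h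
    have hn' : n • w₂ = w₁ := hn
    exact MulAction.mem_orbit_iff.mpr ⟨(n : A), congrArg Subtype.val hn'⟩
  · intro q₁ q₂
    refine Quotient.inductionOn₂ q₁ q₂ ?_
    intro w₁ w₂ h
    have h' := Quotient.exact h
    obtain ⟨a, ha⟩ := MulAction.orbitRel_apply.mp h'
    have ha' : a • w₂.1 = w₁.1 := ha
    obtain ⟨n, hn, hn2⟩ := fused_in_normalizer p S Z w₁.1 w₂.1 w₁.2 w₂.2 a ha'
    apply Quotient.sound
    exact MulAction.mem_orbit_iff.mpr ⟨⟨n, hn⟩, Subtype.ext hn2⟩

end Transfer

/-- transfer of Sylow-fixed points -/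
theorem sylow_fixed_transfer {A : Type u} [Group A] [Finite A] {X Y : Type v} [Finite X]
    [Finite Y] [MulAction A X] [MulAction A Y] (p : ℕ) [Fact p.Prime] (S : Sylow p A)
    (h3 : ∀ a : A, Nat.card {x : X // a • x = x} = Nat.card {y : Y // a • y = y})
    (h2 : ∀ n ∈ Subgroup.normalizer ((S : Subgroup A) : Set A),
      Nat.card {x : X // (∀ s ∈ (S : Subgroup A), s • x = x) ∧ n • x = x} =
      Nat.card {y : Y // (∀ s ∈ (S : Subgroup A), s • y = y) ∧ n • y = y})
    (h1 : ∀ x : X, ∃ a : A, ∀ s ∈ (S : Subgroup A), (a * s * a⁻¹) • x = x) :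
    ∀ y : Y, ∃ a : A, ∀ s ∈ (S : Subgroup A), (a * s * a⁻¹) • y = y := by
  classical
  letI : Fintype A := Fintype.ofFinite A
  letI : Fintype ↥(Subgroup.normalizer ((S : Subgroup A) : Set A)) := Fintype.ofFinite _
  have hA : Nat.card (Quotient (MulAction.orbitRel A X)) =
      Nat.card (Quotient (MulAction.orbitRel A Y)) := by
    have e1 := burnside_card (A := A) (Z := X)
    have e2 := burnside_card (A := A) (Z := Y)
    have e3 : Nat.card (Quotient (MulAction.orbitRel A X)) * Nat.card A =
        Nat.card (Quotient (MulAction.orbitRel A Y)) * Nat.card A := by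
      rw [← e1, ← e2]
      exact Finset.sum_congr rfl (fun a _ => h3 a)
    exact Nat.eq_of_mul_eq_mul_right Nat.card_pos e3
  letI iX := fixAct p S X
  letI iY := fixAct p S Y
  have hN : Nat.card (Quotient (MulAction.orbitRel
        ↥(Subgroup.normalizer ((S : Subgroup A) : Set A))
        {z : X // ∀ s ∈ (S : Subgroup A), s • z = z})) =
      Nat.card (Quotient (MulAction.orbitRel
        ↥(Subgroup.normalizer ((S : Subgroup A) : Set A))
        {z : Y // ∀ s ∈ (S : Subgroup A), s • z = z})) := by
    have e1 := burnside_card (A := ↥(Subgroup.normalizer ((S : Subgroup A) : Set A)))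
      (Z := {z : X // ∀ s ∈ (S : Subgroup A), s • z = z})
    have e2 := burnside_card (A := ↥(Subgroup.normalizer ((S : Subgroup A) : Set A)))
      (Z := {z : Y // ∀ s ∈ (S : Subgroup A), s • z = z})
    have e3 : Nat.card (Quotient (MulAction.orbitRel
          ↥(Subgroup.normalizer ((S : Subgroup A) : Set A))
          {z : X // ∀ s ∈ (S : Subgroup A), s • z = z})) *
          Nat.card ↥(Subgroup.normalizer ((S : Subgroup A) : Set A)) =
        Nat.card (Quotient (MulAction.orbitRel
          ↥(Subgroup.normalizer ((S : Subgroup A) : Set A))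
          {z : Y // ∀ s ∈ (S : Subgroup A), s • z = z})) *
          Nat.card ↥(Subgroup.normalizer ((S : Subgroup A) : Set A)) := by
      rw [← e1, ← e2]
      apply Finset.sum_congr rfl
      intro n _
      have k1 : Nat.card {w : {z : X // ∀ s ∈ (S : Subgroup A), s • z = z} // n • w = w} =
          Nat.card {x : X // (∀ s ∈ (S : Subgroup A), s • x = x) ∧ (n : A) • x = x} :=
        Nat.card_congr
          { toFun := fun w => ⟨w.1.1, w.1.2, congrArg Subtype.val w.2⟩
            invFun := fun x => ⟨⟨x.1, x.2.1⟩, Subtype.ext x.2.2⟩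
            left_inv := fun w => rfl
            right_inv := fun x => rfl }
      have k2 : Nat.card {w : {z : Y // ∀ s ∈ (S : Subgroup A), s • z = z} // n • w = w} =
          Nat.card {x : Y // (∀ s ∈ (S : Subgroup A), s • x = x) ∧ (n : A) • x = x} :=
        Nat.card_congr
          { toFun := fun w => ⟨w.1.1, w.1.2, congrArg Subtype.val w.2⟩
            invFun := fun x => ⟨⟨x.1, x.2.1⟩, Subtype.ext x.2.2⟩
            left_inv := fun w => rfl
            right_inv := fun x => rfl }
      rw [k1, k2]
      exact h2 n n.2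
    exact Nat.eq_of_mul_eq_mul_right Nat.card_pos e3
  obtain ⟨ιX, hιXinj, hιX⟩ := exists_orbit_map p S X
  obtain ⟨ιY, hιYinj, hιY⟩ := exists_orbit_map p S Y
  have hιXsurj : Function.Surjective ιX := by
    intro q
    refine Quotient.inductionOn q ?_
    intro x
    obtain ⟨a, ha⟩ := h1 x
    refine ⟨Quotient.mk _ ⟨a⁻¹ • x, fun s hs => ?_⟩, ?_⟩
    · have h4 := ha s hs
      calc s • a⁻¹ • x = a⁻¹ • (a * s * a⁻¹) • x := by
            rw [smul_smul, smul_smul]; congr 1; group
        _ = a⁻¹ • x := by rw [h4]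
    · rw [hιX]
      apply Quotient.sound
      exact MulAction.mem_orbit_iff.mpr ⟨a⁻¹, rfl⟩
  have hcX : Nat.card (Quotient (MulAction.orbitRel
        ↥(Subgroup.normalizer ((S : Subgroup A) : Set A))
        {z : X // ∀ s ∈ (S : Subgroup A), s • z = z})) =
      Nat.card (Quotient (MulAction.orbitRel A X)) :=
    Nat.card_congr (Equiv.ofBijective ιX ⟨hιXinj, hιXsurj⟩)
  have hle : Nat.card (Quotient (MulAction.orbitRel A Y)) ≤
      Nat.card (Quotient (MulAction.orbitRel
        ↥(Subgroup.normalizer ((S : Subgroup A) : Set A))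
        {z : Y // ∀ s ∈ (S : Subgroup A), s • z = z})) := by
    rw [← hA, ← hcX, hN]
  have hιYsurj := (hιYinj.bijective_of_nat_card_le hle).2
  intro y
  obtain ⟨q, hq⟩ := hιYsurj (Quotient.mk _ y)
  obtain ⟨w, rfl⟩ := Quotient.exists_rep q
  rw [hιY] at hq
  have h' := Quotient.exact hq
  obtain ⟨a, ha⟩ := MulAction.orbitRel_apply.mp h'
  have ha' : a • y = w.1 := ha
  refine ⟨a⁻¹, fun s hs => ?_⟩
  rw [inv_inv, mul_smul, mul_smul, ha', w.2 s hs, ← ha', inv_smul_smul]

end Cfsg.Agent.Lib.Helper84.IN
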