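import Mathlib
import Cfsg.Agent.S4911

/-!
# Compatible permutations of the fixed rows and columns of a character table

A generalisation of `Cfsg.Agent.S4911.real_fixed_count` (helper85; the first half of the proof
is taken from there): for a `p`-group `Γ` acting on a `p'`-group `K`, compatible permutations of
the `Γ`-fixed irreducible characters and the `Γ`-fixed classes have the same number of fixed
points.
-/

set_option autoImplicit false
set_option linter.unusedVariables false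
set_option linter.style.haveILetI false

namespace Cfsg.Agent.Lib.Helper84.IN

open Cfsg
open scoped ComplexConjugate
open Cfsg.Agent.Lib Cfsg.Agent.Lib.Helper85 Cfsg.Agent.S4911

theorem fixed_perm_count {K : Type*} [Group K] {Γ : Type*} [Group Γ] (φ : Γ →* MulAut K)
    [Finite K] (p : ℕ) [hp : Fact p.Prime] (hΓ : IsPGroup p Γ) (hK : ¬ p ∣ Nat.card K)
    (τA : Equiv.Perm (ConjClasses K)) (τB : Equiv.Perm (IrrCharacter K))
    (hA : ∀ C : ConjClasses K, (∀ g : Γ, (actCls φ).smul g (τA C) = τA C) ↔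
      (∀ g : Γ, (actCls φ).smul g C = C))
    (hB : ∀ χ : IrrCharacter K, (∀ g : Γ, (actIrr φ).smul g (τB χ) = τB χ) ↔
      (∀ g : Γ, (actIrr φ).smul g χ = χ))
    (hτ : ∀ (χ : IrrCharacter K) (k k' : K), ConjClasses.mk k' = τA (ConjClasses.mk k) →
      (τB χ).1 k' = χ.1 k) :
    Nat.card {χ : IrrCharacter K // (∀ g : Γ, (actIrr φ).smul g χ = χ) ∧ τB χ = χ} =
      Nat.card {C : ConjClasses K // (∀ g : Γ, (actCls φ).smul g C = C) ∧ τA C = C} := by
  classical
  let _ : Fintype K := Fintype.ofFinite K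
  have hfinI := Helper4.irr_finite (G := K)
  let _ : Fintype (IrrCharacter K) := Fintype.ofFinite _
  let _ : Fintype (ConjClasses K) := Fintype.ofFinite _
  obtain ⟨M, hM⟩ := Helper82.exists_isPModular p
  haveI : M.IsMaximal := hM.2.1
  letI : Field (AlgInt ⧸ M) := Ideal.Quotient.field M
  have hcast : ∀ n : ℕ, ((n : ℕ) : AlgInt ⧸ M) = Ideal.Quotient.mk M (n : AlgInt) := fun n =>
    (map_natCast (Ideal.Quotient.mk M) n).symm
  have hcast0 : ∀ n : ℕ, ((n : ℕ) : AlgInt ⧸ M) = 0 ↔ p ∣ n := by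
    intro n
    rw [hcast, Ideal.Quotient.eq_zero_iff_mem, Helper21.pmod_natCast_mem_iff hM]
  haveI : CharP (AlgInt ⧸ M) p :=
    (CharP.charP_iff_prime_eq_zero hp.out).mpr ((hcast0 p).mpr dvd_rfl)
  letI iA : MulAction Γ (ConjClasses K) := actCls φ
  letI iB : MulAction Γ (IrrCharacter K) := actIrr φ
  have hr : ∀ C : ConjClasses K, ConjClasses.mk (Quotient.out C) = C := by
    intro C
    rw [← ConjClasses.quotient_mk_eq_mk]; exact Quotient.out_eq C
  -- the tables
  let XA : IrrCharacter K → ConjClasses K → AlgInt := fun χ C =>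
    ⟨χ.1 (Quotient.out C), Helper82.irr_isIntegral χ _⟩
  let YF : ConjClasses K → IrrCharacter K → AlgInt ⧸ M := fun C χ =>
    ((Nat.card K : ℕ) : AlgInt ⧸ M)⁻¹ * ((sz C : ℕ) : AlgInt ⧸ M) *
      Ideal.Quotient.mk M ⟨χ.1 (Quotient.out C)⁻¹, Helper82.irr_isIntegral χ _⟩
  have hK0 : ((Nat.card K : ℕ) : AlgInt ⧸ M) ≠ 0 := fun h => hK ((hcast0 _).mp h)
  have CO : ∀ C D : ConjClasses K,
      ∑ χ : IrrCharacter K, YF C χ * Ideal.Quotient.mk M (XA χ D) = if C = D then 1 else 0 := by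
    intro C D
    have h1 : ∑ χ : IrrCharacter K, YF C χ * Ideal.Quotient.mk M (XA χ D) =
        ((Nat.card K : ℕ) : AlgInt ⧸ M)⁻¹ * ((sz C : ℕ) : AlgInt ⧸ M) *
          Ideal.Quotient.mk M (∑ χ : IrrCharacter K,
            (⟨χ.1 (Quotient.out C)⁻¹, Helper82.irr_isIntegral χ _⟩ : AlgInt) * XA χ D) := by
      rw [map_sum, Finset.mul_sum]
      apply Finset.sum_congr rfl
      intro χ _
      rw [map_mul]
      ring
    have h2 : (∑ χ : IrrCharacter K,
        (⟨χ.1 (Quotient.out C)⁻¹, Helper82.irr_isIntegral χ _⟩ : AlgInt) * XA χ D) =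
        if C = D then
          ((Nat.card (Subgroup.centralizer ({Quotient.out C} : Set K)) : ℕ) : AlgInt) else 0 := by
      apply Subtype.ext
      have h3 : ((∑ χ : IrrCharacter K,
          (⟨χ.1 (Quotient.out C)⁻¹, Helper82.irr_isIntegral χ _⟩ : AlgInt) * XA χ D : AlgInt) : ℂ) =
          ∑ χ : IrrCharacter K, χ.1 (Quotient.out D) * conj (χ.1 (Quotient.out C)) := by
        rw [AddSubmonoidClass.coe_finsetSum]
        apply Finset.sum_congr rfl
        intro χ _
        show χ.1 (Quotient.out C)⁻¹ * χ.1 (Quotient.out D) = _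
        rw [Helper4.irr_inv, mul_comm]
      rw [h3, Helper83.column_orthogonality]
      have hiff : IsConj (Quotient.out C) (Quotient.out D) ↔ C = D := by
        rw [← ConjClasses.mk_eq_mk_iff_isConj, hr, hr]
      by_cases hCD : C = D
      · rw [if_pos (hiff.mpr hCD), if_pos hCD]
        simp
      · rw [if_neg (fun h => hCD (hiff.mp h)), if_neg hCD]
        simp
    rw [h1, h2]
    by_cases hCD : C = D
    · rw [if_pos hCD, if_pos hCD, ← hcast, mul_assoc, ← Nat.cast_mul, sz_mul_card]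
      exact inv_mul_cancel₀ hK0
    · rw [if_neg hCD, if_neg hCD, map_zero, mul_zero]
  have hcard : Fintype.card (ConjClasses K) = Fintype.card (IrrCharacter K) := by
    rw [← Nat.card_eq_fintype_card, ← Nat.card_eq_fintype_card, Helper4.card_irr]
  have RO := FixTable.right_inv_of_left_inv hcard
    (fun χ C => Ideal.Quotient.mk M (XA χ C)) YF CO
  -- equivariance
  have hXeq : ∀ (g : Γ) (χ : IrrCharacter K) (C : ConjClasses K),
      Ideal.Quotient.mk M (XA (g • χ) (g • C)) = Ideal.Quotient.mk M (XA χ C) := by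
    intro g χ C
    congr 1
    apply Subtype.ext
    show (g • χ).1 (Quotient.out (g • C)) = χ.1 (Quotient.out C)
    apply compat φ g χ
    rw [hr, hr]
    rfl
  have hYeq : ∀ (g : Γ) (C : ConjClasses K) (χ : IrrCharacter K),
      YF (g • C) (g • χ) = YF C χ := by
    intro g C χ
    show ((Nat.card K : ℕ) : AlgInt ⧸ M)⁻¹ * ((sz (g • C) : ℕ) : AlgInt ⧸ M) *
      Ideal.Quotient.mk M ⟨(g • χ).1 (Quotient.out (g • C))⁻¹, Helper82.irr_isIntegral _ _⟩ =
      ((Nat.card K : ℕ) : AlgInt ⧸ M)⁻¹ * ((sz C : ℕ) : AlgInt ⧸ M) *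
      Ideal.Quotient.mk M ⟨χ.1 (Quotient.out C)⁻¹, Helper82.irr_isIntegral χ _⟩
    have h1 : sz (g • C) = sz C := sz_smul φ g C
    have h2 : (g • χ).1 (Quotient.out (g • C))⁻¹ = χ.1 (Quotient.out C)⁻¹ := by
      apply compat φ g χ
      rw [← invCls_mk, ← invCls_mk, hr, hr]
      exact (smul_invCls φ g C).symm
    rw [h1]
    congr 2
    exact Subtype.ext h2
  -- restriction to the fixed points
  have CO0 := FixTable.restricted_inverse hΓ (fun χ C => Ideal.Quotient.mk M (XA χ C)) YF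
    hXeq hYeq CO
  have RO0 := FixTable.restricted_inverse hΓ YF (fun χ C => Ideal.Quotient.mk M (XA χ C))
    hYeq hXeq RO
  obtain ⟨Z, hZ1, hZ2⟩ := FixTable.exists_complex_inverse (Ideal.Quotient.mk M)
    (AlgInt.val : AlgInt →ₐ[ℤ] ℂ).toRingHom Subtype.val_injective
    (fun (b : {χ : IrrCharacter K // ∀ g : Γ, g • χ = χ})
      (a : {C : ConjClasses K // ∀ g : Γ, g • C = C}) => XA b.1 a.1)
    (fun a b => YF a.1 b.1) CO0 RO0
  let σA : Equiv.Perm {C : ConjClasses K // ∀ g : Γ, g • C = C} := τA.subtypePerm hA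
  let σB : Equiv.Perm {χ : IrrCharacter K // ∀ g : Γ, g • χ = χ} := τB.subtypePerm hB
  have hσ : ∀ (b : {χ : IrrCharacter K // ∀ g : Γ, g • χ = χ})
      (a : {C : ConjClasses K // ∀ g : Γ, g • C = C}),
      (AlgInt.val : AlgInt →ₐ[ℤ] ℂ).toRingHom (XA (σB b).1 (σA a).1) =
        (AlgInt.val : AlgInt →ₐ[ℤ] ℂ).toRingHom (XA b.1 a.1) := by
    intro b a
    show (τB b.1).1 (Quotient.out (τA a.1)) = b.1.1 (Quotient.out a.1)
    apply hτ
    rw [hr, hr]
  have hcount := FixTable.card_fixed_eq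
    (fun (b : {χ : IrrCharacter K // ∀ g : Γ, g • χ = χ})
      (a : {C : ConjClasses K // ∀ g : Γ, g • C = C}) =>
      (AlgInt.val : AlgInt →ₐ[ℤ] ℂ).toRingHom (XA b.1 a.1)) Z hZ1 hZ2 σA σB hσ
  have eL : Nat.card {χ : IrrCharacter K // (∀ g : Γ, (actIrr φ).smul g χ = χ) ∧ τB χ = χ} =
      Fintype.card {b : {χ : IrrCharacter K // ∀ g : Γ, g • χ = χ} // σB b = b} := by
    rw [← Nat.card_eq_fintype_card]
    apply Nat.card_congr
    exact
      { toFun := fun θ => ⟨⟨θ.1, θ.2.1⟩, Subtype.ext θ.2.2⟩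
        invFun := fun b => ⟨b.1.1, b.1.2, congrArg Subtype.val b.2⟩
        left_inv := fun θ => rfl
        right_inv := fun b => rfl }
  have eR : Nat.card {C : ConjClasses K // (∀ g : Γ, (actCls φ).smul g C = C) ∧ τA C = C} =
      Fintype.card {a : {C : ConjClasses K // ∀ g : Γ, g • C = C} // σA a = a} := by
    rw [← Nat.card_eq_fintype_card]
    apply Nat.card_congr
    exact
      { toFun := fun θ => ⟨⟨θ.1, θ.2.1⟩, Subtype.ext θ.2.2⟩
        invFun := fun b => ⟨b.1.1, b.1.2, congrArg Subtype.val b.2⟩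
        left_inv := fun θ => rfl
        right_inv := fun b => rfl }
  rw [eL, eR]
  exact hcount

end Cfsg.Agent.Lib.Helper84.IN
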