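import Mathlib
import Cfsg.Agent.S4911
import Cfsg.Agent.Lib.Helper84.IN7
import Cfsg.Agent.Lib.Helper84.IN8

/-!
# Real classes and real characters of a normal `p'`-subgroup of odd index

If every real irreducible character of a normal `p'`-subgroup `N` of odd index in `A` is fixed
by a Sylow `p`-subgroup of `A`, then so is every real class of `N`.
-/

set_option autoImplicit false
set_option linter.unusedVariables false
set_option linter.style.haveILetI false

namespace Cfsg.Agent.Lib.Helper84.IN

open Cfsg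
open scoped ComplexConjugate

universe u v

section Abstract

variable {A : Type u} [Group A] {W : Type v} [MulAction A W] (c : W → W)
  (hc : ∀ w, c (c w) = w) (hcomm : ∀ (a : A) (w : W), a • c w = c (a • w))

include hc hcomm in
theorem twist_fixed_iff (Q : Subgroup A) (n : A)
    (hn : n ∈ Subgroup.normalizer (Q : Set A)) (w : W) :
    (∀ g ∈ Q, g • (n • c w) = n • c w) ↔ (∀ g ∈ Q, g • w = w) := by
  constructor
  · intro h g hg
    have h1 := h (n * g * n⁻¹) ((Subgroup.mem_normalizer_iff.mp hn g).mp hg)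
    rw [smul_smul, inv_mul_cancel_right, mul_smul] at h1
    have h2 : g • c w = c w := smul_left_cancel n h1
    rw [hcomm] at h2
    have h3 := congrArg c h2
    rwa [hc, hc] at h3
  · intro h g hg
    have h1 := h (n⁻¹ * g * n) ((Subgroup.mem_normalizer_iff''.mp hn g).mp hg)
    calc g • (n • c w) = n • ((n⁻¹ * g * n) • c w) := by
          rw [smul_smul, smul_smul]; congr 1; group
      _ = n • c w := by rw [hcomm, h1]

include hc hcomm in
theorem twist_fix_iff (n : A) (m : ℕ) (hm : Odd m) (hnm : ∀ w : W, n ^ m • w = w) (w : W) :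
    n • c w = w ↔ (c w = w ∧ n • w = w) := by
  constructor
  · intro h
    have h1 : n • w = c w := by
      have h0 := congrArg c h
      rwa [← hcomm, hc] at h0
    have h2 : n ^ 2 • w = w := by
      rw [pow_two, mul_smul, h1, h]
    have h3 : ∀ j : ℕ, (n ^ 2) ^ j • w = w := by
      intro j
      induction j with
      | zero => simp
      | succ j ih => rw [pow_succ, mul_smul, h2, ih]
    obtain ⟨j, hj⟩ := hm
    have h4 : n • w = w := by
      have h5 := hnm w
      rw [hj, pow_succ', mul_smul, pow_mul, h3 j] at h5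
      exact h5
    exact ⟨by rw [← h1, h4], h4⟩
  · rintro ⟨h1, h2⟩
    rw [h1, h2]

end Abstract

section Real

variable {A : Type u} [Group A] (N : Subgroup A) [N.Normal]

/-- the conjugation action on the real irreducible characters of a normal subgroup -/
@[instance_reducible]
def realIrrAct : MulAction A {χ : IrrCharacter ↥N // ∀ k : ↥N, ((χ : ↥N → ℂ) k).im = 0} where
  smul g χ := ⟨(S4911.actIrr (MulAut.conjNormal (H := N))).smul g χ.1, fun k => χ.2 _⟩
  one_smul χ := Subtype.ext ((S4911.actIrr (MulAut.conjNormal (H := N))).one_smul χ.1)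
  mul_smul a b χ := Subtype.ext ((S4911.actIrr (MulAut.conjNormal (H := N))).mul_smul a b χ.1)

/-- the conjugation action on the real classes of a normal subgroup -/
@[instance_reducible]
def realClsAct : MulAction A {C : ConjClasses ↥N // S4911.invCls C = C} where
  smul g C := ⟨(S4911.actCls (MulAut.conjNormal (H := N))).smul g C.1, by
    rw [← S4911.smul_invCls, C.2]⟩
  one_smul C := Subtype.ext ((S4911.actCls (MulAut.conjNormal (H := N))).one_smul C.1)
  mul_smul a b C := Subtype.ext ((S4911.actCls (MulAut.conjNormal (H := N))).mul_smul a b C.1)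

theorem real_fix_count [Finite A] (p : ℕ) [Fact p.Prime] (hNp : ¬ p ∣ Nat.card N)
    (hodd : Odd N.index) (Q : Subgroup A) (hQ : IsPGroup p Q) (n : A)
    (hn : n ∈ Subgroup.normalizer (Q : Set A)) :
    Nat.card {x : {χ : IrrCharacter ↥N // ∀ k : ↥N, ((χ : ↥N → ℂ) k).im = 0} //
        (∀ s ∈ Q, (realIrrAct N).smul s x = x) ∧ (realIrrAct N).smul n x = x} =
    Nat.card {y : {C : ConjClasses ↥N // S4911.invCls C = C} //
        (∀ s ∈ Q, (realClsAct N).smul s y = y) ∧ (realClsAct N).smul n y = y} := by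
  classical
  letI : Fintype ↥N := Fintype.ofFinite _
  letI iA : MulAction A (ConjClasses ↥N) := S4911.actCls (MulAut.conjNormal (H := N))
  letI iB : MulAction A (IrrCharacter ↥N) := S4911.actIrr (MulAut.conjNormal (H := N))
  have hmemN : n ^ N.index ∈ N := Subgroup.pow_index_mem N n
  have htrivA : ∀ C : ConjClasses ↥N, n ^ N.index • C = C := by
    intro C
    obtain ⟨k, rfl⟩ := ConjClasses.mk_surjective C
    show ConjClasses.mk ((MulAut.conjNormal (n ^ N.index)) k) = ConjClasses.mk k
    rw [ConjClasses.mk_eq_mk_iff_isConj]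
    refine isConj_iff.mpr ⟨(⟨n ^ N.index, hmemN⟩ : ↥N)⁻¹, ?_⟩
    apply Subtype.ext
    simp only [Subgroup.coe_mul, Subgroup.coe_inv, MulAut.conjNormal_apply, inv_inv]
    group
  have htrivB : ∀ χ : IrrCharacter ↥N, n ^ N.index • χ = χ := by
    intro χ
    apply Subtype.ext
    funext k
    show χ.1 ((MulAut.conjNormal (n ^ N.index)⁻¹) k) = χ.1 k
    apply Helper83.irr_isConj χ.2
    refine isConj_iff.mpr ⟨(⟨n ^ N.index, hmemN⟩ : ↥N), ?_⟩
    apply Subtype.ext
    simp only [Subgroup.coe_mul, Subgroup.coe_inv, MulAut.conjNormal_apply, inv_inv]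
    group
  let conjP : Equiv.Perm (IrrCharacter ↥N) :=
    Function.Involutive.toPerm S4911.conjIrr S4911.conjIrr_conjIrr
  let invP : Equiv.Perm (ConjClasses ↥N) :=
    Function.Involutive.toPerm S4911.invCls S4911.invCls_invCls
  let τA : Equiv.Perm (ConjClasses ↥N) := MulAction.toPerm n * invP
  let τB : Equiv.Perm (IrrCharacter ↥N) := MulAction.toPerm n * conjP
  have hcommA : ∀ (a : A) (C : ConjClasses ↥N),
      a • S4911.invCls C = S4911.invCls (a • C) := fun a C => S4911.smul_invCls _ a C
  have hcommB : ∀ (a : A) (χ : IrrCharacter ↥N),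
      a • S4911.conjIrr χ = S4911.conjIrr (a • χ) := fun a χ => rfl
  have hA' : ∀ C : ConjClasses ↥N, τA C = C ↔ (S4911.invCls C = C ∧ n • C = C) := fun C =>
    twist_fix_iff S4911.invCls S4911.invCls_invCls hcommA n N.index hodd htrivA C
  have hB' : ∀ χ : IrrCharacter ↥N, τB χ = χ ↔ (S4911.conjIrr χ = χ ∧ n • χ = χ) := fun χ =>
    twist_fix_iff S4911.conjIrr S4911.conjIrr_conjIrr hcommB n N.index hodd htrivB χ
  have hreal_iff : ∀ χ : IrrCharacter ↥N,
      S4911.conjIrr χ = χ ↔ ∀ k : ↥N, ((χ : ↥N → ℂ) k).im = 0 := by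
    intro χ
    constructor
    · intro h k
      have h1 := congrArg (fun z : IrrCharacter ↥N => z.1 k) h
      exact Complex.conj_eq_iff_im.mp h1
    · intro h
      apply Subtype.ext
      funext k
      exact Complex.conj_eq_iff_im.mpr (h k)
  have key := fixed_perm_count ((MulAut.conjNormal (H := N)).comp Q.subtype) p hQ hNp τA τB
    (by
      intro C
      have h0 := twist_fixed_iff S4911.invCls S4911.invCls_invCls hcommA Q n hn C
      constructor
      · intro h g
        exact (h0.mp (fun g hg => h ⟨g, hg⟩)) g g.2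
      · intro h g
        exact (h0.mpr (fun g hg => h ⟨g, hg⟩)) g g.2)
    (by
      intro χ
      have h0 := twist_fixed_iff S4911.conjIrr S4911.conjIrr_conjIrr hcommB Q n hn χ
      constructor
      · intro h g
        exact (h0.mp (fun g hg => h ⟨g, hg⟩)) g g.2
      · intro h g
        exact (h0.mpr (fun g hg => h ⟨g, hg⟩)) g g.2)
    (by
      intro χ k k' h
      have h1 := S4911.compat (MulAut.conjNormal (H := N)) n (S4911.conjIrr χ) k⁻¹ k' h
      rw [show (τB χ).1 k' = ((S4911.actIrr (MulAut.conjNormal (H := N))).smul n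
        (S4911.conjIrr χ)).1 k' from rfl, h1]
      show conj (χ.1 k⁻¹) = χ.1 k
      rw [Helper4.irr_inv]
      simp)
  have eL : Nat.card {x : {χ : IrrCharacter ↥N // ∀ k : ↥N, ((χ : ↥N → ℂ) k).im = 0} //
        (∀ s ∈ Q, (realIrrAct N).smul s x = x) ∧ (realIrrAct N).smul n x = x} =
      Nat.card {χ : IrrCharacter ↥N // (∀ g : ↥Q,
        (S4911.actIrr ((MulAut.conjNormal (H := N)).comp Q.subtype)).smul g χ = χ) ∧
        τB χ = χ} := by
    apply Nat.card_congr
    exact
      { toFun := fun x => ⟨x.1.1, fun g => congrArg Subtype.val (x.2.1 g g.2),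
          (hB' _).mpr ⟨(hreal_iff _).mpr x.1.2, congrArg Subtype.val x.2.2⟩⟩
        invFun := fun χ => ⟨⟨χ.1, (hreal_iff _).mp ((hB' _).mp χ.2.2).1⟩,
          fun s hs => Subtype.ext (χ.2.1 ⟨s, hs⟩), Subtype.ext ((hB' _).mp χ.2.2).2⟩
        left_inv := fun x => rfl
        right_inv := fun χ => rfl }
  have eR : Nat.card {y : {C : ConjClasses ↥N // S4911.invCls C = C} //
        (∀ s ∈ Q, (realClsAct N).smul s y = y) ∧ (realClsAct N).smul n y = y} =
      Nat.card {C : ConjClasses ↥N // (∀ g : ↥Q,
        (S4911.actCls ((MulAut.conjNormal (H := N)).comp Q.subtype)).smul g C = C) ∧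
        τA C = C} := by
    apply Nat.card_congr
    exact
      { toFun := fun y => ⟨y.1.1, fun g => congrArg Subtype.val (y.2.1 g g.2),
          (hA' _).mpr ⟨y.1.2, congrArg Subtype.val y.2.2⟩⟩
        invFun := fun C => ⟨⟨C.1, ((hA' _).mp C.2.2).1⟩,
          fun s hs => Subtype.ext (C.2.1 ⟨s, hs⟩), Subtype.ext ((hA' _).mp C.2.2).2⟩
        left_inv := fun y => rfl
        right_inv := fun C => rfl }
  rw [eL, eR]
  exact key

/-- real characters fixed by Sylow subgroups imply real classes fixed by Sylow subgroups -/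
theorem real_cls_sylow_fixed [Finite A] (p : ℕ) [Fact p.Prime] (hNp : ¬ p ∣ Nat.card N)
    (hodd : Odd N.index) (S : Sylow p A)
    (h1 : ∀ x : {χ : IrrCharacter ↥N // ∀ k : ↥N, ((χ : ↥N → ℂ) k).im = 0},
      ∃ a : A, ∀ s ∈ (S : Subgroup A), (realIrrAct N).smul (a * s * a⁻¹) x = x) :
    ∀ y : {C : ConjClasses ↥N // S4911.invCls C = C},
      ∃ a : A, ∀ s ∈ (S : Subgroup A), (realClsAct N).smul (a * s * a⁻¹) y = y := by
  haveI := Cfsg.Agent.Lib.Helper83.irr_finite (G := ↥N)
  letI := realIrrAct N
  letI := realClsAct N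
  refine sylow_fixed_transfer p S ?_ ?_ h1
  · intro a
    have h0 := real_fix_count N p hNp hodd ⊥ IsPGroup.of_bot a (by
      rw [Subgroup.mem_normalizer_iff]
      intro h
      simp [Subgroup.mem_bot])
    have e1 : Nat.card {x : {χ : IrrCharacter ↥N // ∀ k : ↥N, ((χ : ↥N → ℂ) k).im = 0} //
          a • x = x} =
        Nat.card {x : {χ : IrrCharacter ↥N // ∀ k : ↥N, ((χ : ↥N → ℂ) k).im = 0} //
          (∀ s ∈ (⊥ : Subgroup A), (realIrrAct N).smul s x = x) ∧
            (realIrrAct N).smul a x = x} :=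
      Nat.card_congr (Equiv.subtypeEquivRight (fun x => ⟨fun h => ⟨fun s hs => by
        rw [Subgroup.mem_bot.mp hs]; exact one_smul A x, h⟩, fun h => h.2⟩))
    have e2 : Nat.card {y : {C : ConjClasses ↥N // S4911.invCls C = C} // a • y = y} =
        Nat.card {y : {C : ConjClasses ↥N // S4911.invCls C = C} //
          (∀ s ∈ (⊥ : Subgroup A), (realClsAct N).smul s y = y) ∧
            (realClsAct N).smul a y = y} :=
      Nat.card_congr (Equiv.subtypeEquivRight (fun x => ⟨fun h => ⟨fun s hs => by
        rw [Subgroup.mem_bot.mp hs]; exact one_smul A x, h⟩, fun h => h.2⟩))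
    rw [e1, e2]
    exact h0
  · intro n hn
    exact real_fix_count N p hNp hodd S S.isPGroup' n hn

end Real

end Cfsg.Agent.Lib.Helper84.IN
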