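import Mathlib
import Cfsg.Agent.S4911
import Cfsg.Agent.Lib.Helper84.ItoMichler
import Cfsg.Agent.Lib.Helper84.IN5
import Cfsg.Agent.Lib.Helper84.IN6
import Cfsg.Agent.Lib.Helper84.IN9

/-!
# Isaacs–Navarro: the normalizer of a Sylow `p`-subgroup meets every real class
-/

set_option autoImplicit false
set_option linter.unusedVariables false
set_option linter.style.haveILetI false
set_option maxHeartbeats 800000

namespace Cfsg.Agent.Lib.Helper84.IN

open Cfsg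
open scoped ComplexConjugate

universe u

/-- real characters of a normal subgroup of odd index are fixed by a Sylow `p`-subgroup, if the
real irreducible characters of the group have degree prime to `p` -/
theorem real_irr_sylow_fixed {A : Type u} [Group A] [Finite A] (p : ℕ) [Fact p.Prime]
    (N : Subgroup A) [hN : N.Normal] (hodd : Odd N.index)
    (hreal : ∀ χ : IrrCharacter A, (∀ g : A, ((χ : A → ℂ) g).im = 0) →
      ¬ p ∣ charDegree (χ : A → ℂ))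
    (S : Sylow p A) (x : {χ : IrrCharacter ↥N // ∀ k : ↥N, ((χ : ↥N → ℂ) k).im = 0}) :
    ∃ a : A, ∀ s ∈ (S : Subgroup A), (realIrrAct N).smul (a * s * a⁻¹) x = x := by
  classical
  letI : Fintype A := Fintype.ofFinite A
  letI : Fintype ↥N := Fintype.ofFinite _
  obtain ⟨χ, hχ, hover⟩ := exists_real_over N hodd x.1 x.2
  obtain ⟨k, hk⟩ := Cfsg.Agent.Lib.Helper84.over_degree N x.1 χ hover
  have hp : ¬ p ∣ (Helper20.inertia N x.1.1).index := by
    intro h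
    apply hreal χ hχ
    rw [hk]
    exact Dvd.dvd.mul_right (Dvd.dvd.mul_left h k) _
  obtain ⟨P, hP⟩ := Helper81.exists_sylow_le_of_not_dvd_index p _ hp
  obtain ⟨a, ha⟩ := MulAction.exists_smul_eq A S P
  refine ⟨a, fun s hs => ?_⟩
  have hmem : a * s * a⁻¹ ∈ Helper20.inertia N x.1.1 := by
    apply hP
    rw [← ha]
    exact ⟨s, hs, rfl⟩
  have hmem' : Helper20.conjFun N x.1.1 (a * s * a⁻¹) = x.1.1 := hmem
  apply Subtype.ext
  apply Subtype.ext
  funext k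
  show x.1.1 ((MulAut.conjNormal (a * s * a⁻¹)⁻¹) k) = x.1.1 k
  have h1 := congrFun hmem' ((MulAut.conjNormal (a * s * a⁻¹)⁻¹) k)
  rw [Helper20.conjFun_apply] at h1
  rw [← h1]
  exact congrArg x.1.1 (Subtype.ext (by
    simp only [MulAut.conjNormal_apply]
    group))

theorem conj_comm_aux {H : Type u} [Group H] (X a : H) (h : a * X * a⁻¹ = X) :
    X * a * X⁻¹ = a ∧ X⁻¹ * a * X = a := by
  constructor
  · calc X * a * X⁻¹ = (a * X * a⁻¹) * a * X⁻¹ := by rw [h]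
      _ = a := by group
  · calc X⁻¹ * a * X = X⁻¹ * (a * X * a⁻¹) * a := by group
      _ = a := by rw [h]; group

/-- Isaacs–Navarro: the normalizer of a Sylow `p`-subgroup meets every real class. -/
theorem real_class_normalizer {G : Type u} [Group G] [Finite G] (p : ℕ) [Fact p.Prime]
    (hsolv : Group.IsSolvable ↥(Subgroup.closure {g : G | ∃ k : ℕ, orderOf g = p ^ k}))
    (hreal : ∀ χ : IrrCharacter G, (∀ g : G, ((χ : G → ℂ) g).im = 0) →
      ¬ p ∣ charDegree (χ : G → ℂ))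
    (P : Sylow p G) (x : G) (hx : IsConj x x⁻¹) :
    ∃ y ∈ Subgroup.normalizer ((P : Subgroup G) : Set G), IsConj x y := by
  classical
  haveI hKn : (Subgroup.closure {g : G | ∃ k : ℕ, orderOf g = 2 ^ k}).Normal := Oq_normal 2
  obtain ⟨R, hRn, hRp, hRU⟩ := core2 p (Nat.card G) G rfl hsolv hreal
    (Subgroup.closure {g : G | ∃ k : ℕ, orderOf g = 2 ^ k}) hKn
    (fun u hu => ⟨0, by simpa using hu⟩)
  haveI := hRn
  obtain ⟨R₀, hR₀def⟩ : ∃ R₀ : Subgroup G,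
      R₀ = R ⊓ Subgroup.closure {g : G | ∃ k : ℕ, orderOf g = 2 ^ k} := ⟨_, rfl⟩
  haveI hR₀n : R₀.Normal := by
    rw [hR₀def]
    exact Subgroup.normal_inf_normal R _
  have hR₀p : IsPGroup p R₀ := by
    rw [hR₀def]
    exact hRp.to_le inf_le_left
  have hR₀K : R₀ ≤ Subgroup.closure {g : G | ∃ k : ℕ, orderOf g = 2 ^ k} := by
    rw [hR₀def]
    exact inf_le_right
  have hR₀el : ∀ u ∈ Subgroup.closure {g : G | ∃ k : ℕ, orderOf g = 2 ^ k},
      (∃ k : ℕ, orderOf u = p ^ k) → u ∈ R₀ := by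
    intro u hu h
    rw [hR₀def]
    exact ⟨hRU u hu h, hu⟩
  have hR₀P : R₀ ≤ (P : Subgroup G) := IsPGroup.le_sylow_of_normal hR₀p P
  -- the element `x` lies in `K` and is inverted by a `2`-element of `K`
  obtain ⟨t, ⟨a, hta⟩, htx⟩ := real_two_elt x hx
  have htK : t ∈ Subgroup.closure {g : G | ∃ k : ℕ, orderOf g = 2 ^ k} :=
    Subgroup.subset_closure ⟨a, hta⟩
  have h1 : t * x⁻¹ * t⁻¹ = x := by
    have e : t * x⁻¹ * t⁻¹ = (t * x * t⁻¹)⁻¹ := by group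
    rw [e, htx, inv_inv]
  have hxK : x ∈ Subgroup.closure {g : G | ∃ k : ℕ, orderOf g = 2 ^ k} := by
    have hx2 : x ^ 2 ∈ Subgroup.closure {g : G | ∃ k : ℕ, orderOf g = 2 ^ k} := by
      have e2 : x ^ 2 = (x * t * x⁻¹) * t⁻¹ := by
        calc x ^ 2 = x * (t * x⁻¹ * t⁻¹) := by rw [h1, pow_two]
          _ = (x * t * x⁻¹) * t⁻¹ := by group
      rw [e2]
      exact Subgroup.mul_mem _ (hKn.conj_mem t htK x) (Subgroup.inv_mem _ htK)
    obtain ⟨b, m, hm, hom⟩ := Nat.exists_eq_two_pow_mul_odd (orderOf_pos x).ne'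
    obtain ⟨j, hj⟩ := hm
    have hm0 : m ≠ 0 := by omega
    have hxm : x ^ m ∈ Subgroup.closure {g : G | ∃ k : ℕ, orderOf g = 2 ^ k} :=
      Subgroup.subset_closure ⟨b, by
        rw [orderOf_pow_of_dvd hm0 ⟨2 ^ b, by rw [hom, mul_comm]⟩, hom,
          Nat.mul_div_cancel _ (Nat.pos_of_ne_zero hm0)]⟩
    have e3 : x = ((x ^ 2) ^ j)⁻¹ * x ^ m := by
      rw [hj, pow_succ x (2 * j), ← pow_mul, inv_mul_cancel_left]
    rw [e3]
    exact Subgroup.mul_mem _ (Subgroup.inv_mem _ (Subgroup.pow_mem _ hx2 j)) hxm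
  -- the quotient
  have hπ : Function.Surjective (QuotientGroup.mk' R₀) := QuotientGroup.mk'_surjective R₀
  obtain ⟨Kb, hKbdef⟩ : ∃ Kb : Subgroup (G ⧸ R₀), Kb =
      (Subgroup.closure {g : G | ∃ k : ℕ, orderOf g = 2 ^ k}).map (QuotientGroup.mk' R₀) :=
    ⟨_, rfl⟩
  haveI hKbn : Kb.Normal := by
    rw [hKbdef]
    exact hKn.map _ hπ
  have hrealQ := real_quotient p R₀ hreal
  have hoddKb : Odd Kb.index := by
    have hdvd : Kb.index ∣
        (Subgroup.closure {g : G | ∃ k : ℕ, orderOf g = 2 ^ k}).index := by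
      rw [hKbdef]
      exact Subgroup.index_map_dvd _ hπ
    exact Odd.of_dvd_nat odd_index hdvd
  have hmemKb : ∀ g ∈ Subgroup.closure {g : G | ∃ k : ℕ, orderOf g = 2 ^ k},
      (QuotientGroup.mk' R₀) g ∈ Kb := by
    intro g hg
    rw [hKbdef]
    exact Subgroup.mem_map_of_mem _ hg
  have hKbp : ¬ p ∣ Nat.card Kb := by
    intro hdvd
    obtain ⟨kb, hkb⟩ := exists_prime_orderOf_dvd_card' p hdvd
    have ho : orderOf (kb : G ⧸ R₀) = p ^ 1 := by rw [Subgroup.orderOf_coe, hkb, pow_one]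
    obtain ⟨g, ⟨j, hgj⟩, hg⟩ := exists_lift_pElt p Fact.out R₀ (kb : G ⧸ R₀) ⟨1, ho⟩
    have hgK : g ∈ Subgroup.closure {g : G | ∃ k : ℕ, orderOf g = 2 ^ k} := by
      have hkb2 : (kb : G ⧸ R₀) ∈ (Subgroup.closure
          {g : G | ∃ k : ℕ, orderOf g = 2 ^ k}).map (QuotientGroup.mk' R₀) := by
        rw [← hKbdef]
        exact kb.2
      obtain ⟨k, hkK, hk⟩ := hkb2
      have h3 : k⁻¹ * g ∈ R₀ := by
        rw [← QuotientGroup.eq]
        exact hk.trans hg.symm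
      have h4 := Subgroup.mul_mem _ hkK (hR₀K h3)
      simpa using h4
    have hgR : g ∈ R₀ := hR₀el g hgK ⟨j, hgj⟩
    have h5 : (kb : G ⧸ R₀) = 1 := by
      rw [← hg]
      exact (QuotientGroup.eq_one_iff g).mpr hgR
    rw [h5, orderOf_one, pow_one] at ho
    exact (Fact.out : p.Prime).one_lt.ne ho
  -- the real class of the image of `x`
  have hxb : S4911.invCls (ConjClasses.mk (⟨(QuotientGroup.mk' R₀) x, hmemKb x hxK⟩ : ↥Kb)) =
      ConjClasses.mk (⟨(QuotientGroup.mk' R₀) x, hmemKb x hxK⟩ : ↥Kb) := by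
    rw [S4911.invCls_mk, ConjClasses.mk_eq_mk_iff_isConj]
    refine isConj_iff.mpr ⟨⟨(QuotientGroup.mk' R₀) t, hmemKb t htK⟩, ?_⟩
    apply Subtype.ext
    show (QuotientGroup.mk' R₀) t * ((QuotientGroup.mk' R₀) x)⁻¹ * ((QuotientGroup.mk' R₀) t)⁻¹ =
      (QuotientGroup.mk' R₀) x
    rw [← map_inv, ← map_inv, ← map_mul, ← map_mul, h1]
  obtain ⟨ab, hab⟩ := real_cls_sylow_fixed Kb p hKbp hoddKb (P.mapSurjective hπ)
    (fun χ => real_irr_sylow_fixed p Kb hoddKb hrealQ (P.mapSurjective hπ) χ)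
    ⟨ConjClasses.mk (⟨(QuotientGroup.mk' R₀) x, hmemKb x hxK⟩ : ↥Kb), hxb⟩
  have hab' : ∀ s ∈ ((P.mapSurjective hπ : Sylow p (G ⧸ R₀)) : Subgroup (G ⧸ R₀)),
      (S4911.actCls (MulAut.conjNormal (H := Kb))).smul (ab * s * ab⁻¹)
        (ConjClasses.mk (⟨(QuotientGroup.mk' R₀) x, hmemKb x hxK⟩ : ↥Kb)) =
      ConjClasses.mk (⟨(QuotientGroup.mk' R₀) x, hmemKb x hxK⟩ : ↥Kb) :=
    fun s hs => congrArg Subtype.val (hab s hs)
  -- a fixed point on the class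
  letI act : MulAction ↥((P.mapSurjective hπ : Sylow p (G ⧸ R₀)) : Subgroup (G ⧸ R₀))
      {k : ↥Kb // ConjClasses.mk k =
        ConjClasses.mk (⟨(QuotientGroup.mk' R₀) x, hmemKb x hxK⟩ : ↥Kb)} :=
    { smul := fun s k => ⟨MulAut.conjNormal (ab * (s : G ⧸ R₀) * ab⁻¹) k.1,
        (congrArg (fun C => (S4911.actCls (MulAut.conjNormal (H := Kb))).smul
          (ab * (s : G ⧸ R₀) * ab⁻¹) C) k.2).trans (hab' (s : G ⧸ R₀) s.2)⟩
      one_smul := fun k => Subtype.ext (by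
        show MulAut.conjNormal (ab * ((1 : ↥((P.mapSurjective hπ : Sylow p (G ⧸ R₀)) :
          Subgroup (G ⧸ R₀))) : G ⧸ R₀) * ab⁻¹) k.1 = k.1
        rw [Subgroup.coe_one, mul_one, mul_inv_cancel, map_one]
        rfl)
      mul_smul := fun s s' k => Subtype.ext (by
        show MulAut.conjNormal (ab * ((s * s' : ↥((P.mapSurjective hπ : Sylow p (G ⧸ R₀)) :
          Subgroup (G ⧸ R₀))) : G ⧸ R₀) * ab⁻¹) k.1 =
          MulAut.conjNormal (ab * (s : G ⧸ R₀) * ab⁻¹)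
            (MulAut.conjNormal (ab * (s' : G ⧸ R₀) * ab⁻¹) k.1)
        have e : ab * ((s * s' : ↥((P.mapSurjective hπ : Sylow p (G ⧸ R₀)) :
            Subgroup (G ⧸ R₀))) : G ⧸ R₀) * ab⁻¹ =
            (ab * (s : G ⧸ R₀) * ab⁻¹) * (ab * (s' : G ⧸ R₀) * ab⁻¹) := by
          rw [Subgroup.coe_mul]
          group
        rw [e, map_mul]
        rfl) }
  have hcardΩ : ¬ p ∣ Nat.card {k : ↥Kb // ConjClasses.mk k =
      ConjClasses.mk (⟨(QuotientGroup.mk' R₀) x, hmemKb x hxK⟩ : ↥Kb)} := by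
    intro hdvd
    apply hKbp
    have h6 := S4911.sz_mul_card
      (ConjClasses.mk (⟨(QuotientGroup.mk' R₀) x, hmemKb x hxK⟩ : ↥Kb))
    rw [← h6]
    exact Dvd.dvd.mul_right hdvd _
  obtain ⟨k₀, hk₀⟩ := IsPGroup.nonempty_fixed_point_of_prime_not_dvd_card
    (P.mapSurjective hπ : Sylow p (G ⧸ R₀)).isPGroup' _ hcardΩ
  obtain ⟨c, hc⟩ := isConj_iff.mp (ConjClasses.mk_eq_mk_iff_isConj.mp k₀.2)
  have hcx : (QuotientGroup.mk' R₀) x = (c : G ⧸ R₀) * (k₀.1 : G ⧸ R₀) * (c : G ⧸ R₀)⁻¹ := by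
    have h7 := congrArg Subtype.val hc
    simp only [Subgroup.coe_mul, Subgroup.coe_inv] at h7
    exact h7.symm
  have hfix : ∀ s ∈ ((P.mapSurjective hπ : Sylow p (G ⧸ R₀)) : Subgroup (G ⧸ R₀)),
      (ab * s * ab⁻¹) * (k₀.1 : G ⧸ R₀) * (ab * s * ab⁻¹)⁻¹ = (k₀.1 : G ⧸ R₀) := by
    intro s hs
    have h8 := congrArg Subtype.val (hk₀ ⟨s, hs⟩)
    have h9 : ((MulAut.conjNormal (ab * s * ab⁻¹) k₀.1 : ↥Kb) : G ⧸ R₀) = (k₀.1 : G ⧸ R₀) :=
      congrArg Subtype.val h8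
    rw [MulAut.conjNormal_apply] at h9
    exact h9
  obtain ⟨g, hg⟩ := hπ ((c : G ⧸ R₀) * ab)
  -- the commutation
  have hcomm : ∀ u ∈ (P : Subgroup G),
      ((QuotientGroup.mk' R₀) g * (QuotientGroup.mk' R₀) u * ((QuotientGroup.mk' R₀) g)⁻¹) *
        (QuotientGroup.mk' R₀) x *
        ((QuotientGroup.mk' R₀) g * (QuotientGroup.mk' R₀) u * ((QuotientGroup.mk' R₀) g)⁻¹)⁻¹ =
      (QuotientGroup.mk' R₀) x := by
    intro u hu
    have hs : (QuotientGroup.mk' R₀) u ∈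
        ((P.mapSurjective hπ : Sylow p (G ⧸ R₀)) : Subgroup (G ⧸ R₀)) := by
      rw [Sylow.coe_mapSurjective]
      exact Subgroup.mem_map_of_mem _ hu
    have h10 := hfix _ hs
    rw [hg, hcx]
    have e : (c : G ⧸ R₀) * ab * (QuotientGroup.mk' R₀) u * ((c : G ⧸ R₀) * ab)⁻¹ *
        ((c : G ⧸ R₀) * (k₀.1 : G ⧸ R₀) * (c : G ⧸ R₀)⁻¹) *
        ((c : G ⧸ R₀) * ab * (QuotientGroup.mk' R₀) u * ((c : G ⧸ R₀) * ab)⁻¹)⁻¹ =
        (c : G ⧸ R₀) * ((ab * (QuotientGroup.mk' R₀) u * ab⁻¹) * (k₀.1 : G ⧸ R₀) *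
          (ab * (QuotientGroup.mk' R₀) u * ab⁻¹)⁻¹) * (c : G ⧸ R₀)⁻¹ := by group
    rw [e, h10]
  have hkey : ∀ u ∈ (P : Subgroup G),
      (g⁻¹ * x * g) * u * (g⁻¹ * x * g)⁻¹ ∈ (P : Subgroup G) ∧
      (g⁻¹ * x * g)⁻¹ * u * (g⁻¹ * x * g) ∈ (P : Subgroup G) := by
    intro u hu
    obtain ⟨hc1, hc2⟩ := conj_comm_aux _ _ (hcomm u hu)
    constructor
    · have e1 : (QuotientGroup.mk' R₀) ((g⁻¹ * x * g) * u * (g⁻¹ * x * g)⁻¹) =
          (QuotientGroup.mk' R₀) u := by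
        simp only [map_mul, map_inv]
        calc ((QuotientGroup.mk' R₀) g)⁻¹ * (QuotientGroup.mk' R₀) x * (QuotientGroup.mk' R₀) g *
              (QuotientGroup.mk' R₀) u *
              (((QuotientGroup.mk' R₀) g)⁻¹ * (QuotientGroup.mk' R₀) x *
                (QuotientGroup.mk' R₀) g)⁻¹ =
            ((QuotientGroup.mk' R₀) g)⁻¹ * ((QuotientGroup.mk' R₀) x *
              ((QuotientGroup.mk' R₀) g * (QuotientGroup.mk' R₀) u *
                ((QuotientGroup.mk' R₀) g)⁻¹) * ((QuotientGroup.mk' R₀) x)⁻¹) *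
              (QuotientGroup.mk' R₀) g := by group
          _ = (QuotientGroup.mk' R₀) u := by rw [hc1]; group
      have e2 : u⁻¹ * ((g⁻¹ * x * g) * u * (g⁻¹ * x * g)⁻¹) ∈ R₀ :=
        QuotientGroup.eq.mp e1.symm
      have e3 := (P : Subgroup G).mul_mem hu (hR₀P e2)
      rwa [mul_inv_cancel_left] at e3
    · have e1 : (QuotientGroup.mk' R₀) ((g⁻¹ * x * g)⁻¹ * u * (g⁻¹ * x * g)) =
          (QuotientGroup.mk' R₀) u := by
        simp only [map_mul, map_inv]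
        calc (((QuotientGroup.mk' R₀) g)⁻¹ * (QuotientGroup.mk' R₀) x *
              (QuotientGroup.mk' R₀) g)⁻¹ * (QuotientGroup.mk' R₀) u *
              (((QuotientGroup.mk' R₀) g)⁻¹ * (QuotientGroup.mk' R₀) x *
                (QuotientGroup.mk' R₀) g) =
            ((QuotientGroup.mk' R₀) g)⁻¹ * (((QuotientGroup.mk' R₀) x)⁻¹ *
              ((QuotientGroup.mk' R₀) g * (QuotientGroup.mk' R₀) u *
                ((QuotientGroup.mk' R₀) g)⁻¹) * (QuotientGroup.mk' R₀) x) *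
              (QuotientGroup.mk' R₀) g := by group
          _ = (QuotientGroup.mk' R₀) u := by rw [hc2]; group
      have e2 : u⁻¹ * ((g⁻¹ * x * g)⁻¹ * u * (g⁻¹ * x * g)) ∈ R₀ :=
        QuotientGroup.eq.mp e1.symm
      have e3 := (P : Subgroup G).mul_mem hu (hR₀P e2)
      rwa [mul_inv_cancel_left] at e3
  refine ⟨g⁻¹ * x * g, ?_, isConj_iff.mpr ⟨g⁻¹, by rw [inv_inv]⟩⟩
  rw [Subgroup.mem_normalizer_iff]
  intro h
  constructor
  · intro hh
    exact (hkey h hh).1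
  · intro hh
    have e := (hkey _ hh).2
    have e' : (g⁻¹ * x * g)⁻¹ * ((g⁻¹ * x * g) * h * (g⁻¹ * x * g)⁻¹) * (g⁻¹ * x * g) = h := by
      group
    rwa [e'] at e

end Cfsg.Agent.Lib.Helper84.IN
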