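import Mathlib
import Cfsg.Agent.Lib.Helper84.IN2
import Cfsg.Agent.Lib.Helper84.IN7
import Cfsg.Agent.Lib.Helper84.RealOver

/-!
# Isaacs–Navarro: tools for the correspondence with the Sylow normalizer

* `sylow_coset_fusion`, `sylow_index_modEq`: cosets of a subgroup containing a Sylow subgroup;
* `bij_of_rel`: a bijection from two relations to a common parameter set;
* `real_over_degree`: the degree of a real character over a real character of a normal subgroup
  of odd index.
-/

set_option autoImplicit false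
set_option linter.unusedVariables false
set_option linter.style.haveILetI false
set_option maxHeartbeats 800000

namespace Cfsg.Agent.Lib.Helper84.IN

open Cfsg
open scoped ComplexConjugate

universe u

/-- if a subgroup `T` contains a Sylow subgroup `S` and a conjugate of it, the conjugating element
lies in `N(S) T` -/
theorem sylow_coset_fusion {A : Type u} [Group A] [Finite A] (p : ℕ) [Fact p.Prime]
    (S : Sylow p A) (T : Subgroup A) (hST : (S : Subgroup A) ≤ T) (g : A)
    (hg : ∀ s ∈ (S : Subgroup A), g⁻¹ * s * g ∈ T) :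
    ∃ n ∈ Subgroup.normalizer ((S : Subgroup A) : Set A), n⁻¹ * g ∈ T := by
  have h1 : ∀ s ∈ (S : Subgroup A), s • ((g : A) : A ⧸ T) = ((g : A) : A ⧸ T) := by
    intro s hs
    show (((s * g : A)) : A ⧸ T) = ((g : A) : A ⧸ T)
    rw [QuotientGroup.eq]
    have h2 := T.inv_mem (hg s hs)
    have e : (s * g)⁻¹ * g = (g⁻¹ * s * g)⁻¹ := by group
    rw [e]
    exact h2
  have h2 : ∀ s ∈ (S : Subgroup A), s • (((1 : A) : A ⧸ T)) = ((1 : A) : A ⧸ T) := by
    intro s hs
    show (((s * 1 : A)) : A ⧸ T) = ((1 : A) : A ⧸ T)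
    rw [QuotientGroup.eq, mul_one, mul_one]
    exact T.inv_mem (hST hs)
  obtain ⟨n, hn, hn2⟩ := fused_in_normalizer p S (A ⧸ T) ((g : A) : A ⧸ T) ((1 : A) : A ⧸ T)
    h1 h2 g (by
      show (((g * 1 : A)) : A ⧸ T) = ((g : A) : A ⧸ T)
      rw [mul_one])
  refine ⟨n, hn, ?_⟩
  have h3 : (((n * 1 : A)) : A ⧸ T) = ((g : A) : A ⧸ T) := hn2
  rw [mul_one, QuotientGroup.eq] at h3
  exact h3

/-- the index of a subgroup containing a Sylow subgroup, modulo `p` -/
theorem sylow_index_modEq {A : Type u} [Group A] [Finite A] (p : ℕ) [Fact p.Prime]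
    (S : Sylow p A) (T : Subgroup A) (hST : (S : Subgroup A) ≤ T) :
    T.index ≡ (T.subgroupOf (Subgroup.normalizer ((S : Subgroup A) : Set A))).index [MOD p] := by
  have h1 := S.isPGroup'.card_modEq_card_fixedPoints (A ⧸ T)
  have hstab : MulAction.stabilizer ↥(Subgroup.normalizer ((S : Subgroup A) : Set A))
      (((1 : A)) : A ⧸ T) = T.subgroupOf (Subgroup.normalizer ((S : Subgroup A) : Set A)) := by
    ext n
    rw [MulAction.mem_stabilizer_iff, Subgroup.mem_subgroupOf]
    show ((((n : A) * 1 : A)) : A ⧸ T) = ((1 : A) : A ⧸ T) ↔ (n : A) ∈ T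
    rw [QuotientGroup.eq, mul_one, mul_one]
    exact T.inv_mem_iff
  have hfix : MulAction.fixedPoints ↥(S : Subgroup A) (A ⧸ T) =
      MulAction.orbit ↥(Subgroup.normalizer ((S : Subgroup A) : Set A))
        (((1 : A)) : A ⧸ T) := by
    ext q
    rw [MulAction.mem_fixedPoints, MulAction.mem_orbit_iff]
    constructor
    · intro hq
      obtain ⟨g, rfl⟩ := QuotientGroup.mk_surjective q
      have hg : ∀ s ∈ (S : Subgroup A), g⁻¹ * s * g ∈ T := by
        intro s hs
        have h2 : (((s * g : A)) : A ⧸ T) = ((g : A) : A ⧸ T) := hq ⟨s, hs⟩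
        rw [QuotientGroup.eq] at h2
        have h3 := T.inv_mem h2
        have e : ((s * g)⁻¹ * g)⁻¹ = g⁻¹ * s * g := by group
        rwa [e] at h3
      obtain ⟨n, hn, hn2⟩ := sylow_coset_fusion p S T hST g hg
      refine ⟨⟨n, hn⟩, ?_⟩
      show ((((n : A) * 1 : A)) : A ⧸ T) = ((g : A) : A ⧸ T)
      rw [mul_one, QuotientGroup.eq]
      exact hn2
    · rintro ⟨n, rfl⟩ s
      show ((((s : A) * ((n : A) * 1) : A)) : A ⧸ T) = ((((n : A) * 1 : A)) : A ⧸ T)
      rw [QuotientGroup.eq, mul_one]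
      have h2 : (n : A)⁻¹ * (s : A) * (n : A) ∈ (S : Subgroup A) :=
        (Subgroup.mem_normalizer_iff''.mp n.2 (s : A)).mp s.2
      have h3 := T.inv_mem (hST h2)
      have e : ((s : A) * (n : A))⁻¹ * (n : A) = ((n : A)⁻¹ * (s : A) * (n : A))⁻¹ := by group
      rw [e]
      exact h3
  rw [← hstab, MulAction.index_stabilizer, ← hfix, ← Nat.card_coe_set_eq]
  exact h1

/-- a bijection obtained from two relations to a common parameter set -/
theorem bij_of_rel {A B X : Type*} (RA : A → X → Prop) (RB : B → X → Prop) (E : X → X → Prop)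
    (ha : ∀ a, ∃ x, RA a x) (hb : ∀ b, ∃ x, RB b x)
    (hxa : ∀ x, ∃ a, RA a x) (hxb : ∀ x, ∃ b, RB b x)
    (hdA : ∀ a x x', RA a x → RA a x' → E x x') (hdB : ∀ b x x', RB b x → RB b x' → E x x')
    (heA : ∀ a x x', RA a x → E x x' → RA a x') (heB : ∀ b x x', RB b x → E x x' → RB b x')
    (hfA : ∀ a a' x, RA a x → RA a' x → a = a') (hfB : ∀ b b' x, RB b x → RB b' x → b = b') :
    ∃ f : A → B, Function.Bijective f ∧ ∀ a, ∃ x, RA a x ∧ RB (f a) x := by
  choose xa hxa' using ha
  choose bx hbx using hxb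
  refine ⟨fun a => bx (xa a), ⟨?_, ?_⟩, fun a => ⟨xa a, hxa' a, hbx (xa a)⟩⟩
  · intro a a' h
    have h' : bx (xa a) = bx (xa a') := h
    have h1 := hbx (xa a)
    have h2 := hbx (xa a')
    rw [h'] at h1
    have hE := hdB _ _ _ h1 h2
    exact hfA a a' (xa a') (heA a _ _ (hxa' a) hE) (hxa' a')
  · intro b
    obtain ⟨x, hx⟩ := hb b
    obtain ⟨a, ha⟩ := hxa x
    refine ⟨a, ?_⟩
    have hE := hdA a _ _ ha (hxa' a)
    exact hfB _ _ (xa a) (hbx (xa a)) (heB b _ _ hx hE)

section Deg

variable {G : Type u} [Group G] [Fintype G] (N : Subgroup G) [hN : N.Normal] [Fintype N]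

/-- the degree of a real character over a real character of a normal subgroup of odd index -/
theorem real_over_degree (hodd : Odd N.index) (θ : IrrCharacter N)
    (hθ : ∀ k : N, ((θ : N → ℂ) k).im = 0) (χ : IrrCharacter G)
    (hχ : ∀ g : G, ((χ : G → ℂ) g).im = 0)
    (hc : classInner (fun n : N => χ.1 n) θ.1 ≠ 0) :
    charDegree χ.1 = (Helper20.inertia N θ.1).index * charDegree θ.1 := by
  classical
  have hfinG : Finite (IrrCharacter G) := irr_finite
  letI := Fintype.ofFinite (IrrCharacter G)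
  obtain ⟨m, hm, hsum⟩ := exists_mult_fsSign N hodd θ
  have hχ' : Helper4.irrConj χ = χ := (Helper4.irrConj_eq_self_iff χ).mpr hχ
  have hover : ∀ χ' : IrrCharacter G, m χ' ≠ 0 →
      classInner (fun n : N => χ'.1 n) θ.1 ≠ 0 := by
    intro χ' hm0
    have h1 := hm χ'
    rw [Helper35.frobenius_reciprocity N θ.1 χ'.1 (Helper4.isClassFunction_irr χ')] at h1
    rw [Helper4.classInner_conj_symm]
    show (starRingEnd ℂ) (classInner θ.1 (Helper35.res N χ'.1)) ≠ 0
    rw [h1]
    simp only [map_natCast]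
    exact_mod_cast hm0
  have hzero : ∀ χ' : IrrCharacter G, χ' ≠ χ → (m χ' : ℤ) * Helper79.fsSign χ' = 0 := by
    intro χ' hne
    by_cases hs : Helper79.fsSign χ' = 0
    · rw [hs, mul_zero]
    · have hreal' := (Helper79.fsSign_ne_zero_iff χ').mp hs
      have hm0 : m χ' = 0 := by
        by_contra hm0
        exact hne (real_over_unique N hodd θ hθ χ' χ
          ((Helper4.irrConj_eq_self_iff χ').mpr hreal') hχ' (hover χ' hm0) hc)
      rw [hm0]
      simp
  have hsum' : (m χ : ℤ) * Helper79.fsSign χ = Helper79.fsSign θ := by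
    rw [← hsum]
    symm
    exact Finset.sum_eq_single χ (fun χ' _ hne => hzero χ' hne)
      (fun h => absurd (Finset.mem_univ χ) h)
  have hθne : Helper79.fsSign θ ≠ 0 := (Helper79.fsSign_ne_zero_iff θ).mpr hθ
  have hm1 : m χ = 1 := by
    have hc1 := Helper79.fsSign_cases χ
    have hc2 := Helper79.fsSign_cases θ
    have hmz : (m χ : ℤ) = 1 := by
      rcases hc1 with h | h | h
      · rw [h, mul_zero] at hsum'
        exact absurd hsum'.symm hθne
      · rw [h, mul_one] at hsum'
        rcases hc2 with h' | h' | h'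
        · exact absurd h' hθne
        · rw [hsum', h']
        · rw [h'] at hsum'
          have : (0 : ℤ) ≤ (m χ : ℤ) := Int.natCast_nonneg _
          omega
      · rw [h] at hsum'
        rcases hc2 with h' | h' | h'
        · exact absurd h' hθne
        · rw [h'] at hsum'
          have : (0 : ℤ) ≤ (m χ : ℤ) := Int.natCast_nonneg _
          omega
        · rw [h'] at hsum'
          omega
    exact_mod_cast hmz
  have hin : classInner (fun n : N => χ.1 n) θ.1 = 1 := by
    have h1 := hm χ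
    rw [Helper35.frobenius_reciprocity N θ.1 χ.1 (Helper4.isClassFunction_irr χ)] at h1
    rw [Helper4.classInner_conj_symm]
    show (starRingEnd ℂ) (classInner θ.1 (Helper35.res N χ.1)) = 1
    rw [h1, hm1]
    simp
  have hdeg := Helper20.clifford_degree N θ.2 χ.2 hc (Helper20.inertia N θ.1)
    (fun g => Helper20.mem_inertia N θ.1 g)
  rw [hin, one_mul, irr_one χ] at hdeg
  have h2 : (θ.1 : N → ℂ) 1 = (charDegree θ.1 : ℂ) := irr_one θ
  rw [h2] at hdeg
  exact_mod_cast hdeg

end Deg

end Cfsg.Agent.Lib.Helper84.IN
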