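import Mathlib
import Cfsg.Agent.Lib.Helper83.Rg7
import Cfsg.Agent.Lib.Helper84.IN1
import Cfsg.Agent.Lib.Helper84.IN11

/-!
# Isaacs–Navarro: the relative Glauberman correspondence between `K` and `K ∩ N_G(P)`

`RgRel p P N K θ η`: the `P`-invariant irreducible characters `θ` of `K` and `η` of `K ∩ N`
correspond, i.e. the multiplicity of `η` in `θ` is prime to `p`.
-/

set_option autoImplicit false
set_option linter.unusedVariables false
set_option linter.style.haveILetI false
set_option maxHeartbeats 800000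

namespace Cfsg.Agent.Lib.Helper84.IN

open Cfsg
open scoped ComplexConjugate

universe u

section RG

variable {G : Type u} [Group G]

/-- the inclusion of `K ∩ N` (as a subgroup of `N`) into `K` -/
def jHom (N K : Subgroup G) : ↥(K.subgroupOf N) →* ↥K where
  toFun c := ⟨((c : ↥N) : G), Subgroup.mem_subgroupOf.mp c.2⟩
  map_one' := rfl
  map_mul' _ _ := rfl

theorem jHom_coe (N K : Subgroup G) (c : ↥(K.subgroupOf N)) :
    ((jHom N K c : ↥K) : G) = ((c : ↥N) : G) := rfl

/-- the correspondence relation -/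
def RgRel (p : ℕ) (P N K : Subgroup G) [K.Normal] [Fintype ↥(K.subgroupOf N)]
    (θ : IrrCharacter ↥K) (η : IrrCharacter ↥(K.subgroupOf N)) : Prop :=
  (∀ s ∈ P, Helper20.conjFun K θ.1 s = θ.1) ∧
  (∀ s : ↥N, (s : G) ∈ P → Helper20.conjFun (K.subgroupOf N) η.1 s = η.1) ∧
  ∃ m : ℕ, classInner (fun c => θ.1 (jHom N K c)) η.1 = m ∧ ¬ p ∣ m

variable {p : ℕ} {P N K : Subgroup G} [hK : K.Normal] [Fintype ↥(K.subgroupOf N)]

theorem RgRel.conj (hN : ∀ n ∈ N, ∀ s ∈ P, n * s * n⁻¹ ∈ P) {θ : IrrCharacter ↥K}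
    {η : IrrCharacter ↥(K.subgroupOf N)} (h : RgRel p P N K θ η) (n : ↥N) :
    RgRel p P N K ⟨Helper20.conjFun K θ.1 n, Helper20.conjFun_irr K θ.2 n⟩
      ⟨Helper20.conjFun (K.subgroupOf N) η.1 n, Helper20.conjFun_irr _ η.2 n⟩ := by
  refine ⟨?_, ?_, ?_⟩
  · intro s hs
    show Helper20.conjFun K (Helper20.conjFun K θ.1 n) s = Helper20.conjFun K θ.1 n
    have e : (n : G) * s = ((n : G) * s * (n : G)⁻¹) * n := by group
    rw [Helper20.conjFun_conjFun, e, ← Helper20.conjFun_conjFun, h.1 _ (hN n n.2 s hs)]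
  · intro s hs
    show Helper20.conjFun (K.subgroupOf N) (Helper20.conjFun (K.subgroupOf N) η.1 n) s =
      Helper20.conjFun (K.subgroupOf N) η.1 n
    have e : n * s = (n * s * n⁻¹) * n := by group
    rw [Helper20.conjFun_conjFun, e, ← Helper20.conjFun_conjFun,
      h.2.1 (n * s * n⁻¹) (hN n n.2 s hs)]
  · obtain ⟨m, hm, hpm⟩ := h.2.2
    refine ⟨m, ?_, hpm⟩
    have e : (fun c => (Helper20.conjFun K θ.1 n) (jHom N K c)) =
        Helper20.conjFun (K.subgroupOf N) (fun c => θ.1 (jHom N K c)) n := by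
      funext c
      rw [Helper20.conjFun_apply, Helper20.conjFun_apply]
      exact congrArg θ.1 (Subtype.ext rfl)
    show classInner (fun c => (Helper20.conjFun K θ.1 n) (jHom N K c))
      (Helper20.conjFun (K.subgroupOf N) η.1 n) = m
    rw [e, Helper20.classInner_conjFun]
    exact hm

theorem RgRel.cc [Fintype ↥K] {θ : IrrCharacter ↥K} {η : IrrCharacter ↥(K.subgroupOf N)}
    (h : RgRel p P N K θ η) : RgRel p P N K (Helper4.irrConj θ) (Helper4.irrConj η) := by
  refine ⟨?_, ?_, ?_⟩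
  · intro s hs
    funext k
    have h1 := congrFun (h.1 s hs) k
    rw [Helper20.conjFun_apply] at h1 ⊢
    show conj (θ.1 _) = conj (θ.1 k)
    rw [h1]
  · intro s hs
    funext k
    have h1 := congrFun (h.2.1 s hs) k
    rw [Helper20.conjFun_apply] at h1 ⊢
    show conj (η.1 _) = conj (η.1 k)
    rw [h1]
  · obtain ⟨m, hm, hpm⟩ := h.2.2
    refine ⟨m, ?_, hpm⟩
    show classInner (fun c => conj ((fun c => θ.1 (jHom N K c)) c)) (fun c => conj (η.1 c)) = m
    rw [Helper4.classInner_conj_conj, hm]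
    simp

end RG

set_option maxHeartbeats 1600000 in
/-- the properties of the correspondence, from the relative Glauberman correspondence -/
theorem rg_props {G : Type u} [Group G] [Finite G] (p : ℕ) [Fact p.Prime] (P : Sylow p G)
    (N : Subgroup G) (hNdef : N = Subgroup.normalizer ((P : Subgroup G) : Set G))
    (K : Subgroup G) [hK : K.Normal] (Q : Subgroup G) [hQ : Q.Normal] (hQp : IsPGroup p Q)
    (hQK : Q ≤ K) (hQel : ∀ u ∈ K, (∃ k : ℕ, orderOf u = p ^ k) → u ∈ Q)
    [Fintype ↥K] [Fintype ↥(K.subgroupOf N)] :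
    (∀ θ : IrrCharacter ↥K, (∀ s ∈ (P : Subgroup G), Helper20.conjFun K θ.1 s = θ.1) →
      ∃ η, RgRel p (P : Subgroup G) N K θ η) ∧
    (∀ θ η η', RgRel p (P : Subgroup G) N K θ η → RgRel p (P : Subgroup G) N K θ η' →
      η = η') ∧
    (∀ θ θ' η, RgRel p (P : Subgroup G) N K θ η → RgRel p (P : Subgroup G) N K θ' η →
      θ = θ') ∧
    (∀ η : IrrCharacter ↥(K.subgroupOf N),
      (∀ s : ↥N, (s : G) ∈ (P : Subgroup G) →
        Helper20.conjFun (K.subgroupOf N) η.1 s = η.1) →
      ∃ θ, RgRel p (P : Subgroup G) N K θ η) ∧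
    (∀ θ η, RgRel p (P : Subgroup G) N K θ η →
      ((charDegree η.1 : ZMod p) = (charDegree θ.1 : ZMod p) ∨
        (charDegree η.1 : ZMod p) = -(charDegree θ.1 : ZMod p))) := by
  classical
  subst hNdef
  have hQP : Q ≤ (P : Subgroup G) := IsPGroup.le_sylow_of_normal hQp P
  have hPN : (P : Subgroup G) ≤ Subgroup.normalizer ((P : Subgroup G) : Set G) :=
    Subgroup.le_normalizer
  have hPK' : ∀ x ∈ (P : Subgroup G), ∀ k ∈ K, x * k * x⁻¹ ∈ K :=
    fun x _ k hk => hK.conj_mem k hk x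
  obtain ⟨φ, hφdef⟩ : ∃ φ : ↥(P : Subgroup G) →* MulAut ↥K,
      φ = Helper83.conjAct (P : Subgroup G) K hPK' := ⟨_, rfl⟩
  have hφ : ∀ (x : ↥(P : Subgroup G)) (k : ↥K), ((φ x k : ↥K) : G) = (x : G) * k * (x : G)⁻¹ := by
    intro x k
    rw [hφdef]
    rfl
  obtain ⟨φC, hφCdef⟩ : ∃ φC : ↥(P : Subgroup G) →*
      MulAut ↥(K.subgroupOf (Subgroup.normalizer ((P : Subgroup G) : Set G))),
      φC = (MulAut.conjNormal
        (H := K.subgroupOf (Subgroup.normalizer ((P : Subgroup G) : Set G)))).comp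
        (Subgroup.inclusion hPN) := ⟨_, rfl⟩
  have hφC : ∀ (x : ↥(P : Subgroup G))
      (c : ↥(K.subgroupOf (Subgroup.normalizer ((P : Subgroup G) : Set G)))),
      (((φC x c : ↥(K.subgroupOf (Subgroup.normalizer ((P : Subgroup G) : Set G)))) :
        ↥(Subgroup.normalizer ((P : Subgroup G) : Set G))) : G) =
      (x : G) * ((c : ↥(Subgroup.normalizer ((P : Subgroup G) : Set G))) : G) * (x : G)⁻¹ := by
    intro x c
    rw [hφCdef]
    rfl
  haveI hQ'n : (Q.subgroupOf K).Normal := Subgroup.normal_subgroupOf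
  have hQ'p : IsPGroup p ↥(Q.subgroupOf K) := hQp.comap_subtype
  obtain ⟨a, ha⟩ := IsPGroup.iff_card.mp hQ'p
  have hQ'idx : ¬ p ∣ (Q.subgroupOf K).index := by
    intro hdvd
    have hdvd' : p ∣ Nat.card (↥K ⧸ Q.subgroupOf K) := hdvd
    obtain ⟨y, hy⟩ := exists_prime_orderOf_dvd_card' p hdvd'
    obtain ⟨x, ⟨k, hxk⟩, hx⟩ := exists_lift_pElt p Fact.out (Q.subgroupOf K) y
      ⟨1, by rw [hy, pow_one]⟩
    have hxQ : (x : G) ∈ Q := hQel x x.2 ⟨k, by rw [Subgroup.orderOf_coe]; exact hxk⟩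
    have h1 : y = 1 := by
      rw [← hx]
      exact (QuotientGroup.eq_one_iff x).mpr (Subgroup.mem_subgroupOf.mpr hxQ)
    rw [h1, orderOf_one] at hy
    exact (Fact.out : p.Prime).one_lt.ne hy
  have hS : Helper83.RgSetup p φ (Q.subgroupOf K)
      (jHom (Subgroup.normalizer ((P : Subgroup G) : Set G)) K) φC :=
    { hP := P.isPGroup'
      hQφ := fun x q hq => by
        rw [Subgroup.mem_subgroupOf] at hq ⊢
        rw [hφ]
        exact hQ.conj_mem _ hq _
      hQp := ⟨a, ha⟩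
      hQidx := hQ'idx
      hj := fun c c' h => by
        have h1 : ((jHom (Subgroup.normalizer ((P : Subgroup G) : Set G)) K c : ↥K) : G) =
            ((jHom (Subgroup.normalizer ((P : Subgroup G) : Set G)) K c' : ↥K) : G) :=
          congrArg Subtype.val h
        exact Subtype.ext (Subtype.ext h1)
      hC := by
        intro k
        constructor
        · rintro ⟨c, rfl⟩ x
          rw [Subgroup.mem_subgroupOf]
          have hcK : ((c : ↥(Subgroup.normalizer ((P : Subgroup G) : Set G))) : G) ∈ K :=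
            Subgroup.mem_subgroupOf.mp c.2
          have hcN : ((c : ↥(Subgroup.normalizer ((P : Subgroup G) : Set G))) : G) ∈
              Subgroup.normalizer ((P : Subgroup G) : Set G) :=
            (c : ↥(Subgroup.normalizer ((P : Subgroup G) : Set G))).2
          have e : ((φ x (jHom (Subgroup.normalizer ((P : Subgroup G) : Set G)) K c) *
              (jHom (Subgroup.normalizer ((P : Subgroup G) : Set G)) K c)⁻¹ : ↥K) : G) =
              (x : G) * ((c : ↥(Subgroup.normalizer ((P : Subgroup G) : Set G))) : G) *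
                (x : G)⁻¹ *
                ((c : ↥(Subgroup.normalizer ((P : Subgroup G) : Set G))) : G)⁻¹ := by
            rw [Subgroup.coe_mul, Subgroup.coe_inv, hφ, jHom_coe]
          rw [e]
          have h1 : ((c : ↥(Subgroup.normalizer ((P : Subgroup G) : Set G))) : G) * (x : G)⁻¹ *
              ((c : ↥(Subgroup.normalizer ((P : Subgroup G) : Set G))) : G)⁻¹ ∈
              (P : Subgroup G) :=
            (Subgroup.mem_normalizer_iff.mp hcN _).mp ((P : Subgroup G).inv_mem x.2)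
          have h2 : (x : G) * ((c : ↥(Subgroup.normalizer ((P : Subgroup G) : Set G))) : G) *
              (x : G)⁻¹ * ((c : ↥(Subgroup.normalizer ((P : Subgroup G) : Set G))) : G)⁻¹ ∈
              (P : Subgroup G) := by
            have h3 := (P : Subgroup G).mul_mem x.2 h1
            have e2 : (x : G) *
                (((c : ↥(Subgroup.normalizer ((P : Subgroup G) : Set G))) : G) * (x : G)⁻¹ *
                ((c : ↥(Subgroup.normalizer ((P : Subgroup G) : Set G))) : G)⁻¹) =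
                (x : G) * ((c : ↥(Subgroup.normalizer ((P : Subgroup G) : Set G))) : G) *
                (x : G)⁻¹ *
                ((c : ↥(Subgroup.normalizer ((P : Subgroup G) : Set G))) : G)⁻¹ := by group
            rwa [e2] at h3
          apply hQel
          · exact K.mul_mem (hK.conj_mem _ hcK _) (K.inv_mem hcK)
          · obtain ⟨k', hk'⟩ := (IsPGroup.iff_orderOf.mp P.isPGroup') ⟨_, h2⟩
            exact ⟨k', by
              rw [← hk']
              exact Subgroup.orderOf_coe (⟨_, h2⟩ : ↥(P : Subgroup G))⟩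
        · intro h
          have key : ∀ x ∈ (P : Subgroup G), x * (k : G) * x⁻¹ * (k : G)⁻¹ ∈ Q := by
            intro x hx
            have h1 := h ⟨x, hx⟩
            rw [Subgroup.mem_subgroupOf, Subgroup.coe_mul, Subgroup.coe_inv, hφ] at h1
            exact h1
          have hk : (k : G) ∈ Subgroup.normalizer ((P : Subgroup G) : Set G) := by
            rw [Subgroup.mem_normalizer_iff]
            intro s
            constructor
            · intro hs
              have h1 := hQP (key s⁻¹ ((P : Subgroup G).inv_mem hs))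
              have h2 := (P : Subgroup G).mul_mem hs h1
              have e : s * (s⁻¹ * (k : G) * s⁻¹⁻¹ * (k : G)⁻¹) = (k : G) * s * (k : G)⁻¹ := by
                group
              rwa [e] at h2
            · intro hs
              have h1 := key ((k : G) * s * (k : G)⁻¹)⁻¹ ((P : Subgroup G).inv_mem hs)
              have h2 := hQ.conj_mem _ h1 (k : G)⁻¹
              have h3 := hQP (Q.inv_mem h2)
              have h4 := (P : Subgroup G).mul_mem hs h3
              have e : (k : G) * s * (k : G)⁻¹ *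
                  ((k : G)⁻¹ * (((k : G) * s * (k : G)⁻¹)⁻¹ * (k : G) *
                    ((k : G) * s * (k : G)⁻¹)⁻¹⁻¹ * (k : G)⁻¹) * (k : G)⁻¹⁻¹)⁻¹ = s := by
                group
              rwa [e] at h4
          exact ⟨⟨⟨k, hk⟩, Subgroup.mem_subgroupOf.mpr k.2⟩, Subtype.ext rfl⟩
      hφC := fun x c => Subtype.ext (by rw [hφ, jHom_coe, jHom_coe, hφC]) }
  obtain ⟨f, hfbij, hf⟩ := Helper83.rg_main hS
  have hK1 : ∀ θ : IrrCharacter ↥K,
      (∀ s ∈ (P : Subgroup G), Helper20.conjFun K θ.1 s = θ.1) ↔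
      (∀ (x : ↥(P : Subgroup G)) (g : ↥K), θ.1 (φ x g) = θ.1 g) := by
    intro θ
    constructor
    · intro h x g
      have h1 := congrFun (h x x.2) g
      rw [Helper20.conjFun_apply] at h1
      rw [← h1]
      exact congrArg θ.1 (Subtype.ext (hφ x g))
    · intro h s hs
      funext g
      rw [Helper20.conjFun_apply, ← h ⟨s, hs⟩ g]
      exact congrArg θ.1 (Subtype.ext (hφ ⟨s, hs⟩ g).symm)
  have hC1 : ∀ η : IrrCharacter ↥(K.subgroupOf (Subgroup.normalizer ((P : Subgroup G) : Set G))),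
      (∀ s : ↥(Subgroup.normalizer ((P : Subgroup G) : Set G)), (s : G) ∈ (P : Subgroup G) →
        Helper20.conjFun (K.subgroupOf (Subgroup.normalizer ((P : Subgroup G) : Set G))) η.1 s =
          η.1) ↔
      (∀ (x : ↥(P : Subgroup G))
        (c : ↥(K.subgroupOf (Subgroup.normalizer ((P : Subgroup G) : Set G)))),
        η.1 (φC x c) = η.1 c) := by
    intro η
    constructor
    · intro h x c
      have h1 := congrFun (h ⟨x, hPN x.2⟩ x.2) c
      rw [Helper20.conjFun_apply] at h1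
      rw [← h1]
      exact congrArg η.1 (Subtype.ext (Subtype.ext (hφC x c)))
    · intro h s hs
      funext c
      rw [Helper20.conjFun_apply, ← h ⟨s, hs⟩ c]
      exact congrArg η.1 (Subtype.ext (Subtype.ext (hφC ⟨s, hs⟩ c).symm))
  have key : ∀ (θ : IrrCharacter ↥K)
      (hθ : ∀ (x : ↥(P : Subgroup G)) (g : ↥K), θ.1 (φ x g) = θ.1 g)
      (η : IrrCharacter ↥(K.subgroupOf (Subgroup.normalizer ((P : Subgroup G) : Set G))))
      (hη : ∀ (x : ↥(P : Subgroup G))
        (c : ↥(K.subgroupOf (Subgroup.normalizer ((P : Subgroup G) : Set G)))),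
        η.1 (φC x c) = η.1 c) (m : ℕ),
      classInner (fun c => θ.1 (jHom (Subgroup.normalizer ((P : Subgroup G) : Set G)) K c)) η.1 =
        m → ¬ p ∣ m → (f ⟨θ, hθ⟩).1 = η := by
    intro θ hθ η hη m hm hpm
    obtain ⟨m', hm', -, hdiv⟩ := (hf ⟨θ, hθ⟩).1 ⟨η, hη⟩
    by_contra hne
    have h1 : p ∣ m' := hdiv (fun h => hne (congrArg Subtype.val h).symm)
    have h2 : (m : ℂ) = (m' : ℂ) := hm.symm.trans hm'
    have h3 : m = m' := by exact_mod_cast h2
    rw [← h3] at h1
    exact hpm h1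
  have key2 : ∀ (θ : IrrCharacter ↥K)
      (hθ : ∀ (x : ↥(P : Subgroup G)) (g : ↥K), θ.1 (φ x g) = θ.1 g),
      ∃ m : ℕ, classInner (fun c => θ.1
        (jHom (Subgroup.normalizer ((P : Subgroup G) : Set G)) K c)) (f ⟨θ, hθ⟩).1.1 = m ∧
        ¬ p ∣ m := by
    intro θ hθ
    obtain ⟨m, hm, hpm, -⟩ := (hf ⟨θ, hθ⟩).1 (f ⟨θ, hθ⟩)
    exact ⟨m, hm, Helper5.pm_not_dvd p m (hpm rfl)⟩
  refine ⟨?_, ?_, ?_, ?_, ?_⟩
  · intro θ h
    exact ⟨(f ⟨θ, (hK1 θ).mp h⟩).1, h, (hC1 _).mpr (f ⟨θ, (hK1 θ).mp h⟩).2,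
      key2 θ ((hK1 θ).mp h)⟩
  · intro θ η η' h h'
    obtain ⟨m, hm, hpm⟩ := h.2.2
    obtain ⟨m', hm', hpm'⟩ := h'.2.2
    have e1 := key θ ((hK1 θ).mp h.1) η ((hC1 η).mp h.2.1) m hm hpm
    have e2 := key θ ((hK1 θ).mp h.1) η' ((hC1 η').mp h'.2.1) m' hm' hpm'
    exact e1.symm.trans e2
  · intro θ θ' η h h'
    obtain ⟨m, hm, hpm⟩ := h.2.2
    obtain ⟨m', hm', hpm'⟩ := h'.2.2
    have e1 := key θ ((hK1 θ).mp h.1) η ((hC1 η).mp h.2.1) m hm hpm
    have e2 := key θ' ((hK1 θ').mp h'.1) η ((hC1 η).mp h'.2.1) m' hm' hpm'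
    have e3 : f ⟨θ, (hK1 θ).mp h.1⟩ = f ⟨θ', (hK1 θ').mp h'.1⟩ :=
      Subtype.ext (e1.trans e2.symm)
    exact congrArg Subtype.val (hfbij.1 e3)
  · intro η h
    obtain ⟨⟨θ, hθ⟩, hfθ⟩ := hfbij.2 ⟨η, (hC1 η).mp h⟩
    refine ⟨θ, (hK1 θ).mpr hθ, h, ?_⟩
    have h1 := key2 θ hθ
    rw [hfθ] at h1
    exact h1
  · intro θ η h
    obtain ⟨m, hm, hpm⟩ := h.2.2
    have e1 := key θ ((hK1 θ).mp h.1) η ((hC1 η).mp h.2.1) m hm hpm
    have h2 := (hf ⟨θ, (hK1 θ).mp h.1⟩).2
    rw [e1] at h2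
    rcases h2 with h2 | h2
    · left
      have h3 := (ZMod.intCast_eq_intCast_iff _ _ p).mpr h2
      rw [Int.cast_natCast, Int.cast_natCast] at h3
      exact h3
    · right
      have h3 := (ZMod.intCast_eq_intCast_iff _ _ p).mpr h2
      rw [Int.cast_natCast, Int.cast_neg, Int.cast_natCast] at h3
      exact h3

end Cfsg.Agent.Lib.Helper84.IN
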