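import Mathlib
import Cfsg.Agent.Lib.Helper84.IN10
import Cfsg.Agent.Lib.Helper84.IN11
import Cfsg.Agent.Lib.Helper84.IN12

/-!
# Isaacs–Navarro: real characters and the Sylow normalizer

If the subgroup generated by the `p`-elements is solvable and the real irreducible characters have
degree prime to `p`, there is a bijection from the real irreducible characters of `G` onto the real
irreducible characters of degree prime to `p` of the normalizer of a Sylow `p`-subgroup, with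
degrees congruent up to sign modulo `p`.
-/

set_option autoImplicit false
set_option linter.unusedVariables false
set_option linter.style.haveILetI false
set_option maxHeartbeats 1600000

namespace Cfsg.Agent.Lib.Helper84.IN

open Cfsg
open scoped ComplexConjugate

universe u

theorem real_bij_normalizer {G : Type u} [Group G] [Finite G] (p : ℕ) [Fact p.Prime]
    (hsolv : Group.IsSolvable ↥(Subgroup.closure {g : G | ∃ k : ℕ, orderOf g = p ^ k}))
    (hreal : ∀ χ : IrrCharacter G, (∀ g : G, ((χ : G → ℂ) g).im = 0) →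
      ¬ p ∣ charDegree (χ : G → ℂ))
    (P : Sylow p G) (N : Subgroup G)
    (hNdef : N = Subgroup.normalizer ((P : Subgroup G) : Set G)) :
    ∃ f : {χ : IrrCharacter G // ∀ g : G, ((χ : G → ℂ) g).im = 0} →
        {ξ : IrrCharacter ↥N // (∀ n, ((ξ : ↥N → ℂ) n).im = 0) ∧
          ¬ p ∣ charDegree (ξ : ↥N → ℂ)},
      Function.Bijective f ∧ ∀ χ,
        ((charDegree ((f χ).1 : ↥N → ℂ) : ZMod p) = (charDegree (χ.1 : G → ℂ) : ZMod p) ∨
          (charDegree ((f χ).1 : ↥N → ℂ) : ZMod p) = -(charDegree (χ.1 : G → ℂ) : ZMod p)) := by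
  classical
  letI : Fintype G := Fintype.ofFinite G
  letI : Fintype ↥N := Fintype.ofFinite _
  have hPN : (P : Subgroup G) ≤ N := by
    rw [hNdef]
    exact Subgroup.le_normalizer
  have hNP : ∀ n ∈ N, ∀ s ∈ (P : Subgroup G), n * s * n⁻¹ ∈ (P : Subgroup G) := by
    intro n hn s hs
    rw [hNdef] at hn
    exact (Subgroup.mem_normalizer_iff.mp hn s).mp hs
  obtain ⟨K, hKdef⟩ : ∃ K : Subgroup G,
      K = Subgroup.closure {g : G | ∃ k : ℕ, orderOf g = 2 ^ k} := ⟨_, rfl⟩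
  haveI hKn : K.Normal := by
    rw [hKdef]
    exact Oq_normal 2
  have hodd : Odd K.index := by
    rw [hKdef]
    exact odd_index
  letI : Fintype ↥K := Fintype.ofFinite _
  letI : Fintype ↥(K.subgroupOf N) := Fintype.ofFinite _
  obtain ⟨R, hRn, hRp, hRU⟩ := core2 p (Nat.card G) G rfl hsolv hreal K hKn
    (fun u hu => ⟨0, by rw [pow_zero, pow_one, ← hKdef]; exact hu⟩)
  haveI := hRn
  obtain ⟨Q, hQdef⟩ : ∃ Q : Subgroup G, Q = R ⊓ K := ⟨_, rfl⟩
  haveI hQn : Q.Normal := by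
    rw [hQdef]
    exact Subgroup.normal_inf_normal R K
  have hQp : IsPGroup p Q := by
    rw [hQdef]
    exact hRp.to_le inf_le_left
  have hQK : Q ≤ K := by
    rw [hQdef]
    exact inf_le_right
  have hQel : ∀ u ∈ K, (∃ k : ℕ, orderOf u = p ^ k) → u ∈ Q := by
    intro u hu h
    rw [hQdef]
    exact ⟨hRU u hu h, hu⟩
  obtain ⟨R1, R2, R3, R4, R5⟩ := rg_props p P N hNdef K Q hQp hQK hQel
  have hoddN : Odd (K.subgroupOf N).index :=
    Odd.of_dvd_nat hodd (Subgroup.relIndex_dvd_index_of_normal K N)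
  -- subgroups of `N` of index prime to `p` contain `P`
  have hPsub : ∀ T : Subgroup ↥N, ¬ p ∣ T.index → ∀ s : ↥N, (s : G) ∈ (P : Subgroup G) →
      s ∈ T := by
    intro T hT s hs
    obtain ⟨P', hP'⟩ := Helper81.exists_sylow_le_of_not_dvd_index p T hT
    haveI : ((P : Subgroup G).subgroupOf N).Normal := by
      refine ⟨fun x hx g => ?_⟩
      rw [Subgroup.mem_subgroupOf] at hx ⊢
      exact hNP g g.2 x hx
    have hp' : IsPGroup p ↥((P : Subgroup G).subgroupOf N) := P.isPGroup'.comap_subtype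
    have hle := IsPGroup.le_sylow_of_normal hp' P'
    exact hP' (hle (Subgroup.mem_subgroupOf.mpr hs))
  -- realness is preserved by the correspondence
  have real_of_rel_θ : ∀ (θ : IrrCharacter ↥K) (η : IrrCharacter ↥(K.subgroupOf N)),
      RgRel p (P : Subgroup G) N K θ η → (∀ k, ((θ : ↥K → ℂ) k).im = 0) →
      ∀ c, ((η : ↥(K.subgroupOf N) → ℂ) c).im = 0 := by
    intro θ η hrel hθ
    have h1 := hrel.cc
    rw [(Helper4.irrConj_eq_self_iff θ).mpr hθ] at h1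
    have h2 := R2 _ _ _ hrel h1
    exact (Helper4.irrConj_eq_self_iff η).mp h2.symm
  have real_of_rel_η : ∀ (θ : IrrCharacter ↥K) (η : IrrCharacter ↥(K.subgroupOf N)),
      RgRel p (P : Subgroup G) N K θ η → (∀ c, ((η : ↥(K.subgroupOf N) → ℂ) c).im = 0) →
      ∀ k, ((θ : ↥K → ℂ) k).im = 0 := by
    intro θ η hrel hη
    have h1 := hrel.cc
    rw [(Helper4.irrConj_eq_self_iff η).mpr hη] at h1
    have h2 := R3 _ _ _ hrel h1
    exact (Helper4.irrConj_eq_self_iff θ).mp h2.symm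
  -- the degrees
  have DEG : ∀ (χ : IrrCharacter G) (hχ : ∀ g : G, ((χ : G → ℂ) g).im = 0)
      (ξ : IrrCharacter ↥N) (hξ : ∀ n, ((ξ : ↥N → ℂ) n).im = 0)
      (θ : IrrCharacter ↥K) (hθ : ∀ k, ((θ : ↥K → ℂ) k).im = 0)
      (η : IrrCharacter ↥(K.subgroupOf N)) (hrel : RgRel p (P : Subgroup G) N K θ η)
      (hc : classInner (fun k : ↥K => χ.1 k) θ.1 ≠ 0)
      (hc' : classInner (fun c : ↥(K.subgroupOf N) => ξ.1 c) η.1 ≠ 0),
      ((charDegree (ξ : ↥N → ℂ) : ZMod p) = (charDegree (χ : G → ℂ) : ZMod p) ∨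
        (charDegree (ξ : ↥N → ℂ) : ZMod p) = -(charDegree (χ : G → ℂ) : ZMod p)) := by
    intro χ hχ ξ hξ θ hθ η hrel hc hc'
    have hη := real_of_rel_θ θ η hrel hθ
    have d1 := real_over_degree K hodd θ hθ χ hχ hc
    have d2 := real_over_degree (K.subgroupOf N) hoddN η hη ξ hξ hc'
    have hin : Helper20.inertia (K.subgroupOf N) η.1 = (Helper20.inertia K θ.1).subgroupOf N := by
      ext n
      rw [Subgroup.mem_subgroupOf, Helper20.mem_inertia, Helper20.mem_inertia]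
      have hcj := hrel.conj hNP n
      constructor
      · intro h
        have e : (⟨Helper20.conjFun (K.subgroupOf N) η.1 n, Helper20.conjFun_irr _ η.2 n⟩ :
            IrrCharacter ↥(K.subgroupOf N)) = η := Subtype.ext h
        rw [e] at hcj
        exact congrArg Subtype.val (R3 _ _ _ hcj hrel)
      · intro h
        have e : (⟨Helper20.conjFun K θ.1 n, Helper20.conjFun_irr K θ.2 n⟩ :
            IrrCharacter ↥K) = θ := Subtype.ext h
        rw [e] at hcj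
        exact congrArg Subtype.val (R2 _ _ _ hcj hrel)
    have hPT : (P : Subgroup G) ≤ Helper20.inertia K θ.1 := fun s hs => hrel.1 s hs
    have hmod := sylow_index_modEq p P (Helper20.inertia K θ.1) hPT
    rw [← hNdef, ← hin] at hmod
    have hz := (ZMod.natCast_eq_natCast_iff _ _ p).mpr hmod
    rw [d1, d2]
    push_cast
    rw [← hz]
    rcases R5 θ η hrel with h | h
    · left
      rw [h]
    · right
      rw [h]
      ring
  -- the ten properties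
  have ha : ∀ χ : {χ : IrrCharacter G // ∀ g : G, ((χ : G → ℂ) g).im = 0},
      ∃ θ : {θ : IrrCharacter ↥K // (∀ k, ((θ : ↥K → ℂ) k).im = 0) ∧
        ∀ s ∈ (P : Subgroup G), Helper20.conjFun K θ.1 s = θ.1},
        classInner (fun k : ↥K => χ.1.1 k) θ.1.1 ≠ 0 := by
    intro χ
    have hχ' : Helper4.irrConj χ.1 = χ.1 := (Helper4.irrConj_eq_self_iff χ.1).mpr χ.2
    obtain ⟨θ₀, hθ₀⟩ := exists_real_constituent K hodd χ.1 hχ'
    obtain ⟨k, hk⟩ := Cfsg.Agent.Lib.Helper84.over_degree K θ₀.1 χ.1 hθ₀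
    have hp : ¬ p ∣ (Helper20.inertia K θ₀.1.1).index := by
      intro h
      apply hreal χ.1 χ.2
      rw [hk]
      exact Dvd.dvd.mul_right (Dvd.dvd.mul_left h k) _
    obtain ⟨P', hP'⟩ := Helper81.exists_sylow_le_of_not_dvd_index p _ hp
    obtain ⟨a, ha⟩ := MulAction.exists_smul_eq G P P'
    have hmem : ∀ s ∈ (P : Subgroup G),
        Helper20.conjFun K θ₀.1.1 (a * s * a⁻¹) = θ₀.1.1 := by
      intro s hs
      have h1 : a * s * a⁻¹ ∈ Helper20.inertia K θ₀.1.1 := by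
        apply hP'
        rw [← ha]
        exact ⟨s, hs, rfl⟩
      exact h1
    refine ⟨⟨⟨Helper20.conjFun K θ₀.1.1 a, Helper20.conjFun_irr K θ₀.1.2 a⟩, ?_, ?_⟩, ?_⟩
    · intro k
      show (Helper20.conjFun K θ₀.1.1 a k).im = 0
      rw [Helper20.conjFun_apply]
      exact θ₀.2 _
    · intro s hs
      show Helper20.conjFun K (Helper20.conjFun K θ₀.1.1 a) s = Helper20.conjFun K θ₀.1.1 a
      have e : a * s = (a * s * a⁻¹) * a := by group
      rw [Helper20.conjFun_conjFun, e, ← Helper20.conjFun_conjFun, hmem s hs]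
    · show classInner (fun k : ↥K => χ.1.1 k) (Helper20.conjFun K θ₀.1.1 a) ≠ 0
      rw [Helper20.classInner_res_conjFun K (Helper4.isClassFunction_irr χ.1)]
      exact hθ₀
  have hb : ∀ ξ : {ξ : IrrCharacter ↥N // (∀ n, ((ξ : ↥N → ℂ) n).im = 0) ∧
        ¬ p ∣ charDegree (ξ : ↥N → ℂ)},
      ∃ θ : {θ : IrrCharacter ↥K // (∀ k, ((θ : ↥K → ℂ) k).im = 0) ∧
        ∀ s ∈ (P : Subgroup G), Helper20.conjFun K θ.1 s = θ.1},
        ∃ η : IrrCharacter ↥(K.subgroupOf N), RgRel p (P : Subgroup G) N K θ.1 η ∧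
          classInner (fun c : ↥(K.subgroupOf N) => ξ.1.1 c) η.1 ≠ 0 := by
    intro ξ
    have hξ' : Helper4.irrConj ξ.1 = ξ.1 := (Helper4.irrConj_eq_self_iff ξ.1).mpr ξ.2.1
    obtain ⟨η, hη⟩ := exists_real_constituent (K.subgroupOf N) hoddN ξ.1 hξ'
    have d := real_over_degree (K.subgroupOf N) hoddN η.1 η.2 ξ.1 ξ.2.1 hη
    have hp : ¬ p ∣ (Helper20.inertia (K.subgroupOf N) η.1.1).index := by
      intro h
      apply ξ.2.2
      rw [d]
      exact Dvd.dvd.mul_right h _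
    have hPinv : ∀ s : ↥N, (s : G) ∈ (P : Subgroup G) →
        Helper20.conjFun (K.subgroupOf N) η.1.1 s = η.1.1 :=
      fun s hs => hPsub _ hp s hs
    obtain ⟨θ, hrel⟩ := R4 η.1 hPinv
    have hθreal := real_of_rel_η θ η.1 hrel η.2
    exact ⟨⟨θ, hθreal, hrel.1⟩, η.1, hrel, hη⟩
  have hxa : ∀ θ : {θ : IrrCharacter ↥K // (∀ k, ((θ : ↥K → ℂ) k).im = 0) ∧
        ∀ s ∈ (P : Subgroup G), Helper20.conjFun K θ.1 s = θ.1},
      ∃ χ : {χ : IrrCharacter G // ∀ g : G, ((χ : G → ℂ) g).im = 0},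
        classInner (fun k : ↥K => χ.1.1 k) θ.1.1 ≠ 0 := by
    intro θ
    obtain ⟨χ, hχ, hc⟩ := exists_real_over K hodd θ.1 θ.2.1
    exact ⟨⟨χ, hχ⟩, hc⟩
  have hxb : ∀ θ : {θ : IrrCharacter ↥K // (∀ k, ((θ : ↥K → ℂ) k).im = 0) ∧
        ∀ s ∈ (P : Subgroup G), Helper20.conjFun K θ.1 s = θ.1},
      ∃ ξ : {ξ : IrrCharacter ↥N // (∀ n, ((ξ : ↥N → ℂ) n).im = 0) ∧
        ¬ p ∣ charDegree (ξ : ↥N → ℂ)},
        ∃ η : IrrCharacter ↥(K.subgroupOf N), RgRel p (P : Subgroup G) N K θ.1 η ∧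
          classInner (fun c : ↥(K.subgroupOf N) => ξ.1.1 c) η.1 ≠ 0 := by
    intro θ
    obtain ⟨η, hrel⟩ := R1 θ.1 θ.2.2
    have hη := real_of_rel_θ θ.1 η hrel θ.2.1
    obtain ⟨ξ, hξ, hc⟩ := exists_real_over (K.subgroupOf N) hoddN η hη
    obtain ⟨χ, hχ, hcχ⟩ := exists_real_over K hodd θ.1 θ.2.1
    have hdeg := DEG χ hχ ξ hξ θ.1 θ.2.1 η hrel hcχ hc
    have hpξ : ¬ p ∣ charDegree (ξ : ↥N → ℂ) := by
      intro h
      have h0 : (charDegree (ξ : ↥N → ℂ) : ZMod p) = 0 := (ZMod.natCast_eq_zero_iff _ _).mpr h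
      have h1 : (charDegree (χ : G → ℂ) : ZMod p) = 0 := by
        rcases hdeg with h2 | h2
        · rw [← h2, h0]
        · rw [h0] at h2
          exact neg_eq_zero.mp h2.symm
      exact hreal χ hχ ((ZMod.natCast_eq_zero_iff _ _).mp h1)
    exact ⟨⟨ξ, hξ, hpξ⟩, η, hrel, hc⟩
  have hdA : ∀ (χ : {χ : IrrCharacter G // ∀ g : G, ((χ : G → ℂ) g).im = 0})
      (θ θ' : {θ : IrrCharacter ↥K // (∀ k, ((θ : ↥K → ℂ) k).im = 0) ∧
        ∀ s ∈ (P : Subgroup G), Helper20.conjFun K θ.1 s = θ.1}),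
      classInner (fun k : ↥K => χ.1.1 k) θ.1.1 ≠ 0 →
      classInner (fun k : ↥K => χ.1.1 k) θ'.1.1 ≠ 0 →
      ∃ n : ↥N, θ'.1.1 = Helper20.conjFun K θ.1.1 n := by
    intro χ θ θ' h h'
    obtain ⟨g, hg⟩ := Helper20.clifford_conj K θ.1.2 χ.1.2 h θ'.1.2 h'
    have hPT : (P : Subgroup G) ≤ Helper20.inertia K θ.1.1 := fun s hs => θ.2.2 s hs
    have hcond : ∀ s ∈ (P : Subgroup G), (g⁻¹)⁻¹ * s * g⁻¹ ∈ Helper20.inertia K θ.1.1 := by
      intro s hs
      rw [inv_inv, Helper20.mem_inertia]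
      have h1 := θ'.2.2 s hs
      rw [hg, Helper20.conjFun_conjFun] at h1
      have h2 := congrArg (fun α => Helper20.conjFun K α g⁻¹) h1
      simp only [Helper20.conjFun_conjFun] at h2
      rw [mul_inv_cancel, Helper20.conjFun_one] at h2
      exact h2
    obtain ⟨n, hn, hn2⟩ := sylow_coset_fusion p P (Helper20.inertia K θ.1.1) hPT g⁻¹ hcond
    have h3 : g * n ∈ Helper20.inertia K θ.1.1 := by
      have h4 := (Helper20.inertia K θ.1.1).inv_mem hn2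
      rwa [mul_inv_rev, inv_inv, inv_inv] at h4
    have h4 : Helper20.conjFun K θ.1.1 (g * n) = θ.1.1 := h3
    have hnN : n⁻¹ ∈ N := by
      rw [hNdef]
      exact Subgroup.inv_mem _ hn
    refine ⟨⟨n⁻¹, hnN⟩, ?_⟩
    rw [hg]
    show Helper20.conjFun K θ.1.1 g = Helper20.conjFun K θ.1.1 n⁻¹
    have e : g = (g * n) * n⁻¹ := by group
    conv_lhs => rw [e]
    rw [← Helper20.conjFun_conjFun, h4]
  have hdB : ∀ (ξ : {ξ : IrrCharacter ↥N // (∀ n, ((ξ : ↥N → ℂ) n).im = 0) ∧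
        ¬ p ∣ charDegree (ξ : ↥N → ℂ)})
      (θ θ' : {θ : IrrCharacter ↥K // (∀ k, ((θ : ↥K → ℂ) k).im = 0) ∧
        ∀ s ∈ (P : Subgroup G), Helper20.conjFun K θ.1 s = θ.1}),
      (∃ η : IrrCharacter ↥(K.subgroupOf N), RgRel p (P : Subgroup G) N K θ.1 η ∧
          classInner (fun c : ↥(K.subgroupOf N) => ξ.1.1 c) η.1 ≠ 0) →
      (∃ η : IrrCharacter ↥(K.subgroupOf N), RgRel p (P : Subgroup G) N K θ'.1 η ∧
          classInner (fun c : ↥(K.subgroupOf N) => ξ.1.1 c) η.1 ≠ 0) →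
      ∃ n : ↥N, θ'.1.1 = Helper20.conjFun K θ.1.1 n := by
    intro ξ θ θ' h h'
    obtain ⟨η, hrel, hc⟩ := h
    obtain ⟨η', hrel', hc'⟩ := h'
    obtain ⟨n, hn⟩ := Helper20.clifford_conj (K.subgroupOf N) η.2 ξ.1.2 hc η'.2 hc'
    have hcj := hrel.conj hNP n
    have e : (⟨Helper20.conjFun (K.subgroupOf N) η.1 n, Helper20.conjFun_irr _ η.2 n⟩ :
        IrrCharacter ↥(K.subgroupOf N)) = η' := Subtype.ext hn.symm
    rw [e] at hcj
    exact ⟨n, congrArg Subtype.val (R3 _ _ _ hrel' hcj)⟩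
  have heA : ∀ (χ : {χ : IrrCharacter G // ∀ g : G, ((χ : G → ℂ) g).im = 0})
      (θ θ' : {θ : IrrCharacter ↥K // (∀ k, ((θ : ↥K → ℂ) k).im = 0) ∧
        ∀ s ∈ (P : Subgroup G), Helper20.conjFun K θ.1 s = θ.1}),
      classInner (fun k : ↥K => χ.1.1 k) θ.1.1 ≠ 0 →
      (∃ n : ↥N, θ'.1.1 = Helper20.conjFun K θ.1.1 n) →
      classInner (fun k : ↥K => χ.1.1 k) θ'.1.1 ≠ 0 := by
    intro χ θ θ' h hE
    obtain ⟨n, hn⟩ := hE
    rw [hn, Helper20.classInner_res_conjFun K (Helper4.isClassFunction_irr χ.1)]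
    exact h
  have heB : ∀ (ξ : {ξ : IrrCharacter ↥N // (∀ n, ((ξ : ↥N → ℂ) n).im = 0) ∧
        ¬ p ∣ charDegree (ξ : ↥N → ℂ)})
      (θ θ' : {θ : IrrCharacter ↥K // (∀ k, ((θ : ↥K → ℂ) k).im = 0) ∧
        ∀ s ∈ (P : Subgroup G), Helper20.conjFun K θ.1 s = θ.1}),
      (∃ η : IrrCharacter ↥(K.subgroupOf N), RgRel p (P : Subgroup G) N K θ.1 η ∧
          classInner (fun c : ↥(K.subgroupOf N) => ξ.1.1 c) η.1 ≠ 0) →
      (∃ n : ↥N, θ'.1.1 = Helper20.conjFun K θ.1.1 n) →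
      (∃ η : IrrCharacter ↥(K.subgroupOf N), RgRel p (P : Subgroup G) N K θ'.1 η ∧
          classInner (fun c : ↥(K.subgroupOf N) => ξ.1.1 c) η.1 ≠ 0) := by
    intro ξ θ θ' h hE
    obtain ⟨η, hrel, hc⟩ := h
    obtain ⟨n, hn⟩ := hE
    have hcj := hrel.conj hNP n
    have e : (⟨Helper20.conjFun K θ.1.1 n, Helper20.conjFun_irr K θ.1.2 n⟩ :
        IrrCharacter ↥K) = θ'.1 := Subtype.ext hn.symm
    rw [e] at hcj
    refine ⟨_, hcj, ?_⟩
    show classInner (fun c : ↥(K.subgroupOf N) => ξ.1.1 c)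
      (Helper20.conjFun (K.subgroupOf N) η.1 n) ≠ 0
    rw [Helper20.classInner_res_conjFun (K.subgroupOf N) (Helper4.isClassFunction_irr ξ.1)]
    exact hc
  have hfA : ∀ (χ χ' : {χ : IrrCharacter G // ∀ g : G, ((χ : G → ℂ) g).im = 0})
      (θ : {θ : IrrCharacter ↥K // (∀ k, ((θ : ↥K → ℂ) k).im = 0) ∧
        ∀ s ∈ (P : Subgroup G), Helper20.conjFun K θ.1 s = θ.1}),
      classInner (fun k : ↥K => χ.1.1 k) θ.1.1 ≠ 0 →
      classInner (fun k : ↥K => χ'.1.1 k) θ.1.1 ≠ 0 → χ = χ' := by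
    intro χ χ' θ h h'
    exact Subtype.ext (real_over_unique K hodd θ.1 θ.2.1 χ.1 χ'.1
      ((Helper4.irrConj_eq_self_iff χ.1).mpr χ.2) ((Helper4.irrConj_eq_self_iff χ'.1).mpr χ'.2)
      h h')
  have hfB : ∀ (ξ ξ' : {ξ : IrrCharacter ↥N // (∀ n, ((ξ : ↥N → ℂ) n).im = 0) ∧
        ¬ p ∣ charDegree (ξ : ↥N → ℂ)})
      (θ : {θ : IrrCharacter ↥K // (∀ k, ((θ : ↥K → ℂ) k).im = 0) ∧
        ∀ s ∈ (P : Subgroup G), Helper20.conjFun K θ.1 s = θ.1}),
      (∃ η : IrrCharacter ↥(K.subgroupOf N), RgRel p (P : Subgroup G) N K θ.1 η ∧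
          classInner (fun c : ↥(K.subgroupOf N) => ξ.1.1 c) η.1 ≠ 0) →
      (∃ η : IrrCharacter ↥(K.subgroupOf N), RgRel p (P : Subgroup G) N K θ.1 η ∧
          classInner (fun c : ↥(K.subgroupOf N) => ξ'.1.1 c) η.1 ≠ 0) → ξ = ξ' := by
    intro ξ ξ' θ h h'
    obtain ⟨η, hrel, hc⟩ := h
    obtain ⟨η', hrel', hc'⟩ := h'
    have e := R2 _ _ _ hrel hrel'
    rw [← e] at hc'
    have hη := real_of_rel_θ θ.1 η hrel θ.2.1
    exact Subtype.ext (real_over_unique (K.subgroupOf N) hoddN η hη ξ.1 ξ'.1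
      ((Helper4.irrConj_eq_self_iff ξ.1).mpr ξ.2.1)
      ((Helper4.irrConj_eq_self_iff ξ'.1).mpr ξ'.2.1) hc hc')
  obtain ⟨f, hfbij, hfrel⟩ := bij_of_rel
    (fun (χ : {χ : IrrCharacter G // ∀ g : G, ((χ : G → ℂ) g).im = 0})
      (θ : {θ : IrrCharacter ↥K // (∀ k, ((θ : ↥K → ℂ) k).im = 0) ∧
        ∀ s ∈ (P : Subgroup G), Helper20.conjFun K θ.1 s = θ.1}) =>
      classInner (fun k : ↥K => χ.1.1 k) θ.1.1 ≠ 0)
    (fun (ξ : {ξ : IrrCharacter ↥N // (∀ n, ((ξ : ↥N → ℂ) n).im = 0) ∧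
        ¬ p ∣ charDegree (ξ : ↥N → ℂ)})
      (θ : {θ : IrrCharacter ↥K // (∀ k, ((θ : ↥K → ℂ) k).im = 0) ∧
        ∀ s ∈ (P : Subgroup G), Helper20.conjFun K θ.1 s = θ.1}) =>
      ∃ η : IrrCharacter ↥(K.subgroupOf N), RgRel p (P : Subgroup G) N K θ.1 η ∧
          classInner (fun c : ↥(K.subgroupOf N) => ξ.1.1 c) η.1 ≠ 0)
    (fun θ θ' => ∃ n : ↥N, θ'.1.1 = Helper20.conjFun K θ.1.1 n)
    ha hb hxa hxb hdA hdB heA heB hfA hfB
  refine ⟨f, hfbij, fun χ => ?_⟩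
  obtain ⟨θ, hA, η, hrel, hc⟩ := hfrel χ
  exact DEG χ.1 χ.2 (f χ).1 (f χ).2.1 θ.1 θ.2.1 η hrel hA hc

end Cfsg.Agent.Lib.Helper84.IN
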