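import Cfsg.Agent.Lib.Helper84.IN1
import Cfsg.Agent.Lib.Helper84.IN2
import Cfsg.Agent.Lib.Helper13.Basic

/-!
# Groups whose real irreducible characters have p'-degree (helper84): normal Sylow subgroups

If the subgroup generated by the `p`-elements is solvable and every real irreducible character has
degree prime to `p`, then the subgroup generated by the `2`-elements has a normal Sylow
`p`-subgroup.
-/

set_option autoImplicit false
set_option linter.unusedSectionVars false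
set_option linter.unusedVariables false
set_option linter.style.haveILetI false

namespace Cfsg.Agent.Lib.Helper84.IN

open Cfsg

universe u

/-- The case of a group generated by its `2`-elements. -/
theorem core (p : ℕ) [Fact p.Prime] : ∀ (n : ℕ) (G : Type u) [Group G] [Finite G],
    Nat.card G = n →
    Subgroup.closure {g : G | ∃ k : ℕ, orderOf g = 2 ^ k} = ⊤ →
    Group.IsSolvable ↥(Subgroup.closure {g : G | ∃ k : ℕ, orderOf g = p ^ k}) →
    (∀ χ : IrrCharacter G, (∀ g : G, ((χ : G → ℂ) g).im = 0) →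
      ¬ p ∣ charDegree (χ : G → ℂ)) →
    ∀ P : Sylow p G, (P : Subgroup G).Normal := by
  intro n
  induction n using Nat.strong_induction_on with
  | _ n ih =>
  intro G _ _ hcard hgen hsolv hreal P
  classical
  have hp : p.Prime := Fact.out
  by_cases hL1 : Subgroup.closure {g : G | ∃ k : ℕ, orderOf g = p ^ k} = ⊥
  · have hP : (P : Subgroup G) = ⊥ := by
      rw [eq_bot_iff, ← hL1]
      exact sylow_le_gen p P
    rw [hP]
    infer_instance
  have hLn := Oq_normal (G := G) p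
  obtain ⟨N, hNL, hNn, hN1, hmin⟩ := Helper13.exists_minimal_normal_le _ hLn hL1
  haveI : Group.IsSolvable ↥N :=
    Group.isSolvable_of_isSolvable_injective (Subgroup.inclusion_injective hNL)
  obtain ⟨r, hr, hrdvd, hNab, hexp, hNr⟩ := Helper13.minimal_normal_solvable N hNn hN1 hmin
  haveI := hNn
  have hlt : Nat.card (G ⧸ N) < n := by
    rw [← hcard, ← Subgroup.index_eq_card, ← Subgroup.card_mul_index N]
    have h1 := (Subgroup.one_lt_card_iff_ne_bot N).mpr hN1
    have h2 : 0 < N.index := Nat.pos_of_ne_zero Subgroup.index_ne_zero_of_finite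
    nlinarith
  have hq := ih _ hlt (G ⧸ N) rfl (gen_quotient 2 Nat.prime_two N hgen)
    (solvable_quotient p hp N hsolv) (real_quotient p N hreal)
  have hPN : ((P : Subgroup G) ⊔ N).Normal := by
    have h1 := hq (Sylow.mapSurjective (QuotientGroup.mk'_surjective N) P)
    rw [Sylow.coe_mapSurjective] at h1
    have h2 := h1.comap (QuotientGroup.mk' N)
    rwa [Subgroup.comap_map_eq, QuotientGroup.ker_mk'] at h2
  have hF : Subgroup.normalizer ((P : Subgroup G) : Set G) ⊔ N = ⊤ := by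
    haveI := hPN
    have h1 := Sylow.normalizer_sup_eq_top
      (P.subtype (le_sup_left : (P : Subgroup G) ≤ (P : Subgroup G) ⊔ N))
    rw [Sylow.coe_subtype, Subgroup.subgroupOf_map_subtype, inf_of_le_left le_sup_left] at h1
    rw [← h1, ← sup_assoc, sup_of_le_left Subgroup.le_normalizer]
  by_cases hNH : N ≤ Subgroup.normalizer ((P : Subgroup G) : Set G)
  · rw [sup_of_le_left hNH] at hF
    exact Subgroup.normalizer_eq_top_iff.mp hF
  exfalso
  set H := Subgroup.normalizer ((P : Subgroup G) : Set G) with hH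
  have hdec : ∀ g : G, ∃ h ∈ H, ∃ m ∈ N, g = h * m := by
    intro g
    have hg : g ∈ ((H ⊔ N : Subgroup G) : Set G) := by rw [hF]; exact Subgroup.mem_top g
    rw [Subgroup.mul_normal] at hg
    obtain ⟨a, ha, b, hb, rfl⟩ := Set.mem_mul.mp hg
    exact ⟨a, ha, b, hb, rfl⟩
  have hNH0 : N ⊓ H = ⊥ := by
    have hnorm : (N ⊓ H).Normal := by
      constructor
      intro x hx g
      obtain ⟨h, hh, m, hm, rfl⟩ := hdec g
      have hx1 : h * m * x * (h * m)⁻¹ = h * x * h⁻¹ := by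
        have := hNab m hm x hx.1
        have e : h * m * x * (h * m)⁻¹ = h * (m * x * m⁻¹) * h⁻¹ := by group
        rw [e, this, mul_inv_cancel_right]
      rw [hx1]
      exact ⟨hNn.conj_mem x hx.1 h, H.mul_mem (H.mul_mem hh hx.2) (H.inv_mem hh)⟩
    rcases hmin _ hnorm inf_le_left with h | h
    · exact h
    · exact absurd (inf_eq_left.mp h) hNH
  set D := Subgroup.closure
    {d : G | ∃ x ∈ (P : Subgroup G), ∃ m ∈ N, d = x * m * x⁻¹ * m⁻¹} with hD
  have hDN : D ≤ N := by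
    rw [hD, Subgroup.closure_le]
    rintro _ ⟨x, hx, m, hm, rfl⟩
    exact N.mul_mem (hNn.conj_mem m hm x) (N.inv_mem hm)
  have hDn : D.Normal := by
    apply closure_normal_of_conj
    rintro g _ ⟨x, hx, m, hm, rfl⟩
    obtain ⟨h, hh, m', hm', rfl⟩ := hdec g
    have hdN : x * m * x⁻¹ * m⁻¹ ∈ N := N.mul_mem (hNn.conj_mem m hm x) (N.inv_mem hm)
    have e1 : h * m' * (x * m * x⁻¹ * m⁻¹) * (h * m')⁻¹ =
        h * (x * m * x⁻¹ * m⁻¹) * h⁻¹ := by
      have := hNab m' hm' _ hdN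
      have e : h * m' * (x * m * x⁻¹ * m⁻¹) * (h * m')⁻¹ =
          h * (m' * (x * m * x⁻¹ * m⁻¹) * m'⁻¹) * h⁻¹ := by group
      rw [e, this, mul_inv_cancel_right]
    refine ⟨h * x * h⁻¹, (Subgroup.mem_normalizer_iff.mp hh x).mp hx, h * m * h⁻¹,
      hNn.conj_mem m hm h, ?_⟩
    rw [e1]; group
  have hD1 : D ≠ ⊥ := by
    intro hD0
    apply hNH
    intro m hm
    rw [Subgroup.mem_normalizer_iff]
    have hcomm : ∀ x ∈ (P : Subgroup G), m * x * m⁻¹ = x := by
      intro x hx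
      have h1 : x * m * x⁻¹ * m⁻¹ ∈ D :=
        Subgroup.subset_closure ⟨x, hx, m, hm, rfl⟩
      rw [hD0, Subgroup.mem_bot] at h1
      have : m * x * m⁻¹ = (x * m * x⁻¹ * m⁻¹)⁻¹ * x := by group
      rw [this, h1, inv_one, one_mul]
    intro x
    constructor
    · intro hx; rw [hcomm x hx]; exact hx
    · intro hx
      have h2 := hcomm (m * x * m⁻¹) hx
      have h4 : m⁻¹ * (m * (m * x * m⁻¹) * m⁻¹) * m = m⁻¹ * (m * x * m⁻¹) * m := by rw [h2]
      have e5 : m⁻¹ * (m * (m * x * m⁻¹) * m⁻¹) * m = m * x * m⁻¹ := by group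
      have e6 : m⁻¹ * (m * x * m⁻¹) * m = x := by group
      rw [e5, e6] at h4
      rw [← h4]; exact hx
  have hDeq : D = N := (hmin D hDn hDN).resolve_left hD1
  have hDchar : ∀ μ : N →* ℂˣ, (∀ x ∈ (P : Subgroup G), ∀ n : N,
      μ ⟨x * n * x⁻¹, hNn.conj_mem n n.2 x⟩ = μ n) → ∀ n : N, μ n = 1 := by
    intro μ hμ n
    have hle : D ≤ (μ.ker).map N.subtype := by
      rw [hD, Subgroup.closure_le]
      rintro _ ⟨x, hx, m, hm, rfl⟩
      refine ⟨⟨x * m * x⁻¹, hNn.conj_mem m hm x⟩ * (⟨m, hm⟩ : N)⁻¹, ?_, rfl⟩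
      show _ ∈ μ.ker
      rw [MonoidHom.mem_ker, map_mul, map_inv, hμ x hx ⟨m, hm⟩, mul_inv_cancel]
    have h1 : (n : G) ∈ (μ.ker).map N.subtype := hle (by rw [hDeq]; exact n.2)
    obtain ⟨n', hn', e⟩ := h1
    have : n' = n := Subtype.ext e
    rw [← this]; exact MonoidHom.mem_ker.mp hn'
  have hex : ∃ t : G, (∃ k : ℕ, orderOf t = 2 ^ k) ∧
      t ∉ Subgroup.centralizer (N : Set G) := by
    by_contra hcon
    push Not at hcon
    have h1 : Subgroup.closure {g : G | ∃ k : ℕ, orderOf g = 2 ^ k} ≤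
        Subgroup.centralizer (N : Set G) := by
      rw [Subgroup.closure_le]
      intro t ht
      exact hcon t ht
    rw [hgen] at h1
    apply hNH
    intro m hm
    rw [Subgroup.mem_normalizer_iff]
    intro x
    have hx : x ∈ Subgroup.centralizer (N : Set G) := h1 (Subgroup.mem_top x)
    have hc : m * x = x * m := Subgroup.mem_centralizer_iff.mp hx m hm
    have : m * x * m⁻¹ = x := by rw [hc, mul_inv_cancel_right]
    rw [this]
  obtain ⟨t, ⟨k, hk⟩, htC⟩ := hex
  have hfind : ∃ i : ℕ, t ^ 2 ^ i ∈ Subgroup.centralizer (N : Set G) :=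
    ⟨k, by rw [← hk, pow_orderOf_eq_one]; exact Subgroup.one_mem _⟩
  have hi₀spec : t ^ 2 ^ (Nat.find hfind) ∈ Subgroup.centralizer (N : Set G) :=
    Nat.find_spec hfind
  have hi₀pos : Nat.find hfind ≠ 0 := by
    intro h0
    rw [h0, pow_zero, pow_one] at hi₀spec
    exact htC hi₀spec
  obtain ⟨j, hj⟩ := Nat.exists_eq_succ_of_ne_zero hi₀pos
  have hsC : t ^ 2 ^ j ∉ Subgroup.centralizer (N : Set G) :=
    Nat.find_min hfind (by rw [hj]; exact Nat.lt_succ_self j)
  have hs2C : t ^ 2 ^ j * t ^ 2 ^ j ∈ Subgroup.centralizer (N : Set G) := by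
    have : t ^ 2 ^ j * t ^ 2 ^ j = t ^ 2 ^ (Nat.find hfind) := by
      rw [hj, ← pow_add, pow_succ, mul_two]
    rw [this]; exact hi₀spec
  have hs2 : ∀ m ∈ N, t ^ 2 ^ j * (t ^ 2 ^ j * m * (t ^ 2 ^ j)⁻¹) * (t ^ 2 ^ j)⁻¹ = m := by
    intro m hm
    have hc := Subgroup.mem_centralizer_iff.mp hs2C m hm
    have e : t ^ 2 ^ j * (t ^ 2 ^ j * m * (t ^ 2 ^ j)⁻¹) * (t ^ 2 ^ j)⁻¹ =
        (t ^ 2 ^ j * t ^ 2 ^ j) * m * (t ^ 2 ^ j * t ^ 2 ^ j)⁻¹ := by group
    rw [e, ← hc, mul_inv_cancel_right]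
  obtain ⟨n₀, hn₀, hne⟩ : ∃ n₀ ∈ N, t ^ 2 ^ j * n₀ * (t ^ 2 ^ j)⁻¹ ≠ n₀ := by
    by_contra hcon
    push Not at hcon
    apply hsC
    rw [Subgroup.mem_centralizer_iff]
    intro m hm
    have := hcon m hm
    calc m * t ^ 2 ^ j = (t ^ 2 ^ j * m * (t ^ 2 ^ j)⁻¹) * t ^ 2 ^ j := by rw [this]
      _ = t ^ 2 ^ j * m := by group
  letI := Fintype.ofFinite G
  obtain ⟨lam, χ, hnt, hχreal, hdeg⟩ :=
    key_real N hNab H hNH0 (by rw [sup_comm]; exact hF) (t ^ 2 ^ j) hs2 n₀ hn₀ hne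
  have hdvd := dvd_index_inertia N p P hDchar lam hnt
  exact hreal χ hχreal (by rw [hdeg]; exact hdvd)

/-- If the subgroup generated by the `p`-elements is solvable and all real irreducible characters
have degree prime to `p`, the subgroup generated by the `2`-elements has a normal Sylow
`p`-subgroup. -/
theorem real_pprime_normal_sylow {G : Type u} [Group G] [Finite G] (p : ℕ) [Fact p.Prime]
    (hsolv : Group.IsSolvable ↥(Subgroup.closure {g : G | ∃ k : ℕ, orderOf g = p ^ k}))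
    (hreal : ∀ χ : IrrCharacter G, (∀ g : G, ((χ : G → ℂ) g).im = 0) →
      ¬ p ∣ charDegree (χ : G → ℂ))
    (Q : Sylow p ↥(Subgroup.closure {g : G | ∃ k : ℕ, orderOf g = 2 ^ k})) :
    (Q : Subgroup ↥(Subgroup.closure {g : G | ∃ k : ℕ, orderOf g = 2 ^ k})).Normal := by
  haveI := Oq_normal (G := G) 2
  exact core p _ ↥(Subgroup.closure {g : G | ∃ k : ℕ, orderOf g = 2 ^ k}) rfl (gen_self 2)
    (solvable_subgroup p _ hsolv) (real_subgroup p _ odd_index hreal) Q

end Cfsg.Agent.Lib.Helper84.IN
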