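import Mathlib
import Cfsg.Prelude.Def_Local
import Cfsg.Agent.Lib.Helper84.NC1
import Cfsg.Agent.Lib.Helper4.NormalPC
import Cfsg.Agent.Lib.Helper81.PSolv2

/-!
# Two primes: group-theoretic part of S4885 (helper84)

* `tate_index`: if every linear character of a Sylow `p`-subgroup `P` is trivial on `P ∩ K` for
  a normal subgroup `K`, then `K / (K ∩ O_{p'}(G))` is a `p`-group (Tate's theorem).
* `key_le`, `no_pq`: the final counting argument along a `p`-solvable series.
-/

set_option autoImplicit false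

namespace Cfsg.Agent.Lib.Helper84.PQ

open Cfsg
open scoped Pointwise
open Cfsg.Agent.Lib.Helper84

variable {G : Type*} [Group G]

theorem mem_of_pow_mem_coprime (F : Subgroup G) {x : G} {a b : ℕ} (hab : a.Coprime b)
    (ha : x ^ a ∈ F) (hb : x ^ b ∈ F) : x ∈ F := by
  have h1 : (x ^ a) ^ (Nat.gcdA a b) * (x ^ b) ^ (Nat.gcdB a b) ∈ F :=
    F.mul_mem (F.zpow_mem ha _) (F.zpow_mem hb _)
  have h2 : (x ^ a) ^ (Nat.gcdA a b) * (x ^ b) ^ (Nat.gcdB a b) = x := by
    have h3 : ((Nat.gcd a b : ℕ) : ℤ) = 1 := by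
      rw [Nat.Coprime] at hab
      rw [hab]
      rfl
    rw [← zpow_natCast x a, ← zpow_natCast x b, ← zpow_mul, ← zpow_mul, ← zpow_add,
      ← Nat.gcd_eq_gcd_ab, h3, zpow_one]
  rwa [h2] at h1

theorem pow_relIndex_mem [Finite G] (F K : Subgroup G) [F.Normal] {x : G} (hx : x ∈ K) :
    x ^ F.relIndex K ∈ F := by
  have h1 : F.relIndex K = Nat.card (K.map (QuotientGroup.mk' F)) := by
    have := Subgroup.relIndex_ker (K := K) (QuotientGroup.mk' F)
    rwa [QuotientGroup.ker_mk'] at this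
  have h2 : (⟨(QuotientGroup.mk' F) x, Subgroup.mem_map_of_mem _ hx⟩ :
      K.map (QuotientGroup.mk' F)) ^ Nat.card (K.map (QuotientGroup.mk' F)) = 1 :=
    pow_card_eq_one'
  have h3 := congrArg Subtype.val h2
  rw [← h1] at h3
  have h4 : ((x ^ F.relIndex K : G) : G ⧸ F) = 1 := by
    rw [QuotientGroup.mk_pow]
    simpa using h3
  exact (QuotientGroup.eq_one_iff _).mp h4

theorem pgroup_trivial_of_no_lin {H : Type*} [Group H] [Finite H] (p : ℕ) [Fact p.Prime]
    (hH : IsPGroup p H) (h : ∀ (l : H →* ℂˣ) (x : H), l x = 1) : ∀ x : H, x = 1 := by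
  by_contra hcon
  push Not at hcon
  obtain ⟨x, hx⟩ := hcon
  have hnt : Nontrivial H := ⟨⟨x, 1, hx⟩⟩
  have hnil : Group.IsNilpotent H := hH.isNilpotent
  have hlt := Group.IsSolvable.commutator_lt_top_of_nontrivial H
  obtain ⟨y, -, hy⟩ := SetLike.exists_of_lt hlt
  have hy' : (Abelianization.of y : Abelianization H) ≠ 1 := by
    intro h1
    apply hy
    exact (QuotientGroup.eq_one_iff y).mp h1
  obtain ⟨φ, hφ⟩ :=
    CommGroup.exists_apply_ne_one_of_hasEnoughRootsOfUnity (Abelianization H) ℂ hy'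
  exact hφ (h (φ.comp Abelianization.of) y)

/-- Tate's theorem, in the form used here. -/
theorem tate_index [Finite G] (p : ℕ) [Fact p.Prime] (P : Sylow p G) (K : Subgroup G)
    [hKn : K.Normal]
    (hl : ∀ (l : (P : Subgroup G) →* ℂˣ) (x : (P : Subgroup G)), (x : G) ∈ K → l x = 1) :
    ∃ c : ℕ, (K ⊓ pPrimeCore p G).relIndex K = p ^ c := by
  have hp := (Fact.out : p.Prime)
  obtain ⟨R, hR⟩ : ∃ R : Subgroup G, R = (P : Subgroup G) ⊔ K := ⟨_, rfl⟩
  have hPR : (P : Subgroup G) ≤ R := hR ▸ le_sup_left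
  have hKR : K ≤ R := hR ▸ le_sup_right
  have hdec : ∀ r ∈ R, ∃ y ∈ (P : Subgroup G), ∃ k ∈ K, r = y * k := by
    intro r hr
    have h1 : r ∈ ((P : Subgroup G) : Set G) * (K : Set G) := by
      rw [← Subgroup.mul_normal, ← hR]
      exact hr
    obtain ⟨y, hy, k, hk, rfl⟩ := Set.mem_mul.mp h1
    exact ⟨y, hy, k, hk, rfl⟩
  have hnpc : HasNormalPComplement p R := by
    apply Helper4.npc_of_extend p (P.subtype hPR)
    intro l _
    apply NC.exists_extension_of_fusion _ (Sylow.card_coprime_index (P.subtype hPR)).symm l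
    intro h g₀ hk
    let e : (P : Subgroup G) →* ((P.subtype hPR : Sylow p R) : Subgroup R) :=
      { toFun := fun y => ⟨⟨(y : G), hPR y.2⟩, Subgroup.mem_subgroupOf.mpr y.2⟩
        map_one' := rfl
        map_mul' := fun _ _ => rfl }
    have hhP : ((h : R) : G) ∈ (P : Subgroup G) := Subgroup.mem_subgroupOf.mp h.2
    obtain ⟨y, hy, k, hkK, hg⟩ := hdec (g₀ : G) g₀.2
    have hkP : (g₀ : G)⁻¹ * ((h : R) : G) * (g₀ : G) ∈ (P : Subgroup G) := by
      have := Subgroup.mem_subgroupOf.mp hk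
      simpa using this
    have hyhy : y⁻¹ * ((h : R) : G) * y ∈ (P : Subgroup G) :=
      (P : Subgroup G).mul_mem ((P : Subgroup G).mul_mem ((P : Subgroup G).inv_mem hy) hhP) hy
    have hwP : (y⁻¹ * ((h : R) : G) * y)⁻¹ * ((g₀ : G)⁻¹ * ((h : R) : G) * (g₀ : G)) ∈
        (P : Subgroup G) :=
      (P : Subgroup G).mul_mem ((P : Subgroup G).inv_mem hyhy) hkP
    have hwK : (y⁻¹ * ((h : R) : G) * y)⁻¹ * ((g₀ : G)⁻¹ * ((h : R) : G) * (g₀ : G)) ∈ K := by
      rw [hg]
      have e1 : (y⁻¹ * ((h : R) : G) * y)⁻¹ * ((y * k)⁻¹ * ((h : R) : G) * (y * k)) =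
          ((y⁻¹ * ((h : R) : G) * y)⁻¹ * k⁻¹ * (y⁻¹ * ((h : R) : G) * y)⁻¹⁻¹) * k := by group
      rw [e1]
      exact K.mul_mem (hKn.conj_mem k⁻¹ (K.inv_mem hkK) _) hkK
    have h1 := hl (l.comp e) ⟨_, hwP⟩ hwK
    have h2 : (⟨(y⁻¹ * ((h : R) : G) * y)⁻¹ * ((g₀ : G)⁻¹ * ((h : R) : G) * (g₀ : G)), hwP⟩ :
        (P : Subgroup G)) =
        (⟨y, hy⟩⁻¹ * ⟨((h : R) : G), hhP⟩ * ⟨y, hy⟩)⁻¹ *
          ⟨(g₀ : G)⁻¹ * ((h : R) : G) * (g₀ : G), hkP⟩ := rfl
    rw [h2, map_mul, map_inv, map_mul, map_mul, map_inv] at h1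
    have h3 : ((l.comp e) ⟨y, hy⟩)⁻¹ * (l.comp e) ⟨((h : R) : G), hhP⟩ * (l.comp e) ⟨y, hy⟩ =
        (l.comp e) ⟨((h : R) : G), hhP⟩ := by
      rw [mul_comm ((l.comp e) ⟨y, hy⟩)⁻¹, inv_mul_cancel_right]
    rw [h3] at h1
    have h4 : (l.comp e) ⟨((h : R) : G), hhP⟩ = l h := rfl
    have h5 : (l.comp e) ⟨(g₀ : G)⁻¹ * ((h : R) : G) * (g₀ : G), hkP⟩ =
        l ⟨g₀⁻¹ * (h : R) * g₀, hk⟩ := by
      show l _ = l _
      congr 1
    rw [h4, h5] at h1
    exact (inv_mul_eq_one.mp h1).symm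
  obtain ⟨P', K₀, hK₀n, hKc⟩ := hnpc
  have hcardmul : Nat.card K₀ * Nat.card (P' : Subgroup R) = Nat.card R := hKc.card_mul_card
  have hP'card := P'.card_eq_multiplicity
  have hRpos : Nat.card R ≠ 0 := Nat.card_pos.ne'
  have hKcard : Nat.card K₀ = Nat.card R / p ^ (Nat.card R).factorization p := by
    rw [hP'card] at hcardmul
    exact (Nat.div_eq_of_eq_mul_left (pow_pos hp.pos _) hcardmul.symm).symm
  have hKcop : (Nat.card K₀).Coprime p := by
    rw [hKcard]
    exact (Nat.coprime_ordCompl hp hRpos).symm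
  have hidx : ∃ a, K₀.index = p ^ a := by
    refine ⟨(Nat.card R).factorization p, ?_⟩
    have h1 := K₀.index_mul_card
    rw [← hcardmul, mul_comm, hP'card] at h1
    exact Nat.eq_of_mul_eq_mul_left Nat.card_pos h1
  -- elements of the complement
  have hchar : ∀ x : G, x ∈ K₀.map R.subtype ↔ x ∈ R ∧ (orderOf x).Coprime p := by
    intro x
    constructor
    · rintro ⟨y, hy, rfl⟩
      refine ⟨y.2, ?_⟩
      have h1 : orderOf ((R.subtype y : G)) = orderOf (⟨y, hy⟩ : K₀) := by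
        rw [← Subgroup.orderOf_coe, ← Subgroup.orderOf_coe]
        rfl
      rw [h1]
      exact Nat.Coprime.coprime_dvd_left (orderOf_dvd_natCard _) hKcop
    · rintro ⟨hxR, hx⟩
      refine ⟨⟨x, hxR⟩, ?_, rfl⟩
      obtain ⟨a, ha⟩ := hidx
      have h1 : orderOf ((⟨x, hxR⟩ : R) : R ⧸ K₀) ∣ orderOf (⟨x, hxR⟩ : R) :=
        orderOf_dvd_of_pow_eq_one (by
          rw [← QuotientGroup.mk_pow, pow_orderOf_eq_one, QuotientGroup.mk_one])
      have h2 : orderOf ((⟨x, hxR⟩ : R) : R ⧸ K₀) ∣ p ^ a := by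
        rw [← ha, Subgroup.index_eq_card]
        exact orderOf_dvd_natCard _
      have h3 : orderOf (⟨x, hxR⟩ : R) = orderOf x := by
        rw [← Subgroup.orderOf_coe]
      rw [h3] at h1
      have h4 : orderOf ((⟨x, hxR⟩ : R) : R ⧸ K₀) = 1 :=
        Nat.Coprime.eq_one_of_dvd (Nat.Coprime.coprime_dvd_left h1 (Nat.Coprime.pow_right a hx)) h2
      exact (QuotientGroup.eq_one_iff _).mp (orderOf_eq_one_iff.mp h4)
  -- the complement is inside `K`
  have hK₁K : K₀.map R.subtype ≤ K := by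
    intro x hx
    obtain ⟨hxR, hxo⟩ := (hchar x).mp hx
    obtain ⟨y, hy, k, hkK, rfl⟩ := hdec x hxR
    obtain ⟨n, hn⟩ := P.isPGroup' ⟨y, hy⟩
    have hn' : y ^ p ^ n = 1 := by
      have := congrArg Subtype.val hn
      simpa using this
    apply mem_of_pow_mem_coprime K (a := orderOf (y * k)) (b := p ^ n)
      (Nat.Coprime.pow_right n hxo)
    · rw [pow_orderOf_eq_one]
      exact one_mem _
    · have h1 : (((y * k) ^ p ^ n : G) : G ⧸ K) = 1 := by
        rw [QuotientGroup.mk_pow, QuotientGroup.mk_mul, (QuotientGroup.eq_one_iff k).mpr hkK,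
          mul_one, ← QuotientGroup.mk_pow, hn', QuotientGroup.mk_one]
      exact (QuotientGroup.eq_one_iff _).mp h1
  have hK₁n : (K₀.map R.subtype).Normal := by
    refine ⟨fun x hx g => ?_⟩
    have hxK := hK₁K hx
    rw [hchar] at hx ⊢
    refine ⟨hKR (hKn.conj_mem x hxK g), ?_⟩
    have h1 : orderOf (g * x * g⁻¹) = orderOf x := by
      have := MulEquiv.orderOf_eq (MulAut.conj g) x
      simpa using this
    rw [h1]
    exact hx.2
  have hK₁card : Nat.card (K₀.map R.subtype) = Nat.card K₀ :=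
    Subgroup.card_map_of_injective (Subgroup.subtype_injective R)
  have hK₁N : K₀.map R.subtype ≤ pPrimeCore p G :=
    Helper81.le_pPrimeCore p _ hK₁n (by rw [hK₁card]; exact hKcop)
  have hle : K₀.map R.subtype ≤ K ⊓ pPrimeCore p G := le_inf hK₁K hK₁N
  -- index computation
  have hdvd1 : (K ⊓ pPrimeCore p G).relIndex K ∣ (K₀.map R.subtype).relIndex K :=
    Subgroup.relIndex_dvd_of_le_left K hle
  obtain ⟨a, ha⟩ := hidx
  have hdvd2 : (K₀.map R.subtype).relIndex K ∣ p ^ a := by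
    have h1 : (K₀.map R.subtype).relIndex K * Nat.card (K₀.map R.subtype) = Nat.card K := by
      have h2 := ((K₀.map R.subtype).subgroupOf K).index_mul_card
      have h3 : Nat.card ((K₀.map R.subtype).subgroupOf K) = Nat.card (K₀.map R.subtype) :=
        Nat.card_congr (Subgroup.subgroupOfEquivOfLe hK₁K).toEquiv
      rw [h3] at h2
      exact h2
    have h4 : Nat.card K ∣ Nat.card R := Subgroup.card_dvd_of_le hKR
    have h5 : p ^ a * Nat.card K₀ = Nat.card R := by
      rw [← ha]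
      exact K₀.index_mul_card
    rw [← h1, ← h5, hK₁card] at h4
    exact Nat.dvd_of_mul_dvd_mul_right Nat.card_pos h4
  exact (Nat.dvd_prime_pow hp).mp (dvd_trans hdvd1 hdvd2) |>.imp fun c hc => hc.2

/-- Normal subgroups above `O_{q'}(G) O_{p'}(G)` of index prime to `p`. -/
theorem key_le [Finite G] (p : ℕ) [Fact p.Prime] (P : Sylow p G) (M : Subgroup G) [M.Normal]
    (hl : ∀ (l : (P : Subgroup G) →* ℂˣ) (x : (P : Subgroup G)), (x : G) ∈ M → l x = 1)
    (hMN : ((M ⊓ pPrimeCore p G).relIndex (pPrimeCore p G)).Coprime p)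
    (K : Subgroup G) [K.Normal] (hFK : M ⊔ pPrimeCore p G ≤ K)
    (hcop : ((M ⊔ pPrimeCore p G).relIndex K).Coprime p) : K ≤ M ⊔ pPrimeCore p G := by
  have hNn : (pPrimeCore p G).Normal := Helper81.pPrimeCore_normal p
  have hpel : ∀ x : (P : Subgroup G), (x : G) ∈ K → (x : G) ∈ M := by
    intro x hxK
    obtain ⟨n, hn⟩ := P.isPGroup' x
    have hn' : (x : G) ^ p ^ n = 1 := by
      have := congrArg Subtype.val hn
      simpa using this
    have hxF : (x : G) ∈ M ⊔ pPrimeCore p G := by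
      apply mem_of_pow_mem_coprime (M ⊔ pPrimeCore p G)
        (a := (M ⊔ pPrimeCore p G).relIndex K) (b := p ^ n) (Nat.Coprime.pow_right n hcop)
      · exact pow_relIndex_mem (M ⊔ pPrimeCore p G) K hxK
      · rw [hn']
        exact one_mem _
    apply mem_of_pow_mem_coprime M (a := M.relIndex (M ⊔ pPrimeCore p G)) (b := p ^ n)
    · rw [Subgroup.relIndex_sup_left, ← Subgroup.inf_relIndex_right]
      exact Nat.Coprime.pow_right n hMN
    · exact pow_relIndex_mem M (M ⊔ pPrimeCore p G) hxF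
    · rw [hn']
      exact one_mem _
  obtain ⟨c, hc⟩ := tate_index p P K (fun l x hx => hl l x (hpel x hx))
  have hNK : pPrimeCore p G ≤ K := le_trans le_sup_right hFK
  rw [inf_eq_right.mpr hNK] at hc
  have h1 := Subgroup.relIndex_mul_relIndex (H := pPrimeCore p G) (K := M ⊔ pPrimeCore p G)
    (L := K) le_sup_right hFK
  have h2 : (M ⊔ pPrimeCore p G).relIndex K ∣ p ^ c := by
    rw [← hc, ← h1]
    exact dvd_mul_left _ _
  have h3 : (M ⊔ pPrimeCore p G).relIndex K = 1 :=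
    Nat.Coprime.eq_one_of_dvd (Nat.Coprime.pow_right c hcop) h2
  exact Subgroup.relIndex_eq_one.mp h3

/-- The group-theoretic contradiction. -/
theorem no_pq [Finite G] (p q : ℕ) [hp : Fact p.Prime] [hq : Fact q.Prime] (hpq : p ≠ q)
    (hpG : p ∣ Nat.card G) (hps : IsPSolvable p G) (P : Sylow p G) (Q : Sylow q G)
    (hlp : ∀ (l : (P : Subgroup G) →* ℂˣ) (x : (P : Subgroup G)),
      (x : G) ∈ pPrimeCore q G → l x = 1)
    (hlq : ∀ (l : (Q : Subgroup G) →* ℂˣ) (x : (Q : Subgroup G)),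
      (x : G) ∈ pPrimeCore p G → l x = 1) : False := by
  have hNn : (pPrimeCore p G).Normal := Helper81.pPrimeCore_normal p
  have hMn : (pPrimeCore q G).Normal := Helper81.pPrimeCore_normal q
  obtain ⟨a, ha⟩ := tate_index p P (pPrimeCore q G) hlp
  obtain ⟨b, hb⟩ := tate_index q Q (pPrimeCore p G) hlq
  have hcpq : Nat.Coprime p q := (Nat.coprime_primes hp.out hq.out).mpr hpq
  have hb' : ((pPrimeCore q G ⊓ pPrimeCore p G).relIndex (pPrimeCore p G)).Coprime p := by
    rw [inf_comm, hb]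
    exact Nat.Coprime.pow_left b hcpq.symm
  have ha' : ((pPrimeCore p G ⊓ pPrimeCore q G).relIndex (pPrimeCore q G)).Coprime q := by
    rw [inf_comm, ha]
    exact Nat.Coprime.pow_left a hcpq
  have P1 : ∀ K : Subgroup G, K.Normal → pPrimeCore q G ⊔ pPrimeCore p G ≤ K →
      ((pPrimeCore q G ⊔ pPrimeCore p G).relIndex K).Coprime p →
      K ≤ pPrimeCore q G ⊔ pPrimeCore p G := by
    intro K hK h1 h2
    exact key_le p P (pPrimeCore q G) hlp hb' K h1 h2
  have Q1 : ∀ K : Subgroup G, K.Normal → pPrimeCore q G ⊔ pPrimeCore p G ≤ K →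
      ((pPrimeCore q G ⊔ pPrimeCore p G).relIndex K).Coprime q →
      K ≤ pPrimeCore q G ⊔ pPrimeCore p G := by
    intro K hK h1 h2
    rw [sup_comm] at h1 h2 ⊢
    exact key_le q Q (pPrimeCore p G) hlq ha' K h1 h2
  obtain ⟨n, H, h0, hlast, hmono, hnorm, hstep⟩ := hps
  have hall : ∀ i : Fin (n + 1), H i ≤ pPrimeCore q G ⊔ pPrimeCore p G := by
    intro i
    induction i using Fin.induction with
    | zero =>
      rw [h0]
      exact bot_le
    | succ i ih =>
      have hHn : (H i.succ).Normal := hnorm _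
      have hFn : (pPrimeCore q G ⊔ pPrimeCore p G).Normal := inferInstance
      have hKn : (H i.succ ⊔ (pPrimeCore q G ⊔ pPrimeCore p G)).Normal := inferInstance
      have hrel : (pPrimeCore q G ⊔ pPrimeCore p G).relIndex
          (H i.succ ⊔ (pPrimeCore q G ⊔ pPrimeCore p G)) ∣
          (H i.castSucc).relIndex (H i.succ) := by
        rw [Subgroup.relIndex_sup_right]
        exact Subgroup.relIndex_dvd_of_le_left _ ih
      have hle : H i.succ ⊔ (pPrimeCore q G ⊔ pPrimeCore p G) ≤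
          pPrimeCore q G ⊔ pPrimeCore p G := by
        rcases hstep i with ⟨m, hm⟩ | hc
        · apply Q1 _ hKn le_sup_right
          rw [hm] at hrel
          exact Nat.Coprime.coprime_dvd_left hrel (Nat.Coprime.pow_left m hcpq)
        · apply P1 _ hKn le_sup_right
          exact Nat.Coprime.coprime_dvd_left hrel hc
      exact le_trans le_sup_left hle
  have htop : pPrimeCore q G ⊔ pPrimeCore p G = ⊤ := by
    rw [eq_top_iff, ← hlast]
    exact hall _
  -- all elements of `P` lie in `O_{q'}(G)`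
  have hPM : ∀ x : (P : Subgroup G), (x : G) ∈ pPrimeCore q G := by
    intro x
    obtain ⟨n, hn⟩ := P.isPGroup' x
    have hn' : (x : G) ^ p ^ n = 1 := by
      have := congrArg Subtype.val hn
      simpa using this
    apply mem_of_pow_mem_coprime (pPrimeCore q G)
      (a := (pPrimeCore q G).relIndex (pPrimeCore q G ⊔ pPrimeCore p G)) (b := p ^ n)
    · rw [Subgroup.relIndex_sup_left, ← Subgroup.inf_relIndex_right]
      exact Nat.Coprime.pow_right n hb'
    · apply pow_relIndex_mem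
      rw [htop]
      exact Subgroup.mem_top _
    · rw [hn']
      exact one_mem _
  have htriv := pgroup_trivial_of_no_lin p P.isPGroup' (fun l x => hlp l x (hPM x))
  apply P.ne_bot_of_dvd_card hpG
  rw [eq_bot_iff]
  intro x hx
  have := htriv ⟨x, hx⟩
  exact Subgroup.mem_bot.mpr (congrArg Subtype.val this)

end Cfsg.Agent.Lib.Helper84.PQ
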