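import Mathlib
import Cfsg.Prelude.Def_Local
import Cfsg.Agent.Lib.Helper84.Core
import Cfsg.Agent.Lib.Helper84.ItoMichler
import Cfsg.Agent.Lib.Helper4.PSolvB0
import Cfsg.Agent.Lib.Helper66.Broline
import Cfsg.Agent.Lib.Helper83.Induce
import Cfsg.Agent.Lib.Helper83.Linear
import Cfsg.Agent.Lib.Helper35.Ind
import Cfsg.Agent.Lib.Helper81.PSolv2

/-!
# Two primes: character-theoretic part of S4885 (helper84)

`lin_trivial`: if every irreducible character of `p'`-degree in the principal `p`-block lies in the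
principal `q`-block (`G` being `p`- and `q`-solvable), then every linear character of a Sylow
`p`-subgroup `P` is trivial on `P ∩ O_{q'}(G)`.
-/

set_option autoImplicit false

namespace Cfsg.Agent.Lib.Helper84.PQ

open Cfsg
open scoped ComplexConjugate
open Cfsg.Agent.Lib Cfsg.Agent.Lib.Helper84

/-- A linear character of a subgroup of index prime to `p` lies under an irreducible character
of degree prime to `p`. -/
theorem exists_pprime_over {Γ : Type*} [Group Γ] [Fintype Γ] (p : ℕ) [Fact p.Prime]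
    (R : Subgroup Γ) [Fintype R] (hR : ¬ p ∣ R.index) (lam : R →* ℂˣ) :
    ∃ ψ : IrrCharacter Γ, classInner (fun r : R => ψ.1 r) (fun r : R => ((lam r : ℂˣ) : ℂ)) ≠ 0 ∧
      ¬ p ∣ charDegree ψ.1 := by
  classical
  have hfin : Finite (IrrCharacter Γ) := irr_finite
  let _ : Fintype (IrrCharacter Γ) := Fintype.ofFinite (IrrCharacter Γ)
  have hθ : IsIrrCharacter R (fun r : R => ((lam r : ℂˣ) : ℂ)) := Helper83.isIrr_of_hom lam
  by_contra hcon
  push Not at hcon
  have hcf := Helper35.isClassFunction_indFun R (fun r : R => ((lam r : ℂˣ) : ℂ))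
  have hexp := Helper4.classFunction_expansion (indFun R (fun r : R => ((lam r : ℂˣ) : ℂ))) hcf
  have hk : ∀ ψ : IrrCharacter Γ, ∃ k : ℕ,
      classInner (fun r : R => ψ.1 r) (fun r : R => ((lam r : ℂˣ) : ℂ)) = (k : ℂ) := fun ψ =>
    Helper35.classInner_char_nat
      (Helper35.isCharacter_res R (Helper35.isChar_of_irr ψ.2)) (Helper35.isChar_of_irr hθ)
  choose k hk using hk
  have h0 : ∀ ψ : IrrCharacter Γ,
      classInner (indFun R (fun r : R => ((lam r : ℂˣ) : ℂ))) ψ.1 = (k ψ : ℂ) := by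
    intro ψ
    have := Helper83.inner_ind_irr R ⟨_, hθ⟩ ψ
    rw [this, hk ψ, Complex.conj_natCast]
  have h1 := congrFun hexp 1
  simp only [h0, Finset.sum_apply, Pi.smul_apply, smul_eq_mul] at h1
  rw [Helper35.indFun_one_eq] at h1
  have hone : ((lam (1 : R) : ℂˣ) : ℂ) = 1 := by rw [map_one]; rfl
  rw [hone, mul_one] at h1
  have h2 : (R.index : ℂ) = ((∑ ψ : IrrCharacter Γ, k ψ * charDegree ψ.1 : ℕ) : ℂ) := by
    rw [h1]
    push_cast
    exact Finset.sum_congr rfl (fun ψ _ => by rw [irr_one ψ])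
  have h3 : R.index = ∑ ψ : IrrCharacter Γ, k ψ * charDegree ψ.1 := by exact_mod_cast h2
  apply hR
  rw [h3]
  apply Finset.dvd_sum
  intro ψ _
  by_cases hkψ : k ψ = 0
  · rw [hkψ, zero_mul]
    exact dvd_zero _
  · have hne : classInner (fun r : R => ψ.1 r) (fun r : R => ((lam r : ℂˣ) : ℂ)) ≠ 0 := by
      rw [hk ψ]
      exact_mod_cast hkψ
    exact dvd_mul_of_dvd_right (hcon ψ hne) _

theorem lin_trivial {G : Type*} [Group G] [Finite G] (p q : ℕ) [Fact p.Prime] [Fact q.Prime]
    (hps : IsPSolvable p G) (hqs : IsPSolvable q G)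
    (Mp Mq : Ideal AlgInt) (hMp : IsPModular p Mp) (hMq : IsPModular q Mq)
    (h : ∀ χ : IrrCharacter G, (χ ∈ principalBlock Mp G ∧ ¬ p ∣ charDegree (χ : G → ℂ)) →
      (χ ∈ principalBlock Mq G ∧ ¬ q ∣ charDegree (χ : G → ℂ)))
    (P : Sylow p G) (l : (P : Subgroup G) →* ℂˣ) (x : (P : Subgroup G))
    (hx : (x : G) ∈ pPrimeCore q G) : l x = 1 := by
  classical
  have hp := (Fact.out : p.Prime)
  have hNn : (pPrimeCore p G).Normal := Helper81.pPrimeCore_normal p
  have hNc : (Nat.card (pPrimeCore p G)).Coprime p := Helper81.pPrimeCore_coprime p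
  let f : (P : Subgroup G) →* G ⧸ pPrimeCore p G :=
    (QuotientGroup.mk' (pPrimeCore p G)).comp (P : Subgroup G).subtype
  have hf : Function.Injective f := by
    rw [injective_iff_map_eq_one]
    intro y hy
    have hyN : (y : G) ∈ pPrimeCore p G := (QuotientGroup.eq_one_iff (y : G)).mp hy
    obtain ⟨n, hn⟩ := P.isPGroup' y
    have h1 : orderOf (y : G) ∣ p ^ n := by
      apply orderOf_dvd_of_pow_eq_one
      have := congrArg Subtype.val hn
      simpa using this
    have h2 : orderOf (y : G) ∣ Nat.card (pPrimeCore p G) := by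
      have h3 : orderOf (⟨(y : G), hyN⟩ : pPrimeCore p G) = orderOf (y : G) := by
        rw [← Subgroup.orderOf_coe]
      rw [← h3]
      exact orderOf_dvd_natCard _
    have h4 : orderOf (y : G) = 1 :=
      Nat.Coprime.eq_one_of_dvd
        (Nat.Coprime.coprime_dvd_left h2 (Nat.Coprime.pow_right n hNc)) h1
    exact Subtype.ext (orderOf_eq_one_iff.mp h4)
  let _ : Fintype G := Fintype.ofFinite G
  let _ : Fintype (G ⧸ pPrimeCore p G) := Fintype.ofFinite _
  let _ : Fintype f.range := Fintype.ofFinite _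
  let e : (P : Subgroup G) ≃* f.range := MonoidHom.ofInjective hf
  have hidx : ¬ p ∣ f.range.index := by
    intro hdvd
    have h1 : Nat.card f.range = Nat.card (P : Subgroup G) := (Nat.card_congr e.toEquiv).symm
    have h2 := f.range.index_mul_card
    have h3 := (pPrimeCore p G).index_mul_card
    have h4 := (P : Subgroup G).index_mul_card
    rw [h1, ← Subgroup.index_eq_card] at h2
    have h5 : f.range.index * Nat.card (pPrimeCore p G) = (P : Subgroup G).index := by
      have h6 : f.range.index * Nat.card (P : Subgroup G) * Nat.card (pPrimeCore p G) =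
          (P : Subgroup G).index * Nat.card (P : Subgroup G) := by rw [h2, h3, h4]
      apply Nat.eq_of_mul_eq_mul_right (Nat.card_pos (α := (P : Subgroup G)))
      rw [← h6]
      ring
    exact P.not_dvd_index (h5 ▸ dvd_mul_of_dvd_left hdvd _)
  obtain ⟨ψ, hψ, hdeg⟩ := exists_pprime_over p f.range hidx (l.comp e.symm.toMonoidHom)
  let χ : IrrCharacter G :=
    ⟨fun g => ψ.1 (g : G ⧸ pPrimeCore p G), irr_inflate (pPrimeCore p G) ψ⟩
  have hχdeg : charDegree (χ : G → ℂ) = charDegree ψ.1 := rfl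
  have hχB : χ ∈ principalBlock Mp G := by
    rw [Helper4.mem_principal_iff_of_pSolvable p Mp hMp hps χ]
    intro n hn
    show ψ.1 ((n : G) : G ⧸ pPrimeCore p G) = ψ.1 ((1 : G) : G ⧸ pPrimeCore p G)
    rw [(QuotientGroup.eq_one_iff n).mpr hn, QuotientGroup.mk_one]
  have hχq := (h χ ⟨hχB, by rw [hχdeg]; exact hdeg⟩).1
  rw [Helper4.mem_principal_iff_of_pSolvable q Mq hMq hqs χ] at hχq
  have hχx := hχq (x : G) hx
  have hres : (fun r : f.range => ψ.1 r) (e x) = (fun r : f.range => ψ.1 r) 1 := hχx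
  have hker := Helper66.constituent_ker (fun r : f.range => ψ.1 r)
    (Helper35.isCharacter_res f.range (Helper35.isChar_of_irr ψ.2)) _
    (Helper83.isIrr_of_hom (l.comp e.symm.toMonoidHom)) hψ (e x) hres
  have h6 : (l.comp e.symm.toMonoidHom) (e x) = l x := by simp
  have h7 : (l.comp e.symm.toMonoidHom) 1 = 1 := map_one _
  rw [h6, h7] at hker
  apply Units.ext
  exact hker

end Cfsg.Agent.Lib.Helper84.PQ
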