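import Mathlib
import Cfsg.Prelude.Def_Local
import Cfsg.Agent.Lib.Helper84.PQ2
import Cfsg.Agent.Lib.Helper84.PQ3
import Cfsg.Agent.Lib.Helper20.CliffordRel
import Cfsg.Agent.Lib.Helper83.Cop2

/-! Character-theoretic lemmas for the commuting Sylow subgroups criterion (helper84):
characters of degree prime to `p` over a given character, and the invariance of "good"
characters of a normal subgroup. -/

set_option autoImplicit false
set_option linter.style.haveILetI false
set_option linter.unusedVariables false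
set_option linter.unusedSimpArgs false

namespace Cfsg.Agent.Lib.Helper84.PQ

open Cfsg
open scoped ComplexConjugate
open Cfsg.Agent.Lib Cfsg.Agent.Lib.Helper84

/-- An irreducible character of degree prime to `p` of a subgroup of index prime to `p` lies
under an irreducible character of degree prime to `p`. -/
theorem exists_pprime_over_irr {Γ : Type*} [Group Γ] [Fintype Γ] (p : ℕ) [hp : Fact p.Prime]
    (R : Subgroup Γ) [Fintype R] (hR : ¬ p ∣ R.index) (η : R → ℂ) (hη : IsIrrCharacter R η)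
    (hdeg : ¬ p ∣ charDegree η) :
    ∃ ψ : IrrCharacter Γ, classInner (fun r : R => ψ.1 r) η ≠ 0 ∧ ¬ p ∣ charDegree ψ.1 := by
  classical
  have hfin : Finite (IrrCharacter Γ) := irr_finite
  let _ : Fintype (IrrCharacter Γ) := Fintype.ofFinite (IrrCharacter Γ)
  by_contra hcon
  push Not at hcon
  have hcf := Helper35.isClassFunction_indFun R η
  have hexp := Helper4.classFunction_expansion (indFun R η) hcf
  have hk : ∀ ψ : IrrCharacter Γ, ∃ k : ℕ, classInner (fun r : R => ψ.1 r) η = (k : ℂ) := fun ψ =>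
    Helper35.classInner_char_nat
      (Helper35.isCharacter_res R (Helper35.isChar_of_irr ψ.2)) (Helper35.isChar_of_irr hη)
  choose k hk using hk
  have h0 : ∀ ψ : IrrCharacter Γ, classInner (indFun R η) ψ.1 = (k ψ : ℂ) := by
    intro ψ
    have := Helper83.inner_ind_irr R ⟨_, hη⟩ ψ
    rw [this, hk ψ, Complex.conj_natCast]
  have h1 := congrFun hexp 1
  simp only [h0, Finset.sum_apply, Pi.smul_apply, smul_eq_mul] at h1
  rw [Helper35.indFun_one_eq] at h1
  have hone : η 1 = (charDegree η : ℂ) := irr_one ⟨η, hη⟩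
  rw [hone] at h1
  have h2 : ((R.index * charDegree η : ℕ) : ℂ) =
      ((∑ ψ : IrrCharacter Γ, k ψ * charDegree ψ.1 : ℕ) : ℂ) := by
    push_cast
    rw [h1]
    exact Finset.sum_congr rfl (fun ψ _ => by rw [irr_one ψ])
  have h3 : R.index * charDegree η = ∑ ψ : IrrCharacter Γ, k ψ * charDegree ψ.1 := by
    exact_mod_cast h2
  have h4 : p ∣ R.index * charDegree η := by
    rw [h3]
    apply Finset.dvd_sum
    intro ψ _
    by_cases hkψ : k ψ = 0
    · rw [hkψ, zero_mul]
      exact dvd_zero _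
    · have hne : classInner (fun r : R => ψ.1 r) η ≠ 0 := by
        rw [hk ψ]
        exact_mod_cast hkψ
      exact dvd_mul_of_dvd_right (hcon ψ hne) _
  rcases (Nat.Prime.dvd_mul hp.out).mp h4 with h | h
  · exact hR h
  · exact hdeg h

/-- relative form of `exists_pprime_over_irr`, for subgroups `H ≤ M` of an ambient group -/
theorem exists_pprime_over_rel {Γ : Type*} [Group Γ] [Finite Γ] (p : ℕ) [hp : Fact p.Prime]
    (H M : Subgroup Γ) [Fintype H] (hHM : H ≤ M) (hidx : ¬ p ∣ H.relIndex M) (η : H → ℂ)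
    (hη : IsIrrCharacter H η) (hdeg : ¬ p ∣ charDegree η) :
    ∃ θ : IrrCharacter M, classInner (fun h : H => θ.1 ⟨h, hHM h.2⟩) η ≠ 0 ∧
      ¬ p ∣ charDegree θ.1 := by
  classical
  let _ : Fintype M := Fintype.ofFinite _
  let _ : Fintype (H.subgroupOf M) := Fintype.ofFinite _
  let e : H.subgroupOf M ≃* H := Subgroup.subgroupOfEquivOfLe hHM
  have hη' : IsIrrCharacter (H.subgroupOf M) (fun r => η (e r)) :=
    Helper20.irr_comp_surjective e.toMonoidHom e.surjective hη
  have hdeg' : ¬ p ∣ charDegree (fun r : H.subgroupOf M => η (e r)) := by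
    have : charDegree (fun r : H.subgroupOf M => η (e r)) = charDegree η := by
      unfold charDegree
      show ⌊(η (e 1)).re⌋₊ = ⌊(η 1).re⌋₊
      rw [map_one]
    rw [this]
    exact hdeg
  obtain ⟨θ, h1, h2⟩ := exists_pprime_over_irr p (H.subgroupOf M) hidx _ hη' hdeg'
  refine ⟨θ, ?_, h2⟩
  have h3 := Helper20.classInner_comp_equiv e (fun h : H => θ.1 ⟨h, hHM h.2⟩) η
  rw [← h3]
  exact h1

/-- **Invariance of good characters.**  `Q` is a `q`-group normalizing the Sylow `p`-subgroup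
`P` of the normal `q'`-subgroup `M` and fixing every irreducible character of `M` of degree
prime to `p`; `L ≤ M` is normal in the ambient group and `Q` centralizes `N_M(P)` modulo `L`.
Then `Q` fixes every irreducible character of `L` that extends to a character of degree prime
to `p` of a subgroup `H` with `L P ≤ H ≤ M`. -/
theorem good_invariant {Γ : Type*} [Group Γ] [Finite Γ] (p q : ℕ) [hp : Fact p.Prime]
    [hq : Fact q.Prime] (M L P Q H : Subgroup Γ) [hMn : M.Normal] [hLn : L.Normal]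
    (hPM : P ≤ M) (hP : IsPGroup p P) (hPi : ¬ p ∣ P.relIndex M)
    (hQ : IsPGroup q Q) (hMq : (Nat.card M).Coprime q)
    (hQP : Q ≤ Subgroup.normalizer (P : Set Γ))
    (hfix : ∀ θ : IrrCharacter M, ¬ p ∣ charDegree θ.1 →
      ∀ x ∈ Q, Helper20.conjFun M θ.1 x = θ.1)
    (hIH : ∀ n ∈ M, n ∈ Subgroup.normalizer (P : Set Γ) → ∀ x ∈ Q, n * x * n⁻¹ * x⁻¹ ∈ L)
    (hPH : P ≤ H) (hLH : L ≤ H) (hHM : H ≤ M)
    (η : H → ℂ) (hη : IsIrrCharacter H η) (hdeg : ¬ p ∣ charDegree η)
    (φ : L → ℂ) (hφ : IsIrrCharacter L φ) (hres : ∀ l : L, η ⟨l, hLH l.2⟩ = φ l) :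
    ∀ x ∈ Q, Helper20.conjFun L φ x = φ := by
  classical
  let _ : Fintype Γ := Fintype.ofFinite _
  let _ : Fintype M := Fintype.ofFinite _
  let _ : Fintype L := Fintype.ofFinite _
  let _ : Fintype H := Fintype.ofFinite _
  have hLM : L ≤ M := hLH.trans hHM
  have hidx : ¬ p ∣ H.relIndex M := fun h =>
    hPi (h.trans (Subgroup.relIndex_dvd_of_le_left M hPH))
  obtain ⟨θ, hθ1, hθd⟩ := exists_pprime_over_rel p H M hHM hidx η hη hdeg
  have hcon : classInner (fun l : L => θ.1 ⟨l, hLM l.2⟩) φ ≠ 0 := by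
    refine Helper83.over_trans hLH hHM (Helper35.isChar_of_irr θ.2) hη hφ hθ1 ?_
    have : (fun n : L => η ⟨n, hLH n.2⟩) = φ := funext hres
    rw [this, Helper35.classInner_irr' hφ hφ, if_pos rfl]
    exact one_ne_zero
  -- the inertia group of `φ`
  have hcfφ : IsClassFunction L φ := Helper4.isClassFunction_irr ⟨φ, hφ⟩
  have hcfη : IsClassFunction H η := Helper4.isClassFunction_irr ⟨η, hη⟩
  have hLT : L ≤ Helper20.inertia L φ := Helper20.le_inertia L hcfφ
  have hHT : H ≤ Helper20.inertia L φ := by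
    intro h hh
    rw [Helper20.mem_inertia]
    funext l
    rw [Helper20.conjFun_apply, ← hres, ← hres]
    exact hcfη ⟨l, hLH l.2⟩ ⟨h, hh⟩
  -- every `Q`-conjugate of `φ` is an `N_M(P)`-conjugate
  have hcov : ∀ x ∈ Q, ∃ n ∈ M ⊓ Subgroup.normalizer (P : Set Γ),
      Helper20.conjFun L φ x = Helper20.conjFun L φ n := by
    intro x hx
    have hθx := hfix θ hθd x hx
    have hcon2 : classInner (fun l : L => θ.1 ⟨l, hLM l.2⟩) (Helper20.conjFun L φ x) ≠ 0 := by
      have h1 := Helper20.classInner_conjFun L (fun l : L => θ.1 ⟨l, hLM l.2⟩) φ x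
      have h2 : Helper20.conjFun L (fun l : L => θ.1 ⟨l, hLM l.2⟩) x =
          fun l : L => θ.1 ⟨l, hLM l.2⟩ := by
        funext l
        rw [Helper20.conjFun_apply]
        have := congrFun hθx ⟨l, hLM l.2⟩
        rw [Helper20.conjFun_apply] at this
        exact this
      rw [h2] at h1
      rw [h1]
      exact hcon
    obtain ⟨m, hmM, hm⟩ := Helper20.clifford_conj_rel L M hLM hφ θ.2 hcon
      (Helper20.conjFun_irr L hφ x) hcon2
    -- `φ^x` is `P`-invariant
    have hinv : ∀ u ∈ P, Helper20.conjFun L (Helper20.conjFun L φ x) u =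
        Helper20.conjFun L φ x := by
      intro u hu
      have hxu : x * u * x⁻¹ ∈ P := (Subgroup.mem_normalizer_iff.mp (hQP hx) u).mp hu
      have h1 : Helper20.conjFun L φ (x * u * x⁻¹) = φ :=
        (Helper20.mem_inertia L φ _).mp (hHT (hPH hxu))
      rw [Helper20.conjFun_conjFun]
      have h2 : x * u = (x * u * x⁻¹) * x := by group
      rw [h2, ← Helper20.conjFun_conjFun, h1]
    have hmP : ∀ u ∈ P, m * u * m⁻¹ ∈ Helper20.inertia L φ ⊓ M := by
      intro u hu
      refine Subgroup.mem_inf.mpr ⟨?_, hMn.conj_mem u (hPM hu) m⟩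
      rw [Helper20.mem_inertia]
      have h1 := hinv u hu
      rw [hm, Helper20.conjFun_conjFun] at h1
      have h2 : m * u * m⁻¹ = (m * u) * m⁻¹ := by group
      rw [h2, ← Helper20.conjFun_conjFun, h1, Helper20.conjFun_conjFun, mul_inv_cancel,
        Helper20.conjFun_one]
    have hPD : P ≤ Helper20.inertia L φ ⊓ M := le_inf (hPH.trans hHT) hPM
    have hi : ¬ p ∣ P.relIndex (Helper20.inertia L φ ⊓ M) := by
      intro h
      apply hPi
      rw [← Subgroup.relIndex_mul_relIndex P (Helper20.inertia L φ ⊓ M) M hPD inf_le_right]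
      exact Dvd.dvd.mul_right h _
    obtain ⟨t, htD, htn⟩ := fusion_normalizer p P _ hPD hP hi m hmP
    have htD' := Subgroup.mem_inf.mp htD
    refine ⟨t⁻¹ * m, Subgroup.mem_inf.mpr
      ⟨M.mul_mem (M.inv_mem htD'.2) hmM, Subgroup.mem_normalizer_iff.mpr htn⟩, ?_⟩
    rw [hm, ← Helper20.conjFun_conjFun]
    have h1 : Helper20.conjFun L φ t⁻¹ = φ :=
      (Helper20.mem_inertia L φ _).mp ((Helper20.inertia L φ).inv_mem htD'.1)
    rw [h1]
  -- Glauberman's lemma
  have hXq : (Nat.card (M ⊓ Subgroup.normalizer (P : Set Γ) : Subgroup Γ)).Coprime q :=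
    Nat.Coprime.coprime_dvd_left (Subgroup.card_dvd_of_le inf_le_left) hMq
  have hXn : ∀ x ∈ Q, ∀ t ∈ M ⊓ Subgroup.normalizer (P : Set Γ),
      x * t * x⁻¹ ∈ M ⊓ Subgroup.normalizer (P : Set Γ) := by
    intro x hx t ht
    have ht' := Subgroup.mem_inf.mp ht
    refine Subgroup.mem_inf.mpr ⟨hMn.conj_mem t ht'.1 x, ?_⟩
    exact Subgroup.mul_mem _ (Subgroup.mul_mem _ (hQP hx) ht'.2) (Subgroup.inv_mem _ (hQP hx))
  have hcov' : ∀ x ∈ Q, ∃ t ∈ M ⊓ Subgroup.normalizer (P : Set Γ),
      x * t ∈ Helper20.inertia L φ := by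
    intro x hx
    obtain ⟨n, hn, hxn⟩ := hcov x hx
    refine ⟨n⁻¹, Subgroup.inv_mem _ hn, ?_⟩
    rw [Helper20.mem_inertia, ← Helper20.conjFun_conjFun, hxn, Helper20.conjFun_conjFun,
      mul_inv_cancel, Helper20.conjFun_one]
  obtain ⟨t, ht, htQ⟩ := glauberman_subgroup q Q _ (Helper20.inertia L φ) hQ hXq hXn hcov'
  intro x hx
  have h1 := htQ x hx
  have ht' := Subgroup.mem_inf.mp ht
  have h2 : t⁻¹ * x⁻¹ * t⁻¹⁻¹ * x⁻¹⁻¹ ∈ L :=
    hIH t⁻¹ (M.inv_mem ht'.1) (Subgroup.inv_mem _ ht'.2) x⁻¹ (Q.inv_mem hx)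
  have h3 : x = (t⁻¹ * x * t) * (t⁻¹ * x⁻¹ * t⁻¹⁻¹ * x⁻¹⁻¹) := by group
  have h4 : x ∈ Helper20.inertia L φ := by
    rw [h3]
    exact Subgroup.mul_mem _ h1 (hLT h2)
  exact (Helper20.mem_inertia L φ x).mp h4

end Cfsg.Agent.Lib.Helper84.PQ
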