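import Mathlib
import Cfsg.Prelude.Def_Local
import Cfsg.Agent.Lib.Helper84.PQ4
import Cfsg.Agent.Lib.Helper84.Stab
import Cfsg.Agent.Lib.Helper83.Dl2
import Cfsg.Agent.Lib.Helper83.Schur
import Cfsg.Agent.S4444

/-! The two layers of the inductive step for the commuting Sylow subgroups criterion
(helper84): a normal `p`-subgroup (`case_p`) and a normal `p'`-subgroup (`case_pprime`). -/

set_option autoImplicit false
set_option linter.style.haveILetI false
set_option linter.unusedVariables false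
set_option linter.unusedSimpArgs false

namespace Cfsg.Agent.Lib.Helper84.PQ

open Cfsg
open scoped ComplexConjugate
open Cfsg.Agent.Lib Cfsg.Agent.Lib.Helper84

/-- an element killed by all linear characters lies in the commutator subgroup -/
theorem mem_commutator_of_lin {H : Type*} [Group H] [Finite H] (y : H)
    (h : ∀ l : H →* ℂˣ, l y = 1) : y ∈ commutator H := by
  by_contra hy
  have hy' : (Abelianization.of y : Abelianization H) ≠ 1 := fun h1 =>
    hy ((QuotientGroup.eq_one_iff y).mp h1)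
  obtain ⟨φ, hφ⟩ :=
    CommGroup.exists_apply_ne_one_of_hasEnoughRootsOfUnity (Abelianization H) ℂ hy'
  exact hφ (h (φ.comp Abelianization.of))

/-- a `p`-subgroup between a Sylow `p`-subgroup `P` of `M` and `M` equals `P` -/
theorem le_of_relIndex {Γ : Type*} [Group Γ] [Finite Γ] (p : ℕ) [hp : Fact p.Prime]
    (P K M : Subgroup Γ) (hPK : P ≤ K) (hKM : K ≤ M) (hK : IsPGroup p K)
    (hPi : ¬ p ∣ P.relIndex M) : K ≤ P := by
  rw [← Subgroup.relIndex_eq_one]
  obtain ⟨a, ha⟩ := IsPGroup.iff_card.mp hK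
  have h1 : P.relIndex K ∣ p ^ a := ha ▸ Subgroup.relIndex_dvd_card P K
  obtain ⟨b, -, hb⟩ := (Nat.dvd_prime_pow hp.out).mp h1
  have h2 : P.relIndex K ∣ P.relIndex M := by
    rw [← Subgroup.relIndex_mul_relIndex P K M hPK hKM]
    exact Dvd.intro _ rfl
  rcases Nat.eq_zero_or_pos b with hb0 | hb0
  · rw [hb, hb0, pow_zero]
  · exfalso
    apply hPi
    refine dvd_trans ?_ h2
    rw [hb]
    exact dvd_pow_self p hb0.ne'

/-- an element of order dividing `k` in a subgroup of order prime to `k` is trivial -/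
theorem eq_one_of_pow_coprime {Γ : Type*} [Group Γ] [Finite Γ] (w : Γ) (k : ℕ) (hk : w ^ k = 1)
    (M : Subgroup Γ) (hw : w ∈ M) (hc : (Nat.card M).Coprime k) : w = 1 := by
  have h1 := orderOf_dvd_of_pow_eq_one hk
  have h2 : orderOf w ∣ Nat.card M := by
    have h := orderOf_dvd_natCard (⟨w, hw⟩ : M)
    rwa [Subgroup.orderOf_mk] at h
  exact orderOf_eq_one_iff.mp (Nat.eq_one_of_dvd_coprimes hc h2 h1)

/-- **The `p`-layer.** -/
theorem case_p {Γ : Type*} [Group Γ] [Finite Γ] (p q : ℕ) [hp : Fact p.Prime]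
    [hq : Fact q.Prime] (hpq : p ≠ q) (M L P Q : Subgroup Γ) [hMn : M.Normal] [hLn : L.Normal]
    (hLM : L ≤ M) (hPM : P ≤ M) (hP : IsPGroup p P) (hPi : ¬ p ∣ P.relIndex M)
    (hQ : IsPGroup q Q) (hMq : (Nat.card M).Coprime q)
    (hQP : Q ≤ Subgroup.normalizer (P : Set Γ))
    (hfix : ∀ θ : IrrCharacter M, ¬ p ∣ charDegree θ.1 →
      ∀ x ∈ Q, Helper20.conjFun M θ.1 x = θ.1)
    (hIH : ∀ n ∈ M, n ∈ Subgroup.normalizer (P : Set Γ) → ∀ x ∈ Q, n * x * n⁻¹ * x⁻¹ ∈ L)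
    (hL : IsPGroup p L) :
    ∀ n ∈ M, n ∈ Subgroup.normalizer (P : Set Γ) → ∀ x ∈ Q, n * x = x * n := by
  classical
  have hLP : L ≤ P := by
    have h1 : IsPGroup p (P ⊔ L : Subgroup Γ) := IsPGroup.to_sup_of_normal_right hP hL
    exact le_sup_right.trans (le_of_relIndex p P (P ⊔ L) M le_sup_left (sup_le hPM hLM) h1 hPi)
  -- step 1: linear characters of `P` restricted to `L` are `Q`-invariant
  have hstep1 : ∀ (l : P →* ℂˣ), ∀ x ∈ Q, ∀ (y : Γ) (hy : y ∈ L) (hy' : x * y * x⁻¹ ∈ L),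
      l ⟨x * y * x⁻¹, hLP hy'⟩ = l ⟨y, hLP hy⟩ := by
    intro l x hx y hy hy'
    have hη : IsIrrCharacter P (fun u : P => ((l u : ℂˣ) : ℂ)) := Helper83.isIrr_of_hom l
    have hφ : IsIrrCharacter L (fun y : L => ((l ⟨y, hLP y.2⟩ : ℂˣ) : ℂ)) :=
      Helper83.isIrr_of_hom (l.comp (Subgroup.inclusion hLP))
    have hdeg : ¬ p ∣ charDegree (fun u : P => ((l u : ℂˣ) : ℂ)) := by
      have : charDegree (fun u : P => ((l u : ℂˣ) : ℂ)) = 1 := by
        unfold charDegree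
        simp
      rw [this]
      intro h
      exact hp.out.one_lt.ne' (Nat.dvd_one.mp h)
    have h1 := good_invariant p q M L P Q P hPM hP hPi hQ hMq hQP hfix hIH le_rfl hLP hPM _ hη
      hdeg _ hφ (fun _ => rfl) x hx
    have h2 := congrFun h1 ⟨y, hy⟩
    rw [Helper20.conjFun_apply] at h2
    exact Units.ext h2
  -- step 2: linear characters of `P` are `Q`-invariant
  have hstep2 : ∀ (l : P →* ℂˣ), ∀ x (hx : x ∈ Q) (u : P),
      l (P.normalizerMonoidHom ⟨x, hQP hx⟩ u) = l u := by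
    intro l x hx u
    set α : MulAut P := P.normalizerMonoidHom ⟨x, hQP hx⟩ with hα
    let c : P →* ℂˣ := (l.comp α.toMonoidHom) * l⁻¹
    have hcdef : ∀ v : P, c v = l (α v) * (l v)⁻¹ := fun v => rfl
    have hc : ∀ v : P, l (α v) = c v * l v := by
      intro v
      rw [hcdef, inv_mul_cancel_right]
    have hcL : ∀ v : P, (v : Γ) ∈ L → c v = 1 := by
      intro v hv
      have hv' : x * (v : Γ) * x⁻¹ ∈ L := hLn.conj_mem _ hv x
      have h1 := hstep1 l x hx (v : Γ) hv hv'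
      have h2 : α v = ⟨x * (v : Γ) * x⁻¹, hLP hv'⟩ := Subtype.ext rfl
      rw [hcdef, h2, h1]
      exact mul_inv_cancel _
    have hcα : ∀ v : P, c (α v) = c v := by
      intro v
      have h1 : α v = v * (v⁻¹ * α v) := by group
      have h2 : ((v⁻¹ * α v : P) : Γ) ∈ L := by
        have h3 := hIH (v : Γ)⁻¹ (M.inv_mem (hPM v.2))
          (Subgroup.inv_mem _ (Subgroup.le_normalizer v.2)) x hx
        have e : ((v⁻¹ * α v : P) : Γ) = (v : Γ)⁻¹ * x * ((v : Γ)⁻¹)⁻¹ * x⁻¹ := by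
          show (v : Γ)⁻¹ * (x * (v : Γ) * x⁻¹) = _
          group
        rw [e]
        exact h3
      rw [h1, map_mul, hcL _ h2, mul_one]
    have hcpow : ∀ (k : ℕ) (v : P), c ((α ^ k) v) = c v := by
      intro k
      induction k with
      | zero => intro v; simp
      | succ k ih => intro v; rw [pow_succ', MulAut.mul_apply, hcα, ih]
    have hlpow : ∀ (k : ℕ) (v : P), l ((α ^ k) v) = (c v) ^ k * l v := by
      intro k
      induction k with
      | zero => intro v; simp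
      | succ k ih =>
        intro v
        rw [pow_succ', MulAut.mul_apply, hc, hcpow, ih, pow_succ', mul_assoc]
    obtain ⟨a, ha⟩ := hQ ⟨x, hx⟩
    have hxa : x ^ q ^ a = 1 := by
      have := congrArg Subtype.val ha
      simpa using this
    have hαa : α ^ q ^ a = 1 := by
      rw [hα, ← map_pow]
      have : (⟨x, hQP hx⟩ : Subgroup.normalizer (P : Set Γ)) ^ q ^ a = 1 :=
        Subtype.ext (by simpa using hxa)
      rw [this, map_one]
    have h3 := hlpow (q ^ a) u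
    rw [hαa, MulAut.one_apply] at h3
    have h4 : (c u) ^ q ^ a = 1 := by
      have h5 : (c u) ^ q ^ a * l u = 1 * l u := by rw [one_mul]; exact h3.symm
      exact mul_right_cancel h5
    obtain ⟨b, hb⟩ := hP u
    have h5 : (c u) ^ p ^ b = 1 := by rw [← map_pow, hb, map_one]
    have h6 : c u = 1 := eq_one_of_pow_pow hp.out hq.out hpq (c u) b a h5 h4
    rw [hc, h6, one_mul]
  -- step 3: `Q` acts trivially on `P / P'`, hence on `P`
  have hstep3 : ∀ x ∈ Q, ∀ u ∈ P, x * u * x⁻¹ * u⁻¹ ∈ (commutator ↥P).map P.subtype := by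
    intro x hx u hu
    refine ⟨P.normalizerMonoidHom ⟨x, hQP hx⟩ ⟨u, hu⟩ * (⟨u, hu⟩ : P)⁻¹, ?_, rfl⟩
    apply mem_commutator_of_lin
    intro l
    rw [map_mul, map_inv, hstep2 l x hx]
    exact mul_inv_cancel _
  have hcent := centralizes_of_comm_mem_commutator p q hpq P Q hP hQ hQP hstep3
  -- conclusion
  intro n hnM hnN x hx
  have hw := hIH n hnM hnN x hx
  have hwx : (n * x * n⁻¹ * x⁻¹) * x = x * (n * x * n⁻¹ * x⁻¹) := (hcent x hx _ (hLP hw)).symm
  have h1 : n * x * n⁻¹ = (n * x * n⁻¹ * x⁻¹) * x := by group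
  obtain ⟨a, ha⟩ := hQ ⟨x, hx⟩
  have hxa : x ^ q ^ a = 1 := by
    have := congrArg Subtype.val ha
    simpa using this
  have h2 := pow_eq_one_of_conj_eq_mul n x _ h1 hwx (q ^ a) hxa
  have h3 : n * x * n⁻¹ * x⁻¹ = 1 :=
    eq_one_of_pow_coprime _ (q ^ a) h2 M (hLM hw) (Nat.Coprime.pow_right a hMq)
  have h4 : n * x = (n * x * n⁻¹ * x⁻¹) * (x * n) := by group
  rw [h4, h3, one_mul]

/-- invariant characters of a normal `p'`-subgroup extend to its product with a `p`-group -/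
theorem exists_ext_sup {Γ : Type*} [Group Γ] [Finite Γ] (p : ℕ) [hp : Fact p.Prime]
    (L P : Subgroup Γ) [hLn : L.Normal] (hP : IsPGroup p P) (hL : (Nat.card L).Coprime p)
    (φ : L → ℂ) (hφ : IsIrrCharacter L φ) (hinv : ∀ u ∈ P, Helper20.conjFun L φ u = φ) :
    ∃ η : (L ⊔ P : Subgroup Γ) → ℂ, IsIrrCharacter (L ⊔ P : Subgroup Γ) η ∧
      ¬ p ∣ charDegree η ∧ ∀ l : L, η ⟨l, (le_sup_left : L ≤ L ⊔ P) l.2⟩ = φ l := by
  classical
  have hLH : L ≤ L ⊔ P := le_sup_left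
  let e : L.subgroupOf (L ⊔ P) ≃* L := Subgroup.subgroupOfEquivOfLe hLH
  have hθ : IsIrrCharacter (L.subgroupOf (L ⊔ P)) (fun r => φ (e r)) :=
    Helper20.irr_comp_surjective e.toMonoidHom e.surjective hφ
  have hcfφ : IsClassFunction L φ := Helper4.isClassFunction_irr ⟨φ, hφ⟩
  have hHT : L ⊔ P ≤ Helper20.inertia L φ :=
    sup_le (Helper20.le_inertia L hcfφ) (fun u hu => (Helper20.mem_inertia L φ u).mpr (hinv u hu))
  have hpc : Helper83.pcInv (L.subgroupOf (L ⊔ P)) (fun r => φ (e r)) := by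
    intro g n
    have h1 := (Helper20.mem_inertia L φ _).mp (hHT g.2)
    have h2 := congrFun h1 (e n)
    rw [Helper20.conjFun_apply] at h2
    exact h2
  have hcop : Nat.Coprime (L.subgroupOf (L ⊔ P)).index (Nat.card (L.subgroupOf (L ⊔ P))) := by
    have h1 : (L.subgroupOf (L ⊔ P)).index = L.relIndex P := Subgroup.relIndex_sup_left P L
    rw [h1, Nat.card_congr e.toEquiv]
    obtain ⟨a, ha⟩ := IsPGroup.iff_card.mp hP
    have h2 : L.relIndex P ∣ p ^ a := ha ▸ Subgroup.relIndex_dvd_card L P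
    exact Nat.Coprime.coprime_dvd_left h2 (Nat.Coprime.pow_left a hL.symm)
  obtain ⟨η, hη, hηres⟩ := Helper83.cop_extend (L.subgroupOf (L ⊔ P)) hcop hθ hpc
  have hres : ∀ l : L, η ⟨l, hLH l.2⟩ = φ l := by
    intro l
    have h1 := hηres (e.symm l)
    rw [MulEquiv.apply_symm_apply] at h1
    rw [← h1]
    rfl
  refine ⟨η, hη, ?_, hres⟩
  have h1 : η 1 = φ 1 := hres 1
  have h2 : charDegree η = charDegree φ := by
    unfold charDegree
    rw [h1]
  rw [h2]
  intro hdvd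
  have h3 := hdvd.trans (Helper83.irr_degree_dvd_card' hφ)
  have h4 : p ∣ Nat.gcd (Nat.card L) p := Nat.dvd_gcd h3 dvd_rfl
  rw [hL] at h4
  exact hp.out.one_lt.ne' (Nat.dvd_one.mp h4)

/-- elements commuting with `P` normalize `L ⊓ C(P)` when `L` is normal -/
theorem conj_mem_inf_centralizer {Γ : Type*} [Group Γ] (L P : Subgroup Γ) [hLn : L.Normal]
    (y : Γ) (hy : ∀ u ∈ P, y * u = u * y) (c : Γ)
    (hc : c ∈ L ⊓ Subgroup.centralizer (P : Set Γ)) :
    y * c * y⁻¹ ∈ L ⊓ Subgroup.centralizer (P : Set Γ) := by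
  have hc' := Subgroup.mem_inf.mp hc
  refine Subgroup.mem_inf.mpr ⟨hLn.conj_mem c hc'.1 y, ?_⟩
  rw [Subgroup.mem_centralizer_iff]
  intro u hu
  have h5 : Commute u c := Subgroup.mem_centralizer_iff.mp hc'.2 u hu
  have h6 : Commute u y := (hy u hu).symm
  exact ((h6.mul_right h5).mul_right h6.inv_right).eq

/-- the Glauberman correspondence is equivariant: if every `P`-invariant irreducible character
of `L` is `Q`-invariant, so is every irreducible character of `C_L(P)` -/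
theorem glauberman_fixed {Γ : Type*} [Group Γ] [Finite Γ] (p : ℕ) [hp : Fact p.Prime]
    (L P Q : Subgroup Γ) [hLn : L.Normal] (hP : IsPGroup p P) (hL : (Nat.card L).Coprime p)
    (hQP : ∀ x ∈ Q, ∀ u ∈ P, x * u = u * x)
    (hinv : ∀ χ : IrrCharacter L, (∀ u ∈ P, Helper20.conjFun L χ.1 u = χ.1) →
      ∀ x ∈ Q, Helper20.conjFun L χ.1 x = χ.1) :
    ∀ β : IrrCharacter (L ⊓ Subgroup.centralizer (P : Set Γ) : Subgroup Γ), ∀ x ∈ Q,
      ∀ c c' : (L ⊓ Subgroup.centralizer (P : Set Γ) : Subgroup Γ),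
        (c' : Γ) = x * c * x⁻¹ → β.1 c' = β.1 c := by
  classical
  let _ : Fintype Γ := Fintype.ofFinite _
  let _ : Fintype L := Fintype.ofFinite _
  let _ : Fintype (L ⊓ Subgroup.centralizer (P : Set Γ) : Subgroup Γ) := Fintype.ofFinite _
  have hCL : L ⊓ Subgroup.centralizer (P : Set Γ) ≤ L := inf_le_left
  have hcop : (Nat.card L).Coprime (Nat.card P) := by
    obtain ⟨a, ha⟩ := IsPGroup.iff_card.mp hP
    rw [ha]
    exact Nat.Coprime.pow_right a hL
  obtain ⟨h1, -, -, h4⟩ := Cfsg.Agent.S4444.result L P (fun s _ g hg => hLn.conj_mem g hg s) hcop p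
    hp.out hP (L ⊓ Subgroup.centralizer (P : Set Γ)) rfl hCL
  intro β x hx c c' hcc'
  obtain ⟨χ, hχinv, m, hm, hpm⟩ := h4 β
  have hχP : ∀ u ∈ P, Helper20.conjFun L χ.1 u = χ.1 := by
    intro u hu
    funext g
    rw [Helper20.conjFun_apply]
    exact hχinv u hu g _ rfl
  have hχQ := hinv χ hχP
  have hx1 : ∀ c ∈ L ⊓ Subgroup.centralizer (P : Set Γ),
      x * c * x⁻¹ ∈ L ⊓ Subgroup.centralizer (P : Set Γ) :=
    fun c hc => conj_mem_inf_centralizer L P x (hQP x hx) c hc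
  have hx2 : ∀ c ∈ L ⊓ Subgroup.centralizer (P : Set Γ),
      x⁻¹ * c * x ∈ L ⊓ Subgroup.centralizer (P : Set Γ) := by
    intro c hc
    have := conj_mem_inf_centralizer L P x⁻¹ (hQP x⁻¹ (Q.inv_mem hx)) c hc
    simpa using this
  let e := Helper84.conjEquiv (L ⊓ Subgroup.centralizer (P : Set Γ)) x hx1 hx2
  have hβ' : IsIrrCharacter (L ⊓ Subgroup.centralizer (P : Set Γ) : Subgroup Γ)
      (fun c => β.1 (e c)) :=
    Helper20.irr_comp_surjective e.toMonoidHom e.surjective β.2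
  have hinner : classInner (fun c : (L ⊓ Subgroup.centralizer (P : Set Γ) : Subgroup Γ) =>
      χ.1 ⟨c, hCL c.2⟩) (fun c => β.1 (e c)) = (m : ℂ) := by
    have h5 := Helper20.classInner_comp_equiv e
      (fun c : (L ⊓ Subgroup.centralizer (P : Set Γ) : Subgroup Γ) => χ.1 ⟨c, hCL c.2⟩) β.1
    have h6 : (fun a : (L ⊓ Subgroup.centralizer (P : Set Γ) : Subgroup Γ) =>
        (fun c : (L ⊓ Subgroup.centralizer (P : Set Γ) : Subgroup Γ) => χ.1 ⟨c, hCL c.2⟩) (e a)) =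
        fun c : (L ⊓ Subgroup.centralizer (P : Set Γ) : Subgroup Γ) => χ.1 ⟨c, hCL c.2⟩ := by
      funext a
      have := congrFun (hχQ x hx) ⟨a, hCL a.2⟩
      rw [Helper20.conjFun_apply] at this
      exact this
    rw [h6] at h5
    rw [h5]
    exact hm
  obtain ⟨β₀, -, huniq⟩ := h1 χ hχinv
  have e1 := huniq β ⟨m, hm, hpm⟩
  have e2 := huniq ⟨_, hβ'⟩ ⟨m, hinner, hpm⟩
  have e3 : (fun c => β.1 (e c)) = β.1 := by
    rw [← e1] at e2
    exact congrArg Subtype.val e2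
  have e4 := congrFun e3 c
  have e5 : e c = c' := Subtype.ext (by rw [hcc']; rfl)
  rw [← e5]
  exact e4

/-- a `q`-group normalizing a `q'`-subgroup `C` and fixing all its irreducible characters
centralizes it -/
theorem centralizes_of_irr_fixed {Γ : Type*} [Group Γ] [Finite Γ] (q : ℕ) [hq : Fact q.Prime]
    (C Q : Subgroup Γ) (hQ : IsPGroup q Q) (hC : (Nat.card C).Coprime q)
    (hn1 : ∀ x ∈ Q, ∀ c ∈ C, x * c * x⁻¹ ∈ C)
    (hfix : ∀ β : IrrCharacter C, ∀ x ∈ Q, ∀ c c' : C, (c' : Γ) = x * c * x⁻¹ →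
      β.1 c' = β.1 c) :
    ∀ x ∈ Q, ∀ c ∈ C, x * c = c * x := by
  classical
  set H : Subgroup C := (Subgroup.centralizer (Q : Set Γ)).subgroupOf C with hH
  have hHtop : H = ⊤ := by
    apply eq_top_of_forall_conj_mem
    intro n
    have hconj : ∀ (x : Q) (y : C), IsConj n y → ∀ hy' : (x : Γ) * y * (x : Γ)⁻¹ ∈ C,
        IsConj n ⟨(x : Γ) * y * (x : Γ)⁻¹, hy'⟩ := by
      intro x y hy hy'
      have h1 : IsConj (⟨(x : Γ) * y * (x : Γ)⁻¹, hy'⟩ : C) y := by
        apply Helper83.irr_separates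
        intro β
        exact hfix β x x.2 y _ rfl
      exact hy.trans h1.symm
    letI : MulAction Q {y : C // IsConj n y} :=
      { smul := fun x y => ⟨⟨(x : Γ) * y.1 * (x : Γ)⁻¹, hn1 x x.2 _ y.1.2⟩, hconj x y.1 y.2 _⟩
        one_smul := fun y => Subtype.ext (Subtype.ext (by
          show ((1 : Q) : Γ) * (y.1 : Γ) * ((1 : Q) : Γ)⁻¹ = y.1
          simp))
        mul_smul := fun x x' y => Subtype.ext (Subtype.ext (by
          show ((x * x' : Q) : Γ) * (y.1 : Γ) * ((x * x' : Q) : Γ)⁻¹ =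
            (x : Γ) * ((x' : Γ) * (y.1 : Γ) * (x' : Γ)⁻¹) * (x : Γ)⁻¹
          simp [mul_assoc])) }
    have hcard : ¬ q ∣ Nat.card {y : C // IsConj n y} := by
      intro hdvd
      have h1 := Helper83.card_conj_mul_card_centralizer n
      have h2 : q ∣ Nat.card C := by
        rw [← h1]
        exact Dvd.dvd.mul_right hdvd _
      have h3 : q ∣ Nat.gcd (Nat.card C) q := Nat.dvd_gcd h2 dvd_rfl
      rw [hC] at h3
      exact hq.out.one_lt.ne' (Nat.dvd_one.mp h3)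
    obtain ⟨y, hy⟩ := hQ.nonempty_fixed_point_of_prime_not_dvd_card {y : C // IsConj n y} hcard
    obtain ⟨c, hc⟩ := isConj_iff.mp y.2
    refine ⟨c⁻¹, ?_⟩
    rw [inv_inv, hc, hH, Subgroup.mem_subgroupOf, Subgroup.mem_centralizer_iff]
    intro x hx
    have h1 := hy ⟨x, hx⟩
    have h2 : x * ((y.1 : C) : Γ) * x⁻¹ = ((y.1 : C) : Γ) :=
      congrArg (fun z : {y : C // IsConj n y} => ((z.1 : C) : Γ)) h1
    calc x * ((y.1 : C) : Γ) = (x * ((y.1 : C) : Γ) * x⁻¹) * x := by group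
      _ = ((y.1 : C) : Γ) * x := by rw [h2]
  intro x hx c hc
  have h1 : (⟨c, hc⟩ : C) ∈ H := by rw [hHtop]; exact Subgroup.mem_top _
  rw [hH, Subgroup.mem_subgroupOf, Subgroup.mem_centralizer_iff] at h1
  exact h1 x hx

/-- **The `p'`-layer.** -/
theorem case_pprime {Γ : Type*} [Group Γ] [Finite Γ] (p q : ℕ) [hp : Fact p.Prime]
    [hq : Fact q.Prime] (hpq : p ≠ q) (M L P Q : Subgroup Γ) [hMn : M.Normal] [hLn : L.Normal]
    (hLM : L ≤ M) (hPM : P ≤ M) (hP : IsPGroup p P) (hPi : ¬ p ∣ P.relIndex M)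
    (hQ : IsPGroup q Q) (hMq : (Nat.card M).Coprime q)
    (hQP : Q ≤ Subgroup.normalizer (P : Set Γ))
    (hfix : ∀ θ : IrrCharacter M, ¬ p ∣ charDegree θ.1 →
      ∀ x ∈ Q, Helper20.conjFun M θ.1 x = θ.1)
    (hIH : ∀ n ∈ M, n ∈ Subgroup.normalizer (P : Set Γ) → ∀ x ∈ Q, n * x * n⁻¹ * x⁻¹ ∈ L)
    (hL : (Nat.card L).Coprime p) :
    ∀ n ∈ M, n ∈ Subgroup.normalizer (P : Set Γ) → ∀ x ∈ Q, n * x = x * n := by
  classical
  -- `P ∩ L = 1`
  have hPL : ∀ w : Γ, w ∈ P → w ∈ L → w = 1 := fun w hwP hwL =>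
    eq_one_of_mem_coprime P L hP hL w hwP hwL
  -- `Q` centralizes `P`
  have hQcP : ∀ x ∈ Q, ∀ u ∈ P, x * u = u * x := by
    intro x hx u hu
    have h1 := hIH u (hPM hu) (Subgroup.le_normalizer hu) x hx
    have h2 : u * x * u⁻¹ * x⁻¹ ∈ P := by
      have h3 : x * u⁻¹ * x⁻¹ ∈ P :=
        (Subgroup.mem_normalizer_iff.mp (hQP hx) u⁻¹).mp (P.inv_mem hu)
      have h4 : u * x * u⁻¹ * x⁻¹ = u * (x * u⁻¹ * x⁻¹) := by group
      rw [h4]
      exact P.mul_mem hu h3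
    have h5 := hPL _ h2 h1
    have h6 : u * x = (u * x * u⁻¹ * x⁻¹) * (x * u) := by group
    rw [h6, h5, one_mul]
  -- `P`-invariant characters of `L` are `Q`-invariant
  have hinv : ∀ χ : IrrCharacter L, (∀ u ∈ P, Helper20.conjFun L χ.1 u = χ.1) →
      ∀ x ∈ Q, Helper20.conjFun L χ.1 x = χ.1 := by
    intro χ hχ
    obtain ⟨η, hη, hdeg, hres⟩ := exists_ext_sup p L P hP hL χ.1 χ.2 hχ
    exact good_invariant p q M L P Q (L ⊔ P) hPM hP hPi hQ hMq hQP hfix hIH le_sup_right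
      le_sup_left (sup_le hLM hPM) η hη hdeg χ.1 χ.2 hres
  have hglaub := glauberman_fixed p L P Q hP hL hQcP hinv
  have hCq : (Nat.card (L ⊓ Subgroup.centralizer (P : Set Γ) : Subgroup Γ)).Coprime q :=
    Nat.Coprime.coprime_dvd_left (Subgroup.card_dvd_of_le (inf_le_left.trans hLM)) hMq
  have hcent := centralizes_of_irr_fixed q (L ⊓ Subgroup.centralizer (P : Set Γ)) Q hQ hCq
    (fun x hx c hc => conj_mem_inf_centralizer L P x (hQcP x hx) c hc) hglaub
  -- conclusion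
  intro n hnM hnN x hx
  have hw := hIH n hnM hnN x hx
  have hwN : n * x * n⁻¹ * x⁻¹ ∈ Subgroup.normalizer (P : Set Γ) :=
    Subgroup.mul_mem _ (Subgroup.mul_mem _ (Subgroup.mul_mem _ hnN (hQP hx))
      (Subgroup.inv_mem _ hnN)) (Subgroup.inv_mem _ (hQP hx))
  have hwC : n * x * n⁻¹ * x⁻¹ ∈ L ⊓ Subgroup.centralizer (P : Set Γ) := by
    refine Subgroup.mem_inf.mpr ⟨hw, ?_⟩
    rw [Subgroup.mem_centralizer_iff]
    intro u hu
    set w := n * x * n⁻¹ * x⁻¹ with hwdef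
    have h1 : w * u * w⁻¹ ∈ P := (Subgroup.mem_normalizer_iff.mp hwN u).mp hu
    have h2 : w * u * w⁻¹ * u⁻¹ ∈ P := P.mul_mem h1 (P.inv_mem hu)
    have h3 : w * u * w⁻¹ * u⁻¹ ∈ L := by
      have h4 : w * u * w⁻¹ * u⁻¹ = w * (u * w⁻¹ * u⁻¹) := by group
      rw [h4]
      exact L.mul_mem hw (hLn.conj_mem _ (L.inv_mem hw) u)
    have h5 := hPL _ h2 h3
    have h6 : w * u = (w * u * w⁻¹ * u⁻¹) * (u * w) := by group
    rw [h6, h5, one_mul]
  have hwx : (n * x * n⁻¹ * x⁻¹) * x = x * (n * x * n⁻¹ * x⁻¹) := (hcent x hx _ hwC).symm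
  have h1 : n * x * n⁻¹ = (n * x * n⁻¹ * x⁻¹) * x := by group
  obtain ⟨a, ha⟩ := hQ ⟨x, hx⟩
  have hxa : x ^ q ^ a = 1 := by
    have := congrArg Subtype.val ha
    simpa using this
  have h2 := pow_eq_one_of_conj_eq_mul n x _ h1 hwx (q ^ a) hxa
  have h3 : n * x * n⁻¹ * x⁻¹ = 1 :=
    eq_one_of_pow_coprime _ (q ^ a) h2 M (hLM hw) (Nat.Coprime.pow_right a hMq)
  have h4 : n * x = (n * x * n⁻¹ * x⁻¹) * (x * n) := by group
  rw [h4, h3, one_mul]

end Cfsg.Agent.Lib.Helper84.PQ
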