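import Mathlib
import Cfsg.Prelude.Def_Local
import Cfsg.Agent.Lib.Helper84.PQ5
import Cfsg.Agent.Lib.Helper14.SL2Solv3
import Cfsg.Agent.Lib.Helper30.Cores

/-! The key proposition for the commuting Sylow subgroups criterion (helper84): a `q`-group `Q`
acting on a `p`-solvable `q'`-group `M` and fixing all its irreducible characters of degree
prime to `p` centralizes `N_M(P)` for every `Q`-invariant Sylow `p`-subgroup `P` of `M`. -/

set_option autoImplicit false
set_option linter.style.haveILetI false
set_option linter.unusedVariables false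
set_option linter.unusedSimpArgs false

namespace Cfsg.Agent.Lib.Helper84.PQ

open Cfsg
open scoped ComplexConjugate
open Cfsg.Agent.Lib Cfsg.Agent.Lib.Helper84

universe u

theorem normalizer_centralized (p q : ℕ) [hp : Fact p.Prime] [hq : Fact q.Prime] (hpq : p ≠ q) :
    ∀ (k : ℕ) (Γ : Type u) [Group Γ] [Finite Γ] (M P Q : Subgroup Γ) [M.Normal],
      Nat.card M = k → IsPSolvable p M → P ≤ M → IsPGroup p P → ¬ p ∣ P.relIndex M →
      IsPGroup q Q → (Nat.card M).Coprime q → Q ≤ Subgroup.normalizer (P : Set Γ) →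
      (∀ θ : IrrCharacter M, ¬ p ∣ charDegree θ.1 →
        ∀ x ∈ Q, Helper20.conjFun M θ.1 x = θ.1) →
      ∀ n ∈ M, n ∈ Subgroup.normalizer (P : Set Γ) → ∀ x ∈ Q, n * x = x * n := by
  intro k
  induction k using Nat.strong_induction_on with
  | _ k ih =>
  intro Γ _ _ M P Q hMn hk hsolv hPM hP hPi hQ hMq hQP hfix
  -- the step for a nontrivial normal subgroup `L` of `Γ` inside `M`
  have hstep : ∀ (L : Subgroup Γ) [L.Normal], L ≤ M → L ≠ ⊥ →
      ∀ n ∈ M, n ∈ Subgroup.normalizer (P : Set Γ) → ∀ x ∈ Q, n * x * n⁻¹ * x⁻¹ ∈ L := by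
    intro L hLn hLM hLne
    have hsurj : Function.Surjective (QuotientGroup.mk' L) := QuotientGroup.mk'_surjective L
    have hker : (QuotientGroup.mk' L).ker = L := QuotientGroup.ker_mk' L
    haveI : (M.map (QuotientGroup.mk' L)).Normal := hMn.map _ hsurj
    have hcardM : Nat.card (M.map (QuotientGroup.mk' L)) = L.relIndex M := by
      rw [← Subgroup.relIndex_bot_left, ← Subgroup.map_bot (QuotientGroup.mk' L),
        Subgroup.relIndex_map_map, hker, bot_sup_eq, sup_eq_left.mpr hLM]
    have hlt : Nat.card (M.map (QuotientGroup.mk' L)) < k := by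
      rw [hcardM, ← hk]
      have h1 := Subgroup.relIndex_mul_relIndex ⊥ L M bot_le hLM
      rw [Subgroup.relIndex_bot_left, Subgroup.relIndex_bot_left] at h1
      have h2 : 1 < Nat.card L := (Subgroup.one_lt_card_iff_ne_bot L).mpr hLne
      have h3 : 0 < L.relIndex M := by
        apply Nat.pos_of_ne_zero
        intro h0
        rw [h0, mul_zero] at h1
        exact (Nat.card_pos (α := M)).ne' h1.symm
      nlinarith
    have hsolv' : IsPSolvable p (M.map (QuotientGroup.mk' L)) :=
      Helper14.isPSolvable_map ((QuotientGroup.mk' L).subgroupMap M)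
        ((QuotientGroup.mk' L).subgroupMap_surjective M) hsolv
    have hPi' : ¬ p ∣ (P.map (QuotientGroup.mk' L)).relIndex (M.map (QuotientGroup.mk' L)) := by
      rw [Subgroup.relIndex_map_map, hker, sup_eq_left.mpr hLM]
      intro h
      exact hPi (h.trans (Subgroup.relIndex_dvd_of_le_left M le_sup_left))
    have hMq' : (Nat.card (M.map (QuotientGroup.mk' L))).Coprime q :=
      Nat.Coprime.coprime_dvd_left (Subgroup.card_map_dvd M _) hMq
    have hQP' : Q.map (QuotientGroup.mk' L) ≤
        Subgroup.normalizer ((P.map (QuotientGroup.mk' L) : Subgroup (Γ ⧸ L)) : Set (Γ ⧸ L)) :=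
      (Subgroup.map_mono hQP).trans (Subgroup.le_normalizer_map _)
    have hfix' : ∀ θ : IrrCharacter (M.map (QuotientGroup.mk' L)), ¬ p ∣ charDegree θ.1 →
        ∀ x ∈ Q.map (QuotientGroup.mk' L),
          Helper20.conjFun (M.map (QuotientGroup.mk' L)) θ.1 x = θ.1 := by
      intro θ hθ xb hxb
      obtain ⟨x, hx, rfl⟩ := hxb
      have hf : Function.Surjective ((QuotientGroup.mk' L).subgroupMap M) :=
        (QuotientGroup.mk' L).subgroupMap_surjective M
      have hθ' : IsIrrCharacter M (fun m => θ.1 ((QuotientGroup.mk' L).subgroupMap M m)) :=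
        Helper20.irr_comp_surjective _ hf θ.2
      have hdeg : ¬ p ∣ charDegree (fun m : M => θ.1 ((QuotientGroup.mk' L).subgroupMap M m)) := by
        have : charDegree (fun m : M => θ.1 ((QuotientGroup.mk' L).subgroupMap M m)) =
            charDegree θ.1 := by
          unfold charDegree
          show ⌊(θ.1 ((QuotientGroup.mk' L).subgroupMap M 1)).re⌋₊ = _
          rw [map_one]
        rw [this]
        exact hθ
      have h1 := hfix ⟨_, hθ'⟩ hdeg x hx
      funext mb
      obtain ⟨m, rfl⟩ := hf mb
      rw [Helper20.conjFun_apply]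
      have h2 := congrFun h1 m
      rw [Helper20.conjFun_apply] at h2
      rw [← h2]
      congr 1
    have hrec := ih (Nat.card (M.map (QuotientGroup.mk' L))) hlt (Γ ⧸ L)
      (M.map (QuotientGroup.mk' L)) (P.map (QuotientGroup.mk' L)) (Q.map (QuotientGroup.mk' L))
      rfl hsolv' (Subgroup.map_mono hPM) (hP.map _) hPi' (hQ.map _) hMq' hQP' hfix'
    intro n hnM hnN x hx
    have h1 := hrec (QuotientGroup.mk' L n) (Subgroup.mem_map_of_mem _ hnM)
      (Subgroup.le_normalizer_map _ (Subgroup.mem_map_of_mem _ hnN))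
      (QuotientGroup.mk' L x) (Subgroup.mem_map_of_mem _ hx)
    rw [← hker, MonoidHom.mem_ker, map_mul, map_mul, map_mul, map_inv, map_inv, h1]
    group
  by_cases hMbot : M = ⊥
  · intro n hnM _ x _
    rw [hMbot, Subgroup.mem_bot] at hnM
    rw [hnM, one_mul, mul_one]
  by_cases hL1 : pPrimeCore p ↥M = ⊥
  · have hL2 : pCore p ↥M ≠ ⊥ := by
      intro h0
      have hHH := Helper40.centralizer_pCore_le hsolv hL1
      rw [h0] at hHH
      apply hMbot
      rw [eq_bot_iff]
      intro m hm
      have h1 : (⟨m, hm⟩ : M) ∈ Subgroup.centralizer (((⊥ : Subgroup M) : Set M)) := by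
        rw [Subgroup.mem_centralizer_iff]
        intro z hz
        have hz' : z = 1 := by simpa using hz
        rw [hz', one_mul, mul_one]
      have h2 := hHH h1
      rw [Subgroup.mem_bot] at h2
      rw [Subgroup.mem_bot]
      exact congrArg Subtype.val h2
    haveI : (pCore p ↥M).Characteristic := Helper30.pCore_characteristic p
    haveI hLn : ((pCore p ↥M).map M.subtype).Normal := ConjAct.normal_of_characteristic_of_normal
    have hLM : (pCore p ↥M).map M.subtype ≤ M := Subgroup.map_subtype_le _
    have hLne : (pCore p ↥M).map M.subtype ≠ ⊥ := by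
      rw [Ne, Subgroup.map_eq_bot_iff_of_injective _ M.subtype_injective]
      exact hL2
    have hLp : IsPGroup p ((pCore p ↥M).map M.subtype) := (Helper40.pCore_isPGroup' p).map _
    exact case_p p q hpq M _ P Q hLM hPM hP hPi hQ hMq hQP hfix (hstep _ hLM hLne) hLp
  · haveI : (pPrimeCore p ↥M).Characteristic := Helper30.pPrimeCore_characteristic p
    haveI hLn : ((pPrimeCore p ↥M).map M.subtype).Normal :=
      ConjAct.normal_of_characteristic_of_normal
    have hLM : (pPrimeCore p ↥M).map M.subtype ≤ M := Subgroup.map_subtype_le _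
    have hLne : (pPrimeCore p ↥M).map M.subtype ≠ ⊥ := by
      rw [Ne, Subgroup.map_eq_bot_iff_of_injective _ M.subtype_injective]
      exact hL1
    have hLc : (Nat.card ((pPrimeCore p ↥M).map M.subtype)).Coprime p := by
      rw [Subgroup.card_map_of_injective M.subtype_injective]
      exact Helper81.pPrimeCore_coprime p
    exact case_pprime p q hpq M _ P Q hLM hPM hP hPi hQ hMq hQP hfix (hstep _ hLM hLne) hLc

end Cfsg.Agent.Lib.Helper84.PQ
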