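import Mathlib
import Cfsg.Prelude.Def_Local
import Cfsg.Agent.Lib.Helper84.PQ6
import Cfsg.Agent.Lib.Helper83.Dl1

/-! Commuting Sylow `p`- and `q`-subgroups from character degrees in the principal blocks
(helper84): the group-theoretic core, with the principal blocks replaced by the characters
trivial on `O_{p'}(G)` resp. `O_{q'}(G)` (Fong). -/

set_option autoImplicit false
set_option linter.style.haveILetI false
set_option linter.unusedVariables false
set_option linter.unusedSimpArgs false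

namespace Cfsg.Agent.Lib.Helper84.PQ

open Cfsg
open scoped ComplexConjugate
open Cfsg.Agent.Lib Cfsg.Agent.Lib.Helper84

universe u

/-- every irreducible character of degree prime to `p` with `O_{p'}(G)` in its kernel has
degree prime to `q` -/
def HypA (p q : ℕ) (G : Type*) [Group G] : Prop :=
  ∀ χ : IrrCharacter G, (∀ n ∈ pPrimeCore p G, χ.1 n = χ.1 1) → ¬ p ∣ charDegree χ.1 →
    ¬ q ∣ charDegree χ.1

theorem hypA_quotient (p q : ℕ) {G : Type*} [Group G] [Finite G] (K : Subgroup G) [K.Normal]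
    (h : HypA p q G) : HypA p q (G ⧸ K) := by
  intro ψ hψ hdeg
  have hsurj : Function.Surjective (QuotientGroup.mk' K) := QuotientGroup.mk'_surjective K
  have hχ : IsIrrCharacter G (fun g => ψ.1 (g : G ⧸ K)) := irr_inflate K ψ
  have hd : charDegree (fun g : G => ψ.1 (g : G ⧸ K)) = charDegree ψ.1 := rfl
  have key := h ⟨_, hχ⟩ ?_ (by rw [hd]; exact hdeg)
  · rw [hd] at key
    exact key
  · intro n hn
    show ψ.1 ((n : G) : G ⧸ K) = ψ.1 ((1 : G) : G ⧸ K)
    have hle : (pPrimeCore p G).map (QuotientGroup.mk' K) ≤ pPrimeCore p (G ⧸ K) := by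
      haveI : (pPrimeCore p G).Normal := Helper81.pPrimeCore_normal p
      apply Helper81.le_pPrimeCore p _ (Subgroup.Normal.map inferInstance _ hsurj)
      exact Nat.Coprime.coprime_dvd_left (Subgroup.card_map_dvd _ _)
        (Helper81.pPrimeCore_coprime p)
    exact hψ _ (hle (Subgroup.mem_map_of_mem _ hn))

/-- a normal subgroup `K ≥ N` with `K / N` a `q`-group fixes `θ ∈ Irr(N)` as soon as some
irreducible character over `θ` has degree prime to `q` -/
theorem le_inertia_of_over {G : Type u} [Group G] [Finite G] (q : ℕ) [hq : Fact q.Prime]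
    (N K : Subgroup G) [N.Normal] [K.Normal] [Fintype G] [Fintype N]
    (hrel : ∃ a : ℕ, N.relIndex K = q ^ a) (θ : IrrCharacter N) (χ : IrrCharacter G)
    (hcon : classInner (fun n : N => χ.1 n) θ.1 ≠ 0) (hdeg : ¬ q ∣ charDegree χ.1) :
    K ≤ Helper20.inertia N θ.1 := by
  obtain ⟨k, hk⟩ := over_degree N θ χ hcon
  have hNT : N ≤ Helper20.inertia N θ.1 :=
    Helper20.le_inertia N (Helper4.isClassFunction_irr θ)
  have h1 : (Helper20.inertia N θ.1).relIndex K ∣ N.relIndex K :=
    Subgroup.relIndex_dvd_of_le_left K hNT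
  have h2 : (Helper20.inertia N θ.1).relIndex K ∣ (Helper20.inertia N θ.1).index := by
    rw [← Helper81.relIndex_sup_of_normal (Helper20.inertia N θ.1) K]
    exact Subgroup.relIndex_dvd_index_of_le le_sup_left
  obtain ⟨a, ha⟩ := hrel
  rw [ha] at h1
  obtain ⟨b, -, hb2⟩ := (Nat.dvd_prime_pow hq.out).mp h1
  have hb0 : b = 0 := by
    by_contra hne
    apply hdeg
    rw [hk]
    have h3 : q ∣ (Helper20.inertia N θ.1).index :=
      dvd_trans (by rw [hb2]; exact dvd_pow_self q hne) h2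
    exact Dvd.dvd.mul_right (Dvd.dvd.mul_left h3 k) _
  rw [hb0, pow_zero] at hb2
  exact Subgroup.relIndex_eq_one.mp hb2

/-- a `p`-solvable group with trivial `O_p` and `O_{p'}` is trivial -/
theorem eq_one_of_cores_bot {G : Type*} [Group G] [Finite G] (p : ℕ) [Fact p.Prime]
    (hps : IsPSolvable p G) (h1 : pPrimeCore p G = ⊥) (h2 : pCore p G = ⊥) :
    ∀ g : G, g = 1 := by
  intro g
  have hHH := Helper40.centralizer_pCore_le hps h1
  rw [h2] at hHH
  have h3 : g ∈ Subgroup.centralizer (((⊥ : Subgroup G) : Set G)) := by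
    rw [Subgroup.mem_centralizer_iff]
    intro z hz
    have hz' : z = 1 := by simpa using hz
    rw [hz', one_mul, mul_one]
  exact Subgroup.mem_bot.mp (hHH h3)

theorem card_quotient_lt {G : Type*} [Group G] [Finite G] (N : Subgroup G) [N.Normal]
    (hN : N ≠ ⊥) : Nat.card (G ⧸ N) < Nat.card G := by
  rw [← Subgroup.index_eq_card, ← Subgroup.card_mul_index N]
  have h2 : 1 < Nat.card N := (Subgroup.one_lt_card_iff_ne_bot N).mpr hN
  have h3 : 0 < N.index := Nat.pos_of_ne_zero Subgroup.index_ne_zero_of_finite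
  nlinarith

/-- the main case: `O_{p'}(G) = 1` and `M` is a normal `q'`-subgroup of `p'`-index with
`O_{q'}(G / M) = 1`; then `G` is a `q'`-group -/
theorem key_main (p q : ℕ) [hp : Fact p.Prime] [hq : Fact q.Prime] (hpq : p ≠ q)
    (G : Type u) [Group G] [Finite G] (hps : IsPSolvable p G) (hqs : IsPSolvable q G)
    (hA : HypA p q G) (hNbot : pPrimeCore p G = ⊥) (M : Subgroup G) [hMn : M.Normal]
    (hMq : (Nat.card M).Coprime q) (hMidx : ¬ p ∣ M.index)
    (hred : pPrimeCore q (G ⧸ M) = ⊥) : ¬ q ∣ Nat.card G := by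
  have hsurj : Function.Surjective (QuotientGroup.mk' M) := QuotientGroup.mk'_surjective M
  have hker : (QuotientGroup.mk' M).ker = M := QuotientGroup.ker_mk' M
  have hOqn : (pCore q (G ⧸ M)).Normal := Helper40.pCore_normal' q
  have hOqp : IsPGroup q (pCore q (G ⧸ M)) := Helper40.pCore_isPGroup' q
  haveI hG₁n : ((pCore q (G ⧸ M)).comap (QuotientGroup.mk' M)).Normal := hOqn.comap _
  have hrel : ∃ a : ℕ, M.relIndex ((pCore q (G ⧸ M)).comap (QuotientGroup.mk' M)) = q ^ a := by
    obtain ⟨a, ha⟩ := IsPGroup.iff_card.mp hOqp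
    refine ⟨a, ?_⟩
    have h1 := Subgroup.relIndex_comap (⊥ : Subgroup (G ⧸ M)) (QuotientGroup.mk' M)
      ((pCore q (G ⧸ M)).comap (QuotientGroup.mk' M))
    rw [MonoidHom.comap_bot, hker, Subgroup.relIndex_bot_left,
      Subgroup.map_comap_eq_self_of_surjective hsurj] at h1
    rw [h1, ha]
  obtain ⟨Q₀⟩ : Nonempty (Sylow q G) := inferInstance
  have hQ₁q : IsPGroup q ((Q₀ : Subgroup G) ⊓ (pCore q (G ⧸ M)).comap (QuotientGroup.mk' M) :
      Subgroup G) := Q₀.2.to_le inf_le_left
  obtain ⟨P, hPM, hQ₁P⟩ := exists_invariant_sylow q p M hMq hMidx _ hQ₁q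
  have hPi : ¬ p ∣ (P : Subgroup G).relIndex M := fun h =>
    P.not_dvd_index (h.trans (Subgroup.relIndex_dvd_index_of_le hPM))
  have hfix : ∀ θ : IrrCharacter M, ¬ p ∣ charDegree θ.1 →
      ∀ x ∈ (Q₀ : Subgroup G) ⊓ (pCore q (G ⧸ M)).comap (QuotientGroup.mk' M),
        Helper20.conjFun M θ.1 x = θ.1 := by
    intro θ hθ x hx
    classical
    let _ : Fintype G := Fintype.ofFinite _
    let _ : Fintype M := Fintype.ofFinite _
    obtain ⟨χ, hcon, hχ⟩ := exists_pprime_over_irr p M hMidx θ.1 θ.2 hθ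
    have hχq : ¬ q ∣ charDegree χ.1 := hA χ (fun n hn => by
      rw [hNbot, Subgroup.mem_bot] at hn
      rw [hn]) hχ
    have hle := le_inertia_of_over q M _ hrel θ χ hcon hχq
    exact (Helper20.mem_inertia M θ.1 x).mp (hle (Subgroup.mem_inf.mp hx).2)
  have hcen := normalizer_centralized p q hpq (Nat.card M) G M (P : Subgroup G) _ rfl
    (Helper83.psolv_subgroup hps M) hPM P.2 hPi hQ₁q hMq hQ₁P hfix
  have hQ₁bot : ∀ x ∈ (Q₀ : Subgroup G) ⊓ (pCore q (G ⧸ M)).comap (QuotientGroup.mk' M),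
      x = 1 := by
    intro x hx
    have h1 : x ∈ Subgroup.centralizer ((pCore p G : Subgroup G) : Set G) := by
      rw [Subgroup.mem_centralizer_iff]
      intro z hz
      have hzP : z ∈ (P : Subgroup G) := Helper55.pCore_le_sylow P hz
      exact hcen z (hPM hzP) (Subgroup.le_normalizer hzP) x hx
    have h2 := Helper40.centralizer_pCore_le hps hNbot h1
    exact eq_one_of_mem_mem hpq (pCore p G) _ (Helper40.pCore_isPGroup' p) hQ₁q x h2 hx
  have hOqbot : pCore q (G ⧸ M) = ⊥ := by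
    rw [eq_bot_iff]
    intro yb hyb
    have h1 : yb ∈ ((Q₀.mapSurjective hsurj : Sylow q (G ⧸ M)) : Subgroup (G ⧸ M)) :=
      Helper55.pCore_le_sylow _ hyb
    rw [Sylow.coe_mapSurjective] at h1
    obtain ⟨y, hy, rfl⟩ := h1
    have h2 : y ∈ (Q₀ : Subgroup G) ⊓ (pCore q (G ⧸ M)).comap (QuotientGroup.mk' M) :=
      Subgroup.mem_inf.mpr ⟨hy, hyb⟩
    rw [hQ₁bot y h2, map_one]
    exact Subgroup.one_mem _
  have htriv := eq_one_of_cores_bot q (Helper75.Fratt.isPSolvable_quotient M hqs) hred hOqbot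
  have hidx1 : M.index = 1 := by
    rw [Subgroup.index_eq_card]
    exact Nat.card_eq_one_iff_unique.mpr
      ⟨⟨fun a b => (htriv a).trans (htriv b).symm⟩, ⟨1⟩⟩
  have hcard : Nat.card G = Nat.card M := by
    rw [← Subgroup.card_mul_index M, hidx1, mul_one]
  rw [hcard]
  intro hdvd
  have h3 : q ∣ Nat.gcd (Nat.card M) q := Nat.dvd_gcd hdvd dvd_rfl
  rw [hMq] at h3
  exact hq.out.one_lt.ne' (Nat.dvd_one.mp h3)

/-- the Sylow `q`-subgroups lie in `O_{p'}(G)`, given the theorem for smaller groups -/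
theorem key_index (p q : ℕ) [hp : Fact p.Prime] [hq : Fact q.Prime] (hpq : p ≠ q)
    (G : Type u) [Group G] [Finite G] (hps : IsPSolvable p G) (hqs : IsPSolvable q G)
    (hA : HypA p q G) (hB : HypA q p G)
    (ih : ∀ (H : Type u) [Group H] [Finite H], Nat.card H < Nat.card G →
      IsPSolvable p H → IsPSolvable q H → HypA p q H → HypA q p H →
      ∃ (P : Sylow p H) (Q : Sylow q H),
        ∀ x ∈ (P : Subgroup H), ∀ y ∈ (Q : Subgroup H), x * y = y * x) :
    ¬ q ∣ (pPrimeCore p G).index := by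
  haveI hNn : (pPrimeCore p G).Normal := Helper81.pPrimeCore_normal p
  haveI hMn : (pPrimeCore q G).Normal := Helper81.pPrimeCore_normal q
  by_cases hNbot : pPrimeCore p G = ⊥
  swap
  · obtain ⟨Pb, Qb, hc⟩ := ih (G ⧸ pPrimeCore p G) (card_quotient_lt _ hNbot)
      (Helper75.Fratt.isPSolvable_quotient _ hps) (Helper75.Fratt.isPSolvable_quotient _ hqs)
      (hypA_quotient p q _ hA) (hypA_quotient q p _ hB)
    have h1 := not_dvd_index_of_commute p q hpq (Helper75.Fratt.isPSolvable_quotient _ hps)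
      Pb Qb hc
    rw [Helper75.Fratt.pPrimeCore_quotient_eq_bot' p, Subgroup.index_bot] at h1
    rwa [Subgroup.index_eq_card]
  · rw [hNbot, Subgroup.index_bot]
    have hMq : (Nat.card (pPrimeCore q G)).Coprime q := Helper81.pPrimeCore_coprime q
    have hMidx : ¬ p ∣ (pPrimeCore q G).index := by
      by_cases hMbot : pPrimeCore q G = ⊥
      · have hOp : pCore p G = ⊥ := by
          rw [eq_bot_iff, ← hMbot]
          apply Helper81.le_pPrimeCore q _ (Helper40.pCore_normal' p)
          obtain ⟨a, ha⟩ := IsPGroup.iff_card.mp (Helper40.pCore_isPGroup' (S := G) p)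
          rw [ha]
          exact Nat.Coprime.pow_left a ((Nat.coprime_primes hp.out hq.out).mpr hpq)
        have htriv := eq_one_of_cores_bot p hps hNbot hOp
        have h1 : (pPrimeCore q G).index = 1 := by
          rw [hMbot, Subgroup.index_bot]
          exact Nat.card_eq_one_iff_unique.mpr
            ⟨⟨fun a b => (htriv a).trans (htriv b).symm⟩, ⟨1⟩⟩
        rw [h1]
        exact fun h => hp.out.one_lt.ne' (Nat.dvd_one.mp h)
      · obtain ⟨Pb, Qb, hc⟩ := ih (G ⧸ pPrimeCore q G) (card_quotient_lt _ hMbot)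
          (Helper75.Fratt.isPSolvable_quotient _ hps) (Helper75.Fratt.isPSolvable_quotient _ hqs)
          (hypA_quotient p q _ hA) (hypA_quotient q p _ hB)
        have h1 := not_dvd_index_of_commute q p hpq.symm
          (Helper75.Fratt.isPSolvable_quotient _ hqs) Qb Pb (fun x hx y hy => (hc y hy x hx).symm)
        rw [Helper75.Fratt.pPrimeCore_quotient_eq_bot' q, Subgroup.index_bot] at h1
        rwa [Subgroup.index_eq_card]
    exact key_main p q hpq G hps hqs hA hNbot (pPrimeCore q G) hMq hMidx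
      (Helper75.Fratt.pPrimeCore_quotient_eq_bot' q)

/-- **Commuting Sylow subgroups from the degree conditions.** -/
theorem commuting_sylows_of_hyp (p q : ℕ) [hp : Fact p.Prime] [hq : Fact q.Prime] (hpq : p ≠ q) :
    ∀ (k : ℕ) (G : Type u) [Group G] [Finite G], Nat.card G = k → IsPSolvable p G →
      IsPSolvable q G → HypA p q G → HypA q p G →
      ∃ (P : Sylow p G) (Q : Sylow q G),
        ∀ x ∈ (P : Subgroup G), ∀ y ∈ (Q : Subgroup G), x * y = y * x := by
  intro k
  induction k using Nat.strong_induction_on with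
  | _ k ih =>
  intro G _ _ hk hps hqs hA hB
  have ih1 : ∀ (H : Type u) [Group H] [Finite H], Nat.card H < Nat.card G →
      IsPSolvable p H → IsPSolvable q H → HypA p q H → HypA q p H →
      ∃ (P : Sylow p H) (Q : Sylow q H),
        ∀ x ∈ (P : Subgroup H), ∀ y ∈ (Q : Subgroup H), x * y = y * x :=
    fun H _ _ hlt h1 h2 h3 h4 => ih (Nat.card H) (hk ▸ hlt) H rfl h1 h2 h3 h4
  have ih2 : ∀ (H : Type u) [Group H] [Finite H], Nat.card H < Nat.card G →
      IsPSolvable q H → IsPSolvable p H → HypA q p H → HypA p q H →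
      ∃ (Q : Sylow q H) (P : Sylow p H),
        ∀ x ∈ (Q : Subgroup H), ∀ y ∈ (P : Subgroup H), x * y = y * x := by
    intro H _ _ hlt h1 h2 h3 h4
    obtain ⟨P, Q, hc⟩ := ih1 H hlt h2 h1 h4 h3
    exact ⟨Q, P, fun x hx y hy => (hc y hy x hx).symm⟩
  have hq_idx : ¬ q ∣ (pPrimeCore p G).index := key_index p q hpq G hps hqs hA hB ih1
  have hp_idx : ¬ p ∣ (pPrimeCore q G).index := key_index q p hpq.symm G hqs hps hB hA ih2
  haveI hNn : (pPrimeCore p G).Normal := Helper81.pPrimeCore_normal p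
  haveI hMn : (pPrimeCore q G).Normal := Helper81.pPrimeCore_normal q
  obtain ⟨P₁, hP₁⟩ := Helper81.exists_sylow_le_of_not_dvd_index p (pPrimeCore q G) hp_idx
  obtain ⟨Q, hQN, hPQ⟩ := exists_invariant_sylow p q (pPrimeCore p G)
    (Helper81.pPrimeCore_coprime p) hq_idx (P₁ : Subgroup G) P₁.2
  refine ⟨P₁, Q, fun x hx y hy => ?_⟩
  have h1 : x * y * x⁻¹ ∈ (Q : Subgroup G) := (Subgroup.mem_normalizer_iff.mp (hPQ hx) y).mp hy
  have h2 : x * y * x⁻¹ * y⁻¹ ∈ (Q : Subgroup G) :=
    Subgroup.mul_mem _ h1 (Subgroup.inv_mem _ hy)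
  have h3 : x * y * x⁻¹ * y⁻¹ ∈ pPrimeCore q G := by
    have h4 : x * y * x⁻¹ * y⁻¹ = x * (y * x⁻¹ * y⁻¹) := by group
    rw [h4]
    exact Subgroup.mul_mem _ (hP₁ hx) (hMn.conj_mem _ (Subgroup.inv_mem _ (hP₁ hx)) y)
  have h5 := eq_one_of_mem_coprime (Q : Subgroup G) (pPrimeCore q G) Q.2
    (Helper81.pPrimeCore_coprime q) _ h2 h3
  have h6 : x * y = (x * y * x⁻¹ * y⁻¹) * (y * x) := by group
  rw [h6, h5, one_mul]

end Cfsg.Agent.Lib.Helper84.PQ
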