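import Cfsg.Agent.Lib.Helper84.U34K

/-!
# Kernel evaluation of the order check for `SU(3,4)`, chunk 1
-/

set_option autoImplicit false
set_option maxHeartbeats 400000
set_option maxRecDepth 1000000

namespace Cfsg.Agent.Lib.Helper84.U34

theorem chkA_2 : chkA 2 = true := by decide +kernel
theorem chkA_3 : chkA 3 = true := by decide +kernel

end Cfsg.Agent.Lib.Helper84.U34
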