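import Cfsg.Agent.Lib.Helper84.U34C0
import Cfsg.Agent.Lib.Helper84.U34C1
import Cfsg.Agent.Lib.Helper84.U34C2
import Cfsg.Agent.Lib.Helper84.U34C3
import Cfsg.Agent.Lib.Helper84.U34C4
import Cfsg.Agent.Lib.Helper84.U34C5
import Cfsg.Agent.Lib.Helper84.U34C6
import Cfsg.Agent.Lib.Helper84.U34C7
import Cfsg.Agent.Lib.Helper84.U34W

/-!
# Element orders of `SU(3,4)` over the concrete field `F16c`

`su34c_pow`: every `3 × 3` matrix over `F16c` with orthonormal columns for the hermitian form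
`h(u, v) = ∑ k, u k * v k ^ 4` and determinant one satisfies `M ^ 4 = 1`, `M ^ 10 = 1`,
`M ^ 13 = 1` or `M ^ 15 = 1`.  The witnesses `su34c_wit10`, `su34c_wit15`, `su34c_wit13` are in
`U34W`.
-/

set_option autoImplicit false
set_option maxHeartbeats 400000

namespace Cfsg.Agent.Lib.Helper84.U34

theorem chkA_all : ∀ a0 < 16, chkA a0 = true := by
  intro a0 h
  interval_cases a0
  exacts [chkA_0, chkA_1, chkA_2, chkA_3, chkA_4, chkA_5, chkA_6, chkA_7, chkA_8, chkA_9,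
    chkA_10, chkA_11, chkA_12, chkA_13, chkA_14, chkA_15]

/-- Element orders of `SU(3,4)`: every element has order dividing 4, 10, 13 or 15. -/
theorem su34c_pow : ∀ M : Matrix (Fin 3) (Fin 3) F16c,
    (∀ i j, ∑ k, M k i * (M k j) ^ 4 = if i = j then 1 else 0) → M.det = 1 →
    M ^ 4 = 1 ∨ M ^ 10 = 1 ∨ M ^ 13 = 1 ∨ M ^ 15 = 1 :=
  fun M hG hd => su34c_pow_of_chk chkA_all M hG hd

end Cfsg.Agent.Lib.Helper84.U34
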