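import Cfsg.Agent.Lib.Helper84.U34F

/-!
# Kernel-evaluable check for the element orders of `SU(3,4)` over `F16c`

Matrices are handled through the codes of their nine entries; products are written in
continuation-passing style with forced intermediate values.
-/

set_option autoImplicit false
set_option maxHeartbeats 400000

namespace Cfsg.Agent.Lib.Helper84.U34

/-- `P` holds for all `i < n`. -/
def allLt (P : ℕ → Bool) : ℕ → Bool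
  | 0 => true
  | k + 1 => P k && allLt P k

theorem allLt_iff (P : ℕ → Bool) : ∀ n, allLt P n = true ↔ ∀ i < n, P i = true
  | 0 => by simp [allLt]
  | k + 1 => by
    rw [allLt, Bool.and_eq_true, allLt_iff P k]
    constructor
    · rintro ⟨h1, h2⟩ i hi
      rcases Nat.lt_succ_iff_lt_or_eq.1 hi with h | h
      · exact h2 i h
      · rw [h]; exact h1
    · intro h
      exact ⟨h k (Nat.lt_succ_self k), fun i hi => h i (Nat.lt_succ_of_lt hi)⟩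

/-- Evaluate `p` first and pass the value on. -/
def forceNat {α : Type} (p : ℕ) (k : ℕ → α) : α :=
  match p with
  | 0 => k 0
  | q + 1 => k (Nat.succ q)

theorem forceNat_eq {α : Type} (p : ℕ) (k : ℕ → α) : forceNat p k = k p := by
  cases p <;> rfl

/-- Sum of three codes. -/
def x3 (a b c : ℕ) : ℕ := Nat.xor (Nat.xor a b) c

/-- Norm `x ↦ x * x ^ 4` on codes. -/
def nrmN (a : ℕ) : ℕ := mulN a (frobN a)

/-- Product of two `3 × 3` matrices given by the codes of their entries (row by row). -/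
def mmulK {α : Type} (a0 a1 a2 a3 a4 a5 a6 a7 a8 b0 b1 b2 b3 b4 b5 b6 b7 b8 : ℕ)
    (k : ℕ → ℕ → ℕ → ℕ → ℕ → ℕ → ℕ → ℕ → ℕ → α) : α :=
  forceNat (x3 (mulN a0 b0) (mulN a1 b3) (mulN a2 b6)) fun c0 =>
  forceNat (x3 (mulN a0 b1) (mulN a1 b4) (mulN a2 b7)) fun c1 =>
  forceNat (x3 (mulN a0 b2) (mulN a1 b5) (mulN a2 b8)) fun c2 =>
  forceNat (x3 (mulN a3 b0) (mulN a4 b3) (mulN a5 b6)) fun c3 =>
  forceNat (x3 (mulN a3 b1) (mulN a4 b4) (mulN a5 b7)) fun c4 =>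
  forceNat (x3 (mulN a3 b2) (mulN a4 b5) (mulN a5 b8)) fun c5 =>
  forceNat (x3 (mulN a6 b0) (mulN a7 b3) (mulN a8 b6)) fun c6 =>
  forceNat (x3 (mulN a6 b1) (mulN a7 b4) (mulN a8 b7)) fun c7 =>
  forceNat (x3 (mulN a6 b2) (mulN a7 b5) (mulN a8 b8)) fun c8 =>
  k c0 c1 c2 c3 c4 c5 c6 c7 c8

/-- The codes are those of the identity matrix. -/
def isOneK (c0 c1 c2 c3 c4 c5 c6 c7 c8 : ℕ) : Bool :=
  Nat.beq c0 1 && Nat.beq c1 0 && Nat.beq c2 0 && Nat.beq c3 0 && Nat.beq c4 1 && Nat.beq c5 0 &&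
    Nat.beq c6 0 && Nat.beq c7 0 && Nat.beq c8 1

/-- `M ^ 4 = 1` or `M ^ 10 = 1` or `M ^ 15 = 1` or `M ^ 13 = 1`, on codes. -/
def powOK (m0 m1 m2 m3 m4 m5 m6 m7 m8 : ℕ) : Bool :=
  mmulK m0 m1 m2 m3 m4 m5 m6 m7 m8 m0 m1 m2 m3 m4 m5 m6 m7 m8 fun s0 s1 s2 s3 s4 s5 s6 s7 s8 =>
  mmulK s0 s1 s2 s3 s4 s5 s6 s7 s8 s0 s1 s2 s3 s4 s5 s6 s7 s8 fun q0 q1 q2 q3 q4 q5 q6 q7 q8 =>
  isOneK q0 q1 q2 q3 q4 q5 q6 q7 q8 ||
  mmulK q0 q1 q2 q3 q4 q5 q6 q7 q8 m0 m1 m2 m3 m4 m5 m6 m7 m8 fun f0 f1 f2 f3 f4 f5 f6 f7 f8 =>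
  mmulK f0 f1 f2 f3 f4 f5 f6 f7 f8 f0 f1 f2 f3 f4 f5 f6 f7 f8 fun t0 t1 t2 t3 t4 t5 t6 t7 t8 =>
  isOneK t0 t1 t2 t3 t4 t5 t6 t7 t8 ||
  mmulK t0 t1 t2 t3 t4 t5 t6 t7 t8 f0 f1 f2 f3 f4 f5 f6 f7 f8 fun u0 u1 u2 u3 u4 u5 u6 u7 u8 =>
  isOneK u0 u1 u2 u3 u4 u5 u6 u7 u8 ||
  mmulK t0 t1 t2 t3 t4 t5 t6 t7 t8 s0 s1 s2 s3 s4 s5 s6 s7 s8 fun w0 w1 w2 w3 w4 w5 w6 w7 w8 =>
  mmulK w0 w1 w2 w3 w4 w5 w6 w7 w8 m0 m1 m2 m3 m4 m5 m6 m7 m8 fun v0 v1 v2 v3 v4 v5 v6 v7 v8 =>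
  isOneK v0 v1 v2 v3 v4 v5 v6 v7 v8

/-- All matrices of `SU(3,4)` with first column `(a0, a1, a2)` (a unit vector) pass `powOK`. -/
def chkB (a0 a1 a2 : ℕ) : Bool :=
  allLt (fun b0 => forceNat (mulN a0 (frobN b0)) fun t0 =>
    allLt (fun b1 => forceNat (Nat.xor t0 (mulN a1 (frobN b1))) fun t1 =>
      allLt (fun b2 =>
        bif Nat.beq (Nat.xor t1 (mulN a2 (frobN b2))) 0 then
          (bif Nat.beq (x3 (nrmN b0) (nrmN b1) (nrmN b2)) 1 then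
            forceNat (frobN (Nat.xor (mulN a1 b2) (mulN b1 a2))) fun c0 =>
            forceNat (frobN (Nat.xor (mulN a0 b2) (mulN b0 a2))) fun c1 =>
            forceNat (frobN (Nat.xor (mulN a0 b1) (mulN b0 a1))) fun c2 =>
            powOK a0 b0 c0 a1 b1 c1 a2 b2 c2
          else true)
        else true) 16) 16) 16

/-- All matrices of `SU(3,4)` whose entry `(0,0)` has code `a0` pass `powOK`. -/
def chkA (a0 : ℕ) : Bool :=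
  allLt (fun a1 => allLt (fun a2 =>
    bif Nat.beq (x3 (nrmN a0) (nrmN a1) (nrmN a2)) 1 then chkB a0 a1 a2 else true) 16) 16

end Cfsg.Agent.Lib.Helper84.U34
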