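import Cfsg.Agent.Lib.Helper84.U34K

/-!
# Soundness of the kernel check for the element orders of `SU(3,4)` over `F16c`
-/

set_option autoImplicit false
set_option maxHeartbeats 400000

namespace Cfsg.Agent.Lib.Helper84.U34

open Matrix

theorem x3_val (a b c : F16c) : (a + b + c).val = x3 a.val b.val c.val := by
  rw [F16c.val_add, F16c.val_add]; rfl

theorem sub_eq_add' (a b : F16c) : a - b = a + b := by
  rw [sub_eq_add_neg, F16c.neg_def]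

theorem mmulK_val {α : Type} (A B : Matrix (Fin 3) (Fin 3) F16c)
    (k : ℕ → ℕ → ℕ → ℕ → ℕ → ℕ → ℕ → ℕ → ℕ → α) :
    mmulK (A 0 0).val (A 0 1).val (A 0 2).val (A 1 0).val (A 1 1).val (A 1 2).val
      (A 2 0).val (A 2 1).val (A 2 2).val
      (B 0 0).val (B 0 1).val (B 0 2).val (B 1 0).val (B 1 1).val (B 1 2).val
      (B 2 0).val (B 2 1).val (B 2 2).val k =
    k ((A * B) 0 0).val ((A * B) 0 1).val ((A * B) 0 2).val ((A * B) 1 0).val ((A * B) 1 1).val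
      ((A * B) 1 2).val ((A * B) 2 0).val ((A * B) 2 1).val ((A * B) 2 2).val := by
  simp only [mmulK, forceNat_eq, Matrix.mul_apply, Fin.sum_univ_three, x3_val, F16c.val_mul]

theorem isOneK_val (A : Matrix (Fin 3) (Fin 3) F16c)
    (h : isOneK (A 0 0).val (A 0 1).val (A 0 2).val (A 1 0).val (A 1 1).val (A 1 2).val
      (A 2 0).val (A 2 1).val (A 2 2).val = true) : A = 1 := by
  simp only [isOneK, Bool.and_eq_true] at h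
  obtain ⟨⟨⟨⟨⟨⟨⟨⟨h0, h1⟩, h2⟩, h3⟩, h4⟩, h5⟩, h6⟩, h7⟩, h8⟩ := h
  ext i j
  apply F16c.val_inj
  fin_cases i <;> fin_cases j
  · exact Nat.eq_of_beq_eq_true h0
  · exact Nat.eq_of_beq_eq_true h1
  · exact Nat.eq_of_beq_eq_true h2
  · exact Nat.eq_of_beq_eq_true h3
  · exact Nat.eq_of_beq_eq_true h4
  · exact Nat.eq_of_beq_eq_true h5
  · exact Nat.eq_of_beq_eq_true h6
  · exact Nat.eq_of_beq_eq_true h7
  · exact Nat.eq_of_beq_eq_true h8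

theorem powOK_val (M : Matrix (Fin 3) (Fin 3) F16c)
    (h : powOK (M 0 0).val (M 0 1).val (M 0 2).val (M 1 0).val (M 1 1).val (M 1 2).val
      (M 2 0).val (M 2 1).val (M 2 2).val = true) :
    M ^ 4 = 1 ∨ M ^ 10 = 1 ∨ M ^ 13 = 1 ∨ M ^ 15 = 1 := by
  have hS : M * M = M ^ 2 := (pow_two M).symm
  have hQ : M ^ 2 * M ^ 2 = M ^ 4 := by rw [← pow_add]
  have hF : M ^ 4 * M = M ^ 5 := (pow_succ M 4).symm
  have hT : M ^ 5 * M ^ 5 = M ^ 10 := by rw [← pow_add]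
  have hU : M ^ 10 * M ^ 5 = M ^ 15 := by rw [← pow_add]
  have hW : M ^ 10 * M ^ 2 = M ^ 12 := by rw [← pow_add]
  have hV : M ^ 12 * M = M ^ 13 := (pow_succ M 12).symm
  unfold powOK at h
  rw [mmulK_val M M, hS] at h
  rw [mmulK_val (M ^ 2) (M ^ 2), hQ] at h
  rw [Bool.or_eq_true] at h
  rcases h with h | h
  · exact Or.inl (isOneK_val _ h)
  rw [mmulK_val (M ^ 4) M, hF] at h
  rw [mmulK_val (M ^ 5) (M ^ 5), hT] at h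
  rw [Bool.or_eq_true] at h
  rcases h with h | h
  · exact Or.inr (Or.inl (isOneK_val _ h))
  rw [mmulK_val (M ^ 10) (M ^ 5), hU] at h
  rw [Bool.or_eq_true] at h
  rcases h with h | h
  · exact Or.inr (Or.inr (Or.inr (isOneK_val _ h)))
  rw [mmulK_val (M ^ 10) (M ^ 2), hW] at h
  rw [mmulK_val (M ^ 12) M, hV] at h
  exact Or.inr (Or.inr (Or.inl (isOneK_val _ h)))

/-- `M ^ 10 = 1` on codes. -/
def pow10K (m0 m1 m2 m3 m4 m5 m6 m7 m8 : ℕ) : Bool :=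
  mmulK m0 m1 m2 m3 m4 m5 m6 m7 m8 m0 m1 m2 m3 m4 m5 m6 m7 m8 fun s0 s1 s2 s3 s4 s5 s6 s7 s8 =>
  mmulK s0 s1 s2 s3 s4 s5 s6 s7 s8 s0 s1 s2 s3 s4 s5 s6 s7 s8 fun q0 q1 q2 q3 q4 q5 q6 q7 q8 =>
  mmulK q0 q1 q2 q3 q4 q5 q6 q7 q8 m0 m1 m2 m3 m4 m5 m6 m7 m8 fun f0 f1 f2 f3 f4 f5 f6 f7 f8 =>
  mmulK f0 f1 f2 f3 f4 f5 f6 f7 f8 f0 f1 f2 f3 f4 f5 f6 f7 f8 fun t0 t1 t2 t3 t4 t5 t6 t7 t8 =>
  isOneK t0 t1 t2 t3 t4 t5 t6 t7 t8

/-- `M ^ 15 = 1` on codes. -/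
def pow15K (m0 m1 m2 m3 m4 m5 m6 m7 m8 : ℕ) : Bool :=
  mmulK m0 m1 m2 m3 m4 m5 m6 m7 m8 m0 m1 m2 m3 m4 m5 m6 m7 m8 fun s0 s1 s2 s3 s4 s5 s6 s7 s8 =>
  mmulK s0 s1 s2 s3 s4 s5 s6 s7 s8 s0 s1 s2 s3 s4 s5 s6 s7 s8 fun q0 q1 q2 q3 q4 q5 q6 q7 q8 =>
  mmulK q0 q1 q2 q3 q4 q5 q6 q7 q8 m0 m1 m2 m3 m4 m5 m6 m7 m8 fun f0 f1 f2 f3 f4 f5 f6 f7 f8 =>
  mmulK f0 f1 f2 f3 f4 f5 f6 f7 f8 f0 f1 f2 f3 f4 f5 f6 f7 f8 fun t0 t1 t2 t3 t4 t5 t6 t7 t8 =>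
  mmulK t0 t1 t2 t3 t4 t5 t6 t7 t8 f0 f1 f2 f3 f4 f5 f6 f7 f8 fun u0 u1 u2 u3 u4 u5 u6 u7 u8 =>
  isOneK u0 u1 u2 u3 u4 u5 u6 u7 u8

/-- `M ^ 13 = 1` on codes. -/
def pow13K (m0 m1 m2 m3 m4 m5 m6 m7 m8 : ℕ) : Bool :=
  mmulK m0 m1 m2 m3 m4 m5 m6 m7 m8 m0 m1 m2 m3 m4 m5 m6 m7 m8 fun s0 s1 s2 s3 s4 s5 s6 s7 s8 =>
  mmulK s0 s1 s2 s3 s4 s5 s6 s7 s8 s0 s1 s2 s3 s4 s5 s6 s7 s8 fun q0 q1 q2 q3 q4 q5 q6 q7 q8 =>
  mmulK q0 q1 q2 q3 q4 q5 q6 q7 q8 m0 m1 m2 m3 m4 m5 m6 m7 m8 fun f0 f1 f2 f3 f4 f5 f6 f7 f8 =>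
  mmulK f0 f1 f2 f3 f4 f5 f6 f7 f8 f0 f1 f2 f3 f4 f5 f6 f7 f8 fun t0 t1 t2 t3 t4 t5 t6 t7 t8 =>
  mmulK t0 t1 t2 t3 t4 t5 t6 t7 t8 s0 s1 s2 s3 s4 s5 s6 s7 s8 fun w0 w1 w2 w3 w4 w5 w6 w7 w8 =>
  mmulK w0 w1 w2 w3 w4 w5 w6 w7 w8 m0 m1 m2 m3 m4 m5 m6 m7 m8 fun v0 v1 v2 v3 v4 v5 v6 v7 v8 =>
  isOneK v0 v1 v2 v3 v4 v5 v6 v7 v8

theorem pow10K_val (M : Matrix (Fin 3) (Fin 3) F16c)
    (h : pow10K (M 0 0).val (M 0 1).val (M 0 2).val (M 1 0).val (M 1 1).val (M 1 2).val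
      (M 2 0).val (M 2 1).val (M 2 2).val = true) : M ^ 10 = 1 := by
  have hS : M * M = M ^ 2 := (pow_two M).symm
  have hQ : M ^ 2 * M ^ 2 = M ^ 4 := by rw [← pow_add]
  have hF : M ^ 4 * M = M ^ 5 := (pow_succ M 4).symm
  have hT : M ^ 5 * M ^ 5 = M ^ 10 := by rw [← pow_add]
  unfold pow10K at h
  rw [mmulK_val M M, hS] at h
  rw [mmulK_val (M ^ 2) (M ^ 2), hQ] at h
  rw [mmulK_val (M ^ 4) M, hF] at h
  rw [mmulK_val (M ^ 5) (M ^ 5), hT] at h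
  exact isOneK_val _ h

theorem pow15K_val (M : Matrix (Fin 3) (Fin 3) F16c)
    (h : pow15K (M 0 0).val (M 0 1).val (M 0 2).val (M 1 0).val (M 1 1).val (M 1 2).val
      (M 2 0).val (M 2 1).val (M 2 2).val = true) : M ^ 15 = 1 := by
  have hS : M * M = M ^ 2 := (pow_two M).symm
  have hQ : M ^ 2 * M ^ 2 = M ^ 4 := by rw [← pow_add]
  have hF : M ^ 4 * M = M ^ 5 := (pow_succ M 4).symm
  have hT : M ^ 5 * M ^ 5 = M ^ 10 := by rw [← pow_add]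
  have hU : M ^ 10 * M ^ 5 = M ^ 15 := by rw [← pow_add]
  unfold pow15K at h
  rw [mmulK_val M M, hS] at h
  rw [mmulK_val (M ^ 2) (M ^ 2), hQ] at h
  rw [mmulK_val (M ^ 4) M, hF] at h
  rw [mmulK_val (M ^ 5) (M ^ 5), hT] at h
  rw [mmulK_val (M ^ 10) (M ^ 5), hU] at h
  exact isOneK_val _ h

theorem pow13K_val (M : Matrix (Fin 3) (Fin 3) F16c)
    (h : pow13K (M 0 0).val (M 0 1).val (M 0 2).val (M 1 0).val (M 1 1).val (M 1 2).val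
      (M 2 0).val (M 2 1).val (M 2 2).val = true) : M ^ 13 = 1 := by
  have hS : M * M = M ^ 2 := (pow_two M).symm
  have hQ : M ^ 2 * M ^ 2 = M ^ 4 := by rw [← pow_add]
  have hF : M ^ 4 * M = M ^ 5 := (pow_succ M 4).symm
  have hT : M ^ 5 * M ^ 5 = M ^ 10 := by rw [← pow_add]
  have hW : M ^ 10 * M ^ 2 = M ^ 12 := by rw [← pow_add]
  have hV : M ^ 12 * M = M ^ 13 := (pow_succ M 12).symm
  unfold pow13K at h
  rw [mmulK_val M M, hS] at h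
  rw [mmulK_val (M ^ 2) (M ^ 2), hQ] at h
  rw [mmulK_val (M ^ 4) M, hF] at h
  rw [mmulK_val (M ^ 5) (M ^ 5), hT] at h
  rw [mmulK_val (M ^ 10) (M ^ 2), hW] at h
  rw [mmulK_val (M ^ 12) M, hV] at h
  exact isOneK_val _ h

theorem chk_sound (a0 a1 a2 b0 b1 b2 : ℕ) (h1 : a1 < 16) (h2 : a2 < 16) (h3 : b0 < 16)
    (h4 : b1 < 16) (h5 : b2 < 16) (hA : chkA a0 = true)
    (hu : x3 (nrmN a0) (nrmN a1) (nrmN a2) = 1)
    (ho : Nat.xor (Nat.xor (mulN a0 (frobN b0)) (mulN a1 (frobN b1))) (mulN a2 (frobN b2)) = 0)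
    (hv : x3 (nrmN b0) (nrmN b1) (nrmN b2) = 1) :
    powOK a0 b0 (frobN (Nat.xor (mulN a1 b2) (mulN b1 a2))) a1 b1
      (frobN (Nat.xor (mulN a0 b2) (mulN b0 a2))) a2 b2
      (frobN (Nat.xor (mulN a0 b1) (mulN b0 a1))) = true := by
  unfold chkA at hA
  have h := (allLt_iff _ 16).1 ((allLt_iff _ 16).1 hA a1 h1) a2 h2
  simp only [hu, Nat.beq_refl, cond_true] at h
  unfold chkB at h
  have hb0 := (allLt_iff _ 16).1 h b0 h3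
  simp only [forceNat_eq] at hb0
  have hb1 := (allLt_iff _ 16).1 hb0 b1 h4
  have hb2 := (allLt_iff _ 16).1 hb1 b2 h5
  simp only [ho, hv, Nat.beq_refl, cond_true] at hb2
  exact hb2

theorem conj_adj (M : Matrix (Fin 3) (Fin 3) F16c)
    (hG : ∀ i j, ∑ k, M k i * (M k j) ^ 4 = if i = j then 1 else 0) (hd : M.det = 1) :
    (Matrix.of fun i k => (M k i) ^ 4 : Matrix (Fin 3) (Fin 3) F16c) = M.adjugate := by
  have hNM : (Matrix.of fun i k => (M k i) ^ 4 : Matrix (Fin 3) (Fin 3) F16c) * M = 1 := by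
    ext j i
    rw [Matrix.mul_apply, Matrix.one_apply]
    have h := hG i j
    simp only [Matrix.of_apply]
    rw [Finset.sum_congr rfl (fun k _ => mul_comm (M k j ^ 4) (M k i)), h]
    by_cases hij : i = j
    · rw [if_pos hij, if_pos hij.symm]
    · rw [if_neg hij, if_neg (fun h => hij h.symm)]
  calc (Matrix.of fun i k => (M k i) ^ 4 : Matrix (Fin 3) (Fin 3) F16c)
      = (Matrix.of fun i k => (M k i) ^ 4 : Matrix (Fin 3) (Fin 3) F16c) * (M * M.adjugate) := by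
        rw [Matrix.mul_adjugate, hd, one_smul, mul_one]
    _ = M.adjugate := by rw [← mul_assoc, hNM, one_mul]

theorem col3 (M : Matrix (Fin 3) (Fin 3) F16c)
    (hG : ∀ i j, ∑ k, M k i * (M k j) ^ 4 = if i = j then 1 else 0) (hd : M.det = 1) :
    M 0 2 = (M 1 0 * M 2 1 + M 1 1 * M 2 0) ^ 4 ∧
    M 1 2 = (M 0 0 * M 2 1 + M 0 1 * M 2 0) ^ 4 ∧
    M 2 2 = (M 0 0 * M 1 1 + M 0 1 * M 1 0) ^ 4 := by
  have h := conj_adj M hG hd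
  rw [Matrix.adjugate_fin_three] at h
  have e0 : M 0 2 ^ 4 = M 1 0 * M 2 1 - M 1 1 * M 2 0 := congrFun (congrFun h 2) 0
  have e1 : M 1 2 ^ 4 = -(M 0 0 * M 2 1) + M 0 1 * M 2 0 := congrFun (congrFun h 2) 1
  have e2 : M 2 2 ^ 4 = M 0 0 * M 1 1 - M 0 1 * M 1 0 := congrFun (congrFun h 2) 2
  rw [sub_eq_add'] at e0 e2
  rw [F16c.neg_def] at e1
  refine ⟨?_, ?_, ?_⟩
  · rw [← e0, F16c.frob_frob]
  · rw [← e1, F16c.frob_frob]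
  · rw [← e2, F16c.frob_frob]

theorem su34c_pow_of_chk (hall : ∀ a0 < 16, chkA a0 = true) (M : Matrix (Fin 3) (Fin 3) F16c)
    (hG : ∀ i j, ∑ k, M k i * (M k j) ^ 4 = if i = j then 1 else 0) (hd : M.det = 1) :
    M ^ 4 = 1 ∨ M ^ 10 = 1 ∨ M ^ 13 = 1 ∨ M ^ 15 = 1 := by
  apply powOK_val
  obtain ⟨c0, c1, c2⟩ := col3 M hG hd
  have hu := hG 0 0
  have ho := hG 0 1
  have hv := hG 1 1
  rw [Fin.sum_univ_three] at hu ho hv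
  rw [if_pos rfl] at hu hv
  rw [if_neg (by decide)] at ho
  have hu' := congrArg F16c.val hu
  have ho' := congrArg F16c.val ho
  have hv' := congrArg F16c.val hv
  simp only [F16c.val_add, F16c.val_mul, F16c.val_frob, F16c.val_one, F16c.val_zero]
    at hu' ho' hv'
  have key := chk_sound (M 0 0).val (M 1 0).val (M 2 0).val (M 0 1).val (M 1 1).val (M 2 1).val
    (F16c.val_lt _) (F16c.val_lt _) (F16c.val_lt _) (F16c.val_lt _) (F16c.val_lt _)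
    (hall _ (F16c.val_lt _)) hu' ho' hv'
  rw [c0, c1, c2]
  simp only [F16c.val_frob, F16c.val_add, F16c.val_mul]
  exact key

end Cfsg.Agent.Lib.Helper84.U34
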